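/- S3235, disconnected case: the semiregular case, torus, scalars, centralisers, lines. -/
import Mathlib
import Cfsg.Agent.CHEV.Cq.Bas

set_option autoImplicit false

namespace CL.Cq

open Subgroup CL.PT CL.PT.L2x

variable {p : ℕ} {G Ω : Type*} [Group G] [MulAction G Ω] [Finite G] [Finite Ω] {S : Ω → Set G} {D : Ω → Ω → ℤ → G}
  {a b c : Ω} {x y : G}

/-- the common fixed points -/
def Fs (Ω : Type*) [MulAction G Ω] (R : Set G) : Set Ω := {c | ∀ w ∈ R, w • c = c}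

namespace Tx

section mat

variable {K : Type} [Field K]

theorem uu_zpow (t : K) (k : ℤ) : uu t ^ k = uu (k * t) := by
  obtain ⟨n, rfl | rfl⟩ := Int.eq_nat_or_neg k
  · rw [zpow_natCast, uu_pow, Int.cast_natCast]
  · rw [zpow_neg, zpow_natCast, uu_pow, ← uu_neg, Int.cast_neg, Int.cast_natCast, neg_mul]

theorem ll_zpow (t : K) (k : ℤ) : ll t ^ k = ll (k * t) := by
  obtain ⟨n, rfl | rfl⟩ := Int.eq_nat_or_neg k
  · rw [zpow_natCast, ll_pow, Int.cast_natCast]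
  · rw [zpow_neg, zpow_natCast, ll_pow, ← ll_neg, Int.cast_neg, Int.cast_natCast, neg_mul]

theorem key {t k : K} (ht : t ≠ 0) (hk : k ≠ 0) :
    uu (k * t) * ll (-(k * t)⁻¹) * uu (k * t) = dd k hk * (uu t * ll (-t⁻¹) * uu t) := by
  apply ext2 <;> simp [mul_ap, uu_val, ll_val, dd_val] <;> field_simp <;> ring

theorem dd_mul {s t : K} (hs : s ≠ 0) (ht : t ≠ 0) : dd (s * t) (mul_ne_zero hs ht) = dd s hs * dd t ht := by
  apply ext2 <;> simp [mul_ap, dd_val, mul_comm]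

theorem dd_congr {s t : K} (hs : s ≠ 0) (ht : t ≠ 0) (e : s = t) : dd s hs = dd t ht := by
  subst e
  rfl

theorem dd_one (h1 : (1 : K) ≠ 0) : dd 1 h1 = 1 := by
  apply ext2 <;> simp [dd_val]

theorem dd_neg (h1 : (-1 : K) ≠ 0) : dd (-1) h1 = -1 := by
  apply ext2 <;> simp [dd_val]

theorem ww_dd {s : K} (hs : s ≠ 0) : ww * dd s hs * ww⁻¹ = (dd s hs)⁻¹ := by
  rw [mul_inv_eq_iff_eq_mul, eq_inv_mul_iff_mul_eq]
  apply ext2 <;> simp [mul_ap, dd_val, ww_val, hs]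

theorem cast_iff (K : Type) [Field K] [CharP K p] {k : ℤ} : (k : K) ≠ 0 ↔ ¬ (p : ℤ) ∣ k := by
  rw [Ne, CharP.intCast_eq_zero_iff K p]

end mat

omit [Finite G] in
theorem bd_conj (g : G) (d : Bd x y) : Bd (g * x * g⁻¹) (g * y * g⁻¹) := by
  unfold Bd at d ⊢
  calc g * x * g⁻¹ * (g * y * g⁻¹) * (g * x * g⁻¹) = g * (x * y * x) * g⁻¹ := by group
    _ = g * (y * x * y) * g⁻¹ := by rw [d]
    _ = _ := by group

omit [Finite G] in
theorem zp_mod {e : G} (he : e ^ p = 1) {k l : ℤ} (kl : k ≡ l [ZMOD p]) : e ^ k = e ^ l := by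
  obtain ⟨m, hm⟩ := kl.dvd
  have : l = k + p * m := by linarith
  rw [this, zpow_add, zpow_mul, zpow_natCast, he, one_zpow, mul_one]

section sys

variable (h : Sys p S)
include h

omit [Finite G] [Finite Ω] in
theorem zp_iff (hx : x ∈ S a) {k l : ℤ} : x ^ k = x ^ l ↔ k ≡ l [ZMOD p] := by
  have := Fact.mk h.pr
  rw [zpow_eq_zpow_iff_modEq, orderOf_eq_prime (h.pow hx) (h.ne hx)]

omit [Finite G] [Finite Ω] in
theorem zp_mem (hx : x ∈ S a) {k : ℤ} (hk : ¬ (p : ℤ) ∣ k) : x ^ k ∈ S a := by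
  refine h.zpow hx fun e => hk ?_
  rw [← zpow_zero x, zp_iff h hx] at e
  exact (Int.modEq_zero_iff_dvd).1 e

omit [Finite G] [Finite Ω] in
theorem nd1 : ¬ (p : ℤ) ∣ 1 := by
  intro hd
  have := Int.le_of_dvd one_pos hd
  have := h.p5
  omega

omit [Finite G] [Finite Ω] in
theorem ndm : ¬ (p : ℤ) ∣ -1 := fun hd => nd1 h ((Int.dvd_neg).1 hd)

omit [Finite G] [Finite Ω] in
theorem nd_of {k l : ℤ} (kl : k * l ≡ 1 [ZMOD p]) : ¬ (p : ℤ) ∣ k := by
  intro hd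
  have : (p : ℤ) ∣ 1 - k * l := kl.dvd
  exact nd1 h (by simpa using dvd_add this (hd.mul_right l))

omit [Finite G] [Finite Ω] in
theorem ex_inv {k : ℤ} (hk : ¬ (p : ℤ) ∣ k) : ∃ l, k * l ≡ 1 [ZMOD p] := by
  have : IsCoprime (p : ℤ) k := (Nat.prime_iff_prime_int.1 h.pr).coprime_iff_not_dvd.2 hk
  obtain ⟨u, v, huv⟩ := this
  refine ⟨v, Int.modEq_iff_dvd.2 ⟨u, ?_⟩⟩
  linear_combination -huv

omit [Finite Ω] in
theorem sc_of {g : G} {k : ℤ} (s : ∀ x ∈ S a, g * x * g⁻¹ = x ^ k) : Sc S a g k := by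
  intro e he
  induction he using closure_induction with
  | mem x hx => exact s x hx
  | one => simp
  | mul u v hu hv eu ev =>
    rw [(h.E_comm (a := a) hu hv).mul_zpow, ← eu, ← ev]
    group
  | inv u _ eu =>
    rw [inv_zpow, ← eu]
    group

section ch

variable {F : Type} [Field F] {φ : Matrix.SpecialLinearGroup (Fin 2) F →* G}

omit [Finite Ω] in
theorem ch_conj (g : G) (c : Chart S a b φ) : Chart S (g • a) (g • b) ((MulAut.conj g).toMonoidHom.comp φ) where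
  ker A e := c.ker A ((MulAut.conj g).injective (by rw [map_one]; exact e))
  u1 := h.conj g c.u1
  l1 := h.conj g c.l1
  uE t := h.E_conj g (c.uE t)
  lE t := h.E_conj g (c.lE t)

omit [Finite Ω] in
theorem full_conj (g : G) (c : Full S a b φ) : Full S (g • a) (g • b) ((MulAut.conj g).toMonoidHom.comp φ) where
  toChart := ch_conj h g c.toChart
  uS e he := by
    have := h.E_conj g⁻¹ he
    rw [inv_smul_smul] at this
    obtain ⟨t, ht⟩ := c.uS _ this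
    refine ⟨t, ?_⟩
    show g * φ (uu t) * g⁻¹ = e
    rw [ht]
    group
  lS e he := by
    have := h.E_conj g⁻¹ he
    rw [inv_smul_smul] at this
    obtain ⟨t, ht⟩ := c.lS _ this
    refine ⟨t, ?_⟩
    show g * φ (ll t) * g⁻¹ = e
    rw [ht]
    group

omit [Finite G] [Finite Ω] in
theorem t_ne {t : F} (ht : φ (uu t) ∈ S a) : t ≠ 0 := by
  rintro rfl
  exact h.ne ht (by rw [uu_zero, map_one])

end ch

end sys

omit [Finite Ω] in
theorem bd_one {F : Type} [Field F] [CharP F p] (φ : Matrix.SpecialLinearGroup (Fin 2) F →* G) :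
    Bd (φ (uu 1)) (φ (ll (-1))) := by
  have := bd_uu φ (t := 1) one_ne_zero
  rwa [inv_one] at this

omit [Finite Ω] in
theorem ex_inv_sub (Φ : Set Ω) : ∃ H : Subgroup G, ∀ g, g ∈ H ↔ ∀ c ∈ Φ, g • c ∈ Φ := by
  refine ⟨{ carrier := {g | ∀ c ∈ Φ, g • c ∈ Φ}, one_mem' := ?_, mul_mem' := ?_, inv_mem' := ?_ }, fun g => Iff.rfl⟩
  · intro u v hu hv c hc
    rw [mul_smul]
    exact hu _ (hv c hc)
  · intro c hc
    rwa [one_smul]
  · intro g hg
    have pw : ∀ n : ℕ, ∀ c ∈ Φ, g ^ n • c ∈ Φ := by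
      intro n
      induction n with
      | zero => intro c hc; rwa [pow_zero, one_smul]
      | succ n ih => intro c hc; rw [pow_succ, mul_smul]; exact ih _ (hg c hc)
    have : g⁻¹ = g ^ (orderOf g - 1) := by
      rw [eq_comm, ← mul_eq_one_iff_eq_inv, ← pow_succ, Nat.sub_add_cancel (orderOf_pos g), pow_orderOf_eq_one]
    show ∀ c ∈ Φ, g⁻¹ • c ∈ Φ
    rw [this]
    exact pw _

end Tx

open Tx

/-- `Sys.bd`: `y • a = x⁻¹ • b = y' • a` -/
theorem Sys.uniq (h : Sys p S) (sr : SR S) (n : a ≠ b) (hx : x ∈ S a) {y' : G} (hy : y ∈ S b) (hy' : y' ∈ S b)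
    (d : Bd x y) (d' : Bd x y') : y = y' := by
  have e1 := (h.bd hx hy d).2.2
  have e2 := (h.bd hx hy' d').2.2
  have m : y⁻¹ * y' ∈ E S b := (E S b).mul_mem ((E S b).inv_mem (subset_closure hy)) (subset_closure hy')
  have := sr n.symm _ m (by rw [mul_smul, e2, ← e1, inv_smul_smul])
  exact inv_mul_eq_one.1 this

namespace Tx

variable (h : Sys p S) (sr : SR S)
include h sr

theorem chart2' (n : a ≠ b) (hx : x ∈ S a) {x' : G} (hx' : x' ∈ S a) (hy : y ∈ S b) (d : Bd x y) :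
    ∃ (F : Type) (_ : Field F) (_ : Fintype F) (_ : CharP F p) (φ : Matrix.SpecialLinearGroup (Fin 2) F →* G),
      Chart S a b φ ∧ φ (uu 1) = x ∧ φ (ll (-1)) = y ∧ (∃ t, φ (uu t) = x') ∧ φ.range = zpowers x' ⊔ zpowers y := by
  obtain ⟨F, i1, i2, i3, φ, c, u1, -, rg⟩ := h.chart n hx' hy
  obtain ⟨x'', hx'', m, d', -⟩ := h.partner n.symm hy hx'
  have e : x = x'' := h.uniq sr n.symm hy hx hx'' d.symm d'
  subst e
  rw [sup_comm, ← rg] at m
  obtain ⟨t₀, ht₀⟩ := c.of_E h n (subset_closure hx) m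
  have m0 : φ (uu t₀) ∈ S a := by rw [ht₀]; exact hx
  obtain ⟨ψ, c', hu, -, -, rg'⟩ := c.rescale h n m0
  have e1 : ψ (uu 1) = x := by rw [hu, one_mul, ht₀]
  refine ⟨F, i1, i2, i3, ψ, c', e1, ?_, ⟨t₀⁻¹, ?_⟩, rg'.trans rg⟩
  · have := bd_one (p := p) ψ
    rw [e1] at this
    exact h.uniq sr n hx c'.l1 hy this d
  · rw [hu, inv_mul_cancel₀ (t_ne h m0), u1]

theorem key1 {F : Type} [Field F] [CharP F p] {φ : Matrix.SpecialLinearGroup (Fin 2) F →* G} (n : a ≠ b) (c : Chart S a b φ)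
    {t : F} (ht : φ (uu t) = x) (hx : x ∈ S a) {k : ℤ} (hk : (k : F) ≠ 0) {y' : G} (hy : y ∈ S b) (hy' : y' ∈ S b)
    (d : Bd x y) (d' : Bd (x ^ k) y') : x ^ k * y' * x ^ k = φ (dd k hk) * (x * y * x) := by
  have m : φ (uu t) ∈ S a := by rw [ht]; exact hx
  have t0 := t_ne h m
  have ek : φ (uu (k * t)) = x ^ k := by rw [← uu_zpow, map_zpow, ht]
  have mk : x ^ k ∈ S a := zp_mem h hx ((cast_iff F).1 hk)
  have m' : φ (uu (k * t)) ∈ S a := by rw [ek]; exact mk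
  have e1 : y = φ (ll (-t⁻¹)) := h.uniq sr n hx hy (c.l_mem h n m) d (by rw [← ht]; exact bd_uu φ t0)
  have e2 : y' = φ (ll (-(k * t)⁻¹)) :=
    h.uniq sr n mk hy' (c.l_mem h n m') d' (by rw [← ek]; exact bd_uu φ (mul_ne_zero hk t0))
  rw [e1, e2, ← ek, ← ht, ← map_mul, ← map_mul, ← map_mul, ← map_mul, ← map_mul, key t0 hk]

theorem exD : ∃ D : Ω → Ω → ℤ → G, (∀ a b k, (p : ℤ) ∣ k → D a b k = 1) ∧
    ∀ (a b : Ω) (k : ℤ) (F : Type) [Field F] [CharP F p] (φ : Matrix.SpecialLinearGroup (Fin 2) F →* G)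
      (hk : (k : F) ≠ 0), a ≠ b → Chart S a b φ → D a b k = φ (dd (k : F) hk) := by
  have : ∀ (a b : Ω) (k : ℤ), ∃ g : G, ((p : ℤ) ∣ k → g = 1) ∧
      ∀ (F : Type) [Field F] [CharP F p] (φ : Matrix.SpecialLinearGroup (Fin 2) F →* G)
        (hk : (k : F) ≠ 0), a ≠ b → Chart S a b φ → g = φ (dd (k : F) hk) := by
    intro a b k
    by_cases hk : (p : ℤ) ∣ k
    · exact ⟨1, fun _ => rfl, fun F _ _ φ hk' => absurd hk ((cast_iff F).1 hk')⟩
    by_cases n : a = b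
    · exact ⟨1, fun _ => rfl, fun F _ _ φ _ n' => absurd n n'⟩
    obtain ⟨x₀, hx₀⟩ := h.ex a
    obtain ⟨y₀, hy₀⟩ := h.ex b
    obtain ⟨y, hy, -, d, -⟩ := h.partner n hx₀ hy₀
    obtain ⟨y', hy', -, d', -⟩ := h.partner n (zp_mem h hx₀ hk) hy₀
    refine ⟨x₀ ^ k * y' * x₀ ^ k * (x₀ * y * x₀)⁻¹, fun e => absurd e hk, ?_⟩
    intro F _ _ φ hk' _ c
    obtain ⟨F', _, _, _, ψ, c', u1, l1, ⟨t, ht⟩, -⟩ := chart2' h sr n c.u1 hx₀ c.l1 (bd_one (p := p) φ)
    have hk'' : (k : F') ≠ 0 := (cast_iff F').2 hk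
    obtain ⟨y'', hy'', -, d'', -⟩ := h.partner n (zp_mem h c.u1 hk) hy₀
    have e1 := key1 h sr n c' ht hx₀ hk'' hy hy' d d'
    have e2 := key1 h sr n c' u1 c.u1 hk'' c.l1 hy'' (bd_one (p := p) φ) d''
    have e3 := key1 h sr n c rfl c.u1 hk' c.l1 hy'' (bd_one (p := p) φ) d''
    rw [e1, mul_inv_cancel_right]
    exact mul_right_cancel (e2.symm.trans e3)
  choose D h0 h1 using this
  exact ⟨D, h0, h1⟩

omit sr in
theorem ex_chart (n : a ≠ b) :
    ∃ (F : Type) (_ : Field F) (_ : Fintype F) (_ : CharP F p) (φ : Matrix.SpecialLinearGroup (Fin 2) F →* G),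
      Chart S a b φ := by
  obtain ⟨x₀, hx₀⟩ := h.ex a
  obtain ⟨y₀, hy₀⟩ := h.ex b
  obtain ⟨F, i1, i2, i3, φ, c, -⟩ := h.chart n hx₀ hy₀
  exact ⟨F, i1, i2, i3, φ, c⟩

end Tx

/-- Let `j a b x` be the partner of `x ∈ S a` in `S b`, `μ x = x * j x * x`.  Put `D a b k = μ (x₀ ^ k) * (μ x₀)⁻¹` for a chosen `x₀ ∈ S a` if `a ≠ b`, `¬ p ∣ k`, and `1` otherwise.
KEY 1: in any chart `φ` and for any `t` with `φ (uu t) ∈ S a`: `j (φ (uu t)) = φ (ll (-t⁻¹))` (`l_mem`, `bd_uu`, `uniq`), so `μ (φ(uu t) ^ k) (μ (φ (uu t)))⁻¹ = φ (dd k)`.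
KEY 2: any `x, x' ∈ S a` lie in one chart: the chart of `⟨x', j x⟩`; it contains the partner of `j x` in `S a` (`partner` with the roles exchanged), which is `x` (`uniq`); `Chart.of_E`.
So the definition does not depend on `x₀`; all fields follow by computing in a chart (`Dsc`: closure induction; `Deqv`: `j` is equivariant by `uniq`; `Dsym`: `Chart.swap`, or `μ(y ^ k) μ(y)⁻¹ = dd k⁻¹`). -/
theorem Hy.hz (h : Hy p S) (sr : SR S) : ∃ D, Hz p S D := by
  have s := h.toSys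
  obtain ⟨D, D0, Dc⟩ := exD s sr
  have eqv : ∀ (g : G) {a b : Ω} (k : ℤ), a ≠ b → D (g • a) (g • b) k = g * D a b k * g⁻¹ := by
    intro g a b k n
    by_cases hk : (p : ℤ) ∣ k
    · rw [D0 _ _ _ hk, D0 _ _ _ hk, mul_one, mul_inv_cancel]
    obtain ⟨F, _, _, _, φ, c⟩ := ex_chart s n
    have hk' : (k : F) ≠ 0 := (cast_iff F).2 hk
    rw [Dc _ _ _ F _ hk' n c, Dc _ _ _ F _ hk' (fun e => n (MulAction.injective g e)) (ch_conj s g c)]
    rfl
  refine ⟨D, { toHy := h, sr := sr, Dmul := ?_, Dmod := ?_, D1 := ?_, Deqv := eqv, Dsym := ?_, Da := ?_, Db := ?_,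
               Dsc := ?_, Dmem := ?_, Dneg := ?_, Dch := ?_ }⟩
  · intro a b k l n hk hl
    obtain ⟨F, _, _, _, φ, c⟩ := ex_chart s n
    have hk' : (k : F) ≠ 0 := (cast_iff F).2 hk
    have hl' : (l : F) ≠ 0 := (cast_iff F).2 hl
    have hkl : ((k * l : ℤ) : F) ≠ 0 := by push_cast; exact mul_ne_zero hk' hl'
    rw [Dc _ _ _ F _ hk' n c, Dc _ _ _ F _ hl' n c, Dc _ _ _ F _ hkl n c, ← map_mul, ← dd_mul,
      dd_congr hkl _ (Int.cast_mul k l)]
  · intro a b k l n kl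
    by_cases hk : (p : ℤ) ∣ k
    · rw [D0 _ _ _ hk, D0 _ _ _ (kl.dvd_iff.1 hk)]
    obtain ⟨F, _, _, _, φ, c⟩ := ex_chart s n
    have hk' : (k : F) ≠ 0 := (cast_iff F).2 hk
    have e : (k : F) = l := (CharP.intCast_eq_intCast F p).2 kl
    have hl' : (l : F) ≠ 0 := e ▸ hk'
    rw [Dc _ _ _ F _ hk' n c, Dc _ _ _ F _ hl' n c, dd_congr hk' hl' e]
  · intro a b n
    obtain ⟨F, _, _, _, φ, c⟩ := ex_chart s n
    have h1 : ((1 : ℤ) : F) ≠ 0 := by simp
    rw [Dc _ _ _ F _ h1 n c, dd_congr h1 one_ne_zero Int.cast_one, dd_one, map_one]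
  · intro a b k n
    by_cases hk : (p : ℤ) ∣ k
    · rw [D0 _ _ _ hk, D0 _ _ _ hk, inv_one]
    obtain ⟨F, _, _, _, φ, c⟩ := ex_chart s n
    have hk' : (k : F) ≠ 0 := (cast_iff F).2 hk
    have := eqv (φ ww) k n
    rw [(c.w_smul s n).1, (c.w_smul s n).2] at this
    rw [this, Dc _ _ _ F _ hk' n c, ← map_inv, ← map_mul, ← map_mul, ww_dd, map_inv]
  · intro a b k n
    by_cases hk : (p : ℤ) ∣ k
    · rw [D0 _ _ _ hk, one_smul]
    obtain ⟨F, _, _, _, φ, c⟩ := ex_chart s n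
    have hk' : (k : F) ≠ 0 := (cast_iff F).2 hk
    rw [Dc _ _ _ F _ hk' n c]
    exact (c.d_smul s n _ _).1
  · intro a b k n
    by_cases hk : (p : ℤ) ∣ k
    · rw [D0 _ _ _ hk, one_smul]
    obtain ⟨F, _, _, _, φ, c⟩ := ex_chart s n
    have hk' : (k : F) ≠ 0 := (cast_iff F).2 hk
    rw [Dc _ _ _ F _ hk' n c]
    exact (c.d_smul s n _ _).2
  · intro a b k n hk
    refine sc_of s fun x hx => ?_
    obtain ⟨y, hy⟩ := s.ex b
    obtain ⟨F, _, _, _, φ, c, u1, -⟩ := s.chart n hx hy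
    have hk' : (k : F) ≠ 0 := (cast_iff F).2 hk
    rw [Dc _ _ _ F _ hk' n c, ← u1, ← map_inv, ← map_mul, ← map_mul, dd_uu, ← map_zpow, uu_zpow, Int.cast_mul]
  · intro a b x y k n hx hy
    by_cases hk : (p : ℤ) ∣ k
    · rw [D0 _ _ _ hk]
      exact one_mem _
    obtain ⟨F, _, _, _, φ, c, -, -, rg⟩ := s.chart n hx hy
    have hk' : (k : F) ≠ 0 := (cast_iff F).2 hk
    rw [Dc _ _ _ F _ hk' n c, ← rg]
    exact ⟨_, rfl⟩
  · intro a b x y n hx hy d
    obtain ⟨F, _, _, _, φ, c, u1, l1, -⟩ := chart2' s sr n hx hx hy d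
    have h1 : ((-1 : ℤ) : F) ≠ 0 := by simp
    rw [Dc _ _ _ F _ h1 n c, dd_congr h1 (neg_ne_zero.2 one_ne_zero) (by simp), dd_neg, c.neg s n, u1, l1]
  · intro a b F _ _ φ k hk n c
    exact Dc _ _ _ F _ hk n c

namespace Hz

variable (h : Hz p S D)
include h

omit [Finite G] [Finite Ω] in
theorem Dz {F : Type} [Field F] [CharP F p] {φ : Matrix.SpecialLinearGroup (Fin 2) F →* G} (n : a ≠ b) (c : Chart S a b φ) :
    D a b (-1) = φ (-1) := by
  have h1 : ((-1 : ℤ) : F) ≠ 0 := by simp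
  rw [h.Dch h1 n c, dd_congr h1 (neg_ne_zero.2 one_ne_zero) (by simp), dd_neg]

omit [Finite G] [Finite Ω] h in
theorem sc_one' {g : G} : Sc S a g 1 ↔ g ∈ C S a := by
  rw [mem_C]
  refine forall₂_congr fun e _ => ?_
  rw [zpow_one, mul_inv_eq_iff_eq_mul, eq_comm]

omit [Finite G] [Finite Ω] in
theorem sc_uniq' {g : G} {k l : ℤ} (s : Sc S a g k) (s' : Sc S a g l) : k ≡ l [ZMOD p] := by
  obtain ⟨x, hx⟩ := h.ex a
  exact (zp_iff h.toSys hx).1 ((s x (subset_closure hx)).symm.trans (s' x (subset_closure hx)))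

/-- KEY 2 above, rescaled -/
theorem chart2 (n : a ≠ b) (hx : x ∈ S a) {x' : G} (hx' : x' ∈ S a) (hy : y ∈ S b) (d : Bd x y) :
    ∃ (F : Type) (_ : Field F) (_ : Fintype F) (_ : CharP F p) (φ : Matrix.SpecialLinearGroup (Fin 2) F →* G),
      Chart S a b φ ∧ φ (uu 1) = x ∧ φ (ll (-1)) = y ∧ (∃ t, φ (uu t) = x') ∧ φ.range = zpowers x' ⊔ zpowers y :=
  chart2' h.toSys h.sr n hx hx' hy d

/-- `Deqv` -/
theorem D_comm (n : a ≠ b) (k : ℤ) {g : G} (ga : g • a = a) (gb : g • b = b) : Commute g (D a b k) := by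
  have := h.Deqv g k n
  rw [ga, gb, eq_mul_inv_iff_mul_eq] at this
  exact this.symm
/-- `Deqv`, `Dsym` -/
theorem D_swap (n : a ≠ b) (k : ℤ) {g : G} (ga : g • a = b) (gb : g • b = a) : g * D a b k * g⁻¹ = (D a b k)⁻¹ := by
  have := h.Deqv g k n
  rw [ga, gb] at this
  rw [← this, h.Dsym k n]
theorem z_sq (n : a ≠ b) : D a b (-1) * D a b (-1) = 1 := by
  rw [← h.Dmul n (ndm h.toSys) (ndm h.toSys)]
  exact h.D1 n
theorem z_mem (n : a ≠ b) : D a b (-1) ∈ W S a b :=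
  ⟨sc_one'.1 (h.Dsc n (ndm h.toSys)), h.Db _ n⟩
/-- `Dsc`: `k * k ≡ 1` -/
theorem D_eq_one (n : a ≠ b) {k : ℤ} (hk : ¬ (p : ℤ) ∣ k) (e : D a b k = 1) : k * k ≡ 1 [ZMOD p] := by
  have s := h.Dsc n hk
  rw [e] at s
  exact h.sc_uniq' s (sc_one'.2 (one_mem _))
/-- `μ (x ^ k) = D k * μ x` (chart) -/
theorem mu_pow (n : a ≠ b) (hx : x ∈ S a) (hy : y ∈ S b) (d : Bd x y) {k l : ℤ} (kl : k * l ≡ 1 [ZMOD p]) :
    Bd (x ^ k) (y ^ l) ∧ x ^ k * y ^ l * x ^ k = D a b k * (x * y * x) := by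
  obtain ⟨F, _, _, _, φ, c, u1, l1, -⟩ := h.chart2 n hx hx hy d
  have hk : (k : F) ≠ 0 := (cast_iff F).2 (nd_of h.toSys kl)
  have e : (k : F) * l = 1 := by
    have := (CharP.intCast_eq_intCast F p).2 kl
    push_cast at this
    exact this
  have ex : x ^ k = φ (uu (k * 1)) := by rw [← uu_zpow, map_zpow, u1]
  have ey : y ^ l = φ (ll (-((k : F) * 1)⁻¹)) := by
    rw [← l1, ← map_zpow, ll_zpow, mul_one, mul_neg, mul_one, eq_inv_of_mul_eq_one_right e]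
  have b : Bd (x ^ k) (y ^ l) := by
    rw [ex, ey]
    exact bd_uu φ (mul_ne_zero hk one_ne_zero)
  refine ⟨b, ?_⟩
  rw [h.Dch hk n c]
  exact key1 h.toSys h.sr n c u1 hx hk hy (zp_mem h.toSys hy (nd_of h.toSys (by rwa [mul_comm]))) d b
/-- `(x y x) ^ 2 = (x y) ^ 3` -/
theorem mu_sq (n : a ≠ b) (hx : x ∈ S a) (hy : y ∈ S b) (d : Bd x y) : (x * y * x) * (x * y * x) = D a b (-1) := by
  rw [h.Dneg n hx hy d]
  unfold Bd at d
  nth_rewrite 2 [d]
  simp only [pow_succ, pow_zero, one_mul, mul_assoc]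

/-- `g` fixes `a` (`pt_eq`); `g y g⁻¹` and `y ^ l` are partners of `x ^ k` -/
theorem eig (n : a ≠ b) (hx : x ∈ S a) (hy : y ∈ S b) (d : Bd x y) {g : G} {k l : ℤ} (kl : k * l ≡ 1 [ZMOD p])
    (e : g * x * g⁻¹ = x ^ k) (gb : g • b = b) : g * y * g⁻¹ = y ^ l := by
  have hk := zp_mem h.toSys hx (nd_of h.toSys kl)
  have hl := zp_mem h.toSys hy (nd_of h.toSys (show l * k ≡ 1 [ZMOD p] by rwa [mul_comm]))
  have m := h.conj g hy
  rw [gb] at m
  have d' := bd_conj g d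
  rw [e] at d'
  exact h.toSys.uniq h.sr n hk m hl d' (h.mu_pow n hx hy d kl).1
theorem Sc_fix {g : G} {k : ℤ} (hk : ¬ (p : ℤ) ∣ k) (s : Sc S a g k) : g • a = a := by
  obtain ⟨x, hx⟩ := h.ex a
  have m := h.conj g hx
  rw [s x (subset_closure hx)] at m
  exact h.toSys.pt_eq m (zp_mem h.toSys hx hk)
/-- every `y ∈ S b` has a partner in `S a` -/
theorem sc_inv (n : a ≠ b) {g : G} {k l : ℤ} (kl : k * l ≡ 1 [ZMOD p]) (s : Sc S a g k) (gb : g • b = b) : Sc S b g l := by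
  refine sc_of h.toSys fun y hy => ?_
  obtain ⟨x₀, hx₀⟩ := h.ex a
  obtain ⟨x, hx, -, d, -⟩ := h.toSys.partner n.symm hy hx₀
  exact h.eig n hx hy d.symm kl (s x (subset_closure hx)) gb
/-- if `b ≠ c`: the scalar on `E c` is `k⁻¹` (from `a`) and `k` (from `b`) -/
theorem sc_fix {g : G} {k : ℤ} (hk : ¬ (p : ℤ) ∣ k) (k2 : ¬ k * k ≡ 1 [ZMOD p]) (s : Sc S a g k) (hb : b ≠ a) (hc : c ≠ a)
    (gb : g • b = b) (gc : g • c = c) : b = c := by
  by_contra bc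
  obtain ⟨l, kl⟩ := ex_inv h.toSys hk
  have sb := h.sc_inv hb.symm kl s gb
  have sc := h.sc_inv hc.symm kl s gc
  have sc' := h.sc_inv bc (show l * k ≡ 1 [ZMOD p] by rwa [mul_comm]) sb gc
  exact k2 (((h.sc_uniq' sc' sc).mul_left k).trans kl)
theorem Sc_mul {g g' : G} {k l : ℤ} (s : Sc S a g k) (s' : Sc S a g' l) : Sc S a (g * g') (k * l) := by
  intro e he
  calc g * g' * e * (g * g')⁻¹ = g * (g' * e * g'⁻¹) * g⁻¹ := by group
    _ = (g * e * g⁻¹) ^ l := by rw [s' e he, conj_zpow]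
    _ = _ := by rw [s e he, zpow_mul]
theorem Sc_mod {g : G} {k l : ℤ} (s : Sc S a g k) (kl : k ≡ l [ZMOD p]) : Sc S a g l :=
  fun e he => (s e he).trans (zp_mod (h.toSys.E_pow he) kl)
theorem Sc_uniq {g : G} {k l : ℤ} (s : Sc S a g k) (s' : Sc S a g l) : k ≡ l [ZMOD p] :=
  h.sc_uniq' s s'
theorem Sc_one {g : G} : Sc S a g 1 ↔ g ∈ C S a :=
  sc_one'
theorem Sc_conj (u : G) {g : G} {k : ℤ} (s : Sc S a g k) : Sc S (u • a) (u * g * u⁻¹) k := by
  intro e he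
  have m := h.toSys.E_conj u⁻¹ he
  rw [inv_smul_smul] at m
  calc u * g * u⁻¹ * e * (u * g * u⁻¹)⁻¹ = u * (g * (u⁻¹ * e * u⁻¹⁻¹) * g⁻¹) * u⁻¹ := by group
    _ = (u * (u⁻¹ * e * u⁻¹⁻¹) * u⁻¹) ^ k := by rw [s _ m]; exact conj_zpow.symm
    _ = _ := by congr 1; group
/-- two elements with the same scalar -/
theorem Sc_div {g g' : G} {k : ℤ} (s : Sc S a g k) (s' : Sc S a g' k) : g⁻¹ * g' ∈ C S a := by
  rw [mem_C]
  intro e he
  have := (s e he).trans (s' e he).symm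
  calc e * (g⁻¹ * g') = g⁻¹ * (g * e * g⁻¹) * g' := by group
    _ = g⁻¹ * (g' * e * g'⁻¹) * g' := by rw [this]
    _ = _ := by group
theorem C_fix {g : G} (hg : g ∈ C S a) : g • a = a :=
  h.Sc_fix (nd1 h.toSys) (sc_one'.2 hg)
theorem E_le_C (a : Ω) : E S a ≤ C S a :=
  fun _ he _ hf => (h.toSys.E_comm hf he).eq
theorem C_conj (u : G) {g : G} (hg : g ∈ C S a) : u * g * u⁻¹ ∈ C S (u • a) :=
  sc_one'.1 (h.Sc_conj u (sc_one'.2 hg))
theorem W_symm (n : a ≠ b) : W S a b = W S b a := by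
  have k : ∀ {a b : Ω}, a ≠ b → W S a b ≤ W S b a := fun n g hg =>
    ⟨sc_one'.1 (h.sc_inv n (k := 1) (l := 1) (by rw [mul_one]) (sc_one'.2 hg.1) hg.2), h.C_fix hg.1⟩
  exact le_antisymm (k n) (k n.symm)
/-- scalars `±1` spread to all fixed points -/
theorem sc_pm {g : G} {k : ℤ} (hk : k = 1 ∨ k = -1) (s : Sc S a g k) (gc : g • c = c) : Sc S c g k := by
  by_cases n : a = c
  · rwa [← n]
  · refine h.sc_inv n ?_ s gc
    rcases hk with rfl | rfl <;> rfl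

section early

variable {F : Type} [Field F] [Fintype F] [CharP F p] {φ : Matrix.SpecialLinearGroup (Fin 2) F →* G}

theorem full_card' (n : a ≠ b) (f : Full S a b φ) : Fintype.card F = Nat.card (E S a) := by
  rw [← Nat.card_eq_fintype_card]
  refine Nat.card_congr (Equiv.ofBijective (fun t => (⟨φ (uu t), f.uE t⟩ : E S a)) ⟨?_, ?_⟩)
  · intro s t e
    exact f.toChart.u_inj h.toSys n (congrArg Subtype.val e)
  · rintro ⟨e, he⟩
    obtain ⟨t, ht⟩ := f.uS e he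
    exact ⟨t, Subtype.ext ht⟩

omit [Finite G] [Finite Ω] [Fintype F] [CharP F p] h in
theorem full_Ln' (f : Full S a b φ) : Ln S a b = insert a (Set.range fun t => φ (uu t) • b) := by
  unfold Ln
  congr 1
  ext c
  constructor
  · rintro ⟨e, he, rfl⟩
    obtain ⟨t, rfl⟩ := f.uS e he
    exact ⟨t, rfl⟩
  · rintro ⟨t, rfl⟩
    exact ⟨_, f.uE t, rfl⟩

end early

theorem sr_eq (n : a ≠ b) {e e' : G} (he : e ∈ E S a) (he' : e' ∈ E S a) (eb : e • b = e' • b) : e = e' := by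
  have := h.sr n _ ((E S a).mul_mem ((E S a).inv_mem he) he') (by rw [mul_smul, ← eb, inv_smul_smul])
  exact inv_mul_eq_one.1 this

/-- The induction hypothesis for `X = centralizer R`, `Φ = Fs R`: for `c ∈ Φ`, `c ≠ a`, the partner of `x` in `S c` is centralised by `R` (`uniq`).  `RCon.chart`, `sr`, `Chart.rescale`, `Dch`. -/
theorem cen {R : Set G} (r1 : ∃ w ∈ R, w ≠ 1) (n : a ≠ b) (rb : ∀ w ∈ R, w • b = b) (hx : x ∈ S a) (rx : ∀ w ∈ R, Commute w x) :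
    ∃ (F : Type) (_ : Field F) (_ : Fintype F) (_ : CharP F p) (φ : Matrix.SpecialLinearGroup (Fin 2) F →* G),
      Chart S a b φ ∧ φ (uu 1) = x ∧ (∀ w ∈ R, ∀ A, Commute w (φ A)) ∧
      (∀ e ∈ Ep S (centralizer R) a, ∃ t, φ (uu t) = e) ∧ (∀ e ∈ Ep S (centralizer R) b, ∃ t, φ (ll t) = e) ∧
      (Fs Ω R = insert a (Set.range fun t => φ (uu t) • b) ∨
        ((Fs Ω R).ncard = Fintype.card F ^ 3 + 1 ∧ ∃ c ∈ Fs Ω R, D a b (-1) • c ≠ c)) := by
  have s := h.toSys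
  have fa : ∀ w ∈ R, w • a = a := fun w hw => by
    have m := h.conj w hx
    rw [(rx w hw).eq, mul_inv_cancel_right] at m
    exact s.pt_eq m hx
  have xm : x ∈ centralizer R := fun w hw => (rx w hw).eq
  have iv : ∀ g ∈ centralizer R, ∀ c ∈ Fs Ω R, g • c ∈ Fs Ω R := fun g hg c hc w hw => by
    rw [← mul_smul, hg w hw, mul_smul, hc w hw]
  have r := h.ih (centralizer R) (Fs Ω R) ?_ iv ?_
  rotate_left
  · intro e
    obtain ⟨w, hw, w1⟩ := r1
    exact w1 (h.faith w fun c => (show c ∈ Fs Ω R from e ▸ Set.mem_univ c) w hw)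
  · intro c hc
    by_cases ca : a = c
    · exact ⟨x, ca ▸ hx, xm⟩
    obtain ⟨y₀, hy₀⟩ := h.ex c
    obtain ⟨y, hy, -, d, -⟩ := s.partner ca hx hy₀
    refine ⟨y, hy, fun w hw => ?_⟩
    have m := h.conj w hy
    rw [hc w hw] at m
    have d' := bd_conj w d
    rw [(rx w hw).eq, mul_inv_cancel_right] at d'
    exact mul_inv_eq_iff_eq_mul.1 (s.uniq h.sr ca hx m hy d' d)
  obtain ⟨F, i1, i2, i3, φ, c, rg, -, -, uS, lS, alt⟩ := r.chart s iv (show a ∈ Fs Ω R from fa) (show b ∈ Fs Ω R from rb) n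
  have uS' : ∀ e ∈ Ep S (centralizer R) a, ∃ t, φ (uu t) = e := fun e he => by
    obtain ⟨t, ht⟩ := uS e he
    exact ⟨t, h.sr_eq n (c.uE t) (Ep_le _ _ _ he) (ht b rb).symm⟩
  have lS' : ∀ e ∈ Ep S (centralizer R) b, ∃ t, φ (ll t) = e := fun e he => by
    obtain ⟨t, ht⟩ := lS e he
    exact ⟨t, h.sr_eq n.symm (c.lE t) (Ep_le _ _ _ he) (ht a fa).symm⟩
  obtain ⟨t₀, ht₀⟩ := uS' x (subset_closure ⟨hx, xm⟩)
  have m0 : φ (uu t₀) ∈ S a := by rw [ht₀]; exact hx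
  have t0 := t_ne s m0
  obtain ⟨ψ, c', hu, hl, -, rg'⟩ := c.rescale s n m0
  refine ⟨F, i1, i2, i3, ψ, c', by rw [hu, one_mul, ht₀], fun w hw A => ?_, fun e he => ?_, fun e he => ?_, ?_⟩
  · have : ψ A ∈ centralizer R := rg (rg' ▸ ⟨A, rfl⟩)
    exact this w hw
  · obtain ⟨t, ht⟩ := uS' e he
    exact ⟨t / t₀, by rw [hu, div_mul_cancel₀ _ t0, ht]⟩
  · obtain ⟨t, ht⟩ := lS' e he
    exact ⟨t * t₀, by rw [hl, mul_div_cancel_right₀ _ t0, ht]⟩
  · rcases alt with alt | alt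
    · left
      rw [alt]
      congr 1
      ext d
      constructor
      · rintro ⟨t, rfl⟩
        exact ⟨t / t₀, by simp only [hu, div_mul_cancel₀ _ t0]⟩
      · rintro ⟨t, rfl⟩
        exact ⟨t * t₀, by simp only [hu]⟩
    · right
      rw [h.Dz n c]
      exact alt

/-- `cen` with `E a, E b ≤ centralizer R` (`Ep_eq`); `|F| = |E a|` -/
theorem cenW {R : Set G} (r1 : ∃ w ∈ R, w ≠ 1) (n : a ≠ b) (rw : ∀ w ∈ R, w ∈ W S a b) :
    LP p S a b ∧ (Fs Ω R = Ln S a b ∨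
      ((Fs Ω R).ncard = Nat.card (E S a) ^ 3 + 1 ∧ Ln S a b ⊆ Fs Ω R ∧ ∃ c ∈ Fs Ω R, D a b (-1) • c ≠ c)) := by
  obtain ⟨x, hx⟩ := h.ex a
  have ea : E S a ≤ centralizer R := fun e he w hw => ((rw w hw).1 e he).symm
  have eb : E S b ≤ centralizer R := fun e he w hw => by
    have := rw w hw
    rw [h.W_symm n] at this
    exact (this.1 e he).symm
  obtain ⟨F, i1, i2, i3, φ, c, -, -, uS, lS, alt⟩ := h.cen r1 n (fun w hw => (rw w hw).2) hx
    (fun w hw => ea (subset_closure hx) w hw)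
  rw [Ep_eq ea] at uS
  rw [Ep_eq eb] at lS
  have f : Full S a b φ := ⟨c, uS, lS⟩
  refine ⟨⟨F, i1, i2, i3, φ, f⟩, ?_⟩
  rcases alt with alt | alt
  · left
    rw [alt, full_Ln' f]
  · right
    refine ⟨by rw [alt.1, h.full_card' n f], ?_, alt.2⟩
    rintro d (rfl | ⟨e, he, rfl⟩) w hw
    · exact h.C_fix (rw w hw).1
    · rw [← mul_smul, ea he w hw, mul_smul, (rw w hw).2]

omit [Finite G] [Finite Ω] h in
theorem Fs_one (w : G) : Fs Ω {w} = Fx Ω w := by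
  ext c
  simp [Fs, Fx]

/-- `cenW` for `R = {w}` -/
theorem fixW (n : a ≠ b) (z1 : D a b (-1) = 1) {w : G} (hw : w ∈ W S a b) (w1 : w ≠ 1) : Fx Ω w = Ln S a b := by
  rcases (h.cenW (R := {w}) ⟨w, rfl, w1⟩ n (by rintro _ rfl; exact hw)).2 with e | ⟨-, -, c, -, hc⟩
  · rw [← Fs_one, e]
  · exact absurd (by rw [z1, one_smul]) hc
/-- `cenW` for `R = {z}` -/
theorem fixz (n : a ≠ b) (z1 : D a b (-1) ≠ 1) : LP p S a b ∧ Fx Ω (D a b (-1)) = Ln S a b := by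
  obtain ⟨l, e | ⟨-, -, c, hc, hc'⟩⟩ := h.cenW (R := {D a b (-1)}) ⟨_, rfl, z1⟩ n (by rintro _ rfl; exact h.z_mem n)
  · exact ⟨l, by rw [← Fs_one, e]⟩
  · exact absurd (hc _ rfl) hc'
/-- `cen` for `R = {s}`, Line case: `t` inverts `φ (uu u)`, fixes `b`, `sr` -/
theorem fix_plus (n : a ≠ b) (z1 : D a b (-1) = 1) {s t : G} (s1 : s ≠ 1) (sb : s • b = b) (hx : x ∈ S a) (sx : Commute s x)
    (ts : Sc S a t (-1)) (tb : t • b = b) : Fx Ω s ⊆ Ln S a b ∧ ∀ c, s • c = c → t • c = c → c = a ∨ c = b := by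
  obtain ⟨F, _, _, _, φ, c, -, -, -, -, e | ⟨-, c, -, hc⟩⟩ := h.cen (R := {s}) ⟨s, rfl, s1⟩ n
    (by rintro _ rfl; exact sb) hx (by rintro _ rfl; exact sx)
  · rw [Fs_one] at e
    constructor
    · rw [e]
      rintro d (rfl | ⟨u, rfl⟩)
      · exact Or.inl rfl
      · exact Or.inr ⟨_, c.uE u, rfl⟩
    · intro d sd td
      have : d ∈ Fx Ω s := sd
      rw [e] at this
      rcases this with rfl | ⟨u, rfl⟩
      · exact Or.inl rfl
      · right
        have m := c.uE u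
        have e1 : t • φ (uu u) • b = φ (uu u) ^ (-1 : ℤ) • b := by
          rw [← ts _ m, mul_smul, mul_smul, inv_smul_eq_iff.2 tb.symm]
        have e2 : φ (uu u) ^ (-1 : ℤ) = φ (uu u) := h.sr_eq n ((E S a).zpow_mem m _) m (e1.symm.trans td)
        rw [← map_zpow, uu_zpow] at e2
        have e3 := c.u_inj h.toSys n e2
        have e4 : (2 : F) * u = 0 := by
          push_cast at e3
          linear_combination -e3
        have : u = 0 := (mul_eq_zero.1 e4).resolve_left (cast_ne h.pr h.p5).1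
        simp only [this, uu_zero, map_one, one_smul]
  · exact absurd (by rw [z1, one_smul]) hc

/-- semiregularity -/
theorem Ln_card (n : a ≠ b) : (Ln S a b).ncard = Nat.card (E S a) + 1 := by
  have e : orb (E S a) b = (fun e : G => e • b) '' (E S a : Set G) := rfl
  have na : a ∉ orb (E S a) b := by
    rintro ⟨e, he, eb⟩
    apply n
    rw [← inv_smul_smul e b, eb, h.toSys.E_fix ((E S a).inv_mem he)]
  unfold Ln
  rw [Set.ncard_insert_of_notMem na, e, Set.InjOn.ncard_image fun e he e' he' eb => h.sr_eq n he he' eb]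
  rfl
theorem E_card (a b : Ω) : Nat.card (E S a) = Nat.card (E S b) ∧ Odd (Nat.card (E S a)) ∧ ∃ k, 1 ≤ k ∧ Nat.card (E S a) = p ^ k := by
  have := Fact.mk h.pr
  obtain ⟨k, hk⟩ := IsPGroup.iff_card.1 (h.toSys.E_pg a)
  refine ⟨?_, ?_, k, ?_, hk⟩
  · obtain ⟨g, rfl⟩ := h.toHy.trans a b
    refine Nat.card_congr (Equiv.ofBijective
      (fun e : E S a => (⟨g * e * g⁻¹, h.toSys.E_conj g e.2⟩ : E S (g • a))) ⟨?_, ?_⟩)
    · intro u v e
      have := congrArg Subtype.val e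
      exact Subtype.ext (by simpa using this)
    · rintro ⟨e, he⟩
      have m := h.toSys.E_conj g⁻¹ he
      rw [inv_smul_smul] at m
      exact ⟨⟨_, m⟩, Subtype.ext (by simp [mul_assoc])⟩
  · rw [hk]
    exact (h.pr.odd_of_ne_two (by have := h.p5; omega)).pow
  · by_contra k0
    have : k = 0 := by omega
    rw [this, pow_zero, Subgroup.card_eq_one] at hk
    obtain ⟨x, hx⟩ := h.ex a
    have m : x ∈ E S a := subset_closure hx
    rw [hk] at m
    exact h.ne hx m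
theorem Ln_smul (g : G) (a b : Ω) {c : Ω} (hc : c ∈ Ln S a b) : g • c ∈ Ln S (g • a) (g • b) := by
  rcases hc with rfl | ⟨e, he, rfl⟩
  · exact Or.inl rfl
  · refine Or.inr ⟨_, h.toSys.E_conj g he, ?_⟩
    simp only [mul_smul, inv_smul_smul]
/-- `c = e • b`, `e ∈ E a` centralises `W a b` and `D a b (-1)` -/
theorem Ln_mem (n : a ≠ b) (hc : c ∈ Ln S a b) (ca : c ≠ a) :
    Ln S a c = Ln S a b ∧ W S a c = W S a b ∧ D a c (-1) = D a b (-1) ∧ (LP p S a b → LP p S a c) := by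
  rcases hc with rfl | ⟨e, he, rfl⟩
  · exact absurd rfl ca
  have ea := h.toSys.E_fix he
  refine ⟨?_, ?_, ?_, ?_⟩
  · unfold Ln
    congr 1
    ext d
    constructor
    · rintro ⟨u, hu, rfl⟩
      exact ⟨u * e, (E S a).mul_mem hu he, mul_smul _ _ _⟩
    · rintro ⟨u, hu, rfl⟩
      exact ⟨u * e⁻¹, (E S a).mul_mem hu ((E S a).inv_mem he), by rw [mul_smul, inv_smul_smul]⟩
  · ext g
    rw [mem_W, mem_W]
    refine and_congr_right fun hg => ?_
    rw [← mul_smul, ← hg e he, mul_smul, smul_left_cancel_iff]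
  · have := h.Deqv e (-1) n
    rw [ea] at this
    rw [this, (h.z_mem n).1 e he, mul_inv_cancel_right]
  · rintro ⟨F, i1, i2, i3, φ, f⟩
    have := full_conj h.toSys e f
    rw [ea] at this
    exact ⟨F, i1, i2, i3, _, this⟩
/-- an element of `C a` that keeps the line: `g • b = e • b` -/
theorem C_Ln (n : a ≠ b) {g : G} (hg : g ∈ C S a) (gb : g • b ∈ Ln S a b) : ∃ e ∈ E S a, ∃ w ∈ W S a b, g = e * w := by
  rcases gb with gb | ⟨e, he, eb⟩
  · exact absurd (MulAction.injective g ((h.C_fix hg).trans gb.symm)) n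
  · refine ⟨e, he, e⁻¹ * g, ⟨(C S a).mul_mem ((C S a).inv_mem (h.E_le_C a he)) hg, ?_⟩, by group⟩
    show (e⁻¹ * g) • b = b
    rw [mul_smul, ← eb, inv_smul_smul]
theorem EW_inf (n : a ≠ b) {g : G} (he : g ∈ E S a) (hw : g ∈ W S a b) : g = 1 :=
  h.sr n g he hw.2

section full

variable {F : Type} [Field F] [Fintype F] [CharP F p] {φ : Matrix.SpecialLinearGroup (Fin 2) F →* G}

theorem full_card (n : a ≠ b) (f : Full S a b φ) : Fintype.card F = Nat.card (E S a) :=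
  h.full_card' n f
theorem full_Ln (n : a ≠ b) (f : Full S a b φ) : Ln S a b = insert a (Set.range fun t => φ (uu t) • b) :=
  full_Ln' f
theorem full_range (n : a ≠ b) (f : Full S a b φ) : φ.range = E S a ⊔ E S b := by
  apply le_antisymm
  · have := gen_top ((E S a ⊔ E S b).comap φ) (fun t => mem_sup_left (f.uE t)) (fun t => mem_sup_right (f.lE t))
    rintro _ ⟨A, rfl⟩
    exact (show A ∈ (E S a ⊔ E S b).comap φ from this ▸ mem_top A)
  · refine sup_le (fun e he => ?_) (fun e he => ?_)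
    · obtain ⟨t, ht⟩ := f.uS e he
      exact ⟨_, ht⟩
    · obtain ⟨t, ht⟩ := f.lS e he
      exact ⟨_, ht⟩
theorem full_W (n : a ≠ b) (f : Full S a b φ) {w : G} : w ∈ W S a b ↔ ∀ A, Commute w (φ A) := by
  constructor
  · intro hw A
    have hw' := hw
    rw [h.W_symm n] at hw'
    have : E S a ⊔ E S b ≤ centralizer {w} :=
      sup_le (fun e he => by rintro _ rfl; exact (hw.1 e he).symm) (fun e he => by rintro _ rfl; exact (hw'.1 e he).symm)
    rw [← h.full_range n f] at this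
    exact this ⟨A, rfl⟩ w rfl
  · intro hw
    refine ⟨fun e he => ?_, h.C_fix (a := b) fun e he => ?_⟩
    · obtain ⟨t, rfl⟩ := f.uS e he
      exact (hw _).eq.symm
    · obtain ⟨t, rfl⟩ := f.lS e he
      exact (hw _).eq.symm
/-- `φ (SL₂ F)` is doubly transitive on the line -/
theorem full_tr (n : a ≠ b) (f : Full S a b φ) {c d : Ω} (hc : c ∈ Ln S a b) (hd : d ∈ Ln S a b) (cd : c ≠ d) :
    ∃ A, φ A • a = c ∧ φ A • b = d := by
  rw [full_Ln' f] at hc hd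
  obtain ⟨A, hA⟩ : ∃ A, φ A • a = c := by
    rcases hc with rfl | ⟨t, rfl⟩
    · exact ⟨1, by rw [map_one, one_smul]⟩
    · exact ⟨uu t * ww, by rw [map_mul, mul_smul, (f.toChart.w_smul h.toSys n).1]⟩
  rcases f.toChart.inv_pt h.toSys n A⁻¹ hd with e | ⟨s, e⟩
  · rw [map_inv, inv_smul_eq_iff, hA] at e
    exact absurd e.symm cd
  · refine ⟨A * uu s, ?_, ?_⟩
    · rw [map_mul, mul_smul, h.toSys.E_fix (f.uE s), hA]
    · rw [map_mul, mul_smul, show φ (uu s) • b = _ from e, map_inv, smul_inv_smul]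

end full

/-- conjugate the full chart by the element of `full_tr` -/
theorem LP_line (n : a ≠ b) (l : LP p S a b) {c d : Ω} (hc : c ∈ Ln S a b) (hd : d ∈ Ln S a b) (cd : c ≠ d) :
    LP p S c d ∧ Ln S c d = Ln S a b ∧ W S c d = W S a b ∧ D c d (-1) = D a b (-1) ∧ E S c ⊔ E S d = E S a ⊔ E S b := by
  obtain ⟨F, i1, i2, i3, φ, f⟩ := l
  obtain ⟨A, rfl, rfl⟩ := h.full_tr n f hc hd cd
  have f' := full_conj h.toSys (φ A) f
  have iv : ∀ B, ∀ z ∈ Ln S a b, φ B • z ∈ Ln S a b := fun B z hz => by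
    rw [full_Ln' f] at hz ⊢
    exact f.toChart.inv_pt h.toSys n B hz
  have cj : ∀ B, ((MulAut.conj (φ A)).toMonoidHom.comp φ) B = φ (A * B * A⁻¹) := fun B => by
    rw [map_mul, map_mul, map_inv]
    rfl
  refine ⟨⟨F, i1, i2, i3, _, f'⟩, ?_, ?_, ?_, ?_⟩
  · ext z
    constructor
    · intro hz
      have := h.Ln_smul (φ A)⁻¹ _ _ hz
      rw [inv_smul_smul, inv_smul_smul] at this
      have := iv A _ this
      rwa [smul_inv_smul] at this
    · intro hz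
      have := h.Ln_smul (φ A) _ _ (iv A⁻¹ z hz)
      rwa [map_inv, smul_inv_smul] at this
  · ext w
    rw [h.full_W cd f', h.full_W n f]
    constructor
    · intro hw B
      have := hw (A⁻¹ * B * A)
      rwa [cj, show A * (A⁻¹ * B * A) * A⁻¹ = B by group] at this
    · intro hw B
      rw [cj]
      exact hw _
  · rw [h.Deqv _ _ n, ← ((h.full_W n f).1 (h.z_mem n) A).eq, mul_inv_cancel_right]
  · rw [← h.full_range cd f', ← h.full_range n f]
    ext w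
    constructor
    · rintro ⟨B, rfl⟩
      exact ⟨_, (cj B).symm⟩
    · rintro ⟨B, rfl⟩
      exact ⟨A⁻¹ * B * A, by rw [cj, show A * (A⁻¹ * B * A) * A⁻¹ = B by group]⟩

/-- If every non-trivial element of `E a` is in `S a` (all `a`), `Ln a b` is invariant under `E a` and `E b` (chart of `⟨e, y⟩`, `Chart.inv_pt`, `of_E`); if it is proper apply `ih` to `E a ⊔ E b` on it (`E c` is conjugate to `E a`, `E b` in that group), `RCon.chart`, `sr`. -/
theorem LP_of_all (al : ∀ a, ∀ e ∈ E S a, e ≠ 1 → e ∈ S a) (n : a ≠ b) : Trs (E S a) a ∨ LP p S a b := by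
  have s := h.toSys
  by_cases u : Ln S a b = Set.univ
  · left
    intro x y xa ya
    obtain ⟨e, he, rfl⟩ := (show x ∈ Ln S a b from u ▸ Set.mem_univ x).resolve_left xa
    obtain ⟨e', he', rfl⟩ := (show y ∈ Ln S a b from u ▸ Set.mem_univ y).resolve_left ya
    exact ⟨e' * e⁻¹, (E S a).mul_mem he' ((E S a).inv_mem he), by rw [mul_smul, inv_smul_smul]⟩
  right
  obtain ⟨H, hH⟩ := ex_inv_sub (G := G) (Ln S a b)
  have ha : a ∈ Ln S a b := Or.inl rfl
  have hb : b ∈ Ln S a b := Or.inr ⟨1, one_mem _, one_smul _ _⟩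
  have k : ∀ {x y : G}, x ∈ S a → y ∈ S b → y • a ∈ Ln S a b ∧ y • x • b ∈ Ln S a b := by
    intro x y hx hy
    obtain ⟨F, _, _, _, φ, c, rfl, ⟨t, rfl⟩, -⟩ := s.chart n hx hy
    have sub : insert a (Set.range fun t => φ (uu t) • b) ⊆ Ln S a b := by
      rintro d (rfl | ⟨u, rfl⟩)
      · exact Or.inl rfl
      · exact Or.inr ⟨_, c.uE u, rfl⟩
    exact ⟨sub (c.inv_pt s n _ (Or.inl rfl)), sub (c.inv_pt s n _ (Or.inr ⟨1, rfl⟩))⟩
  have le : E S a ⊔ E S b ≤ H := by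
    refine sup_le (fun e he => (hH e).2 ?_) ((closure_le _).2 fun y hy => (hH y).2 ?_)
    · rintro d (rfl | ⟨e', he', rfl⟩)
      · exact Or.inl (s.E_fix he)
      · exact Or.inr ⟨e * e', (E S a).mul_mem he he', mul_smul _ _ _⟩
    · rintro d (rfl | ⟨e', he', rfl⟩)
      · obtain ⟨x, hx⟩ := h.ex d
        exact (k hx hy).1
      · by_cases e1 : e' = 1
        · rw [e1, one_smul, h.fix hy]
          exact hb
        · exact (k (al a e' he' e1) hy).2
  have iv : ∀ g ∈ E S a ⊔ E S b, ∀ c ∈ Ln S a b, g • c ∈ Ln S a b := fun g hg => (hH g).1 (le hg)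
  have r := h.ih (E S a ⊔ E S b) (Ln S a b) u iv (by
    rintro d (rfl | ⟨e, he, rfl⟩)
    · obtain ⟨x, hx⟩ := h.ex d
      exact ⟨x, hx, mem_sup_left (subset_closure hx)⟩
    · obtain ⟨y, hy⟩ := h.ex b
      exact ⟨_, h.conj e hy, mul_mem (mul_mem (mem_sup_left he) (mem_sup_right (subset_closure hy)))
        (inv_mem (mem_sup_left he))⟩)
  obtain ⟨F, i1, i2, i3, φ, c, -, -, -, uS, lS, -⟩ := r.chart s iv ha hb n
  rw [Ep_eq le_sup_left] at uS
  rw [Ep_eq le_sup_right] at lS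
  refine ⟨F, i1, i2, i3, φ, c, fun e he => ?_, fun e he => ?_⟩
  · obtain ⟨t, ht⟩ := uS e he
    exact ⟨t, h.sr_eq n (c.uE t) he (ht b hb).symm⟩
  · obtain ⟨t, ht⟩ := lS e he
    exact ⟨t, h.sr_eq n.symm (c.lE t) he (ht a ha).symm⟩

/-- `E a` is abelian and normal in the stabiliser -/
theorem end_of_E (t : Trs (E S a) a) : End G Ω := by
  have := Fact.mk h.pr
  refine ⟨a, E S a, fun u hu => h.toSys.E_fix hu, fun g ga u hu => ?_, (h.toSys.E_pg a).isNilpotent, t⟩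
  have := h.toSys.E_conj g hu
  rwa [ga] at this

end Hz

end CL.Cq
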