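/- S3235, disconnected case: the four-group of a chart. -/
import Mathlib
import Cfsg.Agent.CHEV.Cq.Tor

set_option autoImplicit false

namespace CL.Cq

open Subgroup CL.PT CL.PT.L2x

variable {p : ℕ} {G Ω : Type*} [Group G] [MulAction G Ω] [Finite G] [Finite Ω] {S : Ω → Set G} {D : Ω → Ω → ℤ → G}
  {a b c : Ω} {x y : G}

namespace AutB

/-- a fixed-point-free involution on a finite set -/
theorem even_ncard {s : Set Ω} (f : Ω → Ω) (m : ∀ c ∈ s, f c ∈ s) (ff : ∀ c, f (f c) = c) (ne : ∀ c ∈ s, f c ≠ c) :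
    Even s.ncard := by
  have hs : s.Finite := Set.toFinite s
  rw [Set.ncard_eq_toFinset_card s hs, ← ZMod.natCast_eq_zero_iff_even, Finset.card_eq_sum_ones, Nat.cast_sum]
  exact Finset.sum_involution (fun c _ => f c) (fun _ _ => by decide) (fun c hc _ => ne c (hs.mem_toFinset.1 hc))
    (fun c hc => hs.mem_toFinset.2 (m c (hs.mem_toFinset.1 hc))) fun c _ => ff c

variable {F : Type} [Field F]

/-- the quaternion `(1 + i + j + k) / 2` -/
theorem exists_rho (h2 : (2 : F) ≠ 0) {ι : F} (hι : ι * ι = -1) (ι0 : ι ≠ 0) :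
    ∃ R : Matrix.SpecialLinearGroup (Fin 2) F, R * dd ι ι0 = ww * R ∧ R * ww = dd ι ι0 * ww * R := by
  have e : ι⁻¹ = -ι := inv_eq_of_mul_eq_one_right (by linear_combination -hι)
  have h : (2 : F)⁻¹ * 2 = 1 := inv_mul_cancel₀ h2
  obtain ⟨R, hR⟩ : ∃ R : Matrix.SpecialLinearGroup (Fin 2) F,
      R.1 = !![2⁻¹ * (1 + ι), -(2⁻¹ * (1 + ι)); 2⁻¹ * (1 - ι), 2⁻¹ * (1 - ι)] := by
    refine ⟨⟨_, ?_⟩, rfl⟩
    rw [Matrix.det_fin_two_of]
    linear_combination (-2 * 2⁻¹ * 2⁻¹) * hι + (2⁻¹ * 2 + 1) * h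
  refine ⟨R, ?_, ?_⟩ <;> apply ext2 <;> simp only [mul_ap, dd_val, ww_val, hR, e, Matrix.of_apply, Matrix.cons_val',
      Matrix.cons_val_zero, Matrix.cons_val_one, Matrix.cons_val_fin_one] <;>
    first | ring1 | linear_combination (2⁻¹ : F) * hι | linear_combination (-2⁻¹ : F) * hι

theorem rel {ι : F} (hι : ι * ι = -1) (ι0 : ι ≠ 0) :
    dd ι ι0 * dd ι ι0 = -1 ∧ (ww * ww : Matrix.SpecialLinearGroup (Fin 2) F) = -1 ∧
      dd ι ι0 * ww = -1 * (ww * dd ι ι0) ∧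
      (uu 1 * ll (-1) * uu 1 : Matrix.SpecialLinearGroup (Fin 2) F) = -1 * ww := by
  have e : ι⁻¹ = -ι := inv_eq_of_mul_eq_one_right (by linear_combination -hι)
  refine ⟨?_, ?_, ?_, ?_⟩ <;> apply ext2 <;> simp [mul_ap, dd_val, ww_val, uu_val, ll_val, e, hι]

variable [CharP F p] {φ : Matrix.SpecialLinearGroup (Fin 2) F →* G}

omit [Finite G] [Finite Ω] in
theorem neg_one (h : Hz p S D) (n : a ≠ b) (c : Chart S a b φ) (z1 : D a b (-1) = 1) : φ (-1) = 1 := by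
  have hk : ((-1 : ℤ) : F) ≠ 0 := by simp
  rw [← z1, h.Dch hk n c]
  congr 1
  apply ext2 <;> simp [dd_val]

theorem core (h : Hz p S D) (n : a ≠ b) (c : Chart S a b φ) (z1 : D a b (-1) = 1) {ι : F} (hι : ι * ι = -1) (ι0 : ι ≠ 0)
    (sc : Sc S a (φ (dd ι ι0)) (-1)) : Iv (φ (dd ι ι0)) ∧ Iv (φ ww) ∧ Commute (φ (dd ι ι0)) (φ ww) ∧
      Even (Nat.card Ω) ∧ Even (Fx Ω (φ (dd ι ι0))).ncard ∧
      ∃ ρ : G, ρ * φ (dd ι ι0) * ρ⁻¹ = φ ww ∧ ρ * φ ww * ρ⁻¹ = φ (dd ι ι0) * φ ww := by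
  have n1 := neg_one h n c z1
  obtain ⟨R, r1, r2⟩ := exists_rho (cast_ne h.pr h.p5).1 hι ι0
  obtain ⟨e1, e2, e3, -⟩ := rel hι ι0
  set t := φ (dd ι ι0) with ht
  set m := φ ww with hm
  have q1 : φ R * t * (φ R)⁻¹ = m := by rw [mul_inv_eq_iff_eq_mul, ← map_mul, r1, map_mul]
  have q2 : φ R * m * (φ R)⁻¹ = t * m := by rw [mul_inv_eq_iff_eq_mul, ← map_mul, r2, map_mul, map_mul]
  have tt : t * t = 1 := by rw [← map_mul, e1, n1]
  have mm : m * m = 1 := by rw [← map_mul, e2, n1]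
  have tm : Commute t m := by
    show t * m = m * t
    rw [← map_mul, e3, map_mul, n1, one_mul, map_mul]
  have sm := h.Sc_conj (φ R) sc
  rw [q1] at sm
  have stm := h.Sc_conj (φ R) sm
  rw [q2] at stm
  have nf : ∀ d : Ω, t • d = d → m • d ≠ d := fun d h1 h2 => by
    have h3 := h.Sc_uniq (h.Sc_mul (h.sc_pm (Or.inr rfl) sc h1) (h.sc_pm (Or.inr rfl) sm h2))
      (h.sc_pm (Or.inr rfl) stm (by rw [mul_smul, h2, h1]))
    have h4 : (p : ℤ) ∣ -2 := by simpa using h3.dvd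
    have h5 := Int.le_of_dvd (by norm_num) ((dvd_neg).1 h4)
    have := h.p5
    omega
  have t1 : t ≠ 1 := fun e => by
    have m1 : m = 1 := by rw [← q1, e]; group
    exact nf a (by rw [e, one_smul]) (by rw [m1, one_smul])
  have m1 : m ≠ 1 := fun e => t1 (by
    have : t = (φ R)⁻¹ * m * φ R := by rw [← q1]; group
    rw [this, e]; group)
  have ev : Even (Fx Ω t).ncard := even_ncard (fun d => m • d)
    (fun d hd => by
      show t • m • d = m • d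
      rw [← mul_smul, tm.eq, mul_smul, show t • d = d from hd])
    (fun d => by rw [← mul_smul, mm, one_smul]) fun d hd => nf d hd
  have ev' : Even (Fx Ω t)ᶜ.ncard := even_ncard (fun d => t • d)
    (fun d hd e => hd (smul_left_cancel t e)) (fun d => by rw [← mul_smul, tt, one_smul]) fun d hd => hd
  refine ⟨⟨tt, t1⟩, ⟨mm, m1⟩, tm, ?_, ev, φ R, q1, q2⟩
  rw [← Set.ncard_add_ncard_compl (Fx Ω t)]
  exact ev.add ev'

end AutB

section chart

variable {F : Type} [Field F] [Fintype F] [CharP F p] {φ : Matrix.SpecialLinearGroup (Fin 2) F →* G}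

theorem Hz.v4B (h : Hz p S D) (n : a ≠ b) (c : Chart S a b φ) (z1 : D a b (-1) = 1) {ι : F} (hι : ι * ι = -1) (ι0 : ι ≠ 0)
    (sc : Sc S a (φ (dd ι ι0)) (-1)) : Even (Nat.card Ω) ∧ Even (Fx Ω (φ (dd ι ι0))).ncard ∧
      IsConj (φ (dd ι ι0)) (φ ww) ∧ IsConj (φ (dd ι ι0)) (φ (dd ι ι0) * φ ww) := by
  obtain ⟨-, -, -, e1, e2, ρ, q1, q2⟩ := AutB.core h n c z1 hι ι0 sc
  have c1 := isConj_iff.2 ⟨ρ, q1⟩
  exact ⟨e1, e2, c1, c1.trans (isConj_iff.2 ⟨ρ, q2⟩)⟩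

end chart

namespace Hz

variable (h : Hz p S D)
include h

theorem v4B' (n : a ≠ b) (z1 : D a b (-1) = 1) {i : ℤ} (hi : i * i ≡ -1 [ZMOD p]) (hx : x ∈ S a) (hy : y ∈ S b) (d : Bd x y) :
    Iv (D a b i) ∧ Iv (x * y * x) ∧ Commute (D a b i) (x * y * x) ∧ Sc S a (D a b i) (-1) ∧
      Even (Nat.card Ω) ∧ Even (Fx Ω (D a b i)).ncard ∧
      ∃ ρ : G, ρ * D a b i * ρ⁻¹ = x * y * x ∧ ρ * (x * y * x) * ρ⁻¹ = D a b i * (x * y * x) := by
  obtain ⟨F, _, _, _, φ, c, ex, ey, -⟩ := h.chart2 n hx hx hy d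
  have hι : (i : F) * (i : F) = -1 := by
    have := (CharP.intCast_eq_intCast F p).2 hi
    push_cast at this
    exact this
  have ι0 : (i : F) ≠ 0 := fun e => by simp [e] at hι
  have nd : ¬ (p : ℤ) ∣ i := fun e => ι0 ((CharP.intCast_eq_zero_iff F p i).2 e)
  have sc := h.Sc_mod (h.Dsc n nd) hi
  have em : x * y * x = φ ww := by
    rw [← ex, ← ey, ← map_mul, ← map_mul, (AutB.rel hι ι0).2.2.2, map_mul, AutB.neg_one h n c z1, one_mul]
  rw [h.Dch ι0 n c] at sc ⊢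
  rw [em]
  obtain ⟨h1, h2, h3, h4, h5, h6⟩ := AutB.core h n c z1 hι ι0 sc
  exact ⟨h1, h2, h3, sc, h4, h5, h6⟩

end Hz

end CL.Cq
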