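/- S3235, disconnected case: two lemmas on finite fields with an involution. -/
import Mathlib

set_option autoImplicit false

namespace CL.Cq

theorem sq_mul_of_not {F : Type*} [Field F] [Finite F] {a b : F} (ha : ¬ IsSquare a) (hb : ¬ IsSquare b) :
    IsSquare (a * b) := by
  classical
  have := Fintype.ofFinite F
  have a0 : a ≠ 0 := fun e => ha (e ▸ IsSquare.zero)
  have b0 : b ≠ 0 := fun e => hb (e ▸ IsSquare.zero)
  rw [← quadraticChar_one_iff_isSquare (mul_ne_zero a0 b0), map_mul,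
    quadraticChar_neg_one_iff_not_isSquare.2 ha, quadraticChar_neg_one_iff_not_isSquare.2 hb]
  norm_num

theorem exists_anti {F : Type*} [Field F] (σ : F ≃+* F) (ss : ∀ t, σ (σ t) = t) (ne : ∃ t, σ t ≠ t) :
    ∃ δ : F, δ ≠ 0 ∧ σ δ = -δ := by
  obtain ⟨t, ht⟩ := ne
  exact ⟨t - σ t, sub_ne_zero.2 ht.symm, by rw [map_sub, ss, neg_sub]⟩

theorem eig_sqC {F : Type*} [Field F] [Finite F] (h2 : (2 : F) ≠ 0) (σ : F ≃+* F) (ss : ∀ t, σ (σ t) = t) {ι ε α : F}
    (hι : ι * ι = -1) (σι : σ ι = ι) (σε : σ ε = ε) (ε0 : ε ≠ 0) (hα : α * σ α = ε * ε) :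
    ∃ s : F, s ≠ 0 ∧ (α * σ (s * s) = ε * (s * s) ∨ α * σ (s * s) = -ε * (s * s)) := by
  have _ := ε0
  by_cases ne : ∃ t, σ t ≠ t
  swap
  · push Not at ne
    rw [ne] at hα
    exact ⟨1, one_ne_zero, by simpa using mul_self_eq_mul_self_iff.1 hα⟩
  obtain ⟨δ, δ0, hδ⟩ := exists_anti σ ss ne
  by_cases u0 : α + ε = 0
  · exact ⟨1, one_ne_zero, Or.inr (by simpa using eq_neg_of_add_eq_zero_left u0)⟩
  have hu : α * σ (α + ε) = ε * (α + ε) := by rw [map_add, σε]; linear_combination hα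
  by_cases sq : IsSquare (α + ε)
  · obtain ⟨s, hs⟩ := sq
    exact ⟨s, fun e => u0 (by rw [hs, e, mul_zero]), Or.inl (hs ▸ hu)⟩
  have nδ : ¬ IsSquare δ := by
    rintro ⟨r, rfl⟩
    have r0 : r ≠ 0 := fun e => δ0 (by rw [e, mul_zero])
    have e : σ r * σ r = (ι * r) * (ι * r) := by rw [← map_mul, hδ]; linear_combination (-(r * r)) * hι
    have k := ss r
    refine mul_ne_zero h2 r0 ?_
    rcases mul_self_eq_mul_self_iff.1 e with e | e
    · rw [e, map_mul, σι, e] at k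
      linear_combination r * hι - k
    · rw [e, map_neg, map_mul, σι, e] at k
      linear_combination r * hι - k
  obtain ⟨s, hs⟩ := sq_mul_of_not sq nδ
  refine ⟨s, fun e => mul_ne_zero u0 δ0 (by rw [hs, e, mul_zero]), Or.inr ?_⟩
  rw [← hs, map_mul, hδ]
  linear_combination (-δ) * hu

theorem sq_fix {F : Type*} [Field F] [Finite F] (h2 : (2 : F) ≠ 0) (σ : F ≃+* F) (ss : ∀ t, σ (σ t) = t)
    (ne : ∃ t, σ t ≠ t) {c : F} (hc : σ c = c) : IsSquare c := by
  obtain ⟨δ, δ0, hδ⟩ := exists_anti σ ss ne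
  let K : Subfield F := RingHom.eqLocusField (σ : F →+* F) (RingHom.id F)
  have mem : ∀ {t : F}, t ∈ K ↔ σ t = t := Iff.rfl
  by_cases sq : IsSquare (⟨c, mem.2 hc⟩ : K)
  · obtain ⟨r, hr⟩ := sq
    exact ⟨r, congrArg Subtype.val hr⟩
  have hd : δ * δ ∈ K := mem.2 (by rw [map_mul, hδ, neg_mul_neg])
  have nδ : ¬ IsSquare (⟨δ * δ, hd⟩ : K) := by
    rintro ⟨r, hr⟩
    have k : σ r = r := mem.1 r.2
    refine mul_ne_zero h2 δ0 ?_
    rcases mul_self_eq_mul_self_iff.1 (show δ * δ = r * r from congrArg Subtype.val hr) with e | e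
    · rw [← e, hδ] at k
      linear_combination -k
    · rw [e, map_neg, k] at hδ
      rw [e]
      linear_combination hδ
  obtain ⟨r, hr⟩ := sq_mul_of_not sq nδ
  have e : c * (δ * δ) = r * r := congrArg Subtype.val hr
  exact ⟨r / δ, by field_simp; linear_combination e⟩

end CL.Cq
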