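/- S3235, disconnected case: automorphisms of charts. -/
import Mathlib
import Cfsg.Agent.CHEV.Cq.Tor

set_option autoImplicit false

namespace CL.Cq.AutA

open Subgroup CL.PT CL.PT.L2x

variable {p : ℕ} {G Ω : Type*} [Group G] [MulAction G Ω] [Finite G] [Finite Ω] {S : Ω → Set G} {D : Ω → Ω → ℤ → G}
  {a b c : Ω} {x y : G}

theorem hua2 {F : Type*} [Field F] (h2 : (2 : F) ≠ 0) (θ θ' : F →+ F) (h1 : θ 1 = 1) (hi : ∀ t, t ≠ 0 → θ t * θ' t⁻¹ = 1) :
    ∃ σ : F →+* F, (∀ t, θ t = σ t) ∧ ∀ t, θ' t = σ t := by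
  have nz : ∀ t, t ≠ 0 → θ t ≠ 0 := fun t ht => left_ne_zero_of_mul_eq_one (hi t ht)
  have inv : ∀ t, t ≠ 0 → θ' t⁻¹ = (θ t)⁻¹ := fun t ht => eq_inv_of_mul_eq_one_right (hi t ht)
  have sq : ∀ t, θ (t * t) = θ t * θ t := by
    intro t
    by_cases t0 : t = 0
    · simp [t0]
    by_cases t1 : 1 - t = 0
    · rw [← sub_eq_zero.1 t1, mul_one, h1, mul_one]
    have e : (t - t * t)⁻¹ = t⁻¹ + (1 - t)⁻¹ := by
      rw [show t - t * t = t * (1 - t) by ring]; field_simp; ring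
    have t2 : t - t * t ≠ 0 := by
      rw [show t - t * t = t * (1 - t) by ring]; exact mul_ne_zero t0 t1
    have k := inv _ t2
    have n1 := nz _ t0
    have n2 := nz _ t1
    have n3 := nz _ t2
    rw [e, map_add, inv _ t0, inv _ t1] at k
    rw [map_sub] at k n2 n3
    rw [map_sub, h1] at k
    rw [h1] at n2
    generalize θ (t * t) = w at k n3 ⊢
    field_simp at k
    linear_combination -k
  have mul : ∀ s t, θ (s * t) = θ s * θ t := by
    intro s t
    have k := sq (s + t)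
    rw [show (s + t) * (s + t) = s * s + s * t + s * t + t * t by ring] at k
    simp only [map_add, sq] at k
    exact mul_left_cancel₀ h2 (by linear_combination k)
  let σ : F →+* F := { θ with map_one' := h1, map_mul' := mul }
  refine ⟨σ, fun _ => rfl, fun t => ?_⟩
  by_cases t0 : t = 0
  · rw [t0, map_zero, map_zero]
  · have k := inv t⁻¹ (inv_ne_zero t0)
    rw [inv_inv] at k
    rw [k]
    change (σ t⁻¹)⁻¹ = _
    rw [map_inv₀, inv_inv]

section chart

variable {F : Type} [Field F] {φ : Matrix.SpecialLinearGroup (Fin 2) F →* G}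

omit [Finite G] in
theorem pm (ker : ∀ g, φ g = 1 → g = 1 ∨ g = -1) {A B : Matrix.SpecialLinearGroup (Fin 2) F} (e : φ A = φ B) :
    A = B ∨ A = -B := by
  rcases ker (A * B⁻¹) (by rw [map_mul, map_inv, e, mul_inv_cancel]) with k | k
  · exact .inl (mul_inv_eq_one.1 k)
  · exact .inr (by rw [mul_inv_eq_iff_eq_mul] at k; rw [k, neg_one_mul])

omit [Finite G] in
theorem bd_inv (h2 : (2 : F) ≠ 0) (ker : ∀ g, φ g = 1 → g = 1 ∨ g = -1) {s r : F} (s0 : s ≠ 0)
    (d : Bd (φ (uu s)) (φ (ll r))) : s * r = -1 := by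
  unfold Bd at d
  simp only [← map_mul] at d
  rcases pm ker d with k | k
  · have := congrArg (fun A => A.1 0 1) k
    simp [mul_ap, uu_val, ll_val] at this
    linear_combination this.resolve_right s0
  · have := congrArg (fun A => A.1 0 0) k
    simp [mul_ap, uu_val, ll_val] at this
    exact mul_left_cancel₀ h2 (by linear_combination this)

/-- the Weyl element -/
def mu (s : F) : Matrix.SpecialLinearGroup (Fin 2) F := uu s * ll (-s⁻¹) * uu s

theorem dd_mu {s t : F} (hs : s ≠ 0) (ht : t ≠ 0) : dd s hs = mu (t * s) * (mu t)⁻¹ := by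
  rw [eq_mul_inv_iff_mul_eq]
  apply ext2 <;> simp [mu, mul_ap, uu_val, ll_val, dd_val] <;> field_simp <;> ring

theorem dd_mul {s t : F} (hs : s ≠ 0) (ht : t ≠ 0) : dd s hs * dd t ht = dd (s * t) (mul_ne_zero hs ht) := by
  apply ext2 <;> simp [mul_ap, dd_val, mul_comm]

theorem dd_neg {s : F} (hs : s ≠ 0) : dd (-s) (neg_ne_zero.2 hs) = -dd s hs := by
  apply ext2 <;> simp [dd_val, inv_neg]

theorem dd_one : dd (1 : F) one_ne_zero = 1 := by
  apply ext2 <;> simp [dd_val]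

theorem dd_congr {s t : F} (hs : s ≠ 0) (ht : t ≠ 0) (e : s = t) : dd s hs = dd t ht := by subst e; rfl

theorem uu_zpow (t : F) (k : ℤ) : uu t ^ k = uu (k * t) := by
  obtain ⟨n, rfl | rfl⟩ := k.eq_nat_or_neg
  · rw [zpow_natCast, uu_pow, Int.cast_natCast]
  · rw [zpow_neg, zpow_natCast, uu_pow, Int.cast_neg, Int.cast_natCast, neg_mul, uu_neg]

variable [Fintype F] [CharP F p]

omit [Finite Ω] in
theorem aut (h : Sys p S) (n : a ≠ b) (c : Chart S a b φ) {g : G} (ga : g • a = a) (gb : g • b = b)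
    (gn : ∀ A, g * φ A * g⁻¹ ∈ φ.range) : ∃ (α : F) (σ : F ≃+* F), α ≠ 0 ∧ (∀ t, g * φ (uu t) * g⁻¹ = φ (uu (α * σ t))) ∧
      (∀ t, g * φ (ll t) * g⁻¹ = φ (ll (α⁻¹ * σ t))) ∧
      (∀ s hs, g * φ (dd s hs) * g⁻¹ = φ (dd (σ s) ((map_ne_zero σ).2 hs))) ∧
      ∀ t, g • φ (uu t) • b = φ (uu (α * σ t)) • b := by
  have h2 := (cast_ne (K := F) h.pr h.p5).1
  choose f hf using fun t => c.of_E h n (ga ▸ h.E_conj g (c.uE t)) (gn (uu t))
  choose f' hf' using fun t => c.of_E' h n (gb ▸ h.E_conj g (c.lE t)) (gn (ll t))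
  have fa : ∀ s t, f (s + t) = f s + f t := fun s t => c.u_inj h n (by
    rw [uu_add, map_mul, hf, hf, hf, uu_add, map_mul]; group)
  have fa' : ∀ s t, f' (s + t) = f' s + f' t := fun s t => c.l_inj h n (by
    rw [ll_add, map_mul, hf', hf', hf', ll_add, map_mul]; group)
  have f0 : ∀ t, t ≠ 0 → f t ≠ 0 := fun t ht e => ht (c.u_inj h n (by
    have k := hf t
    rw [e, uu_zero, map_one] at k
    rw [uu_zero, map_one]
    simpa using k.symm))
  let θ := AddMonoidHom.mk' f fa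
  let θ' := AddMonoidHom.mk' f' fa'
  have hi : ∀ t, t ≠ 0 → f t * f' t⁻¹ = 1 := fun t ht => by
    have d := bd_uu φ ht
    have k : f t * θ' (-t⁻¹) = -1 := bd_inv h2 c.ker (f0 t ht) (by
      change Bd _ (φ (ll (f' _)))
      unfold Bd at d ⊢
      rw [hf, hf']
      have := congrArg (fun z => g * z * g⁻¹) d
      simpa only [mul_assoc, inv_mul_cancel_left] using this)
    rw [map_neg] at k
    change f t * -f' t⁻¹ = -1 at k
    linear_combination -k
  have α0 := f0 1 one_ne_zero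
  obtain ⟨σ, s1, s2⟩ := hua2 h2 ((AddMonoidHom.mulLeft (f 1)⁻¹).comp θ) ((AddMonoidHom.mulLeft (f 1)).comp θ')
    (inv_mul_cancel₀ α0) (fun t ht => by
      change (f 1)⁻¹ * f t * (f 1 * f' t⁻¹) = 1
      rw [mul_mul_mul_comm, inv_mul_cancel₀ α0, one_mul, hi t ht])
  let τ := RingEquiv.ofBijective σ (Finite.injective_iff_bijective.1 σ.injective)
  have e1 : ∀ t, g * φ (uu t) * g⁻¹ = φ (uu (f 1 * τ t)) := fun t => by
    rw [← hf]
    have k : (f 1)⁻¹ * f t = τ t := s1 t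
    rw [← k, mul_inv_cancel_left₀ α0]
  have e2 : ∀ t, g * φ (ll t) * g⁻¹ = φ (ll ((f 1)⁻¹ * τ t)) := fun t => by
    rw [← hf']
    have k : f 1 * f' t = τ t := s2 t
    rw [← k, inv_mul_cancel_left₀ α0]
  have e3 : ∀ t, g * φ (mu t) * g⁻¹ = φ (mu (f 1 * τ t)) := fun t => by
    have k : -(f 1 * τ t)⁻¹ = (f 1)⁻¹ * τ (-t⁻¹) := by rw [map_neg, map_inv₀, mul_inv, mul_neg]
    simp only [mu, map_mul]
    rw [k, ← e1, ← e2]; group
  refine ⟨f 1, τ, α0, e1, e2, fun s hs => ?_, fun t => ?_⟩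
  · have k1 := e3 (1 * s)
    have k2 := e3 1
    rw [map_one, mul_one] at k2
    rw [dd_mu hs one_ne_zero, dd_mu _ α0, map_mul, map_mul, map_inv, map_inv, ← k2]
    rw [one_mul] at k1 ⊢
    rw [← k1]; group
  · rw [← e1, mul_smul, mul_smul, inv_smul_eq_iff.2 gb.symm]

omit [Finite Ω] in
theorem full (h : Hz p S D) (n : a ≠ b) (c : Full S a b φ) {g : G} (ga : g • a = a) (gb : g • b = b) :
    ∃ (α : F) (σ : F ≃+* F), α ≠ 0 ∧ (∀ t, g * φ (uu t) * g⁻¹ = φ (uu (α * σ t))) ∧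
      (∀ t, g * φ (ll t) * g⁻¹ = φ (ll (α⁻¹ * σ t))) ∧
      (∀ s hs, g * φ (dd s hs) * g⁻¹ = φ (dd (σ s) ((map_ne_zero σ).2 hs))) ∧
      ∀ t, g • φ (uu t) • b = φ (uu (α * σ t)) • b := by
  refine aut h.toSys n c.toChart ga gb fun A => ?_
  have := gen_top ((φ.range.comap (MulAut.conj g).toMonoidHom).comap φ)
    (fun t => by
      obtain ⟨s, hs⟩ := c.uS _ (ga ▸ h.toSys.E_conj g (c.uE t))
      exact ⟨_, hs⟩)
    (fun t => by
      obtain ⟨s, hs⟩ := c.lS _ (gb ▸ h.toSys.E_conj g (c.lE t))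
      exact ⟨_, hs⟩)
  exact (this ▸ mem_top A : A ∈ (φ.range.comap (MulAut.conj g).toMonoidHom).comap φ)

end chart

end CL.Cq.AutA
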