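/- S3235, disconnected case: elements of small order fixing two points. -/
import Mathlib
import Cfsg.Agent.CHEV.Cq.AutA

set_option autoImplicit false
set_option linter.unusedSectionVars false

namespace CL.Cq.AutD

open Subgroup CL.PT CL.PT.L2x AutA

variable {p : ℕ} {G Ω : Type*} [Group G] [MulAction G Ω] [Finite G] [Finite Ω] {S : Ω → Set G} {D : Ω → Ω → ℤ → G}
  {a b c : Ω} {x y : G}

omit [Finite G] in
theorem nrm {R : Subgroup G} {g : G} (e : R = zpowers x ⊔ zpowers y) (hx : g * x * g⁻¹ ∈ R) (hy : g * y * g⁻¹ ∈ R)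
    {z : G} (hz : z ∈ R) : g * z * g⁻¹ ∈ R :=
  (e.le.trans (sup_le (zpowers_le.2 hx) (zpowers_le.2 hy)) : R ≤ R.comap (MulAut.conj g).toMonoidHom) hz

theorem cast_i {F : Type*} [Field F] [CharP F p] {i : ℤ} (hi : i * i ≡ -1 [ZMOD p]) : (i : F) * i = -1 := by
  have := (CharP.intCast_eq_intCast F p).2 hi
  push_cast at this
  exact this

variable (h : Hz p S D)
include h

theorem par (n : a ≠ b) (hx : x ∈ S a) : ∃ y ∈ S b, Bd x y := by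
  obtain ⟨y, hy⟩ := h.ex b
  obtain ⟨y', h1, -, h2, -⟩ := h.toSys.partner n hx hy
  exact ⟨y', h1, h2⟩

theorem mxg (n : a ≠ b) (hx : x ∈ S a) {g : G} (ga : g • a = a) (gb : g • b = b) {k : ℤ} (e : g * g * x * (g * g)⁻¹ = x ^ k) :
    ∃ (F : Type) (_ : Field F) (_ : Fintype F) (_ : CharP F p) (φ : Matrix.SpecialLinearGroup (Fin 2) F →* G)
      (α : F) (σ : F ≃+* F), Chart S a b φ ∧ φ (uu 1) = x ∧ α ≠ 0 ∧ (∀ t, σ (σ t) = t) ∧ α * σ α = k ∧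
      (∀ t, g * φ (uu t) * g⁻¹ = φ (uu (α * σ t))) ∧ (∀ t, g * φ (ll t) * g⁻¹ = φ (ll (α⁻¹ * σ t))) ∧
      (∀ s hs, g * φ (dd s hs) * g⁻¹ = φ (dd (σ s) ((map_ne_zero σ).2 hs))) := by
  obtain ⟨y, hy, d⟩ := par h n hx
  have hx' : g * x * g⁻¹ ∈ S a := ga ▸ h.conj g hx
  have hy' : g * y * g⁻¹ ∈ S b := gb ▸ h.conj g hy
  obtain ⟨F, _, _, _, φ, c, u1, l1, ⟨t₀, ht⟩, rg⟩ := h.chart2 n hx hx' hy d
  have t0 : t₀ ≠ 0 := fun e => h.ne hx' (by rw [← ht, e, uu_zero, map_one])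
  have d' : Bd (g * x * g⁻¹) (g * y * g⁻¹) := by
    have := congrArg (fun z => g * z * g⁻¹) d
    simpa only [Bd, mul_assoc, inv_mul_cancel_left] using this
  have ey : g * y * g⁻¹ = φ (ll (-t₀⁻¹)) :=
    h.toSys.uniq h.sr n hx' hy' (c.l_mem h.toSys n (ht ▸ hx')) d' (ht ▸ bd_uu φ t0)
  have e' : g * (g * x * g⁻¹) * g⁻¹ = φ (uu (k : F)) := by
    rw [← mul_one (k : F), ← uu_zpow, map_zpow, u1, ← e]; group
  obtain ⟨α, σ, α0, e1, e2, e3, -⟩ := aut h.toSys n c ga gb fun A => nrm rg ⟨_, e'.symm⟩ ⟨_, ey.symm⟩ ⟨A, rfl⟩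
  have ea : t₀ = α := c.u_inj h.toSys n (by rw [ht, ← u1, e1, map_one, mul_one])
  subst ea
  have ek : t₀ * σ t₀ = k := c.u_inj h.toSys n (by rw [← e1, ht, e'])
  have s0 : σ t₀ ≠ 0 := (map_ne_zero σ).2 t0
  have k0 : (k : F) ≠ 0 := ek ▸ mul_ne_zero t0 s0
  have sa : σ (σ t₀) = t₀ := by
    have := congrArg σ ek
    rw [map_mul, map_intCast, ← ek, mul_comm t₀] at this
    exact mul_left_cancel₀ s0 this
  refine ⟨F, inferInstance, inferInstance, inferInstance, φ, t₀, σ, c, u1, t0, fun t => ?_, ek, e1, e2, e3⟩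
  obtain ⟨ψ, -, p1, p2, p3, -⟩ := c.rescale h.toSys n (t₀ := (k : F)) (e' ▸ ga ▸ h.conj g hx')
  let χ : Matrix.SpecialLinearGroup (Fin 2) F →* G := (MulAut.conj (g * g)).toMonoidHom.comp φ
  have hχ : ∀ A, χ A = g * (g * φ A * g⁻¹) * g⁻¹ := fun A => by
    change g * g * φ A * (g * g)⁻¹ = _
    group
  have cu : ∀ t, χ (uu t) = φ (uu (σ (σ t) * k)) := fun t => by
    rw [hχ, e1, e1, map_mul, ← mul_assoc, ek, mul_comm]
  have m1 : uu t₀ ∈ χ.eqLocus ψ := by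
    change χ _ = ψ _
    rw [cu, p1, sa]
  have m2 : ll (-1) ∈ χ.eqLocus ψ := by
    change χ _ = ψ _
    rw [hχ, e2, e2, p2, ← ek]
    congr 2
    simp only [map_mul, map_inv₀, map_neg, map_one]
    field_simp
  have m3 : -1 ∈ χ.eqLocus ψ := by
    change χ _ = ψ _
    rw [← dd_one, ← dd_neg, hχ, e3, e3, p3]
    congr 1
    exact dd_congr _ _ (by simp)
  have m4 : φ.range ≤ (χ.eqLocus ψ).map φ :=
    rg.le.trans (sup_le (zpowers_le.2 ⟨_, m1, ht⟩) (zpowers_le.2 ⟨_, m2, l1⟩))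
  obtain ⟨B, hB, eB⟩ := m4 ⟨uu t, rfl⟩
  have m5 : uu t ∈ χ.eqLocus ψ := by
    rcases pm c.ker eB.symm with k | k
    · exact k ▸ hB
    · rw [k, ← neg_one_mul]; exact mul_mem m3 hB
  change χ _ = ψ _ at m5
  rw [cu, p1] at m5
  exact mul_right_cancel₀ k0 (c.u_inj h.toSys n m5)

/-- the field lemma -/
def ES : Prop := ∀ {F : Type} [Field F] [Finite F] (_ : (2 : F) ≠ 0) (σ : F ≃+* F) (_ : ∀ t, σ (σ t) = t) {ι ε α : F}
    (_ : ι * ι = -1) (_ : σ ι = ι) (_ : σ ε = ε) (_ : ε ≠ 0) (_ : α * σ α = ε * ε),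
    ∃ s : F, s ≠ 0 ∧ (α * σ (s * s) = ε * (s * s) ∨ α * σ (s * s) = -ε * (s * s))

/-- the second field lemma -/
def SF : Prop := ∀ {F : Type} [Field F] [Finite F] (_ : (2 : F) ≠ 0) (σ : F ≃+* F) (_ : ∀ t, σ (σ t) = t)
    (_ : ∃ t, σ t ≠ t) {c : F} (_ : σ c = c), IsSquare c

theorem eigen (es : ES) (n : a ≠ b) {i : ℤ} (hi : i * i ≡ -1 [ZMOD p]) {g : G} (ga : g • a = a) (gb : g • b = b) {k : ℤ}
    (hk : ¬ (p : ℤ) ∣ k) (hx : x ∈ S a) (e : g * g * x * (g * g)⁻¹ = x ^ (k * k)) :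
    ∃ z ∈ S a, g * z * g⁻¹ = z ^ k ∨ g * z * g⁻¹ = z ^ (-k) := by
  obtain ⟨F, _, _, _, φ, α, σ, c, u1, -, ss, ek, e1, -, -⟩ := mxg h n hx ga gb e
  obtain ⟨s, s0, hs⟩ := es (cast_ne (K := F) h.pr h.p5).1 σ ss (cast_i hi) (map_intCast σ i) (map_intCast σ k)
    (fun e => hk ((CharP.intCast_eq_zero_iff F p k).1 e)) (α := α) (by rw [ek, Int.cast_mul])
  have m := c.sq_mem h.toSys n c.u1 s0 (k := 1) (by simp)
  rw [Int.cast_one, one_mul, mul_one] at m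
  refine ⟨_, m, hs.imp (fun e => ?_) fun e => ?_⟩
  · rw [e1, e, ← map_zpow, uu_zpow]
  · rw [e1, e, ← map_zpow, uu_zpow, Int.cast_neg]

theorem mx (es : ES) (n : a ≠ b) {i : ℤ} (hi : i * i ≡ -1 [ZMOD p]) {s : G} (ss : s * s = 1) (sa : s • a = a) (sb : s • b = b) :
    ∃ x ∈ S a, s * x * s⁻¹ = x ∨ s * x * s⁻¹ = x⁻¹ := by
  obtain ⟨x, hx⟩ := h.ex a
  have := eigen h es n hi sa sb (k := 1) (fun e => h.pr.one_lt.ne' (by
    simpa using Int.natCast_dvd_natCast.1 (show (p : ℤ) ∣ (1 : ℕ) from e))) hx (by rw [ss]; simp)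
  simpa using this

theorem mx4 (es : ES) (sf : SF) {i : ℤ} (hi : i * i ≡ -1 [ZMOD p]) {g : G} (n : a ≠ b) (ca : c ≠ a) (cb : c ≠ b)
    (ga : g • a = a) (gb : g • b = b) (gc : g • c = c) (zc : D c a (-1) = 1) (g2 : g * g = D c a i) :
    ∃ s : G, Iv s ∧ s ≠ D c a i ∧ s • c = c ∧ s • a = a := by
  have ip : ¬ (p : ℤ) ∣ i := fun e => h.pr.one_lt.ne' (by
    have := (Int.ModEq.dvd hi).add (e.mul_right i)
    rw [sub_add_cancel, dvd_neg] at this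
    simpa using Int.natCast_dvd_natCast.1 (show (p : ℤ) ∣ (1 : ℕ) from this))
  have sc : Sc S c (D c a i) (-1) := h.Sc_mod (h.Dsc ca ip) hi
  have sa : Sc S a (D c a i) (i * i) := h.Sc_mod (h.sc_pm (.inr rfl) sc (h.Db i ca)) hi.symm
  have tr : ∀ {d d' : Ω} {e : ℤ} {z : G}, d ≠ d' → g • d' = d' → e * e ≡ -1 [ZMOD p] → z ∈ S d → g * z * g⁻¹ = z ^ e →
      ∃ z' ∈ S d', Bd z z' ∧ g * z' * g⁻¹ = z' ^ (-e) := fun m gd he hz k => by
    obtain ⟨z', hz', d⟩ := par h m hz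
    exact ⟨z', hz', d, h.eig m hz hz' d (by simpa using he.neg) k gd⟩
  have two : ∀ {e : ℤ} {z : G}, e * e ≡ -1 [ZMOD p] → z ∈ S a → g * z * g⁻¹ = z ^ e →
      (∃ z ∈ S c, g * z * g⁻¹ = z ^ e) ∧ ∃ z ∈ S c, g * z * g⁻¹ = z ^ (-e) := fun he hz k => by
    obtain ⟨y, hy, -, k1⟩ := tr n gb he hz k
    obtain ⟨z1, h1, -, k2⟩ := tr cb.symm gc (by simpa using he) hy k1
    obtain ⟨z2, h2, -, k3⟩ := tr ca.symm gc he hz k
    exact ⟨⟨z1, h1, by simpa using k2⟩, z2, h2, k3⟩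
  obtain ⟨x, hx⟩ := h.ex a
  obtain ⟨z, hz, k⟩ := eigen h es n hi ga gb ip hx (g2 ▸ sa x (subset_closure hx))
  obtain ⟨⟨x₂, h₂, k₂⟩, x₃, h₃, k₃⟩ : (∃ z ∈ S c, g * z * g⁻¹ = z ^ i) ∧ ∃ z ∈ S c, g * z * g⁻¹ = z ^ (-i) := by
    rcases k with k | k
    · exact two hi hz k
    · simpa using (two (by simpa using hi) hz k).symm
  obtain ⟨y, hy, d, ky⟩ := tr ca ga hi h₂ k₂
  obtain ⟨F, _, _, _, φ, ch, u1, -, ⟨β, hβ⟩, rg⟩ := h.chart2 ca h₂ h₃ hy d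
  obtain ⟨α, σ, α0, e1, -, e3, -⟩ := aut h.toSys ca ch gc ga fun A => nrm rg
    (by rw [k₃, rg]; exact zpow_mem (mem_sup_left (mem_zpowers _)) _)
    (by rw [ky, rg]; exact zpow_mem (mem_sup_right (mem_zpowers _)) _) ⟨A, rfl⟩
  have h2 := (cast_ne (K := F) h.pr h.p5).1
  have ii : (i : F) * i = -1 := cast_i hi
  have ea : α = i := ch.u_inj h.toSys ca (by
    rw [← mul_one α, ← map_one σ, ← e1, u1, k₂, ← u1, ← map_zpow, uu_zpow, mul_one])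
  subst ea
  have β0 : β ≠ 0 := fun e => h.ne h₃ (by rw [← hβ, e, uu_zero, map_one])
  have sβ : σ β = -β := mul_left_cancel₀ α0 (ch.u_inj h.toSys ca (by
    rw [← e1, hβ, k₃, ← hβ, ← map_zpow, uu_zpow, Int.cast_neg, neg_mul, mul_neg]))
  have ne : ∀ t : F, t ≠ 0 → -t ≠ t := fun t t0 e => t0 (mul_left_cancel₀ h2 (by linear_combination -e))
  have iv : ∀ t, D c a i * φ (uu t) * (D c a i)⁻¹ = φ (uu (-t)) := fun t => by
    rw [sc _ (ch.uE t), uu_neg, map_inv, zpow_neg_one]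
  have ss : ∀ t, σ (σ t) = t := fun t => by
    have k := iv t
    rw [← g2, show g * g * φ (uu t) * (g * g)⁻¹ = g * (g * φ (uu t) * g⁻¹) * g⁻¹ by group, e1, e1, map_mul,
      map_intCast, ← mul_assoc, ii] at k
    linear_combination -ch.u_inj h.toSys ca k
  obtain ⟨γ, hγ⟩ := sf h2 σ ss ⟨β, sβ ▸ ne β β0⟩ (map_intCast σ i)
  have γ0 : γ ≠ 0 := left_ne_zero_of_mul (hγ ▸ α0)
  have m1 : φ (-1) = 1 := by
    rw [← zc, h.Dch (F := F) (k := -1) (by simp) ca ch, ← dd_one, ← dd_neg]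
    exact congrArg φ (dd_congr _ _ (by simp))
  have gδ : g * φ (dd γ γ0) * g⁻¹ = φ (dd γ γ0) := by
    rw [e3]
    have k := congrArg σ hγ
    rw [map_intCast, map_mul, hγ] at k
    rcases mul_self_eq_mul_self_iff.1 k.symm with k | k
    · exact congrArg φ (dd_congr _ _ k)
    · rw [dd_congr _ (neg_ne_zero.2 γ0) k, dd_neg, ← neg_one_mul, map_mul, m1, one_mul]
  have δ2 : φ (dd γ γ0) * φ (dd γ γ0) = D c a i := by
    rw [← map_mul, dd_mul, h.Dch α0 ca ch]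
    exact congrArg φ (dd_congr _ _ hγ.symm)
  have act : ∀ t, g * φ (dd γ γ0) * φ (uu t) * (g * φ (dd γ γ0))⁻¹ = φ (uu (-σ t)) := fun t => by
    rw [show g * φ (dd γ γ0) * φ (uu t) * (g * φ (dd γ γ0))⁻¹ =
      g * (φ (dd γ γ0) * φ (uu t) * (φ (dd γ γ0))⁻¹) * g⁻¹ by group, ← map_inv, ← map_mul, ← map_mul, dd_uu, e1, ← hγ,
      map_mul, map_intCast, ← mul_assoc, ii, neg_one_mul]
  refine ⟨g * φ (dd γ γ0), ⟨?_, fun e => ?_⟩, fun e => ?_, ?_, ?_⟩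
  · have : g * φ (dd γ γ0) * (g * φ (dd γ γ0)) = g * g * (φ (dd γ γ0) * φ (dd γ γ0)) := by
      rw [mul_inv_eq_iff_eq_mul] at gδ
      rw [mul_assoc g, ← mul_assoc _ g, ← gδ]; group
    rw [this, g2, δ2, ← h.Dmul ca ip ip, h.Dmod ca hi, zc]
  · have k := act 1
    rw [e, one_mul, inv_one, mul_one, map_one] at k
    exact ne 1 one_ne_zero (ch.u_inj h.toSys ca k).symm
  · have k := act β
    rw [e, iv, sβ, neg_neg] at k
    exact ne β β0 (ch.u_inj h.toSys ca k)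
  · rw [mul_smul, (ch.d_smul h.toSys ca γ γ0).1, gc]
  · rw [mul_smul, (ch.d_smul h.toSys ca γ γ0).2, ga]

end CL.Cq.AutD
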