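/- S3235, disconnected case: automorphisms of charts, involutions and elements of order 4. -/
import Mathlib
import Cfsg.Agent.CHEV.Cq.Tor
import Cfsg.Agent.CHEV.Cq.AutB
import Cfsg.Agent.CHEV.Cq.AutC
import Cfsg.Agent.CHEV.Cq.AutD

set_option autoImplicit false
set_option linter.unusedSectionVars false

namespace CL.Cq

open Subgroup CL.PT CL.PT.L2x

variable {p : ℕ} {G Ω : Type*} [Group G] [MulAction G Ω] [Finite G] [Finite Ω] {S : Ω → Set G} {D : Ω → Ω → ℤ → G}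
  {a b c : Ω} {x y : G}

theorem hua2 {F : Type*} [Field F] (h2 : (2 : F) ≠ 0) (θ θ' : F →+ F) (h1 : θ 1 = 1) (hi : ∀ t, t ≠ 0 → θ t * θ' t⁻¹ = 1) :
    ∃ σ : F →+* F, (∀ t, θ t = σ t) ∧ ∀ t, θ' t = σ t :=
  AutA.hua2 h2 θ θ' h1 hi

section chart

variable {F : Type} [Field F] [Fintype F] [CharP F p] {φ : Matrix.SpecialLinearGroup (Fin 2) F →* G}

theorem Chart.aut (h : Sys p S) (n : a ≠ b) (c : Chart S a b φ) {g : G} (ga : g • a = a) (gb : g • b = b)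
    (gn : ∀ A, g * φ A * g⁻¹ ∈ φ.range) : ∃ (α : F) (σ : F ≃+* F), α ≠ 0 ∧ (∀ t, g * φ (uu t) * g⁻¹ = φ (uu (α * σ t))) ∧
      (∀ t, g * φ (ll t) * g⁻¹ = φ (ll (α⁻¹ * σ t))) ∧
      (∀ s hs, g * φ (dd s hs) * g⁻¹ = φ (dd (σ s) ((map_ne_zero σ).2 hs))) ∧
      ∀ t, g • φ (uu t) • b = φ (uu (α * σ t)) • b :=
  AutA.aut h n c ga gb gn

theorem Full.aut (h : Hz p S D) (n : a ≠ b) (c : Full S a b φ) {g : G} (ga : g • a = a) (gb : g • b = b) :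
    ∃ (α : F) (σ : F ≃+* F), α ≠ 0 ∧ (∀ t, g * φ (uu t) * g⁻¹ = φ (uu (α * σ t))) ∧
      (∀ t, g * φ (ll t) * g⁻¹ = φ (ll (α⁻¹ * σ t))) ∧
      (∀ s hs, g * φ (dd s hs) * g⁻¹ = φ (dd (σ s) ((map_ne_zero σ).2 hs))) ∧
      ∀ t, g • φ (uu t) • b = φ (uu (α * σ t)) • b :=
  AutA.full h n c ga gb

theorem Hz.v4 (h : Hz p S D) (n : a ≠ b) (c : Chart S a b φ) (z1 : D a b (-1) = 1) {ι : F} (hι : ι * ι = -1) (ι0 : ι ≠ 0)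
    (sc : Sc S a (φ (dd ι ι0)) (-1)) : Even (Nat.card Ω) ∧ Even (Fx Ω (φ (dd ι ι0))).ncard ∧
      IsConj (φ (dd ι ι0)) (φ ww) ∧ IsConj (φ (dd ι ι0)) (φ (dd ι ι0) * φ ww) :=
  h.v4B n c z1 hι ι0 sc

end chart

namespace Hz

variable (h : Hz p S D)
include h

theorem v4' (n : a ≠ b) (z1 : D a b (-1) = 1) {i : ℤ} (hi : i * i ≡ -1 [ZMOD p]) (hx : x ∈ S a) (hy : y ∈ S b) (d : Bd x y) :
    Iv (D a b i) ∧ Iv (x * y * x) ∧ Commute (D a b i) (x * y * x) ∧ Sc S a (D a b i) (-1) ∧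
      Even (Nat.card Ω) ∧ Even (Fx Ω (D a b i)).ncard ∧
      ∃ ρ : G, ρ * D a b i * ρ⁻¹ = x * y * x ∧ ρ * (x * y * x) * ρ⁻¹ = D a b i * (x * y * x) :=
  h.v4B' n z1 hi hx hy d

theorem mxg (n : a ≠ b) (hx : x ∈ S a) {g : G} (ga : g • a = a) (gb : g • b = b) {k : ℤ} (e : g * g * x * (g * g)⁻¹ = x ^ k) :
    ∃ (F : Type) (_ : Field F) (_ : Fintype F) (_ : CharP F p) (φ : Matrix.SpecialLinearGroup (Fin 2) F →* G)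
      (α : F) (σ : F ≃+* F), Chart S a b φ ∧ φ (uu 1) = x ∧ α ≠ 0 ∧ (∀ t, σ (σ t) = t) ∧ α * σ α = k ∧
      (∀ t, g * φ (uu t) * g⁻¹ = φ (uu (α * σ t))) ∧ (∀ t, g * φ (ll t) * g⁻¹ = φ (ll (α⁻¹ * σ t))) ∧
      (∀ s hs, g * φ (dd s hs) * g⁻¹ = φ (dd (σ s) ((map_ne_zero σ).2 hs))) :=
  AutD.mxg h n hx ga gb e

end Hz

theorem eig_sq {F : Type*} [Field F] [Finite F] (h2 : (2 : F) ≠ 0) (σ : F ≃+* F) (ss : ∀ t, σ (σ t) = t) {ι ε α : F}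
    (hι : ι * ι = -1) (σι : σ ι = ι) (σε : σ ε = ε) (ε0 : ε ≠ 0) (hα : α * σ α = ε * ε) :
    ∃ s : F, s ≠ 0 ∧ (α * σ (s * s) = ε * (s * s) ∨ α * σ (s * s) = -ε * (s * s)) :=
  eig_sqC h2 σ ss hι σι σε ε0 hα

namespace Hz

variable (h : Hz p S D)
include h

theorem mx (n : a ≠ b) {i : ℤ} (hi : i * i ≡ -1 [ZMOD p]) {s : G} (ss : s * s = 1) (sa : s • a = a) (sb : s • b = b) :
    ∃ x ∈ S a, s * x * s⁻¹ = x ∨ s * x * s⁻¹ = x⁻¹ :=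
  AutD.mx h (fun h2 σ ss _ _ _ => eig_sqC h2 σ ss) n hi ss sa sb

theorem mx4 {i : ℤ} (hi : i * i ≡ -1 [ZMOD p]) {g : G} (n : a ≠ b) (ca : c ≠ a) (cb : c ≠ b) (ga : g • a = a) (gb : g • b = b)
    (gc : g • c = c) (zc : D c a (-1) = 1) (g2 : g * g = D c a i) :
    ∃ s : G, Iv s ∧ s ≠ D c a i ∧ s • c = c ∧ s • a = a :=
  AutD.mx4 h (fun h2 σ ss _ _ _ => eig_sqC h2 σ ss) (fun h2 σ ss ne _ => sq_fix h2 σ ss ne) hi n ca cb ga gb gc zc g2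

end Hz

end CL.Cq
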