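/- S3235, disconnected case (h43): definitions. -/
import Mathlib
import Cfsg.Agent.CHEV.PT.L2

set_option autoImplicit false

namespace CL.Cq

open Subgroup CL.PT CL.PT.L2x

variable {G Ω : Type*} [Group G] [MulAction G Ω]

/-- `S a` : the generators of the members of the class that belong to the point `a` -/
structure Sys (p : ℕ) (S : Ω → Set G) : Prop where
  pr : p.Prime
  p5 : 5 ≤ p
  pow : ∀ {a x}, x ∈ S a → x ^ p = 1
  ne : ∀ {a x}, x ∈ S a → x ≠ 1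
  ex : ∀ a, ∃ x, x ∈ S a
  conj : ∀ (g : G) {a x}, x ∈ S a → g * x * g⁻¹ ∈ S (g • a)
  zpow : ∀ {a x} {k : ℤ}, x ∈ S a → x ^ k ≠ 1 → x ^ k ∈ S a
  comm : ∀ {a x y}, x ∈ S a → y ∈ S a → Commute x y
  fix : ∀ {a x}, x ∈ S a → x • a = a
  l2 : ∀ {a b x y}, a ≠ b → x ∈ S a → y ∈ S b → IsL2 p ↥(zpowers x ⊔ zpowers y)

/-- the root group -/
def E (S : Ω → Set G) (a : Ω) : Subgroup G := closure (S a)

/-- the root group relative to `X` -/
def Ep (S : Ω → Set G) (X : Subgroup G) (a : Ω) : Subgroup G := closure (S a ∩ X)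

/-- the braid relation -/
def Bd (x y : G) : Prop := x * y * x = y * x * y

/-- the orbit of `b` under `U` -/
def orb (U : Subgroup G) (b : Ω) : Set Ω := {c | ∃ u ∈ U, u • b = c}

/-- the fixed points -/
def Fx (Ω : Type*) [MulAction G Ω] (g : G) : Set Ω := {c | g • c = c}

/-- the conclusion, relative to `X` acting on `Φ` -/
structure RCon (S : Ω → Set G) (X : Subgroup G) (Φ : Set Ω) : Prop where
  sr : ∀ a ∈ Φ, ∀ b ∈ Φ, a ≠ b → ∀ e ∈ Ep S X a, e • b = b → ∀ c ∈ Φ, e • c = c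
  g2 : ∀ a ∈ Φ, ∀ b ∈ Φ, a ≠ b → ∃ x ∈ S a, x ∈ X ∧ ∃ y ∈ S b, y ∈ X ∧
    ∀ e ∈ Ep S X a, ∃ g ∈ zpowers x ⊔ zpowers y, ∀ c ∈ Φ, e • c = g • c
  ct : ∀ a ∈ Φ, ∀ b ∈ Φ, a ≠ b → Φ.ncard = (orb (Ep S X a) b).ncard + 1 ∨
    (Φ.ncard = (orb (Ep S X a) b).ncard ^ 3 + 1 ∧
      ∀ x ∈ S a, x ∈ X → ∀ y ∈ S b, y ∈ X → Bd x y → ∃ c ∈ Φ, (x * y) ^ 3 • c ≠ c)

/-- the hypothesis of the induction step -/
structure Hy (p : ℕ) (S : Ω → Set G) : Prop extends Sys p S where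
  faith : ∀ g : G, (∀ c : Ω, g • c = c) → g = 1
  gen : closure (⋃ a, S a) = ⊤
  two : Nontrivial Ω
  ih : ∀ (X : Subgroup G) (Φ : Set Ω), Φ ≠ Set.univ → (∀ g ∈ X, ∀ c ∈ Φ, g • c ∈ Φ) →
    (∀ c ∈ Φ, ∃ x ∈ S c, x ∈ X) → RCon S X Φ

/-- the conclusion of the induction step -/
def Done (p : ℕ) (S : Ω → Set G) : Prop := RCon S ⊤ Set.univ ∧ Concl p G

/-- the root groups are semiregular -/
def SR (S : Ω → Set G) : Prop := ∀ {a b : Ω}, a ≠ b → ∀ e ∈ E S a, e • b = b → e = 1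

/-- a chart of the pair `a, b` -/
structure Chart (S : Ω → Set G) (a b : Ω) {F : Type} [Field F]
    (φ : Matrix.SpecialLinearGroup (Fin 2) F →* G) : Prop where
  ker : ∀ g, φ g = 1 → g = 1 ∨ g = -1
  u1 : φ (uu 1) ∈ S a
  l1 : φ (ll (-1)) ∈ S b
  uE : ∀ t, φ (uu t) ∈ E S a
  lE : ∀ t, φ (ll t) ∈ E S b

/-- a chart that covers the root groups -/
structure Full (S : Ω → Set G) (a b : Ω) {F : Type} [Field F]
    (φ : Matrix.SpecialLinearGroup (Fin 2) F →* G) : Prop extends Chart S a b φ where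
  uS : ∀ e ∈ E S a, ∃ t, φ (uu t) = e
  lS : ∀ e ∈ E S b, ∃ t, φ (ll t) = e

/-- `a, b` is a line pair -/
def LP (p : ℕ) (S : Ω → Set G) (a b : Ω) : Prop :=
  ∃ (F : Type) (_ : Field F) (_ : Fintype F) (_ : CharP F p) (φ : Matrix.SpecialLinearGroup (Fin 2) F →* G), Full S a b φ

/-- `g` acts on `E a` as the scalar `k` -/
def Sc (S : Ω → Set G) (a : Ω) (g : G) (k : ℤ) : Prop := ∀ e ∈ E S a, g * e * g⁻¹ = e ^ k

/-- the semiregular case, with the canonical torus `D a b k = diag(k, k⁻¹)` of the prime field (`k` prime to `p`) -/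
structure Hz (p : ℕ) (S : Ω → Set G) (D : Ω → Ω → ℤ → G) : Prop extends Hy p S where
  sr : SR S
  Dmul : ∀ {a b k l}, a ≠ b → ¬ (p : ℤ) ∣ k → ¬ (p : ℤ) ∣ l → D a b (k * l) = D a b k * D a b l
  Dmod : ∀ {a b k l}, a ≠ b → k ≡ l [ZMOD p] → D a b k = D a b l
  D1 : ∀ {a b}, a ≠ b → D a b 1 = 1
  Deqv : ∀ (g : G) {a b} (k), a ≠ b → D (g • a) (g • b) k = g * D a b k * g⁻¹
  Dsym : ∀ {a b} (k), a ≠ b → D b a k = (D a b k)⁻¹
  Da : ∀ {a b} (k), a ≠ b → D a b k • a = a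
  Db : ∀ {a b} (k), a ≠ b → D a b k • b = b
  Dsc : ∀ {a b k}, a ≠ b → ¬ (p : ℤ) ∣ k → Sc S a (D a b k) (k * k)
  Dmem : ∀ {a b x y} (k), a ≠ b → x ∈ S a → y ∈ S b → D a b k ∈ zpowers x ⊔ zpowers y
  Dneg : ∀ {a b x y}, a ≠ b → x ∈ S a → y ∈ S b → Bd x y → D a b (-1) = (x * y) ^ 3
  Dch : ∀ {a b} {F : Type} [Field F] [CharP F p] {φ : Matrix.SpecialLinearGroup (Fin 2) F →* G} {k : ℤ}
    (hk : (k : F) ≠ 0), a ≠ b → Chart S a b φ → D a b k = φ (dd (k : F) hk)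

/-- the centraliser of the root group -/
def C (S : Ω → Set G) (a : Ω) : Subgroup G := centralizer (E S a : Set G)

/-- the elements centralising `E a` and fixing `b` -/
def W (S : Ω → Set G) (a b : Ω) : Subgroup G := C S a ⊓ MulAction.stabilizer G b

/-- the line through `a` and `b` -/
def Ln (S : Ω → Set G) (a b : Ω) : Set Ω := insert a (orb (E S a) b)

/-- doubly transitive -/
def Tr2 (G Ω : Type*) [Group G] [MulAction G Ω] : Prop :=
  ∀ {a b c d : Ω}, a ≠ b → c ≠ d → ∃ g : G, g • a = c ∧ g • b = d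

/-- `U` is transitive on the points different from `a` -/
def Trs (U : Subgroup G) (a : Ω) : Prop := ∀ {x y : Ω}, x ≠ a → y ≠ a → ∃ u ∈ U, u • x = y

/-- a nilpotent normal subgroup of the stabiliser of `a`, transitive on the other points -/
structure Nil (a : Ω) (U : Subgroup G) : Prop where
  fix : ∀ u ∈ U, u • a = a
  cj : ∀ g : G, g • a = a → ∀ u ∈ U, g * u * g⁻¹ ∈ U
  nil : Group.IsNilpotent U
  utr : Trs U a

/-- the end of every branch -/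
def End (G Ω : Type*) [Group G] [MulAction G Ω] : Prop := ∃ (a : Ω) (U : Subgroup G), Nil a U

/-- an involution -/
def Iv (s : G) : Prop := s * s = 1 ∧ s ≠ 1

/-- `s` centralises an element of some `S a` -/
def Plus (S : Ω → Set G) (s : G) : Prop := ∃ a, ∃ x ∈ S a, Commute s x

/-- some 2-subgroup fixes exactly `a` and `b` -/
def Good (G : Type*) {Ω : Type*} [Group G] [MulAction G Ω] (a b : Ω) : Prop :=
  ∃ T : Subgroup G, IsPGroup 2 T ∧ ∀ c : Ω, (∀ g ∈ T, g • c = c) ↔ c = a ∨ c = b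

theorem mem_C {S : Ω → Set G} {a : Ω} {g : G} : g ∈ C S a ↔ ∀ e ∈ E S a, e * g = g * e := Iff.rfl
theorem mem_W {S : Ω → Set G} {a b : Ω} {g : G} : g ∈ W S a b ↔ g ∈ C S a ∧ g • b = b := Iff.rfl
theorem Ep_top (S : Ω → Set G) (a : Ω) : Ep S ⊤ a = E S a := by simp [Ep, E]
theorem Ep_le (S : Ω → Set G) (X : Subgroup G) (a : Ω) : Ep S X a ≤ E S a := closure_mono Set.inter_subset_left
theorem Ep_eq {S : Ω → Set G} {X : Subgroup G} {a : Ω} (h : E S a ≤ X) : Ep S X a = E S a := by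
  unfold Ep E
  rw [Set.inter_eq_left.2 fun x hx => h (subset_closure hx)]

end CL.Cq
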