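/- S3235, disconnected case: the pure part of `Cq/Cl`. -/
import Mathlib
import Cfsg.Agent.CHEV.Cq.Defs
import Cfsg.Agent.TECH.Conj

set_option autoImplicit false

namespace CL.Cq.ClA

open Subgroup CL.PT CL.PT.L2x

variable {G Ω : Type*} [Group G] [MulAction G Ω] [Finite G] [Finite Ω]

omit [Finite Ω] in
theorem cl (X : Subgroup G) (d : G) (Δ : Set Ω) (iv : ∀ x ∈ X, ∀ c ∈ Δ, x • c ∈ Δ) (od : ∀ c ∈ Δ, ∃ x ∈ X, d • c = x • c)
    (fx : ∀ x ∈ X, ∀ c ∈ Δ, ∀ c' ∈ Δ, (x * d) • c = c → (x * d) • c' = c' → c = c') :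
    ∀ c ∈ Δ, ∀ c' ∈ Δ, ∃ x ∈ X, x • c = c' := by
  intro c hc c' hc'
  have ex : ∀ e : Ω, ∃ y : X, ∀ g : X, (g : G) • c = e → (y : G) • c = d • e := by
    intro e
    by_cases h : ∃ g : X, (g : G) • c = e
    · obtain ⟨g, rfl⟩ := h
      obtain ⟨x, hx, e⟩ := od _ (iv g g.2 c hc)
      exact ⟨⟨x, hx⟩ * g, fun _ _ => by rw [e, coe_mul, mul_smul]⟩
    · exact ⟨1, fun g hg => absurd ⟨g, hg⟩ h⟩
  choose t ht using ex
  let φ : X → X := fun g => g * (t ((g : G) • c))⁻¹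
  have f1 : ∀ g : X, ((φ g : G) * d) • (g : G) • c = (g : G) • c := fun g => by
    rw [mul_smul, ← ht _ g rfl]
    simp [φ, mul_smul]
  have inj : Function.Injective φ := fun g g' e => by
    have := fx _ (φ g).2 _ (iv g g.2 c hc) _ (iv g' g'.2 c hc) (f1 g) (e ▸ f1 g')
    simp only [φ, this] at e
    exact mul_right_cancel e
  obtain ⟨x, hx, e⟩ := od c' hc'
  obtain ⟨g, hg⟩ := Finite.surjective_of_injective inj ⟨x⁻¹, inv_mem hx⟩
  refine ⟨g, g.2, fx _ (φ g).2 _ (iv g g.2 c hc) _ hc' (f1 g) ?_⟩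
  rw [hg, mul_smul, e, inv_smul_smul]

open Equiv.Perm in
theorem sg0 {α : Type*} [Fintype α] [DecidableEq α] (σ : Equiv.Perm α) : σ ^ 8 = 1 → ∃ u v w : ℕ,
    σ.support.card = (σ ^ 2).support.card + 2 * u ∧ (σ ^ 2).support.card = (σ ^ 4).support.card + 4 * v ∧
      (σ ^ 4).support.card = 8 * w ∧ sign σ = (-1) ^ (u + v + w) := by
  induction σ using cycle_induction_on with
  | base_one => exact fun _ => ⟨0, 0, 0, by simp⟩
  | base_cycles σ hσ =>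
    intro h
    have o := hσ.orderOf
    have d : orderOf σ ∣ 2 ^ 3 := orderOf_dvd_of_pow_eq_one h
    have h2 := hσ.two_le_card_support
    have sn := hσ.sign
    have z : ∀ k, orderOf σ ∣ k → (σ ^ k).support.card = 0 := fun k hk => by
      rw [orderOf_dvd_iff_pow_eq_one.1 hk]; simp
    have nz : ∀ k, ¬ orderOf σ ∣ k → (σ ^ k).support.card = orderOf σ := fun k hk => by
      rw [hσ.support_pow_eq_iff.2 hk, o]
    rw [← o] at h2 sn ⊢
    obtain ⟨k, hk, e⟩ := (Nat.dvd_prime_pow Nat.prime_two).1 d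
    rw [e] at h2 sn z nz ⊢
    interval_cases k
    · omega
    · have := z 2 (by norm_num)
      have := z 4 (by norm_num)
      exact ⟨1, 0, 0, by omega, by omega, by omega, by rw [sn]; decide⟩
    · have := nz 2 (by norm_num)
      have := z 4 (by norm_num)
      exact ⟨0, 1, 0, by omega, by omega, by omega, by rw [sn]; decide⟩
    · have := nz 2 (by norm_num)
      have := nz 4 (by norm_num)
      exact ⟨0, 0, 1, by omega, by omega, by omega, by rw [sn]; decide⟩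
  | induction_disjoint σ τ hd _ h1 h2 =>
    intro h
    rw [hd.commute.mul_pow, (hd.pow_disjoint_pow 8 8).mul_eq_one_iff] at h
    obtain ⟨u, v, w, a1, a2, a3, a4⟩ := h1 h.1
    obtain ⟨u', v', w', b1, b2, b3, b4⟩ := h2 h.2
    refine ⟨u + u', v + v', w + w', ?_⟩
    rw [hd.commute.mul_pow, hd.commute.mul_pow, hd.card_support_mul, (hd.pow_disjoint_pow 2 2).card_support_mul,
      (hd.pow_disjoint_pow 4 4).card_support_mul, map_mul, a4, b4, ← pow_add]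
    refine ⟨by omega, by omega, by omega, ?_⟩
    congr 1
    omega

omit [Finite G] in
theorem sg (X : Subgroup G) (Φ : Set Ω) (iv : ∀ x ∈ X, ∀ c ∈ Φ, x • c ∈ Φ) : ∃ ε : X →* ℤˣ, ∀ g : X,
    (∀ c ∈ Φ, (g : G) ^ 8 • c = c) → ∃ u v w : ℕ,
      (Φ ∩ Fx Ω ((g : G) ^ 2)).ncard = (Φ ∩ Fx Ω (g : G)).ncard + 2 * u ∧
      (Φ ∩ Fx Ω ((g : G) ^ 4)).ncard = (Φ ∩ Fx Ω ((g : G) ^ 2)).ncard + 4 * v ∧
      Φ.ncard = (Φ ∩ Fx Ω ((g : G) ^ 4)).ncard + 8 * w ∧ ε g = (-1) ^ (u + v + w) := by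
  classical
  let T : SubMulAction X Ω := ⟨Φ, fun x _ hc => iv x x.2 _ hc⟩
  haveI : Fintype T := Fintype.ofFinite T
  let ρ := MulAction.toPermHom X T
  have key : ∀ g : X, (Φ ∩ Fx Ω (g : G)).ncard + (ρ g).support.card = Φ.ncard := by
    intro g
    have e1 : Φ ∩ Fx Ω (g : G) = Subtype.val '' (((ρ g).supportᶜ : Finset T) : Set T) := by
      ext c
      constructor
      · rintro ⟨h1, h2⟩
        exact ⟨⟨c, h1⟩, by simpa using (Subtype.ext h2 : ρ g ⟨c, h1⟩ = ⟨c, h1⟩), rfl⟩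
      · rintro ⟨c, hc, rfl⟩
        have : ρ g c = c := by simpa using hc
        exact ⟨c.2, congrArg Subtype.val this⟩
    rw [e1, Set.ncard_image_of_injective _ Subtype.val_injective, Set.ncard_coe_finset, Finset.card_compl_add_card,
      ← Nat.card_eq_fintype_card]
    rfl
  refine ⟨Equiv.Perm.sign.comp ρ, fun g hg => ?_⟩
  obtain ⟨u, v, w, a1, a2, a3, a4⟩ := sg0 (ρ g) (by
    rw [← map_pow]
    exact Equiv.ext fun c => Subtype.ext (hg c c.2))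
  have k1 := key g
  have k2 := key (g ^ 2)
  have k4 := key (g ^ 4)
  rw [map_pow, coe_pow] at k2 k4
  exact ⟨u, v, w, by omega, by omega, by omega, a4⟩

theorem fix_mod {s : ℕ} (hs : s.Prime) {R : Subgroup G} (hR : IsPGroup s R) (Φ : Set Ω) (iv : ∀ x ∈ R, ∀ c ∈ Φ, x • c ∈ Φ) :
    Φ.ncard ≡ {c ∈ Φ | ∀ x ∈ R, x • c = c}.ncard [MOD s] := by
  haveI : Fact s.Prime := ⟨hs⟩
  let T : SubMulAction R Ω := ⟨Φ, fun x _ hc => iv x x.2 _ hc⟩
  have h := hR.card_modEq_card_fixedPoints T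
  have e1 : {c ∈ Φ | ∀ x ∈ R, x • c = c} = Subtype.val '' MulAction.fixedPoints R T := by
    ext c
    constructor
    · rintro ⟨h1, h2⟩
      exact ⟨⟨c, h1⟩, fun x => Subtype.ext (h2 x x.2), rfl⟩
    · rintro ⟨c, hc, rfl⟩
      exact ⟨c.2, fun x hx => congrArg Subtype.val (hc ⟨x, hx⟩)⟩
  rw [e1, Set.ncard_image_of_injective _ Subtype.val_injective]
  exact h

theorem dih {u v : G} (hu : u * u = 1) (hv : v * v = 1) :
    (Odd (orderOf (u * v)) ∧ ∃ k : ℕ, (u * v) ^ k * u * ((u * v) ^ k)⁻¹ = v ∧ ∃ l : ℕ, ((u * v) ^ l * u) * u * ((u * v) ^ l * u)⁻¹ = v) ∨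
      ∃ k l : ℕ, Iv ((u * v) ^ k) ∧ Commute ((u * v) ^ k) u ∧ Commute ((u * v) ^ k) v ∧
        ((u * v) ^ k * u = (u * v) ^ l * u * ((u * v) ^ l)⁻¹ ∨ (u * v) ^ k * u = (u * v) ^ l * v * ((u * v) ^ l)⁻¹) := by
  have iu : u⁻¹ = u := inv_eq_of_mul_eq_one_right hu
  have iv : v⁻¹ = v := inv_eq_of_mul_eq_one_right hv
  have s1 : SemiconjBy u (u * v)⁻¹ (u * v) := by
    show u * (u * v)⁻¹ = u * v * u
    rw [mul_inv_rev, iu, iv, mul_assoc]
  have ev : v = (u * v)⁻¹ * u := by rw [mul_inv_rev, iv, mul_assoc, inv_mul_cancel, mul_one]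
  generalize u * v = r at s1 ev ⊢
  subst ev
  have s2 : ∀ k : ℕ, u * (r ^ k)⁻¹ = r ^ k * u := fun k => by rw [← inv_pow]; exact s1.pow_right k
  have c1 : ∀ k : ℕ, r ^ k * u * (r ^ k)⁻¹ = r ^ (2 * k) * u := fun k => by rw [mul_assoc, s2, two_mul, pow_add, mul_assoc]
  have po := pow_orderOf_eq_one r
  rcases Nat.even_or_odd' (orderOf r) with ⟨m, e | e⟩
  · right
    have m0 : 0 < m := by have := orderOf_pos r; omega
    have ww : r ^ m * r ^ m = 1 := by rw [← pow_add, ← two_mul, ← e, po]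
    have cu : Commute (r ^ m) u := by
      show r ^ m * u = u * r ^ m
      rw [← s2, inv_eq_of_mul_eq_one_right ww]
    have w1 : r ^ m ≠ 1 := pow_ne_one_of_lt_orderOf m0.ne' (by omega)
    have cv : Commute (r ^ m) (r⁻¹ * u) := ((Commute.refl r).pow_left m).inv_right.mul_right cu
    rcases Nat.even_or_odd' m with ⟨l, f | f⟩
    · exact ⟨m, l, ⟨ww, w1⟩, cu, cv, Or.inl (by rw [c1, f])⟩
    · refine ⟨m, l + 1, ⟨ww, w1⟩, cu, cv, Or.inr ?_⟩
      rw [mul_assoc, mul_assoc, s2, f]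
      group
  · left
    have e1 : r ^ m * u * (r ^ m)⁻¹ = r⁻¹ * u := by
      rw [c1, eq_inv_of_mul_eq_one_left (show r ^ (2 * m) * r = 1 by rw [← pow_succ, ← e, po])]
    refine ⟨⟨m, e⟩, m, e1, m, ?_⟩
    rw [← e1]
    group

theorem le_of_cen {s : ℕ} (hs : s.Prime) {R W : Subgroup G} (hR : IsPGroup s R) (ne : R ⊓ W ≠ ⊥)
    (h : ∀ c ∈ R, c ∈ W → c ≠ 1 → ∀ g ∈ R, Commute c g → g ∈ W) : R ≤ W := by
  haveI : Fact s.Prime := ⟨hs⟩
  by_contra hn
  have lt := MSS.lt_inf_normalizer_of_lt hR (inf_lt_left.2 hn)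
  obtain ⟨⟨c, ⟨cR, cW⟩, cc⟩, c1⟩ := (ne_bot_iff_exists_ne_one).1
    (MSS.inf_centralizer_ne_bot (hR.to_le inf_le_left) (hR.to_le inf_le_left) inf_le_right ne)
  exact lt.not_ge fun g hg => ⟨hg.1, h c cR cW (fun e => c1 (Subtype.ext e)) g hg.1 (cc g hg).symm⟩

end CL.Cq.ClA
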