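/- S3235, disconnected case: a nilpotency criterion, definitions. -/
import Mathlib
import Cfsg.Agent.CHEV.Cq.Defs

set_option autoImplicit false

namespace CL.Cq

open Subgroup

variable {Γ : Type*} [Group Γ] [Finite Γ]

/-- `g` normalises `H` -/
def Nm (g : Γ) (H : Subgroup Γ) : Prop := ∀ x ∈ H, g * x * g⁻¹ ∈ H

/-- `[H, d]` -/
def Cm (H : Subgroup Γ) (d : Γ) : Subgroup Γ := closure {c | ∃ x ∈ H, c = x * d * x⁻¹ * d⁻¹}

/-- `A` is a set of operators (elements normalising `O`).  A FACTOR is a pair `M₂ < M₁ ≤ O` of subgroups normalised by `O` and `A`, with nothing of this kind strictly between; for solvable `O` it is elementary abelian: `x ^ s ∈ M₂`, commutators in `M₂`. -/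
structure Fac (O : Subgroup Γ) (A : Set Γ) (s : ℕ) (M₁ M₂ : Subgroup Γ) : Prop where
  pr : s.Prime
  lt : M₂ < M₁
  le : M₁ ≤ O
  n1 : ∀ g, g ∈ O ∨ g ∈ A → Nm g M₁
  n2 : ∀ g, g ∈ O ∨ g ∈ A → Nm g M₂
  mn : ∀ M, M₂ ≤ M → M ≤ M₁ → (∀ g, g ∈ O ∨ g ∈ A → Nm g M) → M = M₂ ∨ M = M₁
  pw : ∀ x ∈ M₁, x ^ s ∈ M₂
  cm : ∀ x ∈ M₁, ∀ y ∈ M₁, x * y * x⁻¹ * y⁻¹ ∈ M₂

/-- `g` centralises the factor -/
def Cen (g : Γ) (M₁ M₂ : Subgroup Γ) : Prop := ∀ x ∈ M₁, g * x * g⁻¹ * x⁻¹ ∈ M₂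

end CL.Cq
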