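/- S3235, disconnected case: a nilpotency criterion (pure group theory). -/
import Mathlib
import Cfsg.Agent.CHEV.Cq.ZL0
import Cfsg.Agent.SOLV.PSolvable
import Cfsg.Agent.SOLV.Coprime
import Cfsg.Agent.SOLV.Glauberman

set_option autoImplicit false

namespace CL.Cq

open Subgroup

variable {Γ : Type*} [Group Γ] [Finite Γ]

namespace ZLa

open scoped commutatorElement

omit [Finite Γ] in
theorem nm_comm {g : Γ} {M : Subgroup Γ} (h : Nm g M) : Nm g ⁅M, M⁆ := by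
  have h1 : M.map (MulAut.conj g).toMonoidHom ≤ M := by
    rintro _ ⟨x, hx, rfl⟩
    exact h x hx
  have h2 : (⁅M, M⁆ : Subgroup Γ).map (MulAut.conj g).toMonoidHom ≤ ⁅M, M⁆ := by
    rw [map_commutator]
    exact commutator_mono h1 h1
  exact fun x hx => h2 ⟨x, hx, rfl⟩

omit [Finite Γ] in
theorem prime_step {M N : Subgroup Γ} (n : ℕ) (n0 : n ≠ 0) {x : Γ} (hx : x ∈ M) (xN : x ∉ N) (h : x ^ n ∈ N) :
    ∃ s : ℕ, s.Prime ∧ ∃ y ∈ M, y ∉ N ∧ y ^ s ∈ N := by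
  induction n using Nat.strong_induction_on with
  | _ n ih =>
  have n1 : n ≠ 1 := by
    rintro rfl
    exact xN (by simpa using h)
  obtain ⟨s, hs, m, rfl⟩ := Nat.exists_prime_and_dvd n1
  have m0 : m ≠ 0 := by
    rintro rfl
    simp at n0
  by_cases c : x ^ m ∈ N
  · exact ih m (by have := hs.two_le; have := Nat.pos_of_ne_zero m0; nlinarith) m0 c
  · exact ⟨s, hs, x ^ m, M.pow_mem hx m, c, by rwa [← pow_mul, mul_comm]⟩

theorem exists_fac {O E M : Subgroup Γ} {A : Set Γ} (sol : Group.IsSolvable O)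
    (hE : ∀ g ∈ A, Nm g E) (Ec : ∀ e ∈ E, ∀ x ∈ O, Commute e x) (EM : E ≤ M) (ne : M ≠ E) (MO : M ≤ O)
    (iM : ∀ g, g ∈ O ∨ g ∈ A → Nm g M) : ∃ s M₂, E ≤ M₂ ∧ Fac O A s M M₂ := by
  have iE : ∀ g, g ∈ O ∨ g ∈ A → Nm g E := by
    rintro g (hg | hg)
    · intro e he
      rwa [← (Ec e he g hg).eq, mul_inv_cancel_right]
    · exact hE g hg
  have cM : ⁅M, M⁆ ≤ M := commutator_le_self M
  let N : Subgroup Γ :=
    { carrier := {x | ∃ e ∈ E, ∃ a ∈ ⁅M, M⁆, x = e * a}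
      one_mem' := ⟨1, one_mem _, 1, one_mem _, by simp⟩
      mul_mem' := by
        rintro _ _ ⟨e, he, a, ha, rfl⟩ ⟨f, hf, b, hb, rfl⟩
        exact ⟨e * f, mul_mem he hf, a * b, mul_mem ha hb, by
          rw [mul_assoc, ← mul_assoc a, ← (Ec f hf a (MO (cM ha))).eq]; group⟩
      inv_mem' := by
        rintro _ ⟨e, he, a, ha, rfl⟩
        exact ⟨e⁻¹, inv_mem he, a⁻¹, inv_mem ha, by rw [(Ec e he a (MO (cM ha))).eq, mul_inv_rev]⟩ }
  have NM : N ≤ M := by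
    rintro _ ⟨e, he, a, ha, rfl⟩
    exact mul_mem (EM he) (cM ha)
  have Nlt : N < M := by
    refine lt_of_le_of_ne NM fun e => ne (le_antisymm ?_ EM)
    have sM : Group.IsSolvable (⁅M, M⁆ : Subgroup Γ) :=
      Group.isSolvable_of_isSolvable_injective (inclusion_injective (cM.trans MO))
    have : (⁅M, M⁆ : Subgroup Γ) = ⊥ := by
      by_contra c
      refine (CL.commutator_lt_of_isSolvable sM c).not_ge (commutator_le.2 fun x hx y hy => ?_)
      obtain ⟨u, hu, a, ha, rfl⟩ := e.ge hx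
      obtain ⟨v, hv, b, hb, rfl⟩ := e.ge hy
      have aO := MO (cM ha)
      have bO := MO (cM hb)
      have : ⁅u * a, v * b⁆ = ⁅a, b⁆ := by
        have c1 : Commute u (a * (v * b) * a⁻¹) :=
          Ec u hu _ (mul_mem (mul_mem aO (mul_mem (MO (EM hv)) bO)) (inv_mem aO))
        have c2 : Commute v (a * b * a⁻¹ * b⁻¹) :=
          Ec v hv _ (mul_mem (mul_mem (mul_mem aO bO) (inv_mem aO)) (inv_mem bO))
        calc ⁅u * a, v * b⁆ = u * (a * (v * b) * a⁻¹) * u⁻¹ * (v * b)⁻¹ := by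
              rw [commutatorElement_def]; group
          _ = (a * v) * b * a⁻¹ * (v * b)⁻¹ := by rw [c1.eq]; group
          _ = v * (a * b * a⁻¹ * b⁻¹) * v⁻¹ := by rw [← (Ec v hv a aO).eq]; group
          _ = ⁅a, b⁆ := by rw [c2.eq, commutatorElement_def]; group
      rw [this]
      exact commutator_mem_commutator ha hb
    intro x hx
    obtain ⟨u, hu, a, ha, rfl⟩ := e.ge hx
    rw [this, mem_bot] at ha
    rwa [ha, mul_one]
  have iN : ∀ g, g ∈ O ∨ g ∈ A → Nm g N := by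
    rintro g hg _ ⟨e, he, a, ha, rfl⟩
    exact ⟨_, iE g hg e he, _, nm_comm (iM g hg) a ha, by group⟩
  obtain ⟨M₂, ⟨h1, h2, h3⟩, mx⟩ := (Set.toFinite {L : Subgroup Γ | N ≤ L ∧ L < M ∧
    ∀ g, g ∈ O ∨ g ∈ A → Nm g L}).exists_maximal ⟨N, le_rfl, Nlt, iN⟩
  have mn : ∀ L, M₂ ≤ L → L ≤ M → (∀ g, g ∈ O ∨ g ∈ A → Nm g L) → L = M₂ ∨ L = M := fun L l1 l2 l3 => by
    rcases l2.eq_or_lt with e | l
    · exact .inr e
    · exact .inl (le_antisymm (mx ⟨h1.trans l1, l, l3⟩ l1) l1)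
  have cm : ∀ x ∈ M, ∀ y ∈ M, x * y * x⁻¹ * y⁻¹ ∈ M₂ := fun x hx y hy =>
    h1 ⟨1, one_mem _, _, commutator_mem_commutator hx hy, (one_mul _).symm⟩
  obtain ⟨x, hx, xN⟩ := SetLike.exists_of_lt h2
  obtain ⟨s, hs, y, hy, yN, ys⟩ := prime_step (orderOf x) (orderOf_pos x).ne' hx xN
    (by rw [pow_orderOf_eq_one]; exact one_mem _)
  have : (M₂.subgroupOf M).Normal := ⟨fun a ha g => h3 g (.inl (MO g.2)) a ha⟩
  have cq : ∀ a b : M ⧸ M₂.subgroupOf M, Commute a b := by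
    intro a b
    obtain ⟨a, rfl⟩ := QuotientGroup.mk_surjective a
    obtain ⟨b, rfl⟩ := QuotientGroup.mk_surjective b
    rw [← commutatorElement_eq_one_iff_commute]
    exact (QuotientGroup.eq_one_iff (⁅a, b⁆ : M)).2 (cm a a.2 b b.2)
  let L : Subgroup Γ :=
    { carrier := {x | x ∈ M ∧ x ^ s ∈ M₂}
      one_mem' := ⟨one_mem _, by simp⟩
      mul_mem' := by
        rintro a b ⟨ha, ha'⟩ ⟨hb, hb'⟩
        refine ⟨mul_mem ha hb, ?_⟩
        have e1 : ((⟨a, ha⟩ : M) : M ⧸ M₂.subgroupOf M) ^ s = 1 :=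
          (QuotientGroup.eq_one_iff ((⟨a, ha⟩ : M) ^ s)).2 ha'
        have e2 : ((⟨b, hb⟩ : M) : M ⧸ M₂.subgroupOf M) ^ s = 1 :=
          (QuotientGroup.eq_one_iff ((⟨b, hb⟩ : M) ^ s)).2 hb'
        refine (QuotientGroup.eq_one_iff (N := M₂.subgroupOf M) (((⟨a, ha⟩ : M) * ⟨b, hb⟩) ^ s)).1 ?_
        rw [QuotientGroup.mk_pow, QuotientGroup.mk_mul, (cq _ _).mul_pow, e1, e2, one_mul]
      inv_mem' := fun {a} ha => ⟨inv_mem ha.1, by rw [inv_pow]; exact inv_mem ha.2⟩ }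
  have := (mn L (fun a ha => ⟨h2.le ha, pow_mem ha s⟩) (fun a ha => ha.1) fun g hg a ha =>
    ⟨iM g hg a ha.1, by rw [conj_pow]; exact h3 g hg _ ha.2⟩).resolve_left fun e => yN (e.le ⟨hy, ys⟩)
  exact ⟨s, M₂, fun e he => h1 ⟨e, he, 1, one_mem _, (mul_one _).symm⟩, hs, h2, MO, iM, h3, mn,
    fun a ha => (this.ge ha).2, cm⟩

/-- downward induction along factors -/
theorem down {O E : Subgroup Γ} {A : Set Γ} (sol : Group.IsSolvable O) (hA : ∀ g ∈ A, Nm g O) (EO : E ≤ O)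
    (hE : ∀ g ∈ A, Nm g E) (Ec : ∀ e ∈ E, ∀ x ∈ O, Commute e x) (Φ : Subgroup Γ → Prop) (hO : Φ O)
    (step : ∀ s M₁ M₂, Fac O A s M₁ M₂ → E ≤ M₂ → Φ M₁ → Φ M₂) : Φ E := by
  obtain ⟨M, ⟨h1, h2, h3, h4⟩, mn⟩ := (Set.toFinite {L : Subgroup Γ | E ≤ L ∧ L ≤ O ∧
    (∀ g, g ∈ O ∨ g ∈ A → Nm g L) ∧ Φ L}).exists_minimal ⟨O, EO, le_rfl, by
      rintro g (hg | hg)
      · exact fun x hx => mul_mem (mul_mem hg hx) (inv_mem hg)
      · exact hA g hg, hO⟩
  by_cases e : M = E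
  · exact e ▸ h4
  obtain ⟨s, M₂, l, f⟩ := exists_fac sol hE Ec h1 e h2 h3
  exact absurd (mn ⟨l, f.lt.le.trans h2, f.n2, step s M M₂ f l h4⟩ f.lt.le) f.lt.not_ge

omit [Finite Γ] in
theorem cen_le {O M₁ M₂ : Subgroup Γ} (h : ∀ g ∈ O, Cen g M₁ M₂) : ⁅M₁, O⁆ ≤ M₂ := by
  rw [commutator_comm]
  exact commutator_le.2 fun g hg x hx => h g hg x hx

end ZLa

/-- If all factors above `E` are central then `O` is nilpotent: downward induction, `γ_k(O) ≤ M` for an invariant `M ≥ E`; take `M₂` maximal invariant in `M` above `E`; `E` is central. -/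
theorem nil_of_fac {O E : Subgroup Γ} {A : Set Γ} (sol : Group.IsSolvable O) (hA : ∀ g ∈ A, Nm g O) (EO : E ≤ O)
    (hE : ∀ g ∈ A, Nm g E) (Ec : ∀ e ∈ E, ∀ x ∈ O, Commute e x)
    (h : ∀ s M₁ M₂, Fac O A s M₁ M₂ → E ≤ M₂ → ∀ g ∈ O, Cen g M₁ M₂) : Group.IsNilpotent O := by
  obtain ⟨k, hk⟩ := ZLa.down sol hA EO hE Ec (fun M => ∃ k, O.lowerCentralSeries k ≤ M) ⟨0, le_rfl⟩
    fun s M₁ M₂ f l ⟨k, hk⟩ => ⟨k + 1, (commutator_mono hk le_rfl).trans (ZLa.cen_le (h s M₁ M₂ f l))⟩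
  refine isNilpotent_of_lowerCentralSeries_eq_bot (n := k + 1) (eq_bot_iff.2 ?_)
  refine (commutator_mono hk le_rfl).trans (commutator_le.2 fun e he x hx => ?_)
  rw [mem_bot, commutatorElement_eq_one_iff_commute]
  exact Ec e he x hx

/-- PC.  If all `p'`-factors above the central `p`-group `E` are central, the `p`-elements of `O` form a subgroup `P` and `O / P` is nilpotent.  Proof: refine `E ≤ O` to an invariant series; for a prime `s ≠ p` show by induction up the series that the `s'`-elements of `M` form a subgroup `K_s(M)` of `s`-power index (central `s`-factor: `M₁ / K_s(M₂)` is an `s`-group; `s'`-factor `M₁ / M₂`: in `M₁ / K`, `K = K_s(M₂)`, the normal `s`-subgroup `M₂ / K` has a complement (Schur-Zassenhaus) which centralises all `s`-factors, hence `M₂ / K` (coprime action on a series), so it is normal).  `P = ⋂ K_s(O)`.  Alternative: every `s'`-element centralises all `s`-factors, then Frobenius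 / `O^{s}` arguments from the library (`cf search p-nilpotent chief factor`). -/
theorem pc {O E : Subgroup Γ} {A : Set Γ} {p : ℕ} (hp : p.Prime) (sol : Group.IsSolvable O) (hA : ∀ g ∈ A, Nm g O) (EO : E ≤ O)
    (hE : ∀ g ∈ A, Nm g E) (Ep : IsPGroup p E) (Ec : ∀ e ∈ E, ∀ x ∈ O, Commute e x)
    (h : ∀ s M₁ M₂, s ≠ p → Fac O A s M₁ M₂ → E ≤ M₂ → ∀ g ∈ O, Cen g M₁ M₂) :
    ∃ P : Subgroup Γ, P ≤ O ∧ IsPGroup p P ∧ (∀ x ∈ O, (∃ k, x ^ p ^ k = 1) → x ∈ P) ∧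
      ∃ c, Subgroup.lowerCentralSeries O c ≤ P := by
  have := Fact.mk hp
  let f := QuotientGroup.mk' (Cfsg.pCore p O)
  have fs : Function.Surjective f := QuotientGroup.mk'_surjective _
  let im : Subgroup Γ → Subgroup (O ⧸ Cfsg.pCore p O) := fun M => (M.subgroupOf O).map f
  have iO : im O = ⊤ := by
    show (O.subgroupOf O).map f = ⊤
    rw [subgroupOf_self, map_top_of_surjective _ fs]
  have iE : im E = ⊥ := by
    have : (E.subgroupOf O).Normal := ⟨fun e he g => by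
      show (g : Γ) * e * (g : Γ)⁻¹ ∈ E
      rw [← (Ec e he g g.2).eq, mul_inv_cancel_right]
      exact he⟩
    exact (CL.map_mk'_eq_bot_iff _ _).2 (CL.le_pCore Ep.comap_subtype)
  have cs : ∀ s M₁ M₂, s ≠ p → Fac O A s M₁ M₂ → E ≤ M₂ → ⁅im M₁, ⊤⁆ ≤ im M₂ := by
    intro s M₁ M₂ sp F l
    rw [← map_top_of_surjective _ fs, ← map_commutator, commutator_comm]
    exact map_mono (commutator_le.2 fun g _ x hx => h s M₁ M₂ sp F l g g.2 x hx)
  have ps : ∀ M₁ M₂, Fac O A p M₁ M₂ → ∀ r ∈ im M₁, p.Coprime (orderOf r) → r ∈ im M₂ := by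
    rintro M₁ M₂ F _ ⟨x, hx, rfl⟩ c
    obtain ⟨m, hm⟩ := exists_pow_eq_self_of_coprime c
    rw [← hm]
    exact pow_mem (show f x ^ p ∈ im M₂ from ⟨x ^ p, F.pw x hx, map_pow _ _ _⟩) m
  have one : ∀ x : O ⧸ Cfsg.pCore p O, ∀ k, x ^ p ^ k = 1 → x = 1 := by
    intro x k hx
    have hX : IsPGroup p (zpowers x) := fun y => ⟨k, by
      obtain ⟨y, n, rfl⟩ := y
      refine Subtype.ext ?_
      show (x ^ n) ^ p ^ k = 1
      rw [← zpow_natCast, ← zpow_mul, mul_comm, zpow_mul, zpow_natCast, hx, one_zpow]⟩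
    have cK := CL.coprime_card_pPrimeCore p (O ⧸ Cfsg.pCore p O)
    have cc := CL.coprime_commutator_commutator (zpowers x) (Cfsg.pPrimeCore p (O ⧸ Cfsg.pCore p O))
      le_normalizer_of_normal (CL.coprime_card_of_isPGroup_of_coprime hX cK) (.inl inferInstance)
    have R0 := ZLa.down sol hA EO hE Ec (fun M => ⁅Cfsg.pPrimeCore p (O ⧸ Cfsg.pCore p O), zpowers x⁆ ≤ im M)
      (le_top.trans iO.ge) fun s M₁ M₂ F l hR => by
        by_cases sp : s = p
        · subst sp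
          intro r hr
          exact ps M₁ M₂ F r (hR hr) (Nat.Coprime.coprime_dvd_right
            (orderOf_dvd_natCard _ (commutator_le_left _ _ hr)) cK.symm)
        · rw [← cc]
          exact (commutator_mono hR le_top).trans (cs s M₁ M₂ sp F l)
    rw [iE, le_bot_iff, commutator_comm, commutator_eq_bot_iff_le_centralizer] at R0
    have xK := (R0.trans (CL.IsPSolvable.centralizer_pPrimeCore_le (CL.isPSolvable_of_isSolvable p _)
      (CL.pCore_quotient_pCore p O)))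
    have := CL.inf_eq_bot_of_isPGroup_of_coprime hX cK
    rw [inf_of_le_left xK] at this
    exact zpowers_eq_bot.1 this
  have cop : ∀ r : O ⧸ Cfsg.pCore p O, p.Coprime (orderOf r) := fun r => by
    rw [hp.coprime_iff_not_dvd]
    intro d
    obtain ⟨x, hx⟩ := exists_prime_orderOf_dvd_card' p (d.trans (_root_.orderOf_dvd_natCard r))
    rw [one x 1 (by rw [pow_one]; exact orderOf_dvd_iff_pow_eq_one.1 hx.dvd), orderOf_one] at hx
    exact hp.one_lt.ne hx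
  obtain ⟨c, hc⟩ := ZLa.down sol hA EO hE Ec (fun M => ∃ k, (⊤ : Subgroup _).lowerCentralSeries k ≤ im M)
    ⟨0, iO.ge⟩ fun s M₁ M₂ F l ⟨k, hk⟩ => by
      by_cases sp : s = p
      · subst sp
        exact ⟨k, fun r hr => ps M₁ M₂ F r (hk hr) (cop r)⟩
      · exact ⟨k + 1, (commutator_mono hk le_rfl).trans (cs s M₁ M₂ sp F l)⟩
  refine ⟨(Cfsg.pCore p O).map O.subtype, map_subtype_le _, (CL.isPGroup_pCore p O).map _,
    fun x hx ⟨k, hk⟩ => ⟨⟨x, hx⟩, (QuotientGroup.eq_one_iff _).1 (one _ k ?_), rfl⟩, c, ?_⟩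
  · rw [← QuotientGroup.mk_pow, show (⟨x, hx⟩ : O) ^ p ^ k = 1 from Subtype.ext hk]
    rfl
  · rw [← top_subtype_lowerCentralSeries]
    refine map_mono ((CL.map_mk'_eq_bot_iff _ _).1 ?_)
    rw [map_lowerCentralSeries, map_top_of_surjective _ fs, ← le_bot_iff, ← iE]
    exact hc

end CL.Cq
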