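/- S3235, disconnected case: the coprime steps of the nilpotency criterion. -/
import Mathlib
import Cfsg.Agent.CHEV.Cq.ZL0
import Cfsg.Agent.SOLV.CoprimeSylow
import Cfsg.Agent.PLOC.NPC

set_option autoImplicit false

namespace CL.Cq.ZLi

open Subgroup

variable {Γ : Type*} [Group Γ] [Finite Γ] {O W E K M₁ M₂ : Subgroup Γ} {d σ : Γ} {p s : ℕ}

theorem nm {g : Γ} (h : Nm g K) : g ∈ normalizer (K : Set Γ) := mem_normalizer_fintype h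

omit [Finite Γ] in
theorem mem_of_cop {x : Γ} {a b : ℕ} (h : a.Coprime b) (ha : x ^ a ∈ K) (hb : x ^ b ∈ K) : x ∈ K := by
  obtain ⟨u, v, e⟩ := Nat.isCoprime_iff_coprime.2 h
  have : x = (x ^ a) ^ u * (x ^ b) ^ v := by
    rw [← zpow_natCast, ← zpow_natCast, ← zpow_mul, ← zpow_mul, ← zpow_add, mul_comm _ u, mul_comm _ v, e, zpow_one]
  rw [this]
  exact mul_mem (zpow_mem ha _) (zpow_mem hb _)

theorem part (hs : s.Prime) (c : Γ) : ∃ m k : ℕ, m.Coprime s ∧ (c ^ m) ^ s ^ k = 1 := by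
  obtain ⟨k, m, hm, e⟩ := Nat.exists_eq_pow_mul_and_not_dvd (orderOf_pos c).ne' s hs.ne_one
  exact ⟨m, k, ((Nat.Prime.coprime_iff_not_dvd hs).2 hm).symm, by
    rw [← pow_mul, mul_comm, ← e, pow_orderOf_eq_one]⟩

theorem dec (odd : Odd (Nat.card O)) (σO : Nm σ O) (σσ : σ * σ = 1) {x : Γ} (hx : x ∈ O) :
    ∃ y ∈ zpowers (x * σ * x⁻¹ * σ⁻¹), ∃ c ∈ O, Commute σ c ∧ σ * y * σ⁻¹ = y⁻¹ ∧ x = y * c := by
  have hu : x * σ * x⁻¹ * σ⁻¹ ∈ O := by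
    have := mul_mem hx (σO _ (inv_mem hx))
    rwa [← mul_assoc, ← mul_assoc] at this
  have si : σ⁻¹ = σ := inv_eq_of_mul_eq_one_right σσ
  have iu : σ * (x * σ * x⁻¹ * σ⁻¹) * σ⁻¹ = (x * σ * x⁻¹ * σ⁻¹)⁻¹ := by
    rw [mul_assoc, mul_assoc _ σ⁻¹, si, σσ, mul_one, mul_inv_rev, mul_inv_rev, mul_inv_rev, si, inv_inv]
    group
  have ex : σ * x * σ⁻¹ = (x * σ * x⁻¹ * σ⁻¹)⁻¹ * x := by group
  generalize x * σ * x⁻¹ * σ⁻¹ = u at hu iu ex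
  obtain ⟨k, hk⟩ := odd
  have u1 : u ^ (2 * k + 1) = 1 := by
    rw [← hk]
    exact congrArg Subtype.val (pow_card_eq_one' (x := (⟨u, hu⟩ : O)))
  have y2 : u ^ (k + 1) * u ^ (k + 1) = u := by
    rw [← pow_add, show k + 1 + (k + 1) = 2 * k + 1 + 1 by ring, pow_succ, u1, one_mul]
  have iy : σ * u ^ (k + 1) * σ⁻¹ = (u ^ (k + 1))⁻¹ := by rw [← conj_pow, iu, inv_pow]
  refine ⟨u ^ (k + 1), pow_mem (mem_zpowers u) _, (u ^ (k + 1))⁻¹ * x, mul_mem (inv_mem (pow_mem hu _)) hx, ?_, iy,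
    (mul_inv_cancel_left _ _).symm⟩
  generalize u ^ (k + 1) = y at y2 iy
  refine mul_inv_eq_iff_eq_mul.1 ?_
  calc σ * (y⁻¹ * x) * σ⁻¹ = (σ * y * σ⁻¹)⁻¹ * (σ * x * σ⁻¹) := by group
    _ = y⁻¹ * x := by rw [iy, ex, ← y2]; group

/-- if `σ` is central modulo `K ≥ E` then `O ≤ K` -/
theorem lemG (odd : Odd (Nat.card O)) (σO : Nm σ O) (σσ : σ * σ = 1) (dW : ∀ w ∈ W, Commute d w)
    (Cσ : ∀ x ∈ O, Commute σ x → ∃ e ∈ E, ∃ w ∈ W, x = e * w) (gen : O ≤ Cm O d) (EK : E ≤ K) (dK : Nm d K)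
    (h : ∀ x ∈ O, x * σ * x⁻¹ * σ⁻¹ ∈ K) : O ≤ K := by
  refine gen.trans ((closure_le _).2 ?_)
  rintro _ ⟨x, hx, rfl⟩
  obtain ⟨y, hy, c, hc, cm, -, rfl⟩ := dec odd σO σσ hx
  obtain ⟨e, he, w, hw, rfl⟩ := Cσ c hc cm
  have k : y * e ∈ K := mul_mem (zpowers_le.2 (h _ hx) hy) (EK he)
  have : y * (e * w) * d * (y * (e * w))⁻¹ * d⁻¹ = (y * e) * (d * (y * e)⁻¹ * d⁻¹) := by
    rw [← mul_assoc y, mul_assoc _ w, ← (dW w hw).eq]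
    group
  rw [this]
  exact mul_mem k (dK _ (inv_mem k))

/-- a `σ`-invariant Sylow `s`-subgroup of `M₁` lies in `W` and covers `M₁ / M₂` -/
theorem cover (hp : p.Prime) (odd : Odd (Nat.card O)) (WO : W ≤ O) (Ep : IsPGroup p E)
    (Ec : ∀ e ∈ E, ∀ x ∈ O, Commute e x) (σσ : σ * σ = 1)
    (Cσ : ∀ x ∈ O, Commute σ x → ∃ e ∈ E, ∃ w ∈ W, x = e * w)
    (H : ∀ (s : ℕ) (R : Subgroup Γ), s.Prime → s ≠ p → R ≤ O → IsPGroup s R → Nm σ R → R ⊓ W ≠ ⊥ → R ≤ W)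
    (hs : s.Prime) (sp : s ≠ p) (le : M₁ ≤ O) (σM : Nm σ M₁) (n2 : ∀ g ∈ M₁, Nm g M₂)
    (pw : ∀ x ∈ M₁, ∃ k, x ^ s ^ k ∈ M₂) {c : Γ} (cM : c ∈ M₁) (c1 : c ≠ 1) (cσ : Commute σ c) {k : ℕ}
    (ck : c ^ s ^ k = 1) {x : Γ} (hx : x ∈ M₁) : ∃ w ∈ W, w ∈ M₁ ∧ ∃ t ∈ M₂, x = w * t := by
  have := Fact.mk hs
  have cW : c ∈ W := by
    obtain ⟨e, he, w, hw, rfl⟩ := Cσ c (le cM) cσ
    refine mul_mem ?_ hw
    obtain ⟨j, hj⟩ := Ep ⟨e, he⟩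
    rw [(Ec e he w (WO hw)).mul_pow] at ck
    refine mem_of_cop (Nat.coprime_pow_primes k j hs hp sp) ?_ ?_
    · rw [eq_inv_of_mul_eq_one_left ck]
      exact inv_mem (pow_mem hw _)
    · rw [show e ^ p ^ j = 1 from congrArg Subtype.val hj]
      exact one_mem _
  have cop : (Nat.card (zpowers σ)).Coprime (Nat.card M₁) := by
    rw [Nat.card_zpowers]
    exact Nat.Coprime.coprime_dvd_left (orderOf_dvd_of_pow_eq_one (by rw [sq, σσ]))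
      (Nat.coprime_two_left.2 (odd.of_dvd_nat (card_dvd_of_le le)))
  have pc : IsPGroup s (zpowers c) := by
    rintro ⟨_, i, rfl⟩
    refine ⟨k, Subtype.ext ?_⟩
    change (c ^ i) ^ s ^ k = 1
    rw [← zpow_natCast, ← zpow_mul, mul_comm, zpow_mul, zpow_natCast, ck, one_zpow]
  obtain ⟨P, hP, nP⟩ := coprime_exists_invariant_sylow_ge (zpowers σ) M₁ (zpowers_le.2 (nm σM)) cop
    (Or.inl inferInstance) s (zpowers c) (zpowers_le.2 cM) pc (zpowers_le.2 (nm (by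
      rintro _ ⟨i, rfl⟩
      rw [(cσ.zpow_right i).eq, mul_inv_cancel_right]
      exact ⟨i, rfl⟩)))
  have RW := H s _ hs sp ((map_subtype_le _).trans le) (P.2.map _) (fun y hy => (nP (mem_zpowers σ) y).1 hy)
    (fun e => c1 (mem_bot.1 (e ▸ mem_inf.2 ⟨hP (mem_zpowers c), cW⟩)))
  have : (M₂.subgroupOf M₁).Normal := ⟨fun n hn g => n2 g g.2 n hn⟩
  have pq : IsPGroup s (M₁ ⧸ M₂.subgroupOf M₁) := fun q => by
    obtain ⟨y, rfl⟩ := QuotientGroup.mk_surjective q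
    obtain ⟨j, hj⟩ := pw y y.2
    exact ⟨j, by rw [← QuotientGroup.mk_pow, QuotientGroup.eq_one_iff]; exact hj⟩
  have top : (P : Subgroup M₁).map (QuotientGroup.mk' (M₂.subgroupOf M₁)) = ⊤ :=
    ((P.mapSurjective (QuotientGroup.mk'_surjective _)).is_maximal' (pq.to_subgroup ⊤) le_top).symm
  obtain ⟨r, hr, e⟩ := mem_map.1 (top ▸ mem_top (QuotientGroup.mk' (M₂.subgroupOf M₁) ⟨x, hx⟩))
  exact ⟨r, RW (mem_map_of_mem _ hr), r.2, (r : Γ)⁻¹ * x,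
    (QuotientGroup.eq (s := M₂.subgroupOf M₁) (a := r) (b := ⟨x, hx⟩)).1 e, (mul_inv_cancel_left _ _).symm⟩

/-- the centraliser of the factor -/
def Zc (M₁ M₂ : Subgroup Γ) : Subgroup Γ where
  carrier := {g | g ∈ normalizer (M₂ : Set Γ) ∧ Cen g M₁ M₂}
  one_mem' := ⟨one_mem _, fun x _ => by simp⟩
  mul_mem' := fun {g h} hg hh => ⟨mul_mem hg.1 hh.1, fun x hx => by
    have : g * h * x * (g * h)⁻¹ * x⁻¹ = g * (h * x * h⁻¹ * x⁻¹) * g⁻¹ * (g * x * g⁻¹ * x⁻¹) := by group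
    rw [this]
    exact mul_mem ((hg.1 _).1 (hh.2 x hx)) (hg.2 x hx)⟩
  inv_mem' := fun {g} hg => ⟨inv_mem hg.1, fun x hx => by
    have : g⁻¹ * x * g⁻¹⁻¹ * x⁻¹ = g⁻¹ * (g * x * g⁻¹ * x⁻¹)⁻¹ * g⁻¹⁻¹ := by group
    rw [this]
    exact (inv_mem hg.1 _).1 (inv_mem (hg.2 x hx))⟩

theorem Zc_nm {y : Γ} (h1 : Nm y M₁) (h2 : Nm y M₂) : Nm y (Zc M₁ M₂) := fun g hg =>
  ⟨mul_mem (mul_mem (nm h2) hg.1) (inv_mem (nm h2)), fun x hx => by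
    have : y * g * y⁻¹ * x * (y * g * y⁻¹)⁻¹ * x⁻¹ =
        y * (g * (y⁻¹ * x * y⁻¹⁻¹) * g⁻¹ * (y⁻¹ * x * y⁻¹⁻¹)⁻¹) * y⁻¹ := by group
    rw [this]
    exact h2 _ (hg.2 _ ((inv_mem (nm h1) _).1 hx))⟩

theorem E_le_Zc {A : Set Γ} (EO : E ≤ O) (Ec : ∀ e ∈ E, ∀ x ∈ O, Commute e x) (f : Fac O A s M₁ M₂) :
    E ≤ Zc M₁ M₂ := fun e he => ⟨nm (f.n2 e (Or.inl (EO he))), fun x hx => by
  rw [(Ec e he x (f.le hx)).eq]
  simp⟩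

/-- if `σ` has no fixed point on the factor then `O` centralises it -/
theorem of_fpf (odd : Odd (Nat.card O)) (EO : E ≤ O) (Ec : ∀ e ∈ E, ∀ x ∈ O, Commute e x) (σO : Nm σ O)
    (σσ : σ * σ = 1) (dW : ∀ w ∈ W, Commute d w) (Cσ : ∀ x ∈ O, Commute σ x → ∃ e ∈ E, ∃ w ∈ W, x = e * w)
    (gen : O ≤ Cm O d) (f : Fac O {d, σ} s M₁ M₂) (h : ∀ x ∈ M₁, σ * x * σ⁻¹ * x⁻¹ ∈ M₂ → x ∈ M₂) :
    ∀ g ∈ O, Cen g M₁ M₂ := by
  have σ1 := f.n1 σ (Or.inr (by simp))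
  have σ2 := f.n2 σ (Or.inr (by simp))
  have si : σ⁻¹ = σ := inv_eq_of_mul_eq_one_right σσ
  have iv : ∀ x ∈ M₁, x * (σ * x * σ⁻¹) ∈ M₂ := fun x hx => by
    refine h _ (mul_mem hx (σ1 x hx)) ?_
    have e : σ * (σ * x * σ⁻¹) * σ⁻¹ = x := by
      rw [← mul_assoc, ← mul_assoc, σσ, one_mul, mul_assoc, si, σσ, mul_one]
    have : σ * (x * (σ * x * σ⁻¹)) * σ⁻¹ * (x * (σ * x * σ⁻¹))⁻¹ =
        (σ * x * σ⁻¹) * (σ * (σ * x * σ⁻¹) * σ⁻¹) * (σ * x * σ⁻¹)⁻¹ * x⁻¹ := by group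
    rw [this, e]
    exact f.cm _ (σ1 x hx) x hx
  refine fun g hg => (lemG odd σO σσ dW Cσ gen (E_le_Zc EO Ec f)
    (Zc_nm (f.n1 d (Or.inr (by simp))) (f.n2 d (Or.inr (by simp)))) (fun g hg => ?_) hg).2
  have g1 := nm (f.n1 g (Or.inl hg))
  have g2 := nm (f.n2 g (Or.inl hg))
  refine ⟨mul_mem (mul_mem (mul_mem g2 (nm σ2)) (inv_mem g2)) (inv_mem (nm σ2)), fun x hx => ?_⟩
  have ha := σ1 x hx
  have h1 := (g2 _).1 (iv _ ((inv_mem g1 _).1 ha))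
  have h2 := (inv_mem (nm (f.n2 _ (Or.inl (f.le ha)))) _).1 h1
  have h3 := mul_mem h2 (inv_mem (iv x hx))
  have e : σ⁻¹ * x * σ = σ * x * σ⁻¹ := by rw [si]
  have : g * σ * g⁻¹ * σ⁻¹ * x * (g * σ * g⁻¹ * σ⁻¹)⁻¹ * x⁻¹ = g * σ * g⁻¹ * (σ⁻¹ * x * σ) * (g * σ * g⁻¹)⁻¹ * x⁻¹ := by
    group
  rw [this, e]
  generalize σ * x * σ⁻¹ = a at h3 ⊢
  convert h3 using 1
  group

theorem step1 (hp : p.Prime) (odd : Odd (Nat.card O)) (WO : W ≤ O) (EO : E ≤ O) (Ep : IsPGroup p E)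
    (Ec : ∀ e ∈ E, ∀ x ∈ O, Commute e x) (σO : Nm σ O) (σσ : σ * σ = 1) (dW : ∀ w ∈ W, Commute d w)
    (Cσ : ∀ x ∈ O, Commute σ x → ∃ e ∈ E, ∃ w ∈ W, x = e * w) (gen : O ≤ Cm O d)
    (H : ∀ (s : ℕ) (R : Subgroup Γ), s.Prime → s ≠ p → R ≤ O → IsPGroup s R → Nm σ R → R ⊓ W ≠ ⊥ → R ≤ W)
    (sp : s ≠ p) (f : Fac O {d, σ} s M₁ M₂) : ∀ g ∈ O, Cen g M₁ M₂ := by
  by_cases h : ∀ x ∈ M₁, σ * x * σ⁻¹ * x⁻¹ ∈ M₂ → x ∈ M₂
  · exact of_fpf odd EO Ec σO σσ dW Cσ gen f h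
  push Not at h
  obtain ⟨x, hx, h1, h2⟩ := h
  obtain ⟨y, hy, c, -, cm, -, rfl⟩ := dec odd σO σσ (f.le hx)
  have yM : y ∈ M₂ := zpowers_le.2 (by convert inv_mem h1 using 1; group) hy
  have cM : c ∈ M₁ := (mul_mem_cancel_left (f.lt.le yM)).1 hx
  obtain ⟨m, k, hm, hk⟩ := part f.pr c
  have c1 : c ^ m ≠ 1 := fun e => h2 (mul_mem yM (mem_of_cop hm (e ▸ one_mem _) (f.pw c cM)))
  have d2 := f.n2 d (Or.inr (by simp))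
  have dZ : d ∈ Zc M₁ M₂ := ⟨nm d2, fun z hz => by
    obtain ⟨w, hw, wM, t, ht, rfl⟩ := cover hp odd WO Ep Ec σσ Cσ H f.pr sp f.le (f.n1 σ (Or.inr (by simp)))
      (fun g hg => f.n2 g (Or.inl (f.le hg))) (fun x hx => ⟨1, by rw [pow_one]; exact f.pw x hx⟩) (pow_mem cM m) c1
      (cm.pow_right m) hk hz
    have : d * (w * t) * d⁻¹ * (w * t)⁻¹ = w * (d * t * d⁻¹ * t⁻¹) * w⁻¹ := by
      rw [← mul_assoc d, (dW w hw).eq]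
      group
    rw [this]
    exact f.n2 w (Or.inl (WO hw)) _ (mul_mem (d2 t ht) (inv_mem ht))⟩
  have : O ≤ Zc M₁ M₂ := gen.trans ((closure_le _).2 (by
    rintro _ ⟨g, hg, rfl⟩
    exact mul_mem (Zc_nm (f.n1 g (Or.inl hg)) (f.n2 g (Or.inl hg)) d dZ) (inv_mem dZ)))
  exact fun g hg => (this hg).2

theorem inv (hp : p.Prime) (odd : Odd (Nat.card O)) (WO : W ≤ O) (Ep : IsPGroup p E)
    (Ec : ∀ e ∈ E, ∀ x ∈ O, Commute e x) (dO : Nm d O) (σO : Nm σ O) (σσ : σ * σ = 1) (dW : ∀ w ∈ W, Commute d w)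
    (Cσ : ∀ x ∈ O, Commute σ x → ∃ e ∈ E, ∃ w ∈ W, x = e * w) (gen : O ≤ Cm O d)
    (H : ∀ (s : ℕ) (R : Subgroup Γ), s.Prime → s ≠ p → R ≤ O → IsPGroup s R → Nm σ R → R ⊓ W ≠ ⊥ → R ≤ W)
    (nK : ∀ g ∈ O, Nm g K) (dK : Nm d K) (pK : ∀ x ∈ O, (∃ k, x ^ p ^ k = 1) → x ∈ K)
    (nil : ∃ c, Subgroup.lowerCentralSeries O c ≤ K) : ∀ x ∈ O, x * (σ * x * σ⁻¹) ∈ K := by
  suffices h : ∀ c ∈ O, Commute σ c → c ∈ K by
    intro x hx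
    obtain ⟨y, -, c, hc, cm, iy, rfl⟩ := dec odd σO σσ hx
    have : y * c * (σ * (y * c) * σ⁻¹) = y * c * (σ * y * σ⁻¹) * (σ * c * σ⁻¹) := by group
    rw [this, iy, cm.eq, mul_inv_cancel_right]
    exact mul_mem (nK y ((mul_mem_cancel_right hc).1 hx) c (h c hc cm)) (h c hc cm)
  intro c hc cm
  by_contra cK
  have : (K.subgroupOf O).Normal := ⟨fun n hn g => nK g g.2 n hn⟩
  let π := QuotientGroup.mk' (K.subgroupOf O)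
  have ker : ∀ (x : O) (n : ℕ), π x ^ n = 1 ↔ (x : Γ) ^ n ∈ K := fun x n => by
    rw [← map_pow]
    exact QuotientGroup.eq_one_iff _
  have o1 : orderOf (π ⟨c, hc⟩) ≠ 1 := fun e => cK (by
    simpa using (ker ⟨c, hc⟩ 1).1 (by rw [← e, pow_orderOf_eq_one]))
  obtain ⟨s, hs, n, hn⟩ := Nat.exists_prime_and_dvd o1
  have := Fact.mk hs
  have c1 : c ^ n ∉ K := fun e => by
    have h1 := Nat.le_of_dvd (Nat.pos_of_ne_zero fun e => (orderOf_pos _).ne' (by rw [hn, e, mul_zero]))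
      (orderOf_dvd_of_pow_eq_one ((ker ⟨c, hc⟩ n).2 e))
    have h2 := hs.two_le
    have h3 := orderOf_pos (π ⟨c, hc⟩)
    rw [hn] at h1 h3
    nlinarith [Nat.pos_of_mul_pos_left h3]
  have c2 : (c ^ n) ^ s ∈ K := by
    rw [← pow_mul, mul_comm, ← hn]
    exact (ker ⟨c, hc⟩ _).1 (pow_orderOf_eq_one _)
  obtain ⟨m, k, hm, hk⟩ := part hs (c ^ n)
  have c3 : (c ^ n) ^ m ∉ K := fun e => c1 (mem_of_cop hm e c2)
  have cO : (c ^ n) ^ m ∈ O := pow_mem (pow_mem hc n) m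
  have sp : s ≠ p := fun e => c3 (pK _ cO ⟨k, e ▸ hk⟩)
  have : Group.IsNilpotent (O ⧸ K.subgroupOf O) := by
    obtain ⟨j, hj⟩ := nil
    refine Subgroup.nilpotent_iff_lowerCentralSeries.2 ⟨j, ?_⟩
    rw [← map_top_of_surjective π (QuotientGroup.mk'_surjective _), ← map_lowerCentralSeries, Subgroup.map_eq_bot_iff,
      QuotientGroup.ker_mk']
    exact fun x hx => hj (top_subtype_lowerCentralSeries O j ▸ mem_map_of_mem _ hx)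
  obtain ⟨P, N, nN, cp⟩ := hasNPC_of_isNilpotent (G := O ⧸ K.subgroupOf O) (p := s)
  obtain ⟨j, hj⟩ := IsPGroup.iff_card.1 P.2
  let T := (N.comap π).map O.subtype
  have pw : ∀ x ∈ O, x ^ s ^ j ∈ T := fun x hx => ⟨⟨x, hx⟩ ^ s ^ j, by
    change π _ ∈ N
    rw [map_pow, ← hj, ← cp.symm.index_eq_card]
    exact N.pow_index_mem _, rfl⟩
  have mT : ∀ x, x ∈ T ↔ x ∈ O ∧ ∃ m : ℕ, m.Coprime s ∧ x ^ m ∈ K := fun x => by
    constructor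
    · rintro ⟨x, hx, rfl⟩
      refine ⟨x.2, Nat.card N, ?_, (ker x _).1 (congrArg Subtype.val (pow_card_eq_one' (x := (⟨π x, hx⟩ : N))))⟩
      rw [← cp.index_eq_card]
      exact ((Nat.Prime.coprime_iff_not_dvd hs).2 P.not_dvd_index).symm
    · rintro ⟨hx, m, hm, e⟩
      refine mem_of_cop (hm.pow_right j) ⟨⟨x, hx⟩ ^ m, ?_, rfl⟩ (pw x hx)
      change π _ ∈ N
      rw [map_pow, (ker ⟨x, hx⟩ m).2 e]
      exact one_mem _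
  have nT : ∀ g, Nm g O → Nm g K → Nm g T := fun g h1 h2 x hx => by
    obtain ⟨hx, m, hm, e⟩ := (mT x).1 hx
    exact (mT _).2 ⟨h1 x hx, m, hm, by rw [conj_pow]; exact h2 _ e⟩
  have nO : ∀ g ∈ O, Nm g T := fun g hg => nT g (fun x hx => mul_mem (mul_mem hg hx) (inv_mem hg)) (nK g hg)
  have OT : O ≤ T := gen.trans ((closure_le _).2 (by
    rintro _ ⟨x, hx, rfl⟩
    obtain ⟨w, hw, -, t, ht, rfl⟩ := cover hp odd WO Ep Ec σσ Cσ H hs sp le_rfl σO nO (fun x hx => ⟨j, pw x hx⟩) cO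
      (fun e => c3 (e ▸ one_mem _)) ((cm.pow_right n).pow_right m) hk hx
    have : w * t * d * (w * t)⁻¹ * d⁻¹ = w * (t * (d * t⁻¹ * d⁻¹)) * w⁻¹ := by
      rw [mul_inv_rev, ← mul_assoc, mul_assoc _ w⁻¹, (dW w hw).inv_inv.eq.symm]
      group
    rw [this]
    exact nO w (WO hw) _ (mul_mem ht (nT d dO dK _ (inv_mem ht)))))
  obtain ⟨-, l, hl, e⟩ := (mT _).1 (OT cO)
  exact c3 (mem_of_cop (hl.pow_right k) e (hk ▸ one_mem _))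

end CL.Cq.ZLi
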