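/- S3235, disconnected case: the module computation of the nilpotency criterion. -/
import Cfsg.Agent.CHEV.Cq.ZL0
import Cfsg.Agent.FGS.AH.Rep

set_option autoImplicit false

namespace CL.Cq.ZLm

open Subgroup

/-- the computation in a module: `σ` inverts the image of `O`, `d` fixes the fixed vectors of `σ` -/
theorem lin {X V R : Type*} [Group X] [Finite X] [CommRing R] [AddCommGroup V] [Finite V] [Module R V]
    (ρ : Representation R X V) {O : Subgroup X} [O.Normal] {d σ : X} (dσ : Commute d σ)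
    (irr : ∀ U : AddSubgroup V, (∀ g ∈ O, ∀ u ∈ U, ρ g u ∈ U) → (∀ u ∈ U, ρ d u ∈ U) → (∀ u ∈ U, ρ σ u ∈ U) → U = ⊥ ∨ U = ⊤)
    (gen : ∀ L : Subgroup X, (∀ x ∈ O, x * d * x⁻¹ * d⁻¹ ∈ L) → O ≤ L) (inv : ∀ x ∈ O, ρ (x * (σ * x * σ⁻¹)) = 1)
    {m : V} (m0 : m ≠ 0) (σm : ρ σ m = m) (dm : ∀ v, ρ σ v = v → ρ d v = v) :
    ∀ x ∈ O, ρ (x * (d * x * d⁻¹)) = 1 := by
  have N := ‹O.Normal›
  have ap : ∀ a b v, ρ a (ρ b v) = ρ (a * b) v := fun a b v => by rw [map_mul]; rfl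
  have i1 : ∀ x ∈ O, ρ (σ * x * σ⁻¹) = ρ x⁻¹ := fun x hx => by
    rw [show σ * x * σ⁻¹ = x⁻¹ * (x * (σ * x * σ⁻¹)) by group, map_mul, inv x hx, mul_one]
  have cm : ∀ x ∈ O, ∀ y ∈ O, ρ x * ρ y = ρ y * ρ x := fun x hx y hy => by
    have := i1 _ (mul_mem (inv_mem hy) (inv_mem hx))
    rw [← conj_mul, map_mul, i1 _ (inv_mem hy), i1 _ (inv_mem hx), mul_inv_rev, map_mul] at this
    simpa using this.symm
  have cm' : ∀ x ∈ O, ∀ y ∈ O, ∀ v, ρ x (ρ y v) = ρ y (ρ x v) := fun x hx y hy => LinearMap.congr_fun (cm x hx y hy)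
  -- a family of commuting relations that is stable under `d`, `σ` and kills a non-zero vector kills everything
  have top : ∀ T : X → Module.End R V, (∀ x ∈ O, ∀ g ∈ O, T x * ρ g = ρ g * T x) →
      (∀ g, Commute g d → ∀ x, T x * ρ g = ρ g * T (g⁻¹ * x * g)) → ∀ v ≠ 0, (∀ x ∈ O, T x v = 0) → ∀ x ∈ O, T x = 0 :=
    fun T h1 h2 v v0 hv x hx => by
      have k : ∀ g, Commute g d → ∀ u, (∀ x ∈ O, T x u = 0) → ∀ x ∈ O, T x (ρ g u) = 0 := fun g hg u hu x hx =>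
        (LinearMap.congr_fun (h2 g hg x) u).trans (by rw [Module.End.mul_apply, hu _ (N.conj_mem' x hx g), map_zero])
      rcases irr
        { carrier := {u | ∀ x ∈ O, T x u = 0}
          add_mem' := fun ha hb x hx => by rw [map_add, ha x hx, hb x hx, add_zero]
          zero_mem' := fun x _ => map_zero _
          neg_mem' := fun ha x hx => by rw [map_neg, ha x hx, neg_zero] }
        (fun g hg u hu x hx => (LinearMap.congr_fun (h1 x hx g hg) u).trans (by rw [Module.End.mul_apply, hu x hx, map_zero]))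
        (k d (Commute.refl d)) (k σ dσ.symm) with e | e
      · exact absurd (e.le hv) v0
      · exact LinearMap.ext fun u => e.ge (AddSubgroup.mem_top u) x hx
  have cj : ∀ g, Commute g d → ∀ x, d * x * d⁻¹ * g = g * (d * (g⁻¹ * x * g) * d⁻¹) := fun g hg x => by
    rw [show g * (d * (g⁻¹ * x * g) * d⁻¹) = g * d * g⁻¹ * x * (g * d⁻¹) by group, hg.eq, hg.inv_right.eq]; group
  have T0 := top (fun x => ρ x + ρ x⁻¹ - ρ (d * x * d⁻¹) - ρ (d * x⁻¹ * d⁻¹))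
    (fun x hx g hg => by
      simp only [add_mul, sub_mul, mul_add, mul_sub, cm g hg x hx, cm g hg _ (inv_mem hx), cm g hg _ (N.conj_mem x hx d),
        cm g hg _ (N.conj_mem _ (inv_mem hx) d)])
    (fun g hg x => by
      simp only [add_mul, sub_mul, mul_add, mul_sub, ← map_mul, cj g hg]
      congr 3 <;> group) m m0
    fun x hx => by
      have e : ∀ {g}, ρ g m = m → ∀ y, ρ g (ρ y m) = ρ (g * y * g⁻¹) m := fun {g} h y => by
        conv_rhs => rw [← h, ap, inv_mul_cancel_right, ← ap]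
      have := dm (ρ x m + ρ x⁻¹ m) (by rw [map_add, e σm, e σm, i1 x hx, i1 _ (inv_mem hx), inv_inv, add_comm])
      rw [map_add, e (dm m σm), e (dm m σm)] at this
      simp only [LinearMap.sub_apply, LinearMap.add_apply, ← this]
      abel
  let st : V → Subgroup X := fun v =>
    { carrier := {g | g ∈ O ∧ ρ g v = v}
      mul_mem' := fun {a b} ha hb => ⟨mul_mem ha.1 hb.1, by rw [← ap, hb.2, ha.2]⟩
      one_mem' := ⟨one_mem _, by simp⟩
      inv_mem' := fun {a} ha => ⟨inv_mem ha.1, by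
        conv_lhs => rw [← ha.2, ap, inv_mul_cancel, map_one]
        rfl⟩ }
  obtain ⟨v, v0, mx⟩ := Set.exists_max_image {v : V | v ≠ 0} (fun v => Nat.card (st v)) (Set.toFinite _) ⟨m, m0⟩
  have dich : ∀ x ∈ O, ρ (d * x * d⁻¹) v = ρ x v ∨ ρ (d * x * d⁻¹) v = ρ x⁻¹ v := fun x hx => by
    have hy := N.conj_mem x hx d
    refine or_iff_not_imp_right.2 fun c => ?_
    have e : st v = st (ρ (d * x * d⁻¹) v - ρ x⁻¹ v) := eq_of_le_of_card_ge
      (fun g hg => ⟨hg.1, by rw [map_sub, cm' g hg.1 _ hy, cm' g hg.1 _ (inv_mem hx), hg.2]⟩) (mx _ (sub_ne_zero.2 c))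
    have h1 : x * (d * x⁻¹ * d⁻¹) ∈ st v := e.ge ⟨mul_mem hx (N.conj_mem _ (inv_mem hx) d), by
      have := LinearMap.congr_fun (T0 x hx) v
      simp only [LinearMap.sub_apply, LinearMap.add_apply, LinearMap.zero_apply] at this
      rw [map_sub, ← ap x _ (ρ x⁻¹ v), cm' x hx _ (N.conj_mem _ (inv_mem hx) d), ap, ap, ap, mul_inv_cancel_right,
        show x * (d * x⁻¹ * d⁻¹) * (d * x * d⁻¹) = x by group, ← sub_eq_zero, ← this]
      abel⟩
    conv_lhs => rw [← h1.2, ← ap x, cm' _ hy x hx, ap (d * x * d⁻¹), show d * x * d⁻¹ * (d * x⁻¹ * d⁻¹) = 1 by group, map_one]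
    rfl
  by_cases h : ∀ x ∈ O, ρ (d * x * d⁻¹) v = ρ x⁻¹ v
  · intro x hx
    refine sub_eq_zero.1 (top (fun x => ρ (x * (d * x * d⁻¹)) - 1) (fun x hx g hg => ?_) (fun g hg x => ?_) v v0
      (fun x hx => ?_) x hx)
    · rw [sub_mul, mul_sub, cm g hg _ (mul_mem hx (N.conj_mem x hx d)), mul_one, one_mul]
    · rw [sub_mul, mul_sub, mul_one, one_mul, ← map_mul, ← map_mul, mul_assoc, cj g hg]
      congr 2; group
    · rw [LinearMap.sub_apply, ← ap, h x hx, ap, mul_inv_cancel, map_one, sub_self]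
  obtain ⟨b, hb⟩ := not_forall.1 h
  obtain ⟨bO, nb⟩ := Classical.not_imp.1 hb
  have b1 := (dich b bO).resolve_right nb
  have h1 : ∀ x ∈ O, ρ (d * x * d⁻¹) v = ρ x v := fun x hx => by
    have inj : ∀ g, Function.Injective (ρ g) := fun g =>
      Function.LeftInverse.injective (g := ρ g⁻¹) fun u => by rw [ap, inv_mul_cancel, map_one]; rfl
    have hy := N.conj_mem x hx d
    refine (dich x hx).elim id fun c => (dich _ (mul_mem hx bO)).elim (fun e => ?_) fun e => absurd ?_ nb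
    · rw [← conj_mul, ← ap (d * x * d⁻¹), b1, cm' _ hy b bO, ← ap x b, cm' x hx b bO] at e
      exact inj b e
    · rw [← conj_mul, ← ap (d * x * d⁻¹), cm' _ hy _ (N.conj_mem b bO d), c, mul_inv_rev, ← ap b⁻¹ x⁻¹,
        cm' _ (N.conj_mem b bO d) _ (inv_mem hx),
        cm' _ (inv_mem bO) _ (inv_mem hx)] at e
      exact inj _ e
  have h2 := gen (st v) fun x hx => ⟨by rw [mul_assoc, mul_assoc, ← mul_assoc d]; exact mul_mem hx (N.conj_mem _ (inv_mem hx) d), by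
    rw [mul_assoc, mul_assoc, ← mul_assoc d, ← ap, h1 _ (inv_mem hx), ap, mul_inv_cancel, map_one]; rfl⟩
  intro x hx
  exact sub_eq_zero.1 (top (fun x => ρ x - 1) (fun x hx g hg => by rw [sub_mul, mul_sub, cm g hg x hx, mul_one, one_mul])
    (fun g _ x => by rw [sub_mul, mul_sub, mul_one, one_mul, ← map_mul, ← map_mul]; congr 2; group) v v0
    (fun x hx => sub_eq_zero.2 (h2 hx).2) _ (mul_mem hx (N.conj_mem x hx d)))

variable {Γ : Type*} [Group Γ] [Finite Γ]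

theorem endg {O M₁ M₂ : Subgroup Γ} {d σ : Γ} {s : ℕ} (f : Fac O {d, σ} s M₁ M₂) (dO : Nm d O) (σO : Nm σ O)
    (dσ : Commute d σ) (gen : O ≤ Cm O d) (inv : ∀ x ∈ O, Cen (x * (σ * x * σ⁻¹)) M₁ M₂)
    (m0 : ∃ m ∈ M₁, m ∉ M₂ ∧ σ * m * σ⁻¹ * m⁻¹ ∈ M₂)
    (dm : ∀ m ∈ M₁, σ * m * σ⁻¹ * m⁻¹ ∈ M₂ → d * m * d⁻¹ * m⁻¹ ∈ M₂) :
    ∀ x ∈ O, Cen (x * (d * x * d⁻¹)) M₁ M₂ := by
  have := Fact.mk f.pr
  let N : Subgroup Γ := normalizer O ⊓ (normalizer M₁ ⊓ normalizer M₂)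
  have nm : ∀ {g : Γ} {H : Subgroup Γ}, Nm g H → g ∈ normalizer (H : Set Γ) := fun h => mem_normalizer_fintype h
  have mk : ∀ g, Nm g O → g ∈ O ∨ g ∈ ({d, σ} : Set Γ) → g ∈ N := fun g h h' => ⟨nm h, nm (f.n1 g h'), nm (f.n2 g h')⟩
  have ON : O ≤ N := fun g hg => mk g (fun x hx => mul_mem (mul_mem hg hx) (inv_mem hg)) (.inl hg)
  have dN := mk d dO (.inr (.inl rfl))
  have σN := mk σ σO (.inr (.inr rfl))
  have nrm : ∀ H : Subgroup Γ, N ≤ normalizer H → (H.subgroupOf N).Normal := fun H h =>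
    ⟨fun x hx g => (mem_normalizer_iff.1 (h g.2) x).1 hx⟩
  have := nrm O inf_le_left
  have n1 := nrm M₁ (inf_le_right.trans inf_le_left)
  have := nrm M₂ (inf_le_right.trans inf_le_right)
  let π := QuotientGroup.mk' (M₂.subgroupOf N)
  have := n1.map π (QuotientGroup.mk'_surjective _)
  have eq : ∀ a b : N, π a = π b ↔ (a : Γ) * (b : Γ)⁻¹ ∈ M₂ := fun a b => by
    rw [← mul_inv_eq_one, ← map_inv, ← map_mul]
    exact QuotientGroup.eq_one_iff _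
  obtain ⟨V, _, _, _, τ, e, ei, eN, es, e0, ea, -, eτ⟩ := CL.AH.exists_rep (p := s) ((M₁.subgroupOf N).map π)
    (by
      rintro _ ⟨a, ha, rfl⟩ _ ⟨b, hb, rfl⟩
      rw [← map_mul, ← map_mul, eq]
      simpa [mul_assoc] using f.cm _ ha _ hb)
    (by
      rintro _ ⟨a, ha, rfl⟩
      rw [← map_pow, ← map_one π, eq]
      simpa using f.pw _ ha)
  let ρ : Representation (ZMod s) N V := τ.comp π
  have fx : ∀ (g a : N) v, e v = π a → (ρ g v = v ↔ (g : Γ) * a * (g : Γ)⁻¹ * (a : Γ)⁻¹ ∈ M₂) := fun g a v h => by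
    rw [← ei.eq_iff]
    change e (τ (π g) v) = _ ↔ _
    rw [eτ, h, ← map_inv, ← map_mul, ← map_mul, eq]
    rfl
  have cen : ∀ g : N, ρ g = 1 ↔ Cen (g : Γ) M₁ M₂ := fun g => by
    refine ⟨fun h x hx => ?_, fun h => LinearMap.ext fun v => ?_⟩
    · obtain ⟨v, hv⟩ := es (π ⟨x, ON (f.le hx)⟩) ⟨_, hx, rfl⟩
      exact (fx g _ v hv).1 (by rw [h]; rfl)
    · obtain ⟨a, ha, h'⟩ := eN v
      exact (fx g a v h'.symm).2 (h a ha)
  obtain ⟨m, m1, m2, σm⟩ := m0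
  obtain ⟨v, hv⟩ := es (π ⟨m, ON (f.le m1)⟩) ⟨_, m1, rfl⟩
  intro x hx
  refine (cen (⟨x, ON hx⟩ * (⟨d, dN⟩ * ⟨x, ON hx⟩ * ⟨d, dN⟩⁻¹))).1 (lin ρ (O := O.subgroupOf N) (σ := ⟨σ, σN⟩)
    (d := ⟨d, dN⟩) (Subtype.ext dσ.eq) (fun U h1 h2 h3 => ?_) (fun L hL y hy => ?_) (fun y hy => (cen _).2 (inv y hy)) (m := v)
    (fun h => m2 ?_) ((fx _ _ v hv).2 σm) (fun u hu => ?_) _ hx)
  · have en : ∀ u, e (-u) = (e u)⁻¹ := fun u => eq_inv_of_mul_eq_one_left (by rw [← ea, neg_add_cancel, e0])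
    let M : Subgroup Γ :=
      { carrier := {x | ∃ a : N, (a : Γ) = x ∧ ∃ u ∈ U, e u = π a}
        mul_mem' := by
          rintro _ _ ⟨a, rfl, u, hu, h⟩ ⟨b, rfl, w, hw, h'⟩
          exact ⟨a * b, rfl, u + w, add_mem hu hw, by rw [ea, h, h', map_mul]⟩
        one_mem' := ⟨1, rfl, 0, zero_mem _, by rw [e0, map_one]⟩
        inv_mem' := by
          rintro _ ⟨a, rfl, u, hu, h⟩
          exact ⟨a⁻¹, rfl, -u, neg_mem hu, by rw [en, h, map_inv]⟩ }
    have k : ∀ g : N, (∀ u ∈ U, ρ g u ∈ U) → Nm (g : Γ) M := by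
      rintro g h _ ⟨a, rfl, u, hu, h'⟩
      exact ⟨g * a * g⁻¹, rfl, ρ g u, h u hu, (eτ _ u).trans (by rw [h', map_mul, map_mul, map_inv])⟩
    refine (f.mn M (fun y hy => ⟨⟨y, ON (f.le (f.lt.le hy))⟩, rfl, 0, zero_mem _, ?_⟩) ?_ ?_).imp (fun h => ?_) fun h => ?_
    · rw [e0, ← map_one π, eq]
      simpa using hy
    · rintro _ ⟨a, rfl, u, -, h⟩
      obtain ⟨b, hb, h'⟩ := eN u
      simpa using mul_mem (f.lt.le ((eq a b).1 (h.symm.trans h'.symm))) hb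
    · rintro g (hg | rfl | rfl)
      exacts [k ⟨g, ON hg⟩ (h1 _ hg), k ⟨g, dN⟩ h2, k ⟨g, σN⟩ h3]
    · refine (AddSubgroup.eq_bot_iff_forall _).2 fun u hu => ei ?_
      obtain ⟨b, hb, h'⟩ := eN u
      rw [e0, ← h', ← map_one π, eq]
      simpa using h.le ⟨b, rfl, u, hu, h'.symm⟩
    · refine (AddSubgroup.eq_top_iff' _).2 fun u => ?_
      obtain ⟨b, hb, h'⟩ := eN u
      obtain ⟨a, ab, w, hw, h''⟩ := h.ge hb
      rwa [← ei (h''.trans ((congrArg π (Subtype.ext ab)).trans h'))]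
  · have : Cm O d ≤ L.map N.subtype := (closure_le _).2 (by
      rintro _ ⟨z, hz, rfl⟩
      exact ⟨_, hL ⟨z, ON hz⟩ hz, rfl⟩)
    obtain ⟨z, hz, h⟩ := this (gen hy)
    rwa [← (Subtype.ext h : z = y)]
  · rw [h, e0, ← map_one π, eq] at hv
    simpa using hv
  · obtain ⟨a, ha, h'⟩ := eN u
    exact (fx _ a u h'.symm).2 (dm a ha ((fx _ a u h'.symm).1 hu))

end CL.Cq.ZLm
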