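/- S3235, disconnected case: a nilpotency criterion (pure group theory). -/
import Mathlib
import Cfsg.Agent.CHEV.Cq.ZLa
import Cfsg.Agent.CHEV.Cq.ZLi
import Cfsg.Agent.CHEV.Cq.ZLm
import Cfsg.Agent.SOLV.OddOrderCor
import Cfsg.Agent.SOLV.MinNormal

set_option autoImplicit false

namespace CL.Cq

open Subgroup

variable {Γ : Type*} [Group Γ] [Finite Γ]

/-- an invariant `p`-subgroup centralises a `p`-factor -/
theorem Fac.pcen {O P M₁ M₂ : Subgroup Γ} {A : Set Γ} {p : ℕ} (f : Fac O A p M₁ M₂) (PO : P ≤ O) (hP : IsPGroup p P)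
    (nP : ∀ g, g ∈ O ∨ g ∈ A → Nm g P) : ∀ g ∈ P, Cen g M₁ M₂ := by
  have := Fact.mk f.pr
  let M : Subgroup Γ :=
    { carrier := {x | x ∈ M₁ ∧ ∀ g ∈ P, g * x * g⁻¹ * x⁻¹ ∈ M₂}
      one_mem' := ⟨one_mem _, fun g _ => by simp⟩
      mul_mem' := fun {x y} hx hy => ⟨mul_mem hx.1 hy.1, fun g hg => by
        have : g * (x * y) * g⁻¹ * (x * y)⁻¹ = (g * x * g⁻¹ * x⁻¹) * (x * (g * y * g⁻¹ * y⁻¹) * x⁻¹) := by group
        rw [this]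
        exact mul_mem (hx.2 g hg) (f.n2 x (Or.inl (f.le hx.1)) _ (hy.2 g hg))⟩
      inv_mem' := fun {x} hx => ⟨inv_mem hx.1, fun g hg => by
        have : g * x⁻¹ * g⁻¹ * x⁻¹⁻¹ = x⁻¹ * (g * x * g⁻¹ * x⁻¹)⁻¹ * x⁻¹⁻¹ := by group
        rw [this]
        exact f.n2 x⁻¹ (Or.inl (inv_mem (f.le hx.1))) _ (inv_mem (hx.2 g hg))⟩ }
  have le : M₂ ≤ M := fun x hx => ⟨f.lt.le hx, fun g hg => mul_mem (f.n2 g (Or.inl (PO hg)) x hx) (inv_mem hx)⟩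
  rcases f.mn M le (fun x hx => hx.1) (fun y hy x hx => ⟨f.n1 y hy x hx.1, fun g hg => by
    have : g * (y * x * y⁻¹) * g⁻¹ * (y * x * y⁻¹)⁻¹ =
        y * ((y⁻¹ * g * y⁻¹⁻¹) * x * (y⁻¹ * g * y⁻¹⁻¹)⁻¹ * x⁻¹) * y⁻¹ := by group
    rw [this]
    exact f.n2 y hy _ (hx.2 _ ((inv_mem (ZLi.nm (nP y hy)) _).1 hg))⟩) with e | e
  swap
  · exact fun g hg x hx => (e.ge hx).2 g hg
  exfalso
  have : (M₂.subgroupOf O).Normal := ⟨fun n hn g => f.n2 g (Or.inl g.2) n hn⟩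
  have : (M₁.subgroupOf O).Normal := ⟨fun n hn g => f.n1 g (Or.inl g.2) n hn⟩
  let π := QuotientGroup.mk' (M₂.subgroupOf O)
  have nV : ((M₁.subgroupOf O).map π).Normal := Normal.map inferInstance π (QuotientGroup.mk'_surjective _)
  have pV : IsPGroup p ((M₁.subgroupOf O).map π) := by
    rintro ⟨_, x, hx, rfl⟩
    refine ⟨1, Subtype.ext ?_⟩
    change π x ^ p ^ 1 = 1
    rw [← map_pow, pow_one]
    exact (QuotientGroup.eq_one_iff _).2 (f.pw x hx)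
  refine CL.inf_centralizer_ne_bot_of_isPGroup pV ((hP.comap_of_injective O.subtype O.subtype_injective).map π)
    (le_top.trans (normalizer_eq_top _).ge) (fun e' => f.lt.not_ge fun x hx => ?_) (eq_bot_iff.2 ?_)
  · have : π ⟨x, f.le hx⟩ ∈ (M₁.subgroupOf O).map π := mem_map_of_mem _ hx
    rw [e'] at this
    exact (QuotientGroup.eq_one_iff (N := M₂.subgroupOf O) _).1 this
  · rintro _ ⟨⟨x, hx, rfl⟩, hc⟩
    refine (QuotientGroup.eq_one_iff (N := M₂.subgroupOf O) _).2 (e.le ⟨hx, fun g hg => ?_⟩)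
    have := hc (π ⟨g, PO hg⟩) (mem_map_of_mem _ hg)
    refine (QuotientGroup.eq_one_iff (N := M₂.subgroupOf O) (⟨g, PO hg⟩ * x * ⟨g, PO hg⟩⁻¹ * x⁻¹)).1 ?_
    change π _ = 1
    rw [map_mul, map_mul, map_mul, map_inv, map_inv, this]
    group

/-- ZL.  `O` is solvable (Feit-Thompson).  `A = {d, σ}`; use `nil_of_fac`, `pc`.  For a factor `M = M₁ / M₂`, `K = C_O(M)` is invariant; if `d` centralises `M` then so does `Cm O d ≥ O`.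
STEP 1 (`s ≠ p`).  If `σ` fixes some `m ∉ M₂` modulo `M₂`: by coprime action there is an `s`-element `c ∈ M₁ - M₂` commuting with `σ`; `c ∈ E W` is in `W` (`c = e w`, `c ^ (s ^ k) = 1`); a `σ`-invariant Sylow `s`-subgroup `R ∋ c` of `M₁` lies in `W` by `H` and covers `M`, so `d` centralises `M`.  Else `σ` inverts `M`, so `[x, σ] ∈ K` for `x ∈ O`; every `x ∈ O` is `y c`, `y ∈ ⟨[x,σ]⟩`, `c ∈ C_O(σ) ≤ E W` (odd order: `x = (x σ x⁻¹ σ⁻¹) ^ ((o + 1) / 2) * c`), so `O = K W`, `d` centralises `O / K`, `O = Cm O d ≤ K`.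
STEP 2 (`s = p`).  `P` from `pc`; `P ≤ K` (normal `p`-subgroup on an irreducible `p`-factor).  `B = O / K` is a nilpotent `p'`-group, `B = [B, d]`.  If `σ` fixes a non-trivial element of the Sylow `s`-subgroup `B_s`, then as above a `σ`-invariant Sylow `s`-subgroup of `O` lies in `W`, `d` centralises `B_s`, and `B / B_{s'} ≅ B_s` is centralised by `d`, so trivial.  So `σ` inverts `B`, `B` is abelian.  Suppose `B ≠ 1`.  `σ` neither centralises nor inverts `M` (else `[B, σ] = 1`), so `M₊ = C_M(σ) ≠ 0` is the image of `C_{M₁}(σ) ≤ E W`, `d` centralises `M₊`, and there is a `p`-element `w ∈ W`, `w ∉ E`, `w ∈ P`.  For `m ∈ M₊`, `x ∈ B`: `x m + x⁻¹ m ∈ M₊` is fixed by `d`, so `(x + x⁻¹) m = (y + y⁻¹) m`, `y = d x d⁻¹`; `M = B M₊`, `B` abelian, so `(x - y)(1 - (x y)⁻¹) = 0` on `M`.  On a simple `B`-submodule `M₀`, each element of `B` acts trivially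 or without fixed points, so `x⁻¹ y` or `x y` is trivial on `M₀`: `B = B₁ ∪ B₂` (subgroups), `B = B₁` or `B = B₂`.  The subgroup `B' = {x⁻¹ y}` resp. `{x y}` is invariant with `C_M(B') ≠ 0`, so `B' = 1`.  `B₁`: `B = [B, d] = 1`.  `B₂`: `d` inverts `B`, and `hd` with `O₁ = K` gives `O ≤ K`. -/
theorem zl {O W E : Subgroup Γ} {d σ : Γ} {p : ℕ} (hp : p.Prime) (odd : Odd (Nat.card O)) (WO : W ≤ O) (EO : E ≤ O)
    (Ep : IsPGroup p E) (Ec : ∀ e ∈ E, ∀ x ∈ O, Commute e x) (dO : Nm d O) (σO : Nm σ O) (dE : Nm d E) (σE : Nm σ E)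
    (dσ : Commute d σ) (σσ : σ * σ = 1) (dW : ∀ w ∈ W, Commute d w) (Cσ : ∀ x ∈ O, Commute σ x → ∃ e ∈ E, ∃ w ∈ W, x = e * w)
    (gen : O ≤ Cm O d)
    (H : ∀ (s : ℕ) (R : Subgroup Γ), s.Prime → s ≠ p → R ≤ O → IsPGroup s R → Nm σ R → R ⊓ W ≠ ⊥ → R ≤ W)
    (hd : ∀ P O₁ : Subgroup Γ, P ≤ O → IsPGroup p P → (∀ x ∈ O, (∃ k, x ^ p ^ k = 1) → x ∈ P) → (∃ w ∈ W, w ∈ P ∧ w ≠ 1) →
      O₁ ≤ O → (∀ g ∈ O, Nm g O₁) → Nm d O₁ → Nm σ O₁ → (∀ x ∈ O, x * (d * x * d⁻¹) ∈ O₁) →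
      (∀ x ∈ O, x * (σ * x * σ⁻¹) ∈ O₁) → O ≤ O₁) : Group.IsNilpotent O := by
  have sol := CL.isSolvable_of_odd O odd
  have hA : ∀ g ∈ ({d, σ} : Set Γ), Nm g O := by
    rintro _ (rfl | rfl)
    exacts [dO, σO]
  have hE : ∀ g ∈ ({d, σ} : Set Γ), Nm g E := by
    rintro _ (rfl | rfl)
    exacts [dE, σE]
  have s1 : ∀ s M₁ M₂, s ≠ p → Fac O {d, σ} s M₁ M₂ → E ≤ M₂ → ∀ g ∈ O, Cen g M₁ M₂ := fun s M₁ M₂ sp f _ =>
    ZLi.step1 hp odd WO EO Ep Ec σO σσ dW Cσ gen H sp f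
  obtain ⟨P, PO, hP, mP, nil⟩ := pc hp sol hA EO hE Ep Ec s1
  refine nil_of_fac sol hA EO hE Ec fun s M₁ M₂ f EM => ?_
  by_cases sp : s ≠ p
  · exact s1 s M₁ M₂ sp f EM
  obtain rfl : s = p := not_not.1 sp
  by_cases h : ∀ x ∈ M₁, σ * x * σ⁻¹ * x⁻¹ ∈ M₂ → x ∈ M₂
  · exact ZLi.of_fpf odd EO Ec σO σσ dW Cσ gen f h
  push Not at h
  have nO : ∀ g, g ∈ O ∨ g ∈ ({d, σ} : Set Γ) → Nm g O := fun g hg =>
    hg.elim (fun hg x hx => mul_mem (mul_mem hg hx) (inv_mem hg)) (hA g)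
  have nP : ∀ g, g ∈ O ∨ g ∈ ({d, σ} : Set Γ) → Nm g P := fun g hg x hx => by
    obtain ⟨k, hk⟩ := hP ⟨x, hx⟩
    exact mP _ (nO g hg x (PO hx)) ⟨k, by rw [conj_pow, show x ^ s ^ k = 1 from congrArg Subtype.val hk]; simp⟩
  have nK : ∀ g, g ∈ O ∨ g ∈ ({d, σ} : Set Γ) → Nm g (O ⊓ ZLi.Zc M₁ M₂) := fun g hg x hx =>
    ⟨nO g hg x hx.1, ZLi.Zc_nm (f.n1 g hg) (f.n2 g hg) x hx.2⟩
  have PK : P ≤ O ⊓ ZLi.Zc M₁ M₂ := fun g hg => ⟨PO hg, ZLi.nm (f.n2 g (Or.inl (PO hg))), f.pcen PO hP nP g hg⟩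
  have iv := ZLi.inv hp odd WO Ep Ec dO σO σσ dW Cσ gen H (fun g hg => nK g (Or.inl hg)) (nK d (Or.inr (by simp)))
    (fun x hx e => PK (mP x hx e)) (nil.imp fun c hc => hc.trans PK)
  have lift : ∀ m ∈ M₁, σ * m * σ⁻¹ * m⁻¹ ∈ M₂ → ∃ t ∈ M₂, ∃ w ∈ W, m = t * w := fun m hm e => by
    obtain ⟨y, hy, c, hc, cm, -, rfl⟩ := ZLi.dec odd σO σσ (f.le hm)
    obtain ⟨e', he, w, hw, rfl⟩ := Cσ c hc cm
    exact ⟨y * e', mul_mem (zpowers_le.2 (by convert inv_mem e using 1; group) hy) (EM he), w, hw,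
      (mul_assoc _ _ _).symm⟩
  obtain ⟨m, hm, m1, m2⟩ := h
  have en := ZLm.endg f dO σO dσ gen (fun x hx => (iv x hx).2.2) ⟨m, hm, m2, m1⟩ fun m hm e => by
    obtain ⟨t, ht, w, hw, rfl⟩ := lift m hm e
    have : d * (t * w) * d⁻¹ * (t * w)⁻¹ = d * t * d⁻¹ * t⁻¹ := by
      rw [← mul_assoc d, mul_assoc _ w, ← (dW w hw).inv_left.eq]
      group
    rw [this]
    exact mul_mem (f.n2 d (Or.inr (by simp)) t ht) (inv_mem ht)
  obtain ⟨t, ht, w, hw, rfl⟩ := lift m hm m1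
  have wM : w ∈ M₁ := (mul_mem_cancel_left (f.lt.le ht)).1 hm
  obtain ⟨j, k, hj, hk⟩ := ZLi.part hp w
  have := hd P (O ⊓ ZLi.Zc M₁ M₂) PO hP mP
    ⟨w ^ j, pow_mem hw j, mP _ (pow_mem (WO hw) j) ⟨k, hk⟩,
      fun e => m2 (mul_mem ht (ZLi.mem_of_cop hj (e ▸ one_mem _) (f.pw w wM)))⟩
    inf_le_left (fun g hg => nK g (Or.inl hg)) (nK d (Or.inr (by simp))) (nK σ (Or.inr (by simp)))
    (fun x hx => ⟨mul_mem hx (dO x hx), ZLi.nm (f.n2 _ (Or.inl (mul_mem hx (dO x hx)))), en x hx⟩) iv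
  exact fun g hg => (this hg).2.2

end CL.Cq
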