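/- S3235, disconnected case: transitivity lemmas, signs. -/
import Mathlib
import Cfsg.Agent.CHEV.Cq.Aut
import Cfsg.Agent.CHEV.Cq.ZL
import Cfsg.Agent.S1220
import Cfsg.Agent.SOLV.Fitting
import Cfsg.Agent.CHEV.Cq.ClA

set_option autoImplicit false
set_option maxHeartbeats 200000

namespace CL.Cq

open Subgroup CL.PT CL.PT.L2x

variable {p : ℕ} {G Ω : Type*} [Group G] [MulAction G Ω] [Finite G] [Finite Ω] {S : Ω → Set G} {D : Ω → Ω → ℤ → G}
  {a b c : Ω} {x y : G}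

set_option linter.unusedSectionVars false

namespace Clx

omit [Finite G] in
theorem nm_closure {g : G} {s : Set G} {H : Subgroup G} (h : ∀ x ∈ s, g * x * g⁻¹ ∈ H) :
    ∀ x ∈ closure s, g * x * g⁻¹ ∈ H :=
  fun _ hx => (closure_le (H.comap (MulAut.conj g).toMonoidHom)).2 h hx

omit [Finite G] in
theorem cm_mem {O : Subgroup G} {d x : G} (hx : x ∈ O) : x * d * x⁻¹ * d⁻¹ ∈ Cm O d :=
  subset_closure ⟨x, hx, rfl⟩

omit [Finite G] in
theorem cm_le {O : Subgroup G} {d : G} (dO : Nm d O) : Cm O d ≤ O := by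
  refine (closure_le _).2 ?_
  rintro _ ⟨x, hx, rfl⟩
  have := O.mul_mem hx (dO _ (O.inv_mem hx))
  simpa only [mul_assoc, SetLike.mem_coe] using this

omit [Finite G] [Finite Ω] in
theorem smul_ne {g : G} (ga : g • a = a) (ca : c ≠ a) : g • c ≠ a :=
  fun e => ca (MulAction.injective g (e.trans ga.symm))

omit [Finite G] [Finite Ω] in
theorem mem_EW {g : G} (hg : g ∈ E S a ⊔ W S a b) : ∃ e ∈ E S a, ∃ w ∈ W S a b, g = e * w := by
  let K : Subgroup G :=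
    { carrier := {g | ∃ e ∈ E S a, ∃ w ∈ W S a b, g = e * w}
      one_mem' := ⟨1, one_mem _, 1, one_mem _, (mul_one _).symm⟩
      mul_mem' := by
        rintro _ _ ⟨e, he, w, hw, rfl⟩ ⟨e', he', w', hw', rfl⟩
        refine ⟨e * e', mul_mem he he', w * w', mul_mem hw hw', ?_⟩
        rw [mul_assoc, ← mul_assoc w, ← mem_C.1 hw.1 e' he']; group
      inv_mem' := by
        rintro _ ⟨e, he, w, hw, rfl⟩
        refine ⟨e⁻¹, inv_mem he, w⁻¹, inv_mem hw, ?_⟩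
        rw [mem_C.1 hw.1 e he, mul_inv_rev] }
  have : E S a ⊔ W S a b ≤ K := sup_le (fun e he => ⟨e, he, 1, one_mem _, (mul_one _).symm⟩)
    fun w hw => ⟨1, one_mem _, w, hw, (one_mul _).symm⟩
  exact this hg

theorem EW_iff (h : Hz p S D) (n : a ≠ b) {g : G} (hg : g ∈ C S a) : g ∈ E S a ⊔ W S a b ↔ g • b ∈ Ln S a b := by
  constructor
  · intro m
    obtain ⟨e, he, w, hw, rfl⟩ := mem_EW m
    exact Or.inr ⟨e, he, by rw [mul_smul, (mem_W.1 hw).2]⟩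
  · intro m
    obtain ⟨e, he, w, hw, rfl⟩ := h.C_Ln n hg m
    exact mul_mem_sup he hw

theorem inv_W (h : Hz p S D) (n : a ≠ b) {t : G} (ht : t ∈ E S a ⊔ W S a b) (tt : t * t = 1) : t ∈ W S a b := by
  obtain ⟨e, he, w, hw, rfl⟩ := mem_EW ht
  have cw := mem_C.1 hw.1 e he
  have e2 : e * e = (w * w)⁻¹ := by
    rw [eq_inv_iff_mul_eq_one, ← tt, mul_assoc, mul_assoc, ← mul_assoc e w, ← mul_assoc w e, cw]
  have e3 : e ^ 2 = 1 := by
    rw [pow_two]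
    exact h.EW_inf n (mul_mem he he) (e2 ▸ inv_mem (mul_mem hw hw))
  have p2 : Nat.Coprime 2 p := (Nat.coprime_primes Nat.prime_two h.pr).2 (by have := h.p5; omega)
  have : e = 1 := orderOf_eq_one_iff.1 (Nat.eq_one_of_dvd_coprimes p2 (orderOf_dvd_of_pow_eq_one e3)
    (orderOf_dvd_of_pow_eq_one (h.toSys.E_pow he)))
  rw [this, one_mul]; exact hw

end Clx

open Clx

theorem cl (X : Subgroup G) (d : G) (Δ : Set Ω) (iv : ∀ x ∈ X, ∀ c ∈ Δ, x • c ∈ Δ) (od : ∀ c ∈ Δ, ∃ x ∈ X, d • c = x • c)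
    (fx : ∀ x ∈ X, ∀ c ∈ Δ, ∀ c' ∈ Δ, (x * d) • c = c → (x * d) • c' = c' → c = c') :
    ∀ c ∈ Δ, ∀ c' ∈ Δ, ∃ x ∈ X, x • c = c' := ClA.cl X d Δ iv od fx

theorem sg (X : Subgroup G) (Φ : Set Ω) (iv : ∀ x ∈ X, ∀ c ∈ Φ, x • c ∈ Φ) : ∃ ε : X →* ℤˣ, ∀ g : X,
    (∀ c ∈ Φ, (g : G) ^ 8 • c = c) → ∃ u v w : ℕ,
      (Φ ∩ Fx Ω ((g : G) ^ 2)).ncard = (Φ ∩ Fx Ω (g : G)).ncard + 2 * u ∧
      (Φ ∩ Fx Ω ((g : G) ^ 4)).ncard = (Φ ∩ Fx Ω ((g : G) ^ 2)).ncard + 4 * v ∧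
      Φ.ncard = (Φ ∩ Fx Ω ((g : G) ^ 4)).ncard + 8 * w ∧ ε g = (-1) ^ (u + v + w) := ClA.sg X Φ iv

theorem fix_mod {s : ℕ} (hs : s.Prime) {R : Subgroup G} (hR : IsPGroup s R) (Φ : Set Ω) (iv : ∀ x ∈ R, ∀ c ∈ Φ, x • c ∈ Φ) :
    Φ.ncard ≡ {c ∈ Φ | ∀ x ∈ R, x • c = c}.ncard [MOD s] := ClA.fix_mod hs hR Φ iv

theorem dih {u v : G} (hu : u * u = 1) (hv : v * v = 1) :
    (Odd (orderOf (u * v)) ∧ ∃ k : ℕ, (u * v) ^ k * u * ((u * v) ^ k)⁻¹ = v ∧ ∃ l : ℕ, ((u * v) ^ l * u) * u * ((u * v) ^ l * u)⁻¹ = v) ∨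
      ∃ k l : ℕ, Iv ((u * v) ^ k) ∧ Commute ((u * v) ^ k) u ∧ Commute ((u * v) ^ k) v ∧
        ((u * v) ^ k * u = (u * v) ^ l * u * ((u * v) ^ l)⁻¹ ∨ (u * v) ^ k * u = (u * v) ^ l * v * ((u * v) ^ l)⁻¹) := ClA.dih hu hv

theorem le_of_cen {s : ℕ} (hs : s.Prime) {R W : Subgroup G} (hR : IsPGroup s R) (ne : R ⊓ W ≠ ⊥)
    (h : ∀ c ∈ R, c ∈ W → c ≠ 1 → ∀ g ∈ R, Commute c g → g ∈ W) : R ≤ W := ClA.le_of_cen hs hR ne h

namespace Hz

variable (h : Hz p S D)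
include h

theorem Ctr {k : ℤ} (hk : ¬ (p : ℤ) ∣ k) (k2 : ¬ k * k ≡ 1 [ZMOD p]) (ex : ∀ c, c ≠ a → ∃ d, Sc S a d k ∧ d • c = c) :
    Trs (C S a) a := by
  intro x y xa ya
  obtain ⟨d, sc, -⟩ := ex x xa
  refine cl (C S a) d {a}ᶜ (fun g hg c hc => smul_ne (h.C_fix hg) hc) (fun c hc => ?_)
    (fun g hg c hc c' hc' e e' => ?_) x xa y ya
  · obtain ⟨d', sc', dc⟩ := ex c hc
    have m := h.C_conj d' (h.Sc_div sc' sc)
    rw [h.Sc_fix hk sc'] at m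
    refine ⟨_, m, ?_⟩
    rw [mul_inv_cancel_left, mul_smul, inv_smul_eq_iff.2 dc.symm]
  · have s := h.Sc_mul (h.Sc_one.2 hg) sc
    rw [one_mul] at s
    exact h.sc_fix hk k2 s hc hc' e e'

theorem Ctr7 (p7 : p ≠ 5) (a : Ω) : Trs (C S a) a := by
  have p5 := h.p5
  have n2 : ¬ (p : ℤ) ∣ 2 := fun d => by
    have := Nat.le_of_dvd (by norm_num) (Int.natCast_dvd_natCast.1 (by exact_mod_cast d : (p : ℤ) ∣ ((2 : ℕ) : ℤ)))
    omega
  intro x y xa ya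
  refine h.Ctr (k := 2 * 2) (fun d => ?_) (fun e => ?_) (fun c ca => ⟨D a c 2, h.Dsc ca.symm n2, h.Db _ ca.symm⟩) xa ya
  · have := Nat.le_of_dvd (by norm_num) (Int.natCast_dvd_natCast.1 (by exact_mod_cast d : (p : ℤ) ∣ ((4 : ℕ) : ℤ)))
    omega
  · have d : p ∣ 3 * 5 := Int.natCast_dvd_natCast.1 (by simpa using e.symm.dvd)
    rcases (Nat.Prime.dvd_mul h.pr).1 d with d | d
    · have := Nat.le_of_dvd (by norm_num) d; omega
    · have := Nat.le_of_dvd (by norm_num) d; omega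

theorem tr2_of {U : Subgroup G} (fx : ∀ u ∈ U, u • a = a) (t : Trs U a) : Tr2 G Ω := by
  intro a' b' c' d' n n'
  obtain ⟨g, hg⟩ := h.toHy.trans a' a
  obtain ⟨g', hg'⟩ := h.toHy.trans c' a
  obtain ⟨u, hu, e⟩ := t (x := g • b') (y := g' • d') (fun e => n (MulAction.injective g (hg.trans e.symm)))
    (fun e => n' (MulAction.injective g' (hg'.trans e.symm)))
  refine ⟨g'⁻¹ * u * g, ?_, ?_⟩
  · rw [mul_smul, mul_smul, hg, fx u hu, inv_smul_eq_iff, hg']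
  · rw [mul_smul, mul_smul, e, inv_smul_smul]

theorem comm_trs {O : Subgroup G} {d : G} {k : ℤ} (hk : ¬ (p : ℤ) ∣ k) (k2 : ¬ k * k ≡ 1 [ZMOD p]) (OC : O ≤ C S a) (t : Trs O a)
    (dO : Nm d O) (sc : Sc S a d k) (n : a ≠ b) (db : d • b = b) : Trs (Cm O d) a := by
  intro x y xa ya
  refine cl (Cm O d) d {a}ᶜ (fun g hg c hc => smul_ne (h.C_fix (OC (cm_le dO hg))) hc) (fun c hc => ?_)
    (fun g hg c hc c' hc' e e' => ?_) x xa y ya
  · obtain ⟨o, ho, rfl⟩ := t n.symm hc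
    refine ⟨_, inv_mem (cm_mem ho), ?_⟩
    rw [← mul_smul, ← mul_smul, show (o * d * o⁻¹ * d⁻¹)⁻¹ * o = d * o * d⁻¹ by group, mul_smul (d * o),
      inv_smul_eq_iff.2 db.symm]
  · have s := h.Sc_mul (h.Sc_one.2 (OC (cm_le dO hg))) sc
    rw [one_mul] at s
    exact h.sc_fix hk k2 s hc hc' e e'

theorem comm_gen {O : Subgroup G} {d : G} (OC : O ≤ C S a) (t : Trs (Cm O d) a) (t' : Trs O a) (dO : Nm d O) (n : a ≠ b)
    (dW : ∀ w ∈ W S a b, Commute d w) :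
    Cm O d ≤ O ∧ (∀ g ∈ O, Nm g (Cm O d)) ∧ Nm d (Cm O d) ∧ Cm O d ≤ Cm (Cm O d) d := by
  refine ⟨cm_le dO, fun g hg => nm_closure ?_, nm_closure ?_, (closure_le _).2 ?_⟩
  · rintro _ ⟨x, hx, rfl⟩
    have := mul_mem (cm_mem (d := d) (mul_mem hg hx)) (inv_mem (cm_mem (d := d) hg))
    convert this using 1
    group
  · rintro _ ⟨x, hx, rfl⟩
    have := cm_mem (d := d) (dO x hx)
    convert this using 1
    group
  · rintro _ ⟨x, hx, rfl⟩
    obtain ⟨m, hm, e⟩ := t n.symm (smul_ne (h.C_fix (OC hx)) n.symm)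
    have w : m⁻¹ * x ∈ W S a b :=
      mem_W.2 ⟨OC (mul_mem (inv_mem (cm_le dO hm)) hx), by rw [mul_smul, ← e, inv_smul_smul]⟩
    have cw := (dW _ w).eq
    have : x * d * x⁻¹ * d⁻¹ = m * d * m⁻¹ * d⁻¹ := by
      calc x * d * x⁻¹ * d⁻¹ = m * ((m⁻¹ * x) * d) * x⁻¹ * d⁻¹ := by group
        _ = m * (d * (m⁻¹ * x)) * x⁻¹ * d⁻¹ := by rw [cw]
        _ = m * d * m⁻¹ * d⁻¹ := by group
    rw [this]
    exact cm_mem hm

theorem fin {O N : Subgroup G} (OC : O ≤ C S a) (nO : ∀ g : G, g • a = a → Nm g O) (NO : N ≤ O) (nN : ∀ g ∈ O, Nm g N)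
    (nil : Group.IsNilpotent N) (t : Trs N a) : End G Ω := by
  have le : N ≤ Cfsg.fittingOf O := CL.le_fittingOf NO (fun g hg => mem_normalizer_fintype (nN g hg)) nil
  refine ⟨a, Cfsg.fittingOf O, fun u hu => h.C_fix (OC (CL.fittingOf_le O hu)), fun g ga u hu => ?_,
    CL.isNilpotent_fittingOf O, fun xa ya => ?_⟩
  · exact (mem_normalizer_iff.1 (CL.normalizer_le_normalizer_fittingOf O (mem_normalizer_fintype (nO g ga))) u).1 hu
  · obtain ⟨u, hu, e⟩ := t xa ya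
    exact ⟨u, le hu, e⟩

theorem cenC (n : a ≠ b) (z1 : D a b (-1) = 1) {w : G} (hw : w ∈ W S a b) (w1 : w ≠ 1) {g : G} (hg : g ∈ C S a) (cm : Commute w g) :
    ∃ e ∈ E S a, ∃ w' ∈ W S a b, g = e * w' ∧ Commute w w' := by
  have m : g • b ∈ Fx Ω w := by
    change w • g • b = g • b
    rw [← mul_smul, cm.eq, mul_smul, (mem_W.1 hw).2]
  rw [h.fixW n z1 hw w1] at m
  obtain ⟨e, he, w', hw', rfl⟩ := h.C_Ln n hg m
  refine ⟨e, he, w', hw', rfl, ?_⟩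
  have ce : Commute w e := (mem_C.1 hw.1 e he).symm
  simpa using ce.inv_right.mul_right cm

theorem semb (n : a ≠ b) (z1 : D a b (-1) = 1) {u : G} (iu : Iv u) (hu : u ∈ W S a b) (ne : ∃ g ∈ C S a, g • b ∉ Ln S a b) :
    Cfsg.IsStronglyEmbedded ((E S a ⊔ W S a b).subgroupOf (C S a)) := by
  refine ⟨fun e => ?_, ?_, fun g hg => ?_⟩
  · obtain ⟨g, hg, nb⟩ := ne
    have : (⟨g, hg⟩ : C S a) ∈ (E S a ⊔ W S a b).subgroupOf (C S a) := by rw [e]; trivial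
    exact nb ((EW_iff h n hg).1 this)
  · have o : orderOf (⟨⟨u, hu.1⟩, mem_sup_right hu⟩ : (E S a ⊔ W S a b).subgroupOf (C S a)) = 2 := by
      refine orderOf_eq_prime (Subtype.ext (Subtype.ext ?_)) fun e => iu.2 (congrArg (fun z => z.1.1) e)
      simpa [pow_two] using iu.1
    exact even_iff_two_dvd.2 (o ▸ orderOf_dvd_natCard _)
  · by_contra ho
    obtain ⟨⟨t, htm⟩, o⟩ := exists_prime_orderOf_dvd_card' 2 (even_iff_two_dvd.1 (Nat.not_odd_iff_even.1 ho))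
    have o' : orderOf (t : G) = 2 := by rw [← o, Subgroup.orderOf_mk, Subgroup.orderOf_coe]
    obtain ⟨ht0, s, hs0, st⟩ := htm
    have ht : (t : G) ∈ E S a ⊔ W S a b := ht0
    have hs : (s : G) ∈ E S a ⊔ W S a b := hs0
    have tt : (t : G) * t = 1 := by rw [← pow_two, ← o', pow_orderOf_eq_one]
    have t1 : (t : G) ≠ 1 := fun e => by simp [e] at o'
    have st' : (g : G) * s * (g : G)⁻¹ = t := congrArg Subtype.val st
    have ss : (s : G) * s = 1 := by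
      have : (s : G) = (g : G)⁻¹ * t * g := by rw [← st']; group
      rw [this]
      calc (g : G)⁻¹ * t * g * ((g : G)⁻¹ * t * g) = (g : G)⁻¹ * (t * t) * g := by group
        _ = 1 := by rw [tt]; group
    have m : (g : G) • b ∈ Fx Ω (t : G) := by
      change (t : G) • (g : G) • b = (g : G) • b
      rw [← st', mul_smul, inv_smul_smul, mul_smul, (mem_W.1 (inv_W h n hs ss)).2]
    rw [h.fixW n z1 (inv_W h n ht tt) t1] at m
    exact hg ((EW_iff h n g.2).2 m)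

theorem oddtr (n : a ≠ b) (z1 : D a b (-1) = 1) (t : Trs (C S a) a) {u : G} (iu : Iv u) (hu : u ∈ W S a b) {d : G} {k : ℤ}
    (hk : ¬ (p : ℤ) ∣ k) (k2 : ¬ k * k ≡ 1 [ZMOD p]) (sc : Sc S a d k) (db : d • b = b) :
    End G Ω ∨ ∃ O : Subgroup G, O ≤ C S a ∧ Odd (Nat.card O) ∧ E S a ≤ O ∧ (∀ g : G, g • a = a → Nm g O) ∧ Trs O a := by
  by_cases ne : ∃ g ∈ C S a, g • b ∉ Ln S a b
  swap
  · push Not at ne
    have k : ∀ x, x ≠ a → ∃ e ∈ E S a, e • b = x := fun x xa => by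
      obtain ⟨g, hg, rfl⟩ := t n.symm xa
      exact (ne g hg).resolve_left xa
    refine Or.inl (h.end_of_E (a := a) fun {x y} xa ya => ?_)
    obtain ⟨e, he, rfl⟩ := k x xa
    obtain ⟨e', he', rfl⟩ := k y ya
    exact ⟨e' * e⁻¹, mul_mem he' (inv_mem he), by rw [mul_smul, inv_smul_smul]⟩
  have da := h.Sc_fix hk sc
  rcases Cfsg.Agent.S1220.result _ (h.semb n z1 iu hu ne) with t2 | ⟨-, sup⟩
  · exfalso
    obtain ⟨g, hg, nb⟩ := ne
    have m2 : d * g * d⁻¹ ∈ C S a := by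
      have := h.C_conj d hg
      rwa [da] at this
    have e2 : (d * g * d⁻¹) • b = d • g • b := by rw [mul_smul, inv_smul_eq_iff.2 db.symm, mul_smul]
    obtain ⟨r, hr, hr'⟩ := t2 ⟨_, m2⟩ ⟨g, hg⟩ (fun m => nb (by
      have := h.Ln_smul d⁻¹ a b ((EW_iff h n m2).1 m)
      rwa [e2, inv_smul_smul, inv_smul_eq_iff.2 da.symm, inv_smul_eq_iff.2 db.symm] at this))
      (fun m => nb ((EW_iff h n hg).1 m))
    obtain ⟨e₁, he₁, w₁, hw₁, r1⟩ := mem_EW (g := (r : G)) hr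
    obtain ⟨e₂, he₂, w₂, hw₂, r2⟩ := mem_EW (mem_subgroupOf.1 hr')
    have r3 : g⁻¹ * (e₁ * w₁ * (d * g * d⁻¹)) = e₂ * w₂ := by rw [← r1]; exact r2
    have r4 : (w₁ * d) • g • b = (e₁⁻¹ * e₂) • g • b := by
      have : w₁ * (d * g * d⁻¹) = e₁⁻¹ * e₂ * g * w₂ := by
        rw [mul_assoc e₁⁻¹, mem_C.1 hg e₂ he₂, mul_assoc e₁⁻¹, mul_assoc g e₂, ← r3]; group
      rw [mul_smul, ← e2, ← mul_smul, this, mul_smul, (mem_W.1 hw₂).2, mul_smul]
    have s := h.Sc_mul (h.Sc_one.2 hw₁.1) sc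
    rw [one_mul] at s
    have k1 : ¬ (p : ℤ) ∣ k - 1 := fun dv => k2 (by
      have : k ≡ 1 [ZMOD p] := (Int.modEq_iff_dvd.2 dv).symm
      simpa using this.mul this)
    obtain ⟨l, hl⟩ := Tx.ex_inv h.toSys k1
    have he : e₁⁻¹ * e₂ ∈ E S a := mul_mem (inv_mem he₁) he₂
    generalize e₁⁻¹ * e₂ = e at r4 he
    have he' : e ^ (-l) ∈ E S a := zpow_mem he _
    have ca : g • b ≠ a := smul_ne (h.C_fix hg) n.symm
    have fx : (w₁ * d) • e ^ (-l) • g • b = e ^ (-l) • g • b := by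
      have q : (e ^ (-l)) ^ k * e = e ^ (-l) := by
        rw [← zpow_mul, ← zpow_add_one]
        refine Tx.zp_mod (h.toSys.E_pow he) ?_
        have := (hl.neg.add_right (-l + 1))
        convert this using 1 <;> ring
      rw [← mul_smul, eq_mul_of_mul_inv_eq (s _ he'), mul_smul, r4, ← mul_smul, q]
    have := h.sc_fix hk k2 s n.symm (smul_ne (h.toSys.E_fix he') ca)
      (by rw [mul_smul, db, (mem_W.1 hw₁).2]) fx
    exact nb (Or.inr ⟨_, inv_mem he', by rw [inv_smul_eq_iff]; exact this⟩)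
  · have EC := h.E_le_C a
    have le : E S a ≤ (Cfsg.pPrimeCore 2 (C S a)).map (C S a).subtype :=
      CL.le_map_pPrimeCore EC (centralizer_le_normalizer _) (Nat.coprime_two_right.2 (h.E_card a a).2.1)
    have k : ∀ x, x ≠ a → ∃ o ∈ (Cfsg.pPrimeCore 2 (C S a)).map (C S a).subtype, o • b = x := fun x xa => by
      obtain ⟨g, hg, rfl⟩ := t n.symm xa
      have : (⟨g, hg⟩ : C S a) ∈ Cfsg.oddCore (C S a) ⊔ (E S a ⊔ W S a b).subgroupOf (C S a) := by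
        rw [sup]; trivial
      obtain ⟨o, ho, r, hr, e⟩ := Subgroup.mem_sup_of_normal_left.1 this
      obtain ⟨e₁, he₁, w₁, hw₁, r1⟩ := mem_EW (g := (r : G)) hr
      refine ⟨o * e₁, mul_mem ⟨o, ho, rfl⟩ (le he₁), ?_⟩
      have : g = o * (e₁ * w₁) := by rw [← r1]; exact (congrArg Subtype.val e).symm
      rw [this, ← mul_assoc, mul_smul _ w₁, (mem_W.1 hw₁).2]
    refine Or.inr ⟨_, map_subtype_le _, Nat.coprime_two_right.1 (CL.coprime_card_map_pPrimeCore _), le,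
      fun g ga x hx => ?_, fun {x y} xa ya => ?_⟩
    · refine (mem_normalizer_iff.1 (CL.normalizer_le_normalizer_map_pPrimeCore (C S a)
        (mem_normalizer_fintype fun c hc => ?_)) x).1 hx
      have := h.C_conj g hc
      rwa [ga] at this
    · obtain ⟨e, he, rfl⟩ := k x xa
      obtain ⟨e', he', rfl⟩ := k y ya
      exact ⟨e' * e⁻¹, mul_mem he' (inv_mem he), by rw [mul_smul, inv_smul_smul]⟩

theorem z_comm (n : a ≠ b) (n' : a ≠ c) (z1 : D a b (-1) ≠ 1) (z2 : D a c (-1) ≠ 1) (cm : Commute (D a b (-1)) (D a c (-1))) :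
    D a b (-1) = D a c (-1) := by
  have f1 := (h.fixz n z1).2
  have f2 := (h.fixz n' z2).2
  have p2 : IsPGroup 2 (zpowers (D a c (-1))) := by
    refine IsPGroup.of_card (n := 1) ?_
    rw [Nat.card_zpowers, orderOf_eq_prime (p := 2) (by rw [pow_two]; exact h.z_sq n') z2]
    rfl
  have fa : ∀ x ∈ zpowers (D a c (-1)), x • a = a := fun x hx =>
    (zpowers_le (H := MulAction.stabilizer G a)).2 (h.Da _ n') hx
  have md := fix_mod Nat.prime_two p2 (Ln S a b \ {a}) fun x hx q hq => by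
    refine ⟨?_, smul_ne (fa x hx) hq.2⟩
    have hq1 := hq.1
    rw [← f1] at hq1 ⊢
    obtain ⟨j, rfl⟩ := hx
    change D a b (-1) • D a c (-1) ^ j • q = D a c (-1) ^ j • q
    rw [← mul_smul, (cm.zpow_right j).eq, mul_smul, show D a b (-1) • q = q from hq1]
  have cd : (Ln S a b \ {a}).ncard = Nat.card (E S a) := by
    rw [Set.ncard_sdiff_singleton_of_mem (show a ∈ Ln S a b from Or.inl rfl), h.Ln_card n]; rfl
  obtain ⟨q, ⟨hq, qa⟩, fq⟩ : {q ∈ Ln S a b \ {a} | ∀ x ∈ zpowers (D a c (-1)), x • q = q}.Nonempty := by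
    rw [Set.nonempty_iff_ne_empty]
    intro e
    rw [e, cd, Set.ncard_empty] at md
    have := Nat.odd_iff.1 (h.E_card a a).2.1
    unfold Nat.ModEq at md
    omega
  have hq' : q ∈ Ln S a c := f2 ▸ fq _ (mem_zpowers _)
  exact (h.Ln_mem n hq qa).2.2.1.symm.trans (h.Ln_mem n' hq' qa).2.2.1

theorem z_odd (n : a ≠ b) (n' : a ≠ c) (z1 : D a b (-1) ≠ 1) (z2 : D a c (-1) ≠ 1) :
    Odd (orderOf (D a b (-1) * D a c (-1))) := by
  rcases dih (h.z_sq n) (h.z_sq n') with ⟨o, -⟩ | ⟨k, l, iv, c1, -, e⟩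
  · exact o
  exfalso
  have ga : (D a b (-1) * D a c (-1)) ^ l • a = a :=
    (MulAction.stabilizer G a).pow_mem ((MulAction.stabilizer G a).mul_mem (h.Da _ n) (h.Da _ n')) l
  generalize (D a b (-1) * D a c (-1)) ^ l = g at ga e
  generalize (D a b (-1) * D a c (-1)) ^ k = w at iv c1 e
  have key : ∀ q, a ≠ q → D a q (-1) ≠ 1 → w * D a b (-1) ≠ g * D a q (-1) * g⁻¹ := fun q nq zq e => by
    have e1 := h.Deqv g (-1) nq
    rw [ga, ← e] at e1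
    have nq' : a ≠ g • q := (smul_ne ga nq.symm).symm
    have := h.z_comm n nq' z1 (by rw [e1, e]; simpa using zq)
      (by rw [e1]; exact c1.symm.mul_right (Commute.refl _))
    rw [e1] at this
    exact iv.2 (by simpa using this.symm)
  rcases e with e | e
  · exact key b n z1 e
  · exact key c n' z2 e

end Hz

end CL.Cq
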