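/- S3235, disconnected case, `p = 5`: all pairs are line pairs over a field of order `≡ 5 (8)`. -/
import Mathlib
import Cfsg.Agent.CHEV.Cq.Cl
import Cfsg.Agent.S0215

set_option autoImplicit false
set_option linter.unusedSectionVars false
set_option linter.unusedVariables false

namespace CL.Cq

open Subgroup CL.PT CL.PT.L2x

variable {G Ω : Type*} [Group G] [MulAction G Ω] [Finite G] [Finite Ω] {S : Ω → Set G} {D : Ω → Ω → ℤ → G}
  {a b c d : Ω} {x y : G}

/-- the situation -/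
def Od (S : Ω → Set G) : Prop := ∀ a b : Ω, a ≠ b → ∃ (F : Type) (_ : Field F) (_ : Fintype F) (_ : CharP F 5)
  (φ : Matrix.SpecialLinearGroup (Fin 2) F →* G), Full S a b φ ∧ Fintype.card F % 8 = 5

/-- the stabiliser of a set of points -/
def Sb (G : Type*) {Ω : Type*} [Group G] [MulAction G Ω] (L : Set Ω) : Subgroup G where
  carrier := {g | ∀ c, c ∈ L ↔ g • c ∈ L}
  mul_mem' {g g'} hg hg' c := by rw [mul_smul, ← hg, ← hg']
  one_mem' c := by rw [one_smul]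
  inv_mem' {g} hg c := by rw [hg (g⁻¹ • c), smul_inv_smul]

theorem mem_Sb {L : Set Ω} {g : G} : g ∈ Sb G L ↔ ∀ c, c ∈ L ↔ g • c ∈ L := Iff.rfl

/-- a 2-element -/
def E2 (g : G) : Prop := ∃ k : ℕ, g ^ 2 ^ k = 1

/-- `s` fixes a point and centralises (`k = 1`) or inverts (`k = -1`) its root group -/
def Ty (S : Ω → Set G) (s : G) (k : ℤ) : Prop := ∃ c, Sc S c s k

/-- a Sylow 2-subgroup `R` of the stabiliser of the line `Ln c d`, `τ = D c d 2`, `m = x y x` -/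
structure Fr (S : Ω → Set G) (D : Ω → Ω → ℤ → G) (c d : Ω) (x y : G) (R : Subgroup G) : Prop where
  ne : c ≠ d
  hx : x ∈ S c
  hy : y ∈ S d
  bd : Bd x y
  pg : IsPGroup 2 R
  le : R ≤ Sb G (Ln S c d)
  mx : ∀ R' : Subgroup G, IsPGroup 2 R' → R' ≤ Sb G (Ln S c d) → R ≤ R' → R' = R
  τ : D c d 2 ∈ R
  m : x * y * x ∈ R
  sw : ∀ g ∈ R, (g • c = c ∧ g • d = d) ∨ (g • c = d ∧ g • d = c)

namespace Hz

variable (h : Hz 5 S D) (o : Od S)
include h

omit h in
theorem Sb_of {L : Set Ω} {g : G} (hg : ∀ c ∈ L, g • c ∈ L) : g ∈ Sb G L := by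
  obtain ⟨H, hH⟩ := Tx.ex_inv_sub (G := G) L
  refine fun c => ⟨hg c, fun hc => ?_⟩
  have := (hH _).1 (H.inv_mem ((hH g).2 hg)) _ hc
  rwa [inv_smul_smul] at this

omit h in
theorem two_nsq {F : Type} [Field F] [Fintype F] (h8 : Fintype.card F % 8 = 5) : ¬ IsSquare (2 : F) := by
  rw [FiniteField.isSquare_two_iff]
  omega

omit h in
theorem aut_one {F : Type} [Field F] [Fintype F] [CharP F 5] (h8 : Fintype.card F % 8 = 5) (σ : F ≃+* F) {k : ℕ}
    (hk : σ ^ 2 ^ k = 1) : σ = 1 := by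
  induction k generalizing σ with
  | zero => simpa using hk
  | succ k ih =>
    have h2 := ih (σ ^ 2) (by rw [← pow_mul, ← pow_succ', hk])
    by_contra ne
    have ss : ∀ t, σ (σ t) = t := fun t => by
      have := DFunLike.congr_fun h2 t
      exact this
    have ne' : ∃ t, σ t ≠ t := by
      by_contra! e
      exact ne (RingEquiv.ext e)
    exact two_nsq h8 (sq_fix (cast_ne (p := 5) Nat.prime_five le_rfl).1 σ ss ne' (map_ofNat σ 2))

/-- conjugation; a point fixed by `s` carries the same sign (`sc_pm`) -/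
theorem Ty_conj (g : G) {s : G} {k : ℤ} (t : Ty S s k) : Ty S (g * s * g⁻¹) k :=
  t.elim fun c hc => ⟨g • c, h.Sc_conj g hc⟩
/-- `n` even: if `s` centralises `E c` and inverts `E c'`, use `sc_pm`, `Sc_fix`, `Sc_uniq` -/
theorem Ty_not {s : G} (t : Ty S s 1) (t' : Ty S s (-1)) : False := by
  obtain ⟨c, hc⟩ := t
  obtain ⟨c', hc'⟩ := t'
  have := h.Sc_uniq (h.sc_pm (Or.inl rfl) hc (h.Sc_fix (by decide) hc')) hc'
  exact absurd this (by decide)
/-- `Dsc`, `Dmul`; on the line `τ` maps `e • b` to `e⁻¹ • b` -/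
theorem τ_sc (n : a ≠ b) : Sc S a (D a b 2) (-1) ∧ D a b 2 * D a b 2 = D a b (-1) ∧ D a b (-2) = (D a b 2)⁻¹ ∧
    ∀ c ∈ Ln S a b, D a b 2 • c = c → c = a ∨ c = b := by
  have s : Sc S a (D a b 2) (-1) := h.Sc_mod (h.Dsc n (by decide)) (by decide)
  refine ⟨s, ?_, ?_, ?_⟩
  · rw [← h.Dmul n (by decide) (by decide)]
    exact h.Dmod n (by decide)
  · rw [eq_inv_iff_mul_eq_one, ← h.Dmul n (by decide) (by decide), ← h.D1 n]
    exact h.Dmod n (by decide)
  · rintro c (rfl | ⟨e, he, rfl⟩) hc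
    · exact Or.inl rfl
    · right
      have e1 : D a b 2 • e • b = e ^ (-1 : ℤ) • b := by
        rw [← s _ he, mul_smul, mul_smul, inv_smul_eq_iff.2 (h.Db 2 n).symm]
      have e2 : e ^ (-1 : ℤ) = e := h.sr_eq n ((E S a).zpow_mem he _) he (e1.symm.trans hc)
      have e5 := h.toSys.E_pow he
      rw [zpow_neg_one, inv_eq_iff_mul_eq_one] at e2
      rw [show e ^ 5 = (e * e) * (e * e) * e by simp only [pow_succ, pow_zero, one_mul, mul_assoc], e2, one_mul,
        one_mul] at e5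
      rw [e5, one_smul]

include o

theorem od_card (a : Ω) : Nat.card (E S a) % 8 = 5 := by
  have := h.two
  obtain ⟨b, n⟩ := exists_ne a
  obtain ⟨F, _, _, _, φ, f, h8⟩ := o a b n.symm
  rwa [← h.full_card n.symm f]
theorem od_LP (n : a ≠ b) : LP 5 S a b := by
  obtain ⟨F, i1, i2, i3, φ, f, -⟩ := o a b n
  exact ⟨F, i1, i2, i3, φ, f⟩
/-- `2` is a non-square (`2² = -1`, `8 ∤ q - 1`), `sq_mem` -/
theorem od_all {e : G} (he : e ∈ E S a) (e1 : e ≠ 1) : e ∈ S a := by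
  classical
  have := h.two
  obtain ⟨b, n⟩ := exists_ne a
  obtain ⟨F, _, _, _, φ, f, h8⟩ := o a b n.symm
  obtain ⟨t, rfl⟩ := f.uS e he
  have t0 : t ≠ 0 := by
    rintro rfl
    exact e1 (by rw [uu_zero, map_one])
  have h2 : (2 : F) ≠ 0 := (cast_ne h.pr h.p5).1
  by_cases sq : IsSquare t
  · obtain ⟨s, rfl⟩ := sq
    have := f.toChart.sq_mem h.toSys n.symm f.u1 (s := s) (left_ne_zero_of_mul t0) (k := 1) (by simp)
    simpa using this
  · have : IsSquare (2 * t) := by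
      rw [← quadraticChar_one_iff_isSquare (mul_ne_zero h2 t0), map_mul,
        quadraticChar_neg_one_iff_not_isSquare.2 (two_nsq h8), quadraticChar_neg_one_iff_not_isSquare.2 sq]
      norm_num
    obtain ⟨s, hs⟩ := this
    have s0 : s ≠ 0 := left_ne_zero_of_mul (hs ▸ mul_ne_zero h2 t0)
    have := f.toChart.sq_mem h.toSys n.symm f.u1 (s := s / 2) (div_ne_zero s0 h2) (k := 2) (by simpa using h2)
    rwa [show ((2 : ℤ) : F) * (s / 2 * (s / 2) * 1) = t by
      push_cast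
      field_simp
      linear_combination -hs] at this
/-- `LP_line` -/
theorem od_line (n : a ≠ b) (hc : c ∈ Ln S a b) (hd : d ∈ Ln S a b) (cd : c ≠ d) :
    Ln S c d = Ln S a b ∧ W S c d = W S a b ∧ D c d (-1) = D a b (-1) ∧ E S c ⊔ E S d = E S a ⊔ E S b :=
  (h.LP_line n (h.od_LP o n) hc hd cd).2
/-- `Full.aut`: `σ` has 2-power order and `[F : F₅]` is odd (`q ≡ 5 (8)`; or: an automorphism of order 2 makes `q` an odd square, `≡ 1 (8)`), so `σ = 1`; `α ^ (2 ^ k) = 1` gives `α ^ 4 = 1`, `α ∈ {±1, ±2}` -/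
theorem sc2 (n : a ≠ b) {g : G} (g2 : E2 g) (ga : g • a = a) (gb : g • b = b) :
    Sc S a g 1 ∨ Sc S a g (-1) ∨ Sc S a g 2 ∨ Sc S a g (-2) := by
  obtain ⟨F, _, _, _, φ, f, h8⟩ := o a b n
  obtain ⟨α, σ, α0, hu, -⟩ := f.aut h n ga gb
  obtain ⟨k, hk⟩ := g2
  have it : ∀ m : ℕ, ∃ β : F, (σ = 1 → β = α ^ m) ∧ ∀ t, g ^ m * φ (uu t) * (g ^ m)⁻¹ = φ (uu (β * (σ ^ m) t)) := by
    intro m
    induction m with
    | zero => exact ⟨1, fun _ => (pow_zero _).symm, fun t => by simp⟩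
    | succ m ih =>
      obtain ⟨β, h1, h2⟩ := ih
      refine ⟨α * σ β, fun e => by rw [h1 e, e, pow_succ']; rfl, fun t => ?_⟩
      rw [show g ^ (m + 1) * φ (uu t) * (g ^ (m + 1))⁻¹ = g * (g ^ m * φ (uu t) * (g ^ m)⁻¹) * g⁻¹ by group, h2, hu,
        map_mul, pow_succ', mul_assoc]
      rfl
  obtain ⟨β, h1, h2⟩ := it (2 ^ k)
  simp only [hk, one_mul, inv_one, mul_one] at h2
  have b1 : β = 1 := by
    have := f.toChart.u_inj h.toSys n (h2 1)
    rw [map_one, mul_one] at this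
    exact this.symm
  have s1 : σ = 1 := aut_one h8 σ (k := k) (RingEquiv.ext fun t => by
    have := f.toChart.u_inj h.toSys n (h2 t)
    rw [b1, one_mul] at this
    exact this.symm)
  have a2 : α ^ 2 ^ k = 1 := by rw [← h1 s1, b1]
  have a4 : α ^ 4 = 1 := by
    have d1 := orderOf_dvd_of_pow_eq_one a2
    have d2 := orderOf_dvd_of_pow_eq_one (FiniteField.pow_card_sub_one_eq_one α α0)
    obtain ⟨j, -, hj⟩ := (Nat.dvd_prime_pow Nat.prime_two).1 d1
    apply orderOf_dvd_iff_pow_eq_one.1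
    rw [hj] at d2 ⊢
    by_cases j2 : j ≤ 2
    · exact pow_dvd_pow 2 j2
    · have : 8 ∣ Fintype.card F - 1 := (pow_dvd_pow 2 (show 3 ≤ j by omega)).trans d2
      omega
  have key : ∀ m : ℤ, α = m → Sc S a g m := fun m hm e he => by
    obtain ⟨t, rfl⟩ := f.uS e he
    rw [hu, s1, hm, ← map_zpow, Tx.uu_zpow]
    rfl
  have h5 : (5 : F) = 0 := by exact_mod_cast CharP.cast_eq_zero F 5
  have : (α - 1) * (α + 1) * (α - 2) * (α + 2) = 0 := by linear_combination a4 + (1 - α ^ 2) * h5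
  rcases mul_eq_zero.1 this with e | e
  · rcases mul_eq_zero.1 e with e | e
    · rcases mul_eq_zero.1 e with e | e
      · exact Or.inl (key 1 (by push_cast; linear_combination e))
      · exact Or.inr (Or.inl (key (-1) (by push_cast; linear_combination e)))
    · exact Or.inr (Or.inr (Or.inl (key 2 (by push_cast; linear_combination e))))
  · exact Or.inr (Or.inr (Or.inr (key (-2) (by push_cast; linear_combination e))))
theorem ty2 (n : a ≠ b) {s : G} (ss : s * s = 1) (sa : s • a = a) (sb : s • b = b) : Sc S a s 1 ∨ Sc S a s (-1) := by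
  have one : Sc S a (s * s) 1 := by
    rw [ss]
    exact h.Sc_one.2 (one_mem _)
  rcases h.sc2 o n ⟨1, by rw [pow_one, pow_two, ss]⟩ sa sb with e | e | e | e
  · exact Or.inl e
  · exact Or.inr e
  · exact absurd (h.Sc_uniq (h.Sc_mul e e) one) (by decide)
  · exact absurd (h.Sc_uniq (h.Sc_mul e e) one) (by decide)
/-- `Sb` normalises `K = E a ⊔ E b` (`od_line`), `W = C(K)`, `z` -/
theorem Sb_norm (n : a ≠ b) {g : G} (hg : g ∈ Sb G (Ln S a b)) :
    Nm g (E S a ⊔ E S b) ∧ Nm g (W S a b) ∧ Commute g (D a b (-1)) := by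
  have ha : g • a ∈ Ln S a b := (hg a).1 (Or.inl rfl)
  have hb : g • b ∈ Ln S a b := (hg b).1 (Or.inr ⟨1, one_mem _, one_smul _ _⟩)
  obtain ⟨-, e1, e2, e3⟩ := h.od_line o n ha hb fun e => n (MulAction.injective g e)
  refine ⟨fun x hx => ?_, fun w hw => ?_, ?_⟩
  · have : E S a ⊔ E S b ≤ (E S (g • a) ⊔ E S (g • b)).comap (MulAut.conj g).toMonoidHom :=
      sup_le (fun e he => mem_sup_left (h.toSys.E_conj g he)) (fun e he => mem_sup_right (h.toSys.E_conj g he))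
    rw [← e3]
    exact this hx
  · rw [← e1]
    refine ⟨h.C_conj g hw.1, ?_⟩
    show (g * w * g⁻¹) • g • b = g • b
    rw [mul_smul, mul_smul, inv_smul_smul, show w • b = b from hw.2]
  · rw [h.Deqv g _ n, mul_inv_eq_iff_eq_mul] at e2
    exact e2
theorem K_le (n : a ≠ b) : E S a ⊔ E S b ≤ Sb G (Ln S a b) ∧ W S a b ≤ Sb G (Ln S a b) ∧ ∀ w ∈ W S a b, ∀ c ∈ Ln S a b, w • c = c := by
  have k : ∀ w ∈ W S a b, ∀ c ∈ Ln S a b, w • c = c := by
    rintro w hw c (rfl | ⟨e, he, rfl⟩)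
    · exact h.C_fix hw.1
    · rw [← mul_smul, ← hw.1 e he, mul_smul, show w • b = b from hw.2]
  refine ⟨?_, fun w hw => Sb_of fun c hc => by rwa [k w hw c hc], k⟩
  obtain ⟨F, _, _, _, φ, f, -⟩ := o a b n
  rw [← h.full_range n f, h.full_Ln n f]
  rintro _ ⟨A, rfl⟩
  exact Sb_of fun c hc => f.toChart.inv_pt h.toSys n A hc
theorem Sb_of_pair (n : a ≠ b) {g : G} (e : (g • a = a ∧ g • b = b) ∨ (g • a = b ∧ g • b = a)) : g ∈ Sb G (Ln S a b) := by
  refine Sb_of fun c hc => ?_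
  have := h.Ln_smul g a b hc
  rcases e with ⟨e1, e2⟩ | ⟨e1, e2⟩
  · rwa [e1, e2] at this
  · rwa [e1, e2, (h.od_line o n (Or.inr ⟨1, one_mem _, one_smul _ _⟩) (Or.inl rfl) n.symm).1] at this
/-- `g = h m`, in a full chart with `u(1) = x` (`rescale`): `g pt(s) = pt(-k / s)`, and `-k = ∓1` is a square -/
theorem inner_fix (n : a ≠ b) (hx : x ∈ S a) (hy : y ∈ S b) (d : Bd x y) {g : G} {k : ℤ} (hk : k = 1 ∨ k = -1)
    (sc : Sc S a (g * (x * y * x)⁻¹) k) (ga : g • a = b) : ∃ c ∈ Ln S a b, g • c = c := by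
  obtain ⟨F, _, _, _, φ, c, u1, l1, -⟩ := h.chart2 n hx hx hy d
  have m : x * y * x = (φ ww)⁻¹ := by
    rw [← u1, ← l1, ← map_mul, ← map_mul, ← map_inv]
    congr 1
    rw [eq_inv_iff_mul_eq_one]
    apply ext2 <;> simp [mul_ap, uu_val, ll_val, ww_val]
  have hb : (g * (x * y * x)⁻¹) • b = b := by
    rw [mul_smul, inv_smul_eq_iff.2 (h.toSys.bd hx hy d).1.symm, ga]
  have h5 : (5 : F) = 0 := by exact_mod_cast CharP.cast_eq_zero F 5
  obtain ⟨s, s0, hs⟩ : ∃ s : F, s ≠ 0 ∧ s * s = -k := by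
    rcases hk with rfl | rfl
    · exact ⟨2, (cast_ne h.pr h.p5).1, by push_cast; linear_combination h5⟩
    · exact ⟨1, one_ne_zero, by simp⟩
  refine ⟨φ (uu s) • b, Or.inr ⟨_, c.uE s, rfl⟩, ?_⟩
  have e1 : (x * y * x) • φ (uu s) • b = φ (uu (-s⁻¹)) • b := by
    rw [m, inv_smul_eq_iff, c.w_pt h.toSys n (neg_ne_zero.2 (inv_ne_zero s0)), inv_neg, inv_inv, neg_neg]
  have e2 := sc _ (c.uE (-s⁻¹))
  rw [← map_zpow, Tx.uu_zpow, show (k : F) * -s⁻¹ = s by field_simp; linear_combination -hs, mul_inv_eq_iff_eq_mul] at e2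
  calc g • φ (uu s) • b = (g * (x * y * x)⁻¹) • (x * y * x) • φ (uu s) • b := by rw [mul_smul, inv_smul_smul]
    _ = _ := by rw [e1, ← mul_smul, e2, mul_smul, hb]
/-- `g m g⁻¹ = μ (x ^ k) = D k * m` (`eig`, `mu_pow`) -/
theorem conj_m (n : a ≠ b) (hx : x ∈ S a) (hy : y ∈ S b) (d : Bd x y) {g : G} {k : ℤ} (hk : ¬ (5 : ℤ) ∣ k) (sc : Sc S a g k)
    (gb : g • b = b) : g * (x * y * x) * g⁻¹ = D a b k * (x * y * x) := by
  obtain ⟨l, kl⟩ := Tx.ex_inv h.toSys hk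
  have e1 := sc x (subset_closure hx)
  have e2 := h.eig n hx hy d kl e1 gb
  rw [← (h.mu_pow n hx hy d kl).2, ← e1, ← e2]
  group

end Hz

end CL.Cq
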