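/- S3235, disconnected case, `p = 5`: all pairs are line pairs over a field of order `≡ 5 (8)`. -/
import Mathlib
import Cfsg.Agent.CHEV.Cq.OdA
import Cfsg.Agent.S0215
import Cfsg.Agent.TECH.SylIn
import Cfsg.Agent.PERM.Derange

set_option autoImplicit false
set_option maxHeartbeats 200000

namespace CL.Cq

open Subgroup CL.PT CL.PT.L2x

variable {G Ω : Type*} [Group G] [MulAction G Ω] [Finite G] [Finite Ω] {S : Ω → Set G} {D : Ω → Ω → ℤ → G}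
  {a b c d : Ω} {x y : G}

set_option linter.unusedSectionVars false

namespace Odx

open CL.MSS

/-- the stabiliser of the pair -/
def Pr (G : Type*) {Ω : Type*} [Group G] [MulAction G Ω] (c d : Ω) : Subgroup G where
  carrier := {g | (g • c = c ∧ g • d = d) ∨ (g • c = d ∧ g • d = c)}
  one_mem' := Or.inl ⟨one_smul _ _, one_smul _ _⟩
  mul_mem' := by
    rintro g g' (⟨h1, h2⟩ | ⟨h1, h2⟩) (⟨h3, h4⟩ | ⟨h3, h4⟩) <;> simp [mul_smul, h1, h2, h3, h4]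
  inv_mem' := by
    rintro g (⟨h1, h2⟩ | ⟨h1, h2⟩)
    · exact Or.inl ⟨inv_smul_eq_iff.2 h1.symm, inv_smul_eq_iff.2 h2.symm⟩
    · exact Or.inr ⟨inv_smul_eq_iff.2 h2.symm, inv_smul_eq_iff.2 h1.symm⟩

theorem pg_of {g : G} (g2 : E2 g) : IsPGroup 2 (zpowers g) := by
  obtain ⟨k, hk⟩ := g2
  rintro ⟨t, ht⟩
  obtain ⟨j, rfl⟩ := mem_zpowers_iff.1 ht
  exact ⟨k, Subtype.ext (by
    change (g ^ j) ^ 2 ^ k = 1
    rw [← zpow_natCast, ← zpow_mul, mul_comm, zpow_mul, zpow_natCast, hk, one_zpow])⟩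

theorem e2_of {R : Subgroup G} (pg : IsPGroup 2 R) {g : G} (hg : g ∈ R) : E2 g := by
  obtain ⟨k, hk⟩ := pg ⟨g, hg⟩
  exact ⟨k, by simpa using congrArg Subtype.val hk⟩

theorem sec {R : Subgroup G} (pg : IsPGroup 2 R) {L : Set Ω} (iv : ∀ g ∈ R, ∀ c ∈ L, g • c ∈ L) (ev : Even L.ncard)
    (hc : c ∈ L) (fc : ∀ g ∈ R, g • c = c) : ∃ d ∈ L, c ≠ d ∧ ∀ g ∈ R, g • d = d := by
  by_contra hn
  push Not at hn
  have md := fix_mod Nat.prime_two pg L iv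
  have e : {c ∈ L | ∀ x ∈ R, x • c = c} = {c} := by
    ext d
    constructor
    · rintro ⟨hd, fd⟩
      by_contra ne
      obtain ⟨g, hg, n⟩ := hn d hd (Ne.symm ne)
      exact n (fd g hg)
    · rintro rfl
      exact ⟨hc, fc⟩
  rw [e, Set.ncard_singleton] at md
  have := Nat.even_iff.1 ev
  unfold Nat.ModEq at md
  omega

theorem sec1 {g : G} (g2 : E2 g) (H : Subgroup G) (hg : g ∈ H) {L : Set Ω} (iv : ∀ g ∈ H, ∀ c ∈ L, g • c ∈ L)
    (ev : Even L.ncard) (hc : c ∈ L) (fc : g • c = c) : ∃ d ∈ L, c ≠ d ∧ g • d = d := by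
  obtain ⟨d, hd, n, fd⟩ := sec (pg_of g2) (fun x hx => iv x (zpowers_le.2 hg hx)) ev hc
    fun x hx => (zpowers_le (H := MulAction.stabilizer G c)).2 fc hx
  exact ⟨d, hd, n, fd g (mem_zpowers g)⟩

theorem two_pt {R : Subgroup G} (pg : IsPGroup 2 R) {L : Set Ω} (iv : ∀ g ∈ R, ∀ c ∈ L, g • c ∈ L) (m4 : L.ncard % 4 = 2) :
    ∃ c ∈ L, ∃ d ∈ L, c ≠ d ∧ R ≤ Pr G c d := by
  have : Fact (Nat.Prime 2) := ⟨Nat.prime_two⟩
  obtain ⟨x, hx, n4⟩ : ∃ x ∈ L, ¬ 4 ∣ (MulAction.orbit R x).ncard := by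
    by_contra hn
    push Not at hn
    have := CL.Perm.dvd_ncard_of_dvd_orbits (H := R) L (fun g x hx => iv g g.2 x hx) 4 hn
    omega
  obtain ⟨j, hj⟩ := pg.index (MulAction.stabilizer R x)
  rcases j with _ | _ | j
  · rw [pow_zero, Subgroup.index_eq_one] at hj
    have fc : ∀ g ∈ R, g • x = x := fun g hg => by
      have : (⟨g, hg⟩ : R) ∈ MulAction.stabilizer R x := by rw [hj]; trivial
      exact this
    obtain ⟨d, hd, n, fd⟩ := sec pg iv (Nat.even_iff.2 (by omega)) hx fc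
    exact ⟨x, hx, d, hd, n, fun g hg => Or.inl ⟨fc g hg, fd g hg⟩⟩
  · rw [MulAction.index_stabilizer] at hj
    obtain ⟨c, d, n, e⟩ := Set.ncard_eq_two.1 hj
    have sub : ∀ u ∈ MulAction.orbit R x, u ∈ L := by
      rintro _ ⟨g, rfl⟩
      exact iv g g.2 x hx
    have mv : ∀ g ∈ R, ∀ u ∈ ({c, d} : Set Ω), g • u ∈ ({c, d} : Set Ω) := by
      intro g hg u hu
      rw [← e] at hu ⊢
      exact MulAction.mem_orbit_of_mem_orbit (⟨g, hg⟩ : R) hu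
    refine ⟨c, sub c (e ▸ Or.inl rfl), d, sub d (e ▸ Or.inr rfl), n, fun g hg => ?_⟩
    rcases mv g hg c (Or.inl rfl) with h1 | h1 <;> rcases mv g hg d (Or.inr rfl) with h2 | h2
    · exact absurd (MulAction.injective g (h1.trans h2.symm)) n
    · exact Or.inl ⟨h1, h2⟩
    · exact Or.inr ⟨h1, h2⟩
    · exact absurd (MulAction.injective g (h1.trans h2.symm)) n
  · rw [← MulAction.index_stabilizer, hj] at n4
    exact absurd ⟨2 ^ j, by ring⟩ n4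

theorem cj_into {R P : Subgroup G} (s : SylIn 2 R P) {t : G} (t2 : E2 t) (ht : t ∈ P) : ∃ g ∈ P, g * t * g⁻¹ ∈ R := by
  have : Fact (Nat.Prime 2) := ⟨Nat.prime_two⟩
  obtain ⟨g, hg, le⟩ := s.exists_conj_le (pg_of t2) (zpowers_le.2 ht)
  exact ⟨g, hg, le ⟨t, mem_zpowers t, rfl⟩⟩

variable (h : Hz 5 S D)
include h

theorem e2_sq (n : c ≠ d) {t : G} (e : t * t = D c d (-1)) : E2 t :=
  ⟨2, by rw [show t ^ 2 ^ 2 = t * t * (t * t) by simp [pow_succ, mul_assoc], e, h.z_sq n]⟩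

theorem fr0 (n : c ≠ d) {R : Subgroup G} (s : SylIn 2 R (Pr G c d)) :
    D c d 2 ∈ R ∧ ∃ x ∈ S c, ∃ y ∈ S d, Bd x y ∧ x * y * x ∈ R := by
  constructor
  · obtain ⟨g, hg, m⟩ := cj_into s (e2_sq h n (h.τ_sc n).2.1) (Or.inl ⟨h.Da _ n, h.Db _ n⟩)
    rcases hg with ⟨h1, h2⟩ | ⟨h1, h2⟩
    · rwa [(h.D_comm n 2 h1 h2).eq, mul_inv_cancel_right] at m
    · rw [h.D_swap n 2 h1 h2] at m
      exact inv_mem_iff.1 m
  · obtain ⟨x, hx⟩ := h.ex c
    obtain ⟨y0, hy0⟩ := h.ex d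
    obtain ⟨y, hy, -, bd, -⟩ := h.toSys.partner n hx hy0
    have sw := h.toSys.bd hx hy bd
    obtain ⟨g, hg, m⟩ := cj_into s (e2_sq h n (h.mu_sq n hx hy bd)) (Or.inr ⟨sw.1, sw.2.1⟩)
    have bd' := Tx.bd_conj g bd
    have hx' := h.conj g hx
    have hy' := h.conj g hy
    have e : g * (x * y * x) * g⁻¹ = g * x * g⁻¹ * (g * y * g⁻¹) * (g * x * g⁻¹) := by group
    rw [e] at m
    rcases hg with ⟨h1, h2⟩ | ⟨h1, h2⟩ <;> rw [h1] at hx' <;> rw [h2] at hy'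
    · exact ⟨_, hx', _, hy', bd', m⟩
    · exact ⟨_, hy', _, hx', bd'.symm, by rwa [show _ = _ from bd'] at m⟩

theorem mul22 {u v : G} (su : Sc S c u 2 ∨ Sc S c u (-2)) (sv : Sc S c v 2 ∨ Sc S c v (-2)) :
    Sc S c (u * v) 1 ∨ Sc S c (u * v) (-1) := by
  rcases su with su | su <;> rcases sv with sv | sv
  · exact Or.inr (h.Sc_mod (h.Sc_mul su sv) (by decide))
  · exact Or.inl (h.Sc_mod (h.Sc_mul su sv) (by decide))
  · exact Or.inl (h.Sc_mod (h.Sc_mul su sv) (by decide))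
  · exact Or.inr (h.Sc_mod (h.Sc_mul su sv) (by decide))

theorem decA (n : c ≠ d) {R : Subgroup G} (τ : D c d 2 ∈ R) {v : G} (hv : v ∈ R) (vd : v • d = d)
    (sv : Sc S c v 1 ∨ Sc S c v (-1)) : ∃ i : ℕ, i ≤ 1 ∧ ∃ w ∈ R, w ∈ W S c d ∧ v = D c d 2 ^ i * w := by
  rcases sv with sv | sv
  · exact ⟨0, by omega, v, hv, mem_W.2 ⟨h.Sc_one.1 sv, vd⟩, by simp⟩
  · refine ⟨1, le_rfl, (D c d 2)⁻¹ * v, mul_mem (inv_mem τ) hv, mem_W.2 ⟨h.Sc_div (h.τ_sc n).1 sv, ?_⟩, by simp⟩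
    rw [mul_smul, vd, inv_smul_eq_iff, h.Db _ n]

theorem ev (o : Od S) (n : a ≠ b) : (Ln S a b).ncard % 8 = 6 := by
  have := h.od_card o a
  rw [h.Ln_card n]; omega

end Odx

open Odx CL.MSS

namespace Hz

variable (h : Hz 5 S D) (o : Od S)
include h o

theorem fr (n : a ≠ b) {R₀ : Subgroup G} (pg : IsPGroup 2 R₀) (le : R₀ ≤ Sb G (Ln S a b)) :
    ∃ c ∈ Ln S a b, ∃ d ∈ Ln S a b, ∃ x y R, Fr S D c d x y R ∧ R₀ ≤ R := by
  obtain ⟨R, s, le'⟩ := exists_sylIn_ge pg le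
  have := ev h o n
  obtain ⟨c, hc, d, hd, cd, sw⟩ := two_pt s.pgroup (L := Ln S a b) (fun g hg c hc => (mem_Sb.1 (s.le hg) c).1 hc) (by omega)
  have e := (h.od_line o n hc hd cd).1
  have PS : Pr G c d ≤ Sb G (Ln S a b) := fun g hg => e ▸ h.Sb_of_pair o cd hg
  obtain ⟨τ, x, hx, y, hy, bd, m⟩ := fr0 h cd (s.of_le sw PS)
  exact ⟨c, hc, d, hd, x, y, R, ⟨cd, hx, hy, bd, s.pgroup, e ▸ s.le, fun R' p' l' l => s.max R' p' l (e ▸ l'), τ, m, sw⟩, le'⟩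

theorem fr_outer {R : Subgroup G} (f : Fr S D c d x y R) {g : G} (hg : g ∈ R) (fp : ∀ e ∈ Ln S c d, g • e ≠ e) :
    g • c = d ∧ g • d = c ∧ (Sc S c (g * (x * y * x)⁻¹) 2 ∨ Sc S c (g * (x * y * x)⁻¹) (-2)) ∧
      g * D c d 2 * g⁻¹ = (D c d 2)⁻¹ ∧
      (g * (x * y * x) * g⁻¹ = D c d 2 * (x * y * x) ∨ g * (x * y * x) * g⁻¹ = (D c d 2)⁻¹ * (x * y * x)) := by
  have n := f.ne
  obtain ⟨gc, gd⟩ := (f.sw g hg).resolve_left fun e => fp c (Or.inl rfl) e.1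
  have sw := h.toSys.bd f.hx f.hy f.bd
  have kc : (g * (x * y * x)⁻¹) • c = c := by rw [mul_smul, inv_smul_eq_iff.2 sw.2.1.symm, gd]
  have kd : (g * (x * y * x)⁻¹) • d = d := by rw [mul_smul, inv_smul_eq_iff.2 sw.1.symm, gc]
  have ni : ∀ k : ℤ, k = 1 ∨ k = -1 → ¬ Sc S c (g * (x * y * x)⁻¹) k := fun k hk sc => by
    obtain ⟨e, he, fe⟩ := h.inner_fix o n f.hx f.hy f.bd hk sc gc
    exact fp e he fe
  have sc := ((h.sc2 o n (e2_of f.pg (mul_mem hg (inv_mem f.m))) kc kd).resolve_left (ni 1 (Or.inl rfl))).resolve_left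
    (ni (-1) (Or.inr rfl))
  refine ⟨gc, gd, sc, h.D_swap n 2 gc gd, ?_⟩
  have e : g * (x * y * x) * g⁻¹ = g * (x * y * x)⁻¹ * (x * y * x) * (g * (x * y * x)⁻¹)⁻¹ := by group
  rw [e]
  rcases sc with sc | sc
  · exact Or.inl (h.conj_m o n f.hx f.hy f.bd (by decide) sc kd)
  · rw [← (h.τ_sc n).2.2.1]
    exact Or.inr (h.conj_m o n f.hx f.hy f.bd (by decide) sc kd)

theorem fr_dec {R : Subgroup G} (f : Fr S D c d x y R) {g : G} (hg : g ∈ R) (fp : ∀ e ∈ Ln S c d, g • e ≠ e) {r : G} (hr : r ∈ R) :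
    ∃ i j l : ℕ, i ≤ 1 ∧ j ≤ 1 ∧ l ≤ 1 ∧ ∃ w ∈ R, w ∈ W S c d ∧ r = D c d 2 ^ i * (x * y * x) ^ j * w * g ^ l := by
  have n := f.ne
  have sw := h.toSys.bd f.hx f.hy f.bd
  obtain ⟨gc, gd, sk, -⟩ := h.fr_outer o f hg fp
  obtain ⟨gc', gd', sk', -⟩ := h.fr_outer o f (inv_mem hg) fun e he fe => fp e he (inv_smul_eq_iff.1 fe).symm
  have nm := (h.Sb_norm o n (f.le (inv_mem f.m))).2.1
  have mR := f.m
  generalize x * y * x = m at *
  have mc : m⁻¹ • c = d := inv_smul_eq_iff.2 sw.2.1.symm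
  have md : m⁻¹ • d = c := inv_smul_eq_iff.2 sw.1.symm
  have wm : ∀ w ∈ R, w ∈ W S c d → m⁻¹ * w * m ∈ R ∧ m⁻¹ * w * m ∈ W S c d := fun w hw hw' =>
    ⟨mul_mem (mul_mem (inv_mem mR) hw) mR, by simpa using nm w hw'⟩
  rcases f.sw r hr with ⟨rc, rd⟩ | ⟨rc, rd⟩
  · rcases or_assoc.2 (h.sc2 o n (e2_of f.pg hr) rc rd) with s | s
    · obtain ⟨i, hi, w, hw, hw', e⟩ := decA h n f.τ hr rd s
      exact ⟨i, 0, 0, hi, by omega, by omega, w, hw, hw', by simpa using e⟩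
    · obtain ⟨i, hi, w, hw, hw', e⟩ := decA h n f.τ (mul_mem hr (mul_mem (inv_mem hg) (inv_mem mR)))
        (by rw [mul_smul, mul_smul, md, gc', rd]) (mul22 h s sk')
      refine ⟨i, 1, 1, hi, le_rfl, le_rfl, _, (wm w hw hw').1, (wm w hw hw').2, ?_⟩
      calc r = r * (g⁻¹ * m⁻¹) * (m * g) := by group
        _ = _ := by rw [e]; group
  · have hv : r * g⁻¹ ∈ R := mul_mem hr (inv_mem hg)
    have vc : (r * g⁻¹) • c = c := by rw [mul_smul, gc', rd]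
    have vd : (r * g⁻¹) • d = d := by rw [mul_smul, gd', rc]
    rcases or_assoc.2 (h.sc2 o n (e2_of f.pg hv) vc vd) with s | s
    · obtain ⟨i, hi, w, hw, hw', e⟩ := decA h n f.τ hv vd s
      refine ⟨i, 0, 1, hi, by omega, le_rfl, w, hw, hw', ?_⟩
      calc r = r * g⁻¹ * g := by group
        _ = _ := by rw [e]; group
    · obtain ⟨i, hi, w, hw, hw', e⟩ := decA h n f.τ (mul_mem hv (mul_mem hg (inv_mem mR)))
        (by rw [mul_smul, mul_smul g, md, gc, vd]) (mul22 h s sk)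
      refine ⟨i, 1, 0, hi, le_rfl, by omega, _, (wm w hw hw').1, (wm w hw hw').2, ?_⟩
      calc r = r * g⁻¹ * (g * m⁻¹) * m := by group
        _ = _ := by rw [e]; group

theorem fpf2 (n : a ≠ b) {R : Subgroup G} (pg : IsPGroup 2 R) (le : R ≤ Sb G (Ln S a b)) {g g' : G} (hg : g ∈ R) (hg' : g' ∈ R)
    (fp : ∀ e ∈ Ln S a b, g • e ≠ e) (fp' : ∀ e ∈ Ln S a b, g' • e ≠ e) : ∃ e ∈ Ln S a b, (g * g') • e = e := by
  obtain ⟨c, hc, d, hd, x, y, R', f, le'⟩ := h.fr o n pg le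
  have e := (h.od_line o n hc hd f.ne).1
  obtain ⟨-, gd, -⟩ := h.fr_outer o f (le' hg) (e ▸ fp)
  obtain ⟨gc, -⟩ := h.fr_outer o f (le' hg') (e ▸ fp')
  exact ⟨c, hc, by rw [mul_smul, gc, gd]⟩

theorem fpf_of (n : a ≠ b) (n' : c ≠ d) (ne : Ln S c d ≠ Ln S a b) {g : G} (g2 : E2 g) (hg : g ∈ Sb G (Ln S a b))
    (fx : Fx Ω g ⊆ Ln S c d) : ∀ e ∈ Ln S a b, g • e ≠ e := by
  intro e he fe
  have := ev h o n
  obtain ⟨e', he', ee, fe'⟩ := sec1 g2 _ hg (L := Ln S a b) (fun g hg c hc => (mem_Sb.1 hg c).1 hc)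
    (Nat.even_iff.2 (by omega)) he fe
  exact ne ((h.od_line o n' (fx fe) (fx fe') ee).1.symm.trans (h.od_line o n he he' ee).1)

theorem outer (n : a ≠ b) {g : G} (g2 : E2 g) (ga : g • a = b) (gb : g • b = a) (fp : ∀ e ∈ Ln S a b, g • e ≠ e) :
    ∃ k : G, E2 k ∧ Sc S a k 2 ∧ k • b = b := by
  obtain ⟨R, s, le⟩ := exists_sylIn_ge (pg_of g2) (zpowers_le.2 (show g ∈ Pr G a b from Or.inr ⟨ga, gb⟩))
  obtain ⟨-, x, hx, y, hy, bd, m⟩ := fr0 h n s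
  have sw := h.toSys.bd hx hy bd
  have kR : g * (x * y * x)⁻¹ ∈ R := mul_mem (le (mem_zpowers g)) (inv_mem m)
  have kc : (g * (x * y * x)⁻¹) • a = a := by rw [mul_smul, inv_smul_eq_iff.2 sw.2.1.symm, gb]
  have kd : (g * (x * y * x)⁻¹) • b = b := by rw [mul_smul, inv_smul_eq_iff.2 sw.1.symm, ga]
  have ni : ∀ k : ℤ, k = 1 ∨ k = -1 → ¬ Sc S a (g * (x * y * x)⁻¹) k := fun k hk sc => by
    obtain ⟨e, he, fe⟩ := h.inner_fix o n hx hy bd hk sc ga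
    exact fp e he fe
  have sc := ((h.sc2 o n (e2_of s.pgroup kR) kc kd).resolve_left (ni 1 (Or.inl rfl))).resolve_left (ni (-1) (Or.inr rfl))
  generalize g * (x * y * x)⁻¹ = k at *
  rcases sc with sc | sc
  · exact ⟨k, e2_of s.pgroup kR, sc, kd⟩
  · exact ⟨k * k * k, e2_of s.pgroup (mul_mem (mul_mem kR kR) kR), h.Sc_mod (h.Sc_mul (h.Sc_mul sc sc) sc) (by decide),
      by simp only [mul_smul, kd]⟩

theorem blk (r : Ω → Ω → Prop) (eq : Equivalence r) (iv : ∀ (g : G) {u v}, r u v → r (g • u) (g • v))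
    (ev : ∀ u, Even {v | r u v}.ncard) {s : G} (is : Iv s) (t : Ty S s 1) : ∀ u v, r u v := by
  let N : Subgroup G :=
    { carrier := {g | ∀ u, r u (g • u)}
      one_mem' := fun u => by rw [one_smul]; exact eq.refl u
      mul_mem' := fun {g g'} hg hg' u => by rw [mul_smul]; exact eq.trans (hg' u) (hg _)
      inv_mem' := fun {g} hg u => eq.symm (by simpa using hg (g⁻¹ • u)) }
  have nN : N.Normal := ⟨fun g hg k u => by simpa [mul_smul] using iv k (hg (k⁻¹ • u))⟩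
  have s2 : E2 s := ⟨1, by simpa [pow_two] using is.1⟩
  have sN : s ∈ N := by
    intro c
    by_cases n : c = s • c
    · rw [← n]; exact eq.refl c
    have ss : s • s • c = c := by rw [← mul_smul, is.1, one_smul]
    obtain ⟨c0, sc0⟩ := t
    have sb := h.Sb_of_pair o n (Or.inr ⟨rfl, ss⟩)
    have e8 := Odx.ev h o n
    obtain ⟨k, k2, sk, kb⟩ := h.outer o n s2 rfl ss fun e he fe => by
      obtain ⟨e', he', ee, fe'⟩ := sec1 s2 _ sb (L := Ln S c (s • c)) (fun g hg c hc => (mem_Sb.1 hg c).1 hc)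
        (Nat.even_iff.2 (by omega)) he fe
      have m : s ∈ W S e e' := mem_W.2 ⟨h.Sc_one.1 (h.sc_pm (Or.inl rfl) sc0 fe), fe'⟩
      rw [(h.od_line o n he he' ee).2.1] at m
      exact n (ss.symm.trans (mem_W.1 m).2)
    have kc := h.Sc_fix (by decide) sk
    obtain ⟨e, he, ce, fe⟩ := sec1 k2 (MulAction.stabilizer G c) kc (L := {v | r c v})
      (fun g hg v hv => by have := iv g hv; rwa [show g • c = c from hg] at this) (ev c) (eq.refl c) kc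
    rw [h.sc_fix (by decide) (by decide) sk (Ne.symm n) ce.symm kb fe]
    exact he
  have := h.toHy.simple
  intro u v
  obtain ⟨g, rfl⟩ := h.toHy.trans u v
  have : g ∈ N := by
    rw [nN.eq_bot_or_eq_top.resolve_left fun e => is.2 (by rwa [e, Subgroup.mem_bot] at sN)]; trivial
  exact this u

theorem zstar {R : Subgroup G} (f : Fr S D c d x y R) {u : G} (iu : Iv u) (uR : u ∈ R) (uZ : ∀ r ∈ R, Commute u r)
    (fx : Fx Ω u = Ln S c d) : (∃ P : Sylow 2 G, (P : Subgroup G) = R) ∧ ∃ g : G, g * u * g⁻¹ ∈ R ∧ g * u * g⁻¹ ≠ u := by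
  have : Fact (Nat.Prime 2) := ⟨Nat.prime_two⟩
  have n := f.ne
  have s : SylIn 2 R (Sb G (Ln S c d)) := ⟨f.le, f.pg, fun Q p l l' => f.mx Q p l' l⟩
  have NS : ⊤ ⊓ normalizer (R : Set G) ≤ Sb G (Ln S c d) := by
    rintro g ⟨-, hg⟩
    have n' : g • c ≠ g • d := fun e => n (MulAction.injective g e)
    by_cases e : Ln S (g • c) (g • d) = Ln S c d
    · refine mem_Sb.2 fun q => ⟨fun hq => e ▸ h.Ln_smul g c d hq, fun hq => ?_⟩
      rw [← e] at hq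
      simpa using h.Ln_smul g⁻¹ _ _ hq
    exfalso
    have uR' : g * u * g⁻¹ ∈ R := (mem_normalizer_iff.1 hg u).1 uR
    have fp := h.fpf_of o n n' e (e2_of f.pg uR') (f.le uR') fun q hq => by
      have : g⁻¹ • q ∈ Fx Ω u := by
        change u • g⁻¹ • q = g⁻¹ • q
        rw [eq_inv_smul_iff, ← mul_smul, ← mul_smul]; exact hq
      rw [fx] at this
      simpa using h.Ln_smul g _ _ this
    have cm : g * u * g⁻¹ * (x * y * x) * (g * u * g⁻¹)⁻¹ = x * y * x := by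
      have := (uZ _ ((mem_normalizer_iff''.1 hg _).1 f.m)).eq
      calc _ = g * (u * (g⁻¹ * (x * y * x) * g)) * u⁻¹ * g⁻¹ := by group
        _ = _ := by rw [this]; group
    have t1 : D c d 2 = 1 := by
      rcases (h.fr_outer o f uR' fp).2.2.2.2 with e | e <;> rw [cm] at e
      · simpa using e
      · simpa using e
    exact absurd (h.D_eq_one n (by decide) t1) (by decide)
  obtain ⟨P, hP⟩ := sylIn_top_iff.1 (s.of_normalizer_le le_top NS)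
  refine ⟨⟨P, hP⟩, ?_⟩
  by_contra hn
  push Not at hn
  have o2 : orderOf u = 2 := orderOf_eq_prime (by rw [pow_two]; exact iu.1) iu.2
  obtain ⟨N, nN, od, cm⟩ := Cfsg.Agent.S0215.result P u o2 (show u ∈ (P : Subgroup G) from hP ▸ uR)
    fun g hg => hn g (hP ▸ hg)
  have := h.toHy.simple
  rcases nN.eq_bot_or_eq_top with e | e
  · have uc : u ∈ center G := mem_center_iff.2 fun g => by
      have := cm g
      rw [e, Subgroup.mem_bot, mul_inv_eq_one, mul_inv_eq_iff_eq_mul] at this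
      exact this.symm
    have ct := (inferInstance : (center G).Normal).eq_bot_or_eq_top.resolve_left
      fun e => iu.2 (by rwa [e, Subgroup.mem_bot] at uc)
    exact h.toHy.nab ⟨⟨fun a b => mem_center_iff.1 (ct ▸ mem_top b) a⟩⟩
  · rw [e, Subgroup.card_top] at od
    exact (Nat.not_even_iff_odd.2 od) (even_iff_two_dvd.2 (o2 ▸ orderOf_dvd_natCard u))

end Hz

end CL.Cq
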