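/- S3235, disconnected case: `W` has 2-rank one. -/
import Mathlib
import Cfsg.Agent.CHEV.Cq.Cl

set_option autoImplicit false

namespace CL.Cq

open Subgroup CL.PT CL.PT.L2x

variable {p : ℕ} {G Ω : Type*} [Group G] [MulAction G Ω] [Finite G] [Finite Ω] {S : Ω → Set G} {D : Ω → Ω → ℤ → G} {a b : Ω}

namespace R1

/-- the doubly transitive case of S1220 -/
theorem two {X : Type*} [Group X] [Finite X] {H : Subgroup X} (hH : Cfsg.IsStronglyEmbedded H) (h2 : CL.PS.Rank2 X)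
    {g₁ g₂ : X} (h₁ : g₁ ∉ H) (h₂ : g₂ ∉ H) : ∃ h ∈ H, g₂⁻¹ * (h * g₁) ∈ H := by
  have := CL.Bender.nontrivial_quot hH.1
  obtain ⟨_, hπ, _, hR, h⟩ := CL.Bender.exists_quot (CL.IFix.of_isStronglyEmbedded hH) h2
  obtain ⟨t, Q, hS, -⟩ := h ((1 : X) : X ⧸ H)
  have h3 : ∀ g ∉ H, ((1 : X) : X ⧸ H) ≠ g := fun g hg e => hg ((CL.IFix.coe_eq_one_iff H _).1 e.symm)
  obtain ⟨x, e1, e2⟩ := MulAction.is_two_pretransitive_iff.1 hS.two_transitive (h3 _ h₁) (h3 _ h₂)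
  obtain ⟨x, rfl⟩ := QuotientGroup.mk_surjective x
  rw [hπ] at e1 e2
  exact ⟨x, (CL.IFix.mem_iff_smul_one H x).2 e1, QuotientGroup.eq.1 e2.symm⟩

omit [Finite G] in
theorem one_of {g : G} (hp : p.Prime) (p5 : 5 ≤ p) (h1 : g ^ p = 1) (h2 : g * g = 1) : g = 1 := by
  obtain ⟨m, rfl⟩ := hp.odd_of_ne_two (by omega)
  rwa [pow_succ, pow_mul, sq, h2, one_pow, one_mul] at h1

variable (h : Hz p S D)
include h

theorem mem_iff (n : a ≠ b) {g : G} (hg : g ∈ C S a) : g ∈ E S a ⊔ W S a b ↔ g • b ∈ Ln S a b := by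
  refine ⟨fun k => ?_, fun k => ?_⟩
  · have : E S a ⊔ W S a b ≤ closure {g | ∃ e ∈ E S a, ∃ w ∈ W S a b, g = e * w} :=
      sup_le (fun e he => subset_closure ⟨e, he, 1, one_mem _, (mul_one e).symm⟩)
        fun w hw => subset_closure ⟨1, one_mem _, w, hw, (one_mul w).symm⟩
    have key : ∀ g ∈ closure {g | ∃ e ∈ E S a, ∃ w ∈ W S a b, g = e * w}, ∃ e ∈ E S a, ∃ w ∈ W S a b, g = e * w := by
      intro g hg
      induction hg using closure_induction with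
      | mem x hx => exact hx
      | one => exact ⟨1, one_mem _, 1, one_mem _, (mul_one 1).symm⟩
      | mul x y _ _ hx hy =>
        obtain ⟨e, he, w, hw, rfl⟩ := hx
        obtain ⟨e', he', w', hw', rfl⟩ := hy
        exact ⟨_, mul_mem he he', _, mul_mem hw hw', by rw [mul_assoc, ← mul_assoc w, ← hw.1 e' he']; group⟩
      | inv x _ hx =>
        obtain ⟨e, he, w, hw, rfl⟩ := hx
        exact ⟨_, inv_mem he, _, inv_mem hw, by rw [hw.1 e he, mul_inv_rev]⟩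
    obtain ⟨e, he, w, hw, rfl⟩ := key g (this k)
    exact .inr ⟨e, he, by rw [mul_smul, (mem_W.1 hw).2]⟩
  · obtain ⟨e, he, w, hw, rfl⟩ := h.C_Ln n hg k
    exact mul_mem (mem_sup_left he) (mem_sup_right hw)

/-- an involution of `C a` that keeps the line is in `W` -/
theorem inv_W (n : a ≠ b) {z : G} (hz : z ∈ C S a) (z2 : z * z = 1) (k : z • b ∈ Ln S a b) : z ∈ W S a b := by
  obtain ⟨e, he, w, hw, rfl⟩ := h.C_Ln n hz k
  have e2 : e * e = (w * w)⁻¹ := by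
    rw [eq_inv_iff_mul_eq_one, ← z2, mul_assoc e e, ← mul_assoc e w w, hw.1 e he, mul_assoc w e w, ← mul_assoc e w,
      ← hw.1 e he]
  rw [one_of h.pr h.p5 (h.toSys.E_pow he) (h.EW_inf n (mul_mem he he) (e2 ▸ inv_mem (mul_mem hw hw))), one_mul]
  exact hw

end R1

open R1 in
/-- `C = C a`, `W = W a b`, `E = E a`, `H = E W`, `ℓ = Ln a b`, `t = D a b i`.  By `semb` and Bender some `w t`, `w ∈ W`, fixes a point
`c = g b ∉ ℓ`, `g ∈ C`; `w² = 1`, and `w` inverts `J = {j ∈ W | j c ∈ Ln a c}`, a `p`-group that is transitive on the involutions of `W`. -/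
theorem Hz.r1 (h : Hz p S D) {i : ℤ} (hi : i * i ≡ -1 [ZMOD p]) (n : a ≠ b) (z1 : D a b (-1) = 1)
    (ne : ∃ g ∈ C S a, g • b ∉ Ln S a b) {u u' : G} (iu : Iv u) (iu' : Iv u') (hu : u ∈ W S a b) (hu' : u' ∈ W S a b)
    (cm : Commute u u') : u = u' := by
  by_contra uu'
  have se := h.semb n z1 iu hu ne
  obtain ⟨g₀, hg₀, g₀b⟩ := ne
  obtain ⟨x, hx⟩ := h.ex a
  obtain ⟨y₀, hy₀⟩ := h.ex b
  obtain ⟨y, hy, -, bd, -⟩ := h.toSys.partner n hx hy₀
  obtain ⟨it, -, -, sc, -⟩ := h.v4' n z1 hi hx hy bd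
  have ta := h.Da i n
  have tb := h.Db i n
  have tW : ∀ w ∈ W S a b, Commute w (D a b i) := fun w hw => h.D_comm n i (h.C_fix hw.1) hw.2
  generalize D a b i = t at it sc ta tb tW
  have ti : t⁻¹ = t := inv_eq_of_mul_eq_one_right it.1
  have Cc : ∀ {k g : G}, k • a = a → g ∈ C S a → k * g * k⁻¹ ∈ C S a := fun {k g} ka hg => by
    have := h.C_conj k hg
    rwa [ka] at this
  have Lc : ∀ {k : G} {b c : Ω}, k • a = a → c ∈ Ln S a b → k • c ∈ Ln S a (k • b) := fun {k b c} ka hc => by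
    have := h.Ln_smul k a b hc
    rwa [ka] at this
  have nb : ∀ {g : G} {b : Ω}, g • a = a → a ≠ b → a ≠ g • b := fun {g b} ga n e => n (MulAction.injective g (ga.trans e))
  -- the point `c`
  obtain ⟨w, hw, g, hg, gb, wc⟩ : ∃ w ∈ W S a b, ∃ g ∈ C S a, g • b ∉ Ln S a b ∧ (w * t) • g • b = g • b := by
    obtain ⟨⟨k, kC⟩, hk, e⟩ := two se ⟨⟨u, hu.1⟩, ⟨u', hu'.1⟩, fun e => iu.2 (congrArg Subtype.val e),
      fun e => iu'.2 (congrArg Subtype.val e), fun e => uu' (congrArg Subtype.val e), Subtype.ext iu.1,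
      Subtype.ext iu'.1, Subtype.ext cm.eq⟩ (g₁ := ⟨_, Cc ta hg₀⟩) (g₂ := ⟨g₀, hg₀⟩)
      (fun k => g₀b (by
        have := Lc ta ((mem_iff h n (Cc ta hg₀)).1 k)
        rwa [tb, smul_smul, ← mul_assoc, ← mul_assoc, it.1, one_mul, mul_smul, ti, tb] at this))
      fun k => g₀b ((mem_iff h n hg₀).1 k)
    obtain ⟨e₁, he₁, w, hw, rfl⟩ := h.C_Ln n kC ((mem_iff h n kC).1 hk)
    obtain ⟨e₂, he₂, w', hw', e⟩ := h.C_Ln n (mul_mem (inv_mem hg₀) (mul_mem kC (Cc ta hg₀)))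
      ((mem_iff h n (mul_mem (inv_mem hg₀) (mul_mem kC (Cc ta hg₀)))).1 e)
    obtain ⟨m, hm⟩ := h.pr.odd_of_ne_two (by have := h.p5; omega)
    have he := mul_mem (inv_mem he₁) he₂
    have e1 : (w * t) • g₀ • b = (e₁⁻¹ * e₂) • g₀ • b := by
      rw [inv_mul_eq_iff_eq_mul, mul_assoc e₁, ← eq_inv_mul_iff_mul_eq] at e
      calc _ = (w * (t * g₀ * t⁻¹)) • b := by simp only [mul_smul, ti, tb]
        _ = _ := by rw [e, ← mul_assoc g₀, ← hg₀ e₂ he₂]; simp only [mul_smul, (mem_W.1 hw').2]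
    generalize e₁⁻¹ * e₂ = e at he e1
    have hf := pow_mem he (m + 1)
    have f2 : e ^ (m + 1) * e ^ (m + 1) = e := by
      rw [← pow_add, show m + 1 + (m + 1) = p + 1 by omega, pow_succ, h.toSys.E_pow he, one_mul]
    generalize e ^ (m + 1) = f at hf f2
    refine ⟨w, hw, f * g₀, mul_mem (h.E_le_C a hf) hg₀, fun k => g₀b ?_, ?_⟩
    · have := (mem_iff h n (mul_mem (h.E_le_C a hf) hg₀)).2 k
      exact (mem_iff h n hg₀).1 ((mul_mem_cancel_left (mem_sup_left hf)).1 this)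
    · have e2 : w * t * f = f⁻¹ * (w * t) := by
        calc _ = w * (t * f * t⁻¹) * t := by group
          _ = _ := by rw [sc f hf, zpow_neg_one, ← hw.1 _ (inv_mem hf), mul_assoc]
      rw [mul_smul f, smul_smul (w * t), e2, mul_smul, e1, smul_smul, ← f2, inv_mul_cancel_left]
  have ga := h.C_fix hg
  have n' := nb ga n
  have z1' : D a (g • b) (-1) = 1 := by
    have := h.Deqv g (-1) n
    rwa [ga, z1, mul_one, mul_inv_cancel] at this
  have hv : g * u * g⁻¹ ∈ W S a (g • b) := ⟨Cc ga hu.1, by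
    show _ • g • b = g • b
    rw [mul_smul, inv_smul_smul, mul_smul, (mem_W.1 hu).2]⟩
  have iv : Iv (g * u * g⁻¹) := ⟨by rw [conj_mul, iu.1, mul_one, mul_inv_cancel], fun e => iu.2 (conj_eq_one_iff.1 e)⟩
  generalize g * u * g⁻¹ = v at hv iv
  generalize g • b = c at gb wc n' z1' hv
  have WW : ∀ j ∈ W S a b, j • c = c → j = 1 := fun j hj jc => by
    by_contra j1
    exact gb ((h.fixW n z1 hj j1).le jc)
  have w2 : w * w = 1 := WW _ (mul_mem hw hw) (by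
    have : w * w = w * t * (w * t) := by rw [mul_assoc, ← mul_assoc t, ← (tW w hw).eq, mul_assoc w t, it.1, mul_one]
    rw [this, mul_smul, wc, wc])
  have wa : (w * t) • a = a := by rw [mul_smul, ta, h.C_fix hw.1]
  -- `J`
  have J : ∀ j ∈ W S a b, j • c ∈ Ln S a c → w * j * w⁻¹ = j⁻¹ ∧ (j * j = 1 → j = 1) := fun j hj jc => by
    obtain ⟨e, he, k, hk, e1⟩ := h.C_Ln n' hj.1 jc
    have hk' : w * t * k * (w * t)⁻¹ ∈ W S a c := ⟨Cc wa hk.1, by
      show _ • c = c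
      rw [mul_smul, inv_smul_eq_iff.2 wc.symm, mul_smul, (mem_W.1 hk).2, wc]⟩
    have e2 : w * j * w⁻¹ = e⁻¹ * (w * t * k * (w * t)⁻¹) := by
      calc _ = w * (t * j * t⁻¹) * w⁻¹ := by rw [← (tW j hj).eq, mul_inv_cancel_right]
        _ = w * (t * e * t⁻¹) * (t * k * t⁻¹) * w⁻¹ := by rw [e1]; group
        _ = _ := by rw [sc e he, zpow_neg_one, ← hw.1 _ (inv_mem he)]; group
    refine ⟨eq_inv_of_mul_eq_one_left (WW _ (mul_mem (mul_mem (mul_mem hw hj) (inv_mem hw)) hj) ?_), fun j2 =>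
      WW j hj (inv_W h n' hj.1 j2 jc).2⟩
    rw [e2]
    conv_lhs => rw [e1]
    rw [← hk'.1 _ (inv_mem he) |>.symm, mul_assoc, inv_mul_cancel_left, mul_smul, (mem_W.1 hk).2, (mem_W.1 hk').2]
  have fx : ∀ {k s s' : G} {d : Ω}, k * s * k⁻¹ = s' → s • d = d → s' • k • d = k • d := fun e sd => by
    rw [← e, mul_smul, inv_smul_smul, mul_smul, sd]
  -- an involution conjugating `s` to `v`
  have I : ∀ s ∈ W S a b, Iv s → ∃ k ∈ C S a, k * k = 1 ∧ k * s * k⁻¹ = v := fun s hs is => by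
    have sv := mul_mem hs.1 hv.1
    rcases dih is.1 iv.1 with ⟨-, -, -, l, e⟩ | ⟨k, -, iz, c1, c2, -⟩
    · refine ⟨_, mul_mem (pow_mem sv l) hs.1, ?_, e⟩
      have : s * (s * v) ^ l * s⁻¹ = ((s * v) ^ l)⁻¹ := by
        rw [← conj_pow, ← inv_pow, mul_inv_rev, inv_eq_of_mul_eq_one_right is.1, inv_eq_of_mul_eq_one_right iv.1,
          ← mul_assoc, is.1, one_mul]
      rw [mul_assoc, ← mul_assoc s, mul_inv_eq_iff_eq_mul.1 this, mul_assoc, is.1, mul_one, mul_inv_cancel]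
    · have hz := pow_mem sv k
      generalize (s * v) ^ k = z at iz c1 c2 hz
      refine absurd (WW z (inv_W h n hz iz.1 ((h.fixW n z1 hs is.2).le ?_))
        (inv_W h n' hz iz.1 ((h.fixW n' z1' hv iv.2).le ?_)).2) iz.2
      · exact fx (mul_inv_eq_iff_eq_mul.2 c1.eq) hs.2
      · exact fx (mul_inv_eq_iff_eq_mul.2 c2.eq) hv.2
  have T : ∀ s ∈ W S a b, Iv s → ∀ s' ∈ W S a b, Iv s' → ∃ j ∈ W S a b, j • c ∈ Ln S a c ∧ j * s * j⁻¹ = s' := by
    intro s hs is s' hs' is'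
    obtain ⟨k, hk, k2, e⟩ := I s hs is
    obtain ⟨k', hk', k2', e'⟩ := I s' hs' is'
    have f1 : k * v * k⁻¹ = s := by rw [← e, ← mul_assoc, ← mul_assoc, k2, mul_assoc, ← mul_inv_rev, k2]; group
    have f2 : k' * v * k'⁻¹ = s' := by rw [← e', ← mul_assoc, ← mul_assoc, k2', mul_assoc, ← mul_inv_rev, k2']; group
    have f3 : k' * k * s * (k' * k)⁻¹ = s' := by rw [← f2, ← e]; group
    have l1 : (k' * k) • b ∈ Ln S a b := (h.fixW n z1 hs' is'.2).le (fx f3 hs.2)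
    have l2 : (k' * k) • c ∈ Ln S a c := (h.fixW n' z1' hv iv.2).le (by
      have : s' • k • c = k • c := (h.fixW n z1 hs' is'.2).ge ((h.fixW n z1 hs is.2).le (fx f1 hv.2))
      rw [mul_smul]
      exact fx e' this)
    obtain ⟨ε, hε, j, hj, e1⟩ := h.C_Ln n (mul_mem hk' hk) l1
    refine ⟨j, hj, ?_, ?_⟩
    · have := Lc (h.toSys.E_fix (inv_mem hε)) l2
      rw [e1, mul_smul, inv_smul_smul] at this
      exact (h.Ln_mem n' (.inr ⟨_, inv_mem hε, rfl⟩) (nb (h.toSys.E_fix (inv_mem hε)) n').symm).1.le this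
    · rw [← f3, e1, mul_inv_rev, show ε * j * s * (j⁻¹ * ε⁻¹) = ε * (j * s * j⁻¹) * ε⁻¹ by group,
        (mul_mem (mul_mem hj hs) (inv_mem hj)).1 ε hε, mul_inv_cancel_right]
  by_cases w1 : w = 1
  · obtain ⟨j, hj, jc, e⟩ := T u hu iu u' hu' iu'
    obtain ⟨e1, e2⟩ := J j hj jc
    rw [w1, one_mul, inv_one, mul_one] at e1
    rw [e2 (mul_eq_one_iff_eq_inv.2 e1), one_mul, inv_one, mul_one] at e
    exact uu' e
  · have K : ∀ s ∈ W S a b, Iv s → (s * w) • c ∈ Ln S a c := fun s hs is => by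
      obtain ⟨j, hj, jc, e⟩ := T w hw ⟨w2, w1⟩ s hs is
      have e1 : s * w = j * j := by
        have := (J j hj jc).1
        rw [← e, mul_assoc, mul_assoc, ← this, inv_eq_of_mul_eq_one_right w2, mul_assoc, mul_assoc, w2, mul_one,
          ← mul_assoc w, w2, one_mul]
      rw [e1]
      exact (mem_iff h n' (mul_mem hj.1 hj.1)).1 (mul_mem ((mem_iff h n' hj.1).2 jc) ((mem_iff h n' hj.1).2 jc))
    have m : ∀ s ∈ W S a b, Iv s → s * w ∈ E S a ⊔ W S a c := fun s hs is =>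
      (mem_iff h n' (mul_mem hs.1 hw.1)).2 (K s hs is)
    have := mul_mem (m u hu iu) (inv_mem (m u' hu' iu'))
    rw [mul_inv_rev, mul_assoc, mul_inv_cancel_left, inv_eq_of_mul_eq_one_right iu'.1] at this
    have := (J _ (mul_mem hu hu') ((mem_iff h n' (mul_mem hu.1 hu'.1)).1 this)).2 (by
      rw [cm.symm.mul_mul_mul_comm, iu.1, iu'.1, mul_one])
    exact uu' ((eq_inv_of_mul_eq_one_left this).trans (inv_eq_of_mul_eq_one_right iu'.1))

end CL.Cq
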