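/- S3235, disconnected case, `p = 5`: type `PSL₂` lines have `W` of odd order. -/
import Mathlib
import Cfsg.Agent.CHEV.Cq.Od
import Cfsg.Agent.CHEV.Cq.R1
import Cfsg.Agent.S0111

set_option autoImplicit false

namespace CL.Cq

open Subgroup CL.PT CL.PT.L2x

variable {G Ω : Type*} [Group G] [MulAction G Ω] [Finite G] [Finite Ω] {S : Ω → Set G} {D : Ω → Ω → ℤ → G}
  {a b c d : Ω} {x y : G}

namespace A5b

omit [Finite G] in
theorem iv_conj (g : G) {s : G} (i : Iv s) : Iv (g * s * g⁻¹) :=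
  ⟨by rw [conj_mul, i.1, mul_one, mul_inv_cancel], fun e => i.2 (by simpa [mul_inv_eq_one] using e)⟩

omit [Finite G] in
theorem zp {s z : G} (ss : s * s = 1) (hz : z ∈ zpowers s) : z = 1 ∨ z = s := by
  obtain ⟨k, rfl⟩ := mem_zpowers_iff.1 hz
  have s2 : s ^ (2 : ℤ) = 1 := by rw [zpow_two, ss]
  rcases Int.even_or_odd' k with ⟨l, rfl | rfl⟩
  · left; rw [zpow_mul, s2, one_zpow]
  · right; rw [zpow_add, zpow_mul, s2, one_zpow, one_mul, zpow_one]

omit [Finite G] in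
theorem e2 {R : Subgroup G} (pg : IsPGroup 2 R) {g : G} (hg : g ∈ R) : E2 g :=
  let ⟨k, hk⟩ := pg ⟨g, hg⟩
  ⟨k, congrArg Subtype.val hk⟩

omit [Finite G] [Finite Ω] in
theorem sb_fx {s g : G} (c : Commute g s) : g ∈ Sb G (Fx Ω s) := fun e => by
  show s • e = e ↔ s • g • e = g • e
  rw [← mul_smul, ← c.eq, mul_smul, smul_left_cancel_iff]

variable (h : Hz 5 S D)
include h

omit [Finite G] [Finite Ω] in
theorem i2 : (2 : ℤ) * 2 ≡ -1 [ZMOD (5 : ℕ)] := by decide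

theorem W_conj (g : G) {w : G} (hw : w ∈ W S a b) : g * w * g⁻¹ ∈ W S (g • a) (g • b) :=
  mem_W.2 ⟨h.C_conj g hw.1, by rw [mul_smul, inv_smul_smul, mul_smul, (mem_W.1 hw).2]⟩

omit [Finite G] [Finite Ω] in
theorem z_conj (g : G) (n : a ≠ b) (z1 : D a b (-1) = 1) : D (g • a) (g • b) (-1) = 1 := by
  rw [h.Deqv g (-1) n, z1, mul_one, mul_inv_cancel]

end A5b

open A5b

namespace Hz

variable (h : Hz 5 S D) (o : Od S)
include h o

/-- If `C a` keeps `ℓ = Ln a b`: `C a = E W`, its involutions are in `W` and fix exactly `ℓ`.  Define `r c c'` : some involution of `C c` fixes `c'`... precisely `r c c' ↔ ∃ s, Iv s ∧ s ∈ C c ∧ s • c' = c'`.  It is `G`-invariant, the class of `g • a` is `g ℓ` (size `q + 1`, even), and it is an equivalence relation (`c' ∈ g ℓ`: the same `s` lies in `C c'`, `sc_pm`, so the class of `c'` is `Fx s = g ℓ`).  `blk`: `ℓ = Ω`, `u = 1`. -/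
theorem a5_ne (n : a ≠ b) (z1 : D a b (-1) = 1) {u : G} (iu : Iv u) (hu : u ∈ W S a b) : ∃ g ∈ C S a, g • b ∉ Ln S a b := by
  by_contra hc
  push Not at hc
  have fx : ∀ s, Iv s → s ∈ C S a → Fx Ω s = Ln S a b := by
    intro s is sC
    obtain ⟨e, he, w, hw, rfl⟩ := h.C_Ln n sC (hc s sC)
    have cm : Commute e w := hw.1 e he
    have e1 : e * e = (w * w)⁻¹ := by
      rw [eq_inv_iff_mul_eq_one, ← pow_two, ← pow_two, ← cm.mul_pow, pow_two, is.1]
    have e2 : e * e = 1 := h.EW_inf n (mul_mem he he) (e1 ▸ inv_mem (mul_mem hw hw))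
    have e3 : e = 1 := by
      have := h.toSys.E_pow he
      rwa [show e ^ 5 = e * e * (e * e) * e by simp only [pow_succ, pow_zero, one_mul, mul_assoc], e2, one_mul, one_mul] at this
    subst e3
    rw [one_mul] at is ⊢
    exact h.fixW n z1 hw is.2
  let r : Ω → Ω → Prop := fun c c' => ∃ s, Iv s ∧ s ∈ C S c ∧ s • c' = c'
  have iv : ∀ (g : G) {c c'}, r c c' → r (g • c) (g • c') := by
    rintro g c c' ⟨s, is, sC, e⟩
    exact ⟨_, iv_conj g is, h.C_conj g sC, by rw [mul_smul, inv_smul_smul, mul_smul, e]⟩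
  have ra : ∀ v, r a v ↔ v ∈ Ln S a b := fun v =>
    ⟨fun ⟨s, is, sC, e⟩ => fx s is sC ▸ e, fun hv => ⟨u, iu, hu.1, (fx u iu hu.1 ▸ hv : v ∈ Fx Ω u)⟩⟩
  have sy : ∀ {c c'}, r c c' → r c' c := fun ⟨s, is, sC, e⟩ =>
    ⟨s, is, h.Sc_one.1 (h.sc_pm (Or.inl rfl) (h.Sc_one.2 sC) e), h.C_fix sC⟩
  have eq : Equivalence r := by
    refine ⟨fun c => ?_, sy, fun {c c' c''} h1 h2 => ?_⟩
    · obtain ⟨g, rfl⟩ := h.toHy.trans a c
      exact iv g ((ra a).2 (Set.mem_insert _ _))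
    · obtain ⟨g, rfl⟩ := h.toHy.trans a c'
      have a1 := iv g⁻¹ (sy h1)
      have a2 := iv g⁻¹ h2
      rw [inv_smul_smul, ra, ← fx u iu hu.1] at a1 a2
      have : r (g⁻¹ • c) (g⁻¹ • c'') := ⟨u, iu, h.Sc_one.1 (h.sc_pm (Or.inl rfl) (h.Sc_one.2 hu.1) a1), a2⟩
      simpa using iv g this
  have ev : ∀ c, Even {v | r c v}.ncard := by
    intro c
    obtain ⟨g, rfl⟩ := h.toHy.trans a c
    have : {v | r (g • a) v} = (fun v => g • v) '' Ln S a b := by
      ext v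
      constructor
      · intro hv
        have := iv g⁻¹ hv
        rw [inv_smul_smul, ra] at this
        exact ⟨_, this, smul_inv_smul g v⟩
      · rintro ⟨v, hv, rfl⟩
        exact iv g ((ra v).2 hv)
    rw [this, Set.ncard_image_of_injective _ (MulAction.injective g), h.Ln_card n]
    exact (h.E_card a a).2.1.add_one
  have al := h.blk o r eq iv ev iu ⟨a, h.Sc_one.2 hu.1⟩
  exact iu.2 (h.faith u fun v => (fx u iu hu.1 ▸ (ra v).1 (al a v) : v ∈ Fx Ω u))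

/-- `u` is central in `R`, the only involution of `R ⊓ W` -/
theorem a5_cen {R : Subgroup G} (f : Fr S D c d x y R) (z1 : D c d (-1) = 1) {u : G} (iu : Iv u) (hu : u ∈ W S c d) (uR : u ∈ R) :
    (∀ s, Iv s → s ∈ W S c d → s ∈ R → s = u) ∧ ∀ r ∈ R, Commute u r := by
  have key : ∀ s, Iv s → s ∈ W S c d → s ∈ R → s = u := by
    intro s is sW sR
    have r1 := fun {v v' : G} => h.r1 (u := v) (u' := v') (i2 h) f.ne z1 (h.a5_ne o f.ne z1 iu hu)
    rcases dih is.1 iu.1 with ⟨od, -⟩ | ⟨k, -, iw, c1, c2, -⟩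
    · obtain ⟨k, hk⟩ := e2 f.pg (mul_mem sR uR)
      have : orderOf (s * u) = 1 :=
        Nat.eq_one_of_dvd_coprimes ((Nat.coprime_two_right.2 od).pow_right k) dvd_rfl (orderOf_dvd_of_pow_eq_one hk)
      rw [orderOf_eq_one_iff, mul_eq_one_iff_eq_inv, inv_eq_of_mul_eq_one_right iu.1] at this
      exact this
    · have wW : (s * u) ^ k ∈ W S c d := pow_mem (mul_mem sW hu) k
      exact (r1 iw is wW sW c1).symm.trans (r1 iw iu wW hu c2)
  refine ⟨key, fun r hr => ?_⟩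
  have := key _ (iv_conj r iu) ((h.Sb_norm o f.ne (f.le hr)).2.1 u hu) (mul_mem (mul_mem hr uR) (inv_mem hr))
  exact (mul_inv_eq_iff_eq_mul.1 this).symm

/-- The local picture.  `t = τ = D c d 2` (involution), `m = x y x`, `T = R ⊓ W`, whose only involution is `u` (`r1`, `a5_ne`; `u` central in `R`).  `u'` has no fixed point on `ℓ` (`fpf_of`); `u' m u' = t m` (`fr_outer`).  `C_T(u') = ⟨u⟩`: it keeps `ℓ' = Fx u'`, non-trivial elements fix exactly `ℓ`, so have no fixed point on `ℓ'` (`fpf_of`), `fpf2`.  `fr_dec`: `C_R(u') = ⟨t, u, u'⟩` (`t ^ i m ^ j w` commuting with `u'`: `t ^ j = ` an element of `W`, `t ∉ W`).  Types: `t`, `t u` invert `E c`; `u`, `u'`, `u' t = m u' m⁻¹` have type `1`; `u' u t = m (u' u) m⁻¹`.  If `T ≠ ⟨u⟩`: some `w ∈ T - ⟨u⟩` normalises `⟨u, u'⟩` (normaliser condition in the 2-group `T ⟨u'⟩`; or: `u'` fixes a non-trivial element of `Z(T / ⟨u⟩)`...), `w u' w⁻¹ = u' u`. -/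
theorem a5_loc {R : Subgroup G} (f : Fr S D c d x y R) (z1 : D c d (-1) = 1) {u u' : G} (iu : Iv u) (hu : u ∈ W S c d) (uR : u ∈ R)
    (cj : IsConj u u') (u'R : u' ∈ R) (ne : u' ≠ u) :
    Commute u u' ∧ Commute (D c d 2) u' ∧ (∀ e ∈ Ln S c d, u' • e ≠ e) ∧
      u' * (x * y * x) * u'⁻¹ = D c d 2 * (x * y * x) ∧
      (∀ r ∈ R, Commute r u' → ∃ i j l : ℕ, i ≤ 1 ∧ j ≤ 1 ∧ l ≤ 1 ∧ r = D c d 2 ^ i * u ^ j * u' ^ l) ∧
      (Ty S (u * u') 1 ∨ ∀ w ∈ R, w ∈ W S c d → w = 1 ∨ w = u) := by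
  obtain ⟨un, uZ⟩ := h.a5_cen o f z1 iu hu uR
  obtain ⟨g, hg⟩ := isConj_iff.1 cj
  have iu' : Iv u' := hg ▸ iv_conj g iu
  have n' : g • c ≠ g • d := (MulAction.injective g).ne f.ne
  have hu' : u' ∈ W S (g • c) (g • d) := hg ▸ W_conj h g hu
  have fx' := h.fixW n' (z_conj h g f.ne z1) hu' iu'.2
  have ne' : Ln S (g • c) (g • d) ≠ Ln S c d := fun e => by
    have := h.od_line o n' (c := c) (d := d) (e ▸ Set.mem_insert _ _)
      (e ▸ Set.mem_insert_of_mem _ ⟨1, one_mem _, one_smul _ _⟩) f.ne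
    exact ne (un u' iu' (this.2.1 ▸ hu') u'R)
  have fp := h.fpf_of o f.ne n' ne' (e2 f.pg u'R) (f.le u'R) fx'.le
  obtain ⟨it, im, tm, ts, -⟩ := h.v4' f.ne z1 (i2 h) f.hx f.hy f.bd
  obtain ⟨-, -, -, a1, a2⟩ := h.fr_outer o f u'R fp
  rw [inv_eq_of_mul_eq_one_right it.1, or_self] at a2
  rw [inv_eq_of_mul_eq_one_right it.1] at a1
  have tu' : Commute (D c d 2) u' := (mul_inv_eq_iff_eq_mul.1 a1).symm
  have nW : ∀ r ∈ R, Nm r (W S c d) := fun r hr => (h.Sb_norm o f.ne (f.le hr)).2.1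
  have cT : ∀ w ∈ R, w ∈ W S c d → Commute w u' → w = 1 ∨ w = u := by
    intro w wR wW cw
    by_contra hc
    push Not at hc
    have le : R ⊓ centralizer {u'} ≤ Sb G (Ln S (g • c) (g • d)) := fun r hr =>
      fx' ▸ sb_fx (mem_centralizer_singleton_iff.1 hr.2)
    have fp' : ∀ v ∈ R ⊓ centralizer {u'}, v ∈ W S c d → v ≠ 1 → ∀ e ∈ Ln S (g • c) (g • d), v • e ≠ e :=
      fun v hv vW v1 => h.fpf_of o n' f.ne ne'.symm (e2 f.pg hv.1) (le hv) (h.fixW f.ne z1 vW v1).le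
    have m1 : w ∈ R ⊓ centralizer {u'} := ⟨wR, mem_centralizer_singleton_iff.2 cw⟩
    have m2 : u ∈ R ⊓ centralizer {u'} := ⟨uR, mem_centralizer_singleton_iff.2 (uZ u' u'R)⟩
    obtain ⟨e, he, ee⟩ := h.fpf2 o n' (f.pg.to_le inf_le_left) le m1 m2 (fp' w m1 wW hc.1) (fp' u m2 hu iu.2)
    exact fp' _ (mul_mem m1 m2) (mul_mem wW hu)
      (fun e => hc.2 ((eq_inv_of_mul_eq_one_left e).trans (inv_eq_of_mul_eq_one_right iu.1))) e he ee
  refine ⟨uZ u' u'R, tu', fp, a2, fun r hr cr => ?_, ?_⟩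
  · obtain ⟨i, j, l, hi, hj, hl, w, wR, wW, rfl⟩ := h.fr_dec o f u'R fp hr
    have c1 : Commute ((x * y * x) ^ j * w) u' := by
      have := ((tu'.pow_left i).inv_left.mul_left cr).mul_left ((Commute.refl u').pow_left l).inv_left
      simpa only [mul_assoc, inv_mul_cancel_left, mul_inv_cancel, mul_one] using this
    interval_cases j
    · rw [pow_zero, one_mul] at c1
      rcases cT w wR wW c1 with rfl | rfl
      · exact ⟨i, 0, l, hi, by norm_num, hl, by simp⟩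
      · exact ⟨i, 1, l, hi, le_rfl, hl, by simp⟩
    · exfalso
      rw [pow_one] at c1
      have e : D c d 2 = (x * y * x) * (w * (u' * w * u'⁻¹)⁻¹) * (x * y * x)⁻¹ := by
        generalize x * y * x = m at a2 c1
        calc D c d 2 = u' * m * u'⁻¹ * m⁻¹ := by rw [a2]; group
          _ = (u' * (m * w)) * w⁻¹ * u'⁻¹ * m⁻¹ := by group
          _ = _ := by rw [← c1.eq]; group
      have tW : D c d 2 ∈ W S c d := e ▸ nW _ f.m _ (mul_mem wW (inv_mem (nW _ u'R _ wW)))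
      exact absurd (h.Sc_uniq ts (h.Sc_one.2 tW.1)) (by decide)
  · by_cases hT : ∀ w ∈ R, w ∈ W S c d → w = 1 ∨ w = u
    · exact Or.inr hT
    left
    push Not at hT
    obtain ⟨w, wR, wW, w1, wu⟩ := hT
    haveI : Fact (Nat.Prime 2) := ⟨Nat.prime_two⟩
    have PR : (R ⊓ W S c d) ⊔ zpowers u' ≤ R := sup_le inf_le_left (zpowers_le.2 u'R)
    have lt := MSS.lt_inf_normalizer_of_lt (P := ((R ⊓ W S c d) ⊔ zpowers u') ⊓ centralizer {u'}) (f.pg.to_le PR)
      (inf_lt_left.2 fun le => by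
        rcases cT w wR wW (mem_centralizer_singleton_iff.1 (le (mem_sup_left ⟨wR, wW⟩))) with e | e
        exacts [w1 e, wu e])
    obtain ⟨k, ⟨kP, kN⟩, kV⟩ := SetLike.exists_of_lt lt
    have nm : zpowers u' ≤ normalizer ((R ⊓ W S c d : Subgroup G) : Set G) :=
      MSS.le_normalizer_of_cj_le (by
        rintro z hz _ ⟨v, hv, rfl⟩
        have zR := zpowers_le.2 u'R hz
        have zR : z ∈ R := zR
        exact mem_inf.2 ⟨mul_mem (mul_mem zR (mem_inf.1 hv).1) (inv_mem zR), nW z zR v hv.2⟩)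
    obtain ⟨w₁, hw₁, z, hz, rfl⟩ := (MSS.mem_sup_of_normalizes_left nm).1 kP
    obtain ⟨w₁R, w₁W⟩ := mem_inf.1 hw₁
    have zc : Commute z u' := by
      rcases zp iu'.1 hz with rfl | rfl
      exacts [Commute.one_left _, Commute.refl _]
    have hv := (mem_normalizer_iff.1 kN u').1 ⟨mem_sup_right (mem_zpowers _), mem_centralizer_singleton_iff.2 rfl⟩
    have ev : w₁ * z * u' * (w₁ * z)⁻¹ = w₁ * u' * w₁⁻¹ := by rw [mul_assoc w₁, zc.eq]; group
    rw [ev] at hv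
    have cv : Commute (w₁ * u' * w₁⁻¹) u' := mem_centralizer_singleton_iff.1 hv.2
    rcases cT (w₁ * u' * w₁⁻¹ * u'⁻¹) (mul_mem (mul_mem (mul_mem w₁R u'R) (inv_mem w₁R)) (inv_mem u'R))
      (by simpa only [mul_assoc] using mul_mem (show w₁ ∈ W S c d from w₁W) (nW _ u'R _ (inv_mem (show w₁ ∈ W S c d from w₁W))))
      (cv.mul_left (Commute.refl u').inv_left) with e | e
    · refine absurd ⟨kP, mem_centralizer_singleton_iff.2 ?_⟩ kV
      have : Commute w₁ u' := mul_inv_eq_iff_eq_mul.1 (mul_inv_eq_one.1 e)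
      exact this.mul_left zc
    · rw [← mul_inv_eq_iff_eq_mul.1 e, ← hg]
      exact h.Ty_conj _ (h.Ty_conj _ ⟨c, h.Sc_one.2 hu.1⟩)

/-- `fr` for `⟨u⟩` gives `R`; `u ∈ Z(R)` (only involution of the normal subgroup `R ⊓ W`); `zstar` gives `u' = g u g⁻¹`.  `A = ⟨t, u, u'⟩ ≤ Sb (g ℓ)`; `fr` for the line `g ℓ` and `A` gives `R'`, `t'`, and `a5_loc` for `(u', u)`: `t, t u ∈ C_{R'}(u) = ⟨t', u', u⟩` have type `-1`; the elements of type `-1` there are among `t'`, `t' u'`, `u u'`, `u u' t'` (the last two conjugate); their product is `u`, so `{t, t u} = {t' u', u u' t'}` ... in any case one of `t`, `t u` is `u u'` or `u u' t'` (the pair `t'`, `t' u'` has product `u' ≠ u`), so `u u'` has type `-1`.  Hence (`Ty_not`) `R ⊓ W = ⟨u⟩`, `|R| = 16`, `R = ⟨u⟩ × Q`, `Q = ⟨m, u u'⟩ = {t ^ i m ^ j (u u') ^ l}` dihedral of order 8 with involutions `t, m, t m, u u', u u' t`, all of type `-1` (`v4'`, `Ty_conj`).  Thompson transfer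 S0111 for `u ∉ Q`: no subgroup of index 2 (`simple`), `u` has type `1`. -/
theorem a5b (n : a ≠ b) (z1 : D a b (-1) = 1) {u : G} (iu : Iv u) (hu : u ∈ W S a b) : False := by
  obtain ⟨c, hc, d, hd, x, y, R, f, uR⟩ := h.fr o n (MSS.isPGroup_zpowers (p := 2) (k := 1) (by rw [pow_one, pow_two, iu.1]))
    (zpowers_le.2 ((h.K_le o n).2.1 hu))
  replace uR : u ∈ R := uR (mem_zpowers u)
  obtain ⟨-, e1, e2', -⟩ := h.od_line o n hc hd f.ne
  rw [← e1] at hu
  rw [← e2'] at z1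
  clear e1 e2' hc hd n
  obtain ⟨-, uZ⟩ := h.a5_cen o f z1 iu hu uR
  obtain ⟨⟨P, hP⟩, g, u'R, ne⟩ := h.zstar o f iu uR uZ (h.fixW f.ne z1 hu iu.2)
  obtain ⟨u', hg⟩ : ∃ u', g * u * g⁻¹ = u' := ⟨_, rfl⟩
  rw [hg] at u'R ne
  have cj : IsConj u u' := isConj_iff.2 ⟨g, hg⟩
  obtain ⟨cu, tu', fp, a2, -, hT⟩ := h.a5_loc o f z1 iu hu uR cj u'R ne
  have iu' : Iv u' := hg ▸ iv_conj g iu
  have n' : g • c ≠ g • d := (MulAction.injective g).ne f.ne
  have hu' : u' ∈ W S (g • c) (g • d) := hg ▸ W_conj h g hu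
  have z' := z_conj h g f.ne z1
  have fx' := h.fixW n' z' hu' iu'.2
  have tyu : Ty S u 1 := ⟨c, h.Sc_one.2 hu.1⟩
  obtain ⟨it, im, tm, ts, -, -, ρ, ρ1, ρ2⟩ := h.v4' f.ne z1 (i2 h) f.hx f.hy f.bd
  have ty : Ty S (u * u') (-1) := by
    obtain ⟨c', hc', d', hd', x', y', R', f', le⟩ := h.fr o n' (R₀ := R ⊓ centralizer {u'}) (f.pg.to_le inf_le_left)
      fun r hr => fx' ▸ sb_fx (mem_centralizer_singleton_iff.1 hr.2)
    obtain ⟨-, e1, e2', -⟩ := h.od_line o n' hc' hd' f'.ne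
    rw [← e1] at hu'
    rw [← e2'] at z'
    have u'R' : u' ∈ R' := le ⟨u'R, mem_centralizer_singleton_iff.2 rfl⟩
    obtain ⟨-, b1, -, b2, b3, -⟩ := h.a5_loc o f' z' iu' hu' u'R' cj.symm
      (le ⟨uR, mem_centralizer_singleton_iff.2 cu⟩) ne.symm
    have mu' : Commute u' (x' * y' * x') := (h.a5_cen o f' z' iu' hu' u'R').2 _ f'.m
    obtain ⟨i, j, l, hi, hj, hl, e⟩ := b3 _ (le ⟨f.τ, mem_centralizer_singleton_iff.2 tu'⟩) (uZ _ f.τ).symm
    have c1 : (x' * y' * x') * u * (x' * y' * x')⁻¹ = D c' d' 2 * u := by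
      generalize x' * y' * x' = m at b2
      have : u⁻¹ = u := inv_eq_of_mul_eq_one_right iu.1
      calc m * u * m⁻¹ = u⁻¹ * (u * m * u⁻¹) * m⁻¹ := by rw [this, ← mul_assoc, ← mul_assoc, iu.1, one_mul]
        _ = D c' d' 2 * u := by rw [b2, this, b1.eq]; group
    have c2 : (x' * y' * x')⁻¹ * (D c' d' 2 * u' * u) * (x' * y' * x')⁻¹⁻¹ = u * u' := by
      have c3 : Commute (D c' d' 2) u' := ((h.a5_cen o f' z' iu' hu' u'R').2 _ f'.τ).symm
      rw [c3.eq, mul_assoc u', ← c1, cu.eq]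
      generalize x' * y' * x' = m at mu'
      calc m⁻¹ * (u' * (m * u * m⁻¹)) * m⁻¹⁻¹ = m⁻¹ * (u' * m) * u := by group
        _ = u' * u := by rw [mu'.eq]; group
    have key : Ty S (D c' d' 2 ^ i * u' ^ j * u) (-1) := by
      interval_cases l
      · rw [pow_zero, mul_one] at e
        rw [← e]
        exact ⟨c, by simpa using h.Sc_mul ts (h.Sc_one.2 hu.1)⟩
      · rw [pow_one] at e
        exact e ▸ ⟨c, ts⟩
    interval_cases i <;> interval_cases j <;> simp only [pow_zero, pow_one, one_mul, mul_one] at key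
    · exact (h.Ty_not tyu key).elim
    · rwa [cu.eq]
    · exact (h.Ty_not (c1 ▸ h.Ty_conj _ tyu) key).elim
    · exact c2 ▸ h.Ty_conj _ key
  replace hT := hT.resolve_left fun e => h.Ty_not e ty
  obtain ⟨v, hv⟩ : ∃ v, u * u' = v := ⟨_, rfl⟩
  have vR : v ∈ R := hv ▸ mul_mem uR u'R
  have vv : v * v = 1 := by rw [← hv, ← pow_two, cu.mul_pow, pow_two, pow_two, iu.1, iu'.1, one_mul]
  have tv : Commute (D c d 2) v := hv ▸ (uZ _ f.τ).symm.mul_right tu'
  have vm : v * (x * y * x) * v⁻¹ = D c d 2 * (x * y * x) := by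
    rw [← hv, show u * u' * (x * y * x) * (u * u')⁻¹ = u * (u' * (x * y * x) * u'⁻¹) * u⁻¹ by group, a2,
      (uZ _ (mul_mem f.τ f.m)).eq, mul_inv_cancel_right]
  have fv : ∀ e ∈ Ln S c d, v • e ≠ e := fun e he => by
    rw [← hv, cu.eq, mul_smul, (h.K_le o f.ne).2.2 u hu e he]
    exact fp e he
  have dec := fun r (hr : r ∈ R) => h.fr_dec o f vR fv hr
  have tR := f.τ
  have mR := f.m
  have tyt : Ty S (D c d 2) (-1) := ⟨c, ts⟩
  rw [hv] at ty
  generalize x * y * x = m at *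
  generalize D c d 2 = t at *
  have vi : v⁻¹ = v := inv_eq_of_mul_eq_one_right vv
  have n1 : zpowers m ≤ normalizer ((zpowers t : Subgroup G) : Set G) :=
    (zpowers_le.2 (mem_centralizer_iff.2 fun z hz => by obtain ⟨k, rfl⟩ := hz; exact tm.zpow_left k)).trans (centralizer_le_normalizer _)
  have n2 : zpowers v ≤ normalizer ((zpowers t ⊔ zpowers m : Subgroup G) : Set G) :=
    zpowers_le.2 (MSS.mem_normalizer_of_cj_le (by
      rw [Subgroup.map_sup, MonoidHom.map_zpowers, MonoidHom.map_zpowers]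
      refine sup_le (zpowers_le.2 ?_) (zpowers_le.2 ?_)
      · show v * t * v⁻¹ ∈ _
        rw [← tv.eq, mul_inv_cancel_right]
        exact mem_sup_left (mem_zpowers t)
      · show v * m * v⁻¹ ∈ _
        rw [vm]
        exact mul_mem (mem_sup_left (mem_zpowers t)) (mem_sup_right (mem_zpowers m))))
  have tQ : t ∈ zpowers t ⊔ zpowers m ⊔ zpowers v := mem_sup_left (mem_sup_left (mem_zpowers t))
  have mQ : m ∈ zpowers t ⊔ zpowers m ⊔ zpowers v := mem_sup_left (mem_sup_right (mem_zpowers m))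
  have vQ : v ∈ zpowers t ⊔ zpowers m ⊔ zpowers v := mem_sup_right (mem_zpowers v)
  have nc : ∀ k : G, k * u * k⁻¹ ∉ zpowers t ⊔ zpowers m ⊔ zpowers v := by
    intro k hk
    have ik := iv_conj k iu
    have tk := h.Ty_conj k tyu
    generalize k * u * k⁻¹ = s at hk ik tk
    obtain ⟨_, hq, z3, h3, rfl⟩ := (MSS.mem_sup_of_normalizes_left n2).1 hk
    obtain ⟨z1, h1, z2, h2, rfl⟩ := (MSS.mem_sup_of_normalizes_left n1).1 hq
    have mv : m * v * (m * v) = t := by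
      calc m * v * (m * v) = m * (v * m * v⁻¹) := by rw [vi]; group
        _ = t := by rw [vm, ← mul_assoc, ← tm.eq, mul_assoc, im.1, mul_one]
    rcases zp it.1 h1 with e1 | e1 <;> rcases zp im.1 h2 with e2 | e2 <;> rcases zp vv h3 with e3 | e3 <;>
      rw [e1, e2, e3] at ik tk <;> try simp only [one_mul, mul_one] at ik tk
    · exact ik.2 rfl
    · exact h.Ty_not tk ty
    · exact h.Ty_not tk (ρ1 ▸ h.Ty_conj ρ tyt)
    · exact it.2 (mv.symm.trans ik.1)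
    · exact h.Ty_not tk tyt
    · refine h.Ty_not tk ?_
      have := h.Ty_conj m ty
      rwa [show m * v * m⁻¹ = t * v by
        calc m * v * m⁻¹ = v⁻¹ * (v * m * v⁻¹) * m⁻¹ := by rw [vi, ← mul_assoc, ← mul_assoc, vv, one_mul]
          _ = t * v := by rw [vm, vi, tv.eq]; group] at this
    · exact h.Ty_not tk (ρ2 ▸ ρ1 ▸ h.Ty_conj ρ (h.Ty_conj ρ tyt))
    · have := ik.1
      rw [← pow_two, mul_assoc, (tm.mul_right tv).mul_pow, pow_two, pow_two, it.1, mv, one_mul] at this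
      exact it.2 this
  have uQ : u ∉ zpowers t ⊔ zpowers m ⊔ zpowers v := by simpa using nc 1
  rcases Cfsg.Agent.S0111.result P (zpowers t ⊔ zpowers m ⊔ zpowers v)
    (hP ▸ sup_le (sup_le (zpowers_le.2 tR) (zpowers_le.2 mR)) (zpowers_le.2 vR))
    (by
      rw [hP, relIndex_eq_two_iff]
      refine ⟨u, uR, fun r hr => ?_⟩
      obtain ⟨i, j, l, -, -, -, w, wR, wW, rfl⟩ := dec r hr
      have q := mul_mem (mul_mem (pow_mem tQ i) (pow_mem mQ j)) (pow_mem vQ l)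
      rcases hT w wR wW with rfl | rfl
      · rw [mul_one]
        exact Or.inr ⟨q, fun e => uQ ((mul_mem_cancel_left q).1 e)⟩
      · rw [mul_assoc _ w, (uZ _ (pow_mem vR l)).eq, ← mul_assoc]
        refine Or.inl ⟨by rwa [mul_assoc, iu.1, mul_one], fun e => uQ ((mul_mem_cancel_left q).1 e)⟩)
    u (orderOf_eq_prime (by rw [pow_two, iu.1]) iu.2) (hP ▸ uR) uQ with ⟨M, nM, iM, uM⟩ | ⟨k, hk⟩
  · haveI := h.toHy.simple
    rcases nM.eq_bot_or_eq_top with rfl | rfl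
    · have e : x * x = 1 := mem_bot.1 (mul_self_mem_of_index_two iM x)
      have := h.pow f.hx
      rw [show x ^ 5 = x * x * (x * x) * x by simp only [pow_succ, pow_zero, one_mul, mul_assoc], e, one_mul, one_mul] at this
      exact h.ne f.hx this
    · exact uM (mem_top u)
  · exact nc k hk

end Hz

end CL.Cq
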