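/- S3235, disconnected case, `p = 5`: good and bad pairs. -/
import Mathlib
import Cfsg.Agent.CHEV.Cq.Od
import Cfsg.Agent.S0743

set_option autoImplicit false
set_option linter.unusedSectionVars false

namespace CL.Cq

open Subgroup CL.PT CL.PT.L2x

variable {G Ω : Type*} [Group G] [MulAction G Ω] [Finite G] [Finite Ω] {S : Ω → Set G} {D : Ω → Ω → ℤ → G} {a b : Ω}

theorem Hz.tr2_good {p : ℕ} (h : Hz p S D) (gd : ∀ a b : Ω, a ≠ b → Good G a b) : Tr2 G Ω := by
  classical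
  have := Fintype.ofFinite Ω
  have k := Cfsg.Agent.S0743.result (MulAction.toPermHom G Ω).range Nat.prime_two (k := 2) one_le_two
    (by have := h.toHy.dvd.2; have := h.p5; rw [← Nat.card_eq_fintype_card]; omega) fun s hs => by
      obtain ⟨a, b, n, rfl⟩ := Finset.card_eq_two.1 hs
      obtain ⟨T, hT, e⟩ := gd a b n
      refine ⟨T.map (MulAction.toPermHom G Ω).rangeRestrict, hT.map _, Set.ext fun c => ?_⟩
      simp only [Finset.coe_insert, Finset.coe_singleton, Set.mem_insert_iff, Set.mem_singleton_iff, ← e]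
      exact ⟨fun k g hg => k ⟨_, g, hg, rfl⟩, fun k ⟨_, g, hg, rfl⟩ => k g hg⟩
  intro a b c d n n'
  obtain ⟨⟨_, g, rfl⟩, e⟩ := MulAction.is_two_pretransitive_iff.1 k n n'
  exact ⟨g, e⟩

namespace Bad

theorem pg {g : G} {k : ℕ} (h : g ^ 2 ^ k = 1) : IsPGroup 2 (zpowers g) := by
  rintro ⟨_, i, rfl⟩
  exact ⟨k, Subtype.ext (by
    change (g ^ i) ^ 2 ^ k = 1
    rw [← zpow_natCast, ← zpow_mul, mul_comm, zpow_mul, zpow_natCast, h, one_zpow])⟩

/-- two commuting 2-elements fix a third point -/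
theorem third (bd : ¬ Good G a b) {g g' : G} {k k' : ℕ} (h : g ^ 2 ^ k = 1) (h' : g' ^ 2 ^ k' = 1)
    (cm : Commute g g') (ga : g • a = a) (gb : g • b = b) (ga' : g' • a = a) (gb' : g' • b = b) :
    ∃ c, c ≠ a ∧ c ≠ b ∧ g • c = c ∧ g' • c = c := by
  by_contra! k
  have f : ∀ c : Ω, g • c = c → g' • c = c → zpowers g ⊔ zpowers g' ≤ MulAction.stabilizer G c :=
    fun c e e' => sup_le (zpowers_le_of_mem e) (zpowers_le_of_mem e')
  refine bd ⟨zpowers g ⊔ zpowers g', (pg h).to_sup_of_normal_left' (pg h') (zpowers_le_of_mem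
    (centralizer_le_normalizer _ ?_)), fun c => ⟨fun e => ?_, ?_⟩⟩
  · rintro _ ⟨i, rfl⟩
    exact (cm.zpow_left i).eq
  · by_contra! n
    exact k c n.1 n.2 (e _ (mem_sup_left (mem_zpowers g))) (e _ (mem_sup_right (mem_zpowers g')))
  · rintro (rfl | rfl)
    · exact f _ ga ga'
    · exact f _ gb gb'

variable (h : Hz 5 S D) (n : a ≠ b) (bd : ¬ Good G a b) (z1 : D a b (-1) = 1)
include h n bd z1

theorem inv {s : G} (is : Iv s) (sa : s • a = a) (sb : s • b = b) : s = D a b 2 := by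
  by_contra ne
  obtain ⟨sc, tt, -, -⟩ := h.τ_sc n
  rw [z1] at tt
  have cm := h.D_comm n 2 sa sb
  have key : ∀ σ : G, σ * σ = 1 → σ ≠ 1 → σ • a = a → σ • b = b → ∀ x ∈ S a, σ * x * σ⁻¹ = x → False :=
    fun σ ss s1 sa sb x hx e => by
      obtain ⟨c, ca, cb, e1, e2⟩ := third bd (k := 1) (k' := 1) (by rw [pow_one, sq, ss])
        (by rw [pow_one, sq, tt]) (h.D_comm n 2 sa sb) sa sb (h.Da 2 n) (h.Db 2 n)
      exact ((h.fix_plus n z1 s1 sb hx (mul_inv_eq_iff_eq_mul.1 e) sc (h.Db 2 n)).2 c e1 e2).elim ca cb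
  obtain ⟨x, hx, e | e⟩ := h.mx n (i := 2) (by decide) is.1 sa sb
  · exact key s is.1 is.2 sa sb x hx e
  · refine key (s * D a b 2) (by rw [cm.symm.mul_mul_mul_comm, is.1, tt, mul_one])
      (fun e => ne (by rw [← mul_one s, ← tt, ← mul_assoc, e, one_mul])) (by rw [mul_smul, h.Da 2 n, sa])
      (by rw [mul_smul, h.Db 2 n, sb]) x hx ?_
    have := sc x (subset_closure hx)
    rw [zpow_neg_one] at this
    calc _ = s * (D a b 2 * x * (D a b 2)⁻¹) * s⁻¹ := by group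
      _ = (s * x * s⁻¹)⁻¹ := by rw [this]; group
      _ = x := by rw [e, inv_inv]

variable {F : Type} [Field F] [Fintype F] [CharP F 5] {φ : Matrix.SpecialLinearGroup (Fin 2) F →* G}

theorem nsq (c : Chart S a b φ) : ¬ IsSquare ((2 : ℤ) : F) := fun ⟨γ, hγ⟩ => by
  have t0 : ((2 : ℤ) : F) ≠ 0 := (Tx.cast_iff (p := 5) F).2 (by decide)
  have γ0 : γ ≠ 0 := fun e => t0 (by rw [hγ, e, mul_zero])
  have e : φ (dd γ γ0) * φ (dd γ γ0) = D a b 2 := by
    rw [h.Dch t0 n c, ← map_mul, ← Tx.dd_mul, Tx.dd_congr t0 _ hγ]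
  obtain ⟨da, db⟩ := c.d_smul h.toSys n γ γ0
  have e4 : φ (dd γ γ0) ^ 2 ^ 2 = 1 := by
    rw [show 2 ^ 2 = 2 * 2 from rfl, pow_mul, sq, sq, e, (h.τ_sc n).2.1, z1]
  obtain ⟨d, ca, cb, dc, -⟩ := third bd e4 e4 (Commute.refl _) da db da db
  obtain ⟨s, is, ne, sa, sb⟩ := h.mx4 (i := 2) (by decide) cb.symm n ca.symm db dc da z1 e
  exact ne (inv h n bd z1 is sa sb)

theorem all (c : Chart S a b φ) {t : F} (t0 : t ≠ 0) : φ (uu t) ∈ S a := by
  classical
  have t2 : ((2 : ℤ) : F) ≠ 0 := (Tx.cast_iff (p := 5) F).2 (by decide)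
  by_cases ht : IsSquare t
  · obtain ⟨r, rfl⟩ := ht
    simpa using c.sq_mem h.toSys n c.u1 (s := r) (left_ne_zero_of_mul t0) (k := 1) (by simp)
  · obtain ⟨r, hr⟩ := (quadraticChar_one_iff_isSquare (mul_ne_zero t2 t0)).1 (by
      rw [map_mul, quadraticChar_neg_one_iff_not_isSquare.2 ht,
        quadraticChar_neg_one_iff_not_isSquare.2 (nsq h n bd z1 c)]
      rfl)
    have := c.sq_mem h.toSys n c.u1 (s := r / ((2 : ℤ) : F))
      (div_ne_zero (fun e => mul_ne_zero t2 t0 (by rw [hr, e, mul_zero])) t2) t2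
    convert this using 3
    field_simp
    linear_combination hr

theorem al (d : Ω) (e : G) (he : e ∈ E S d) (e1 : e ≠ 1) : e ∈ S d := by
  have k : ∀ e ∈ E S a, e = 1 ∨ e ∈ S a := fun e he => by
    induction he using closure_induction with
    | mem x hx => exact .inr hx
    | one => exact .inl rfl
    | inv x _ ih =>
      exact ih.imp inv_eq_one.2 fun hx => by
        simpa using h.zpow (k := -1) hx (by simpa using h.ne hx)
    | mul x x' _ _ ih ih' =>
      rcases ih with rfl | hx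
      · rwa [one_mul]
      rcases ih' with rfl | hx'
      · exact .inr (by rwa [mul_one])
      obtain ⟨y₀, hy₀⟩ := h.ex b
      obtain ⟨y, hy, -, d, -⟩ := h.toSys.partner n hx hy₀
      obtain ⟨F, _, _, _, φ, c, rfl, -, ⟨t, rfl⟩, -⟩ := h.chart2 n hx hx' hy d
      rw [← map_mul, ← uu_add]
      by_cases t0 : 1 + t = 0
      · exact .inl (by rw [t0, uu_zero, map_one])
      · exact .inr (all h n bd z1 c t0)
  obtain ⟨g, rfl⟩ := h.toHy.trans a d
  have := h.toSys.E_conj g⁻¹ he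
  rw [inv_smul_smul] at this
  simpa [mul_assoc] using h.conj g ((k _ this).resolve_left fun k => e1 (conj_eq_one_iff.1 k))

end Bad

theorem Hz.bad (h : Hz 5 S D) (n : a ≠ b) (bd : ¬ Good G a b) :
    D a b (-1) = 1 ∧ (∃ c, c ≠ a ∧ c ≠ b ∧ D a b 2 • c = c) ∧ (End G Ω ∨ Od S) := by
  obtain ⟨-, tt, -, fx⟩ := h.τ_sc n
  have e4 : D a b 2 ^ 2 ^ 2 = 1 := by
    rw [show 2 ^ 2 = 2 * 2 from rfl, pow_mul, sq, sq, tt, h.z_sq n]
  obtain ⟨c, ca, cb, e, -⟩ := Bad.third bd e4 e4 (Commute.refl _) (h.Da 2 n) (h.Db 2 n) (h.Da 2 n) (h.Db 2 n)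
  have z1 : D a b (-1) = 1 := by_contra fun z1 =>
    (fx c ((h.fixz n z1).2 ▸ show D a b (-1) • c = c by rw [← tt, mul_smul, e, e]) e).elim ca cb
  refine ⟨z1, ⟨c, ca, cb, e⟩, or_iff_not_imp_left.2 fun ne => ?_⟩
  have lp : ∀ {c d : Ω}, c ≠ d → LP 5 S c d := fun cd =>
    (h.LP_of_all (Bad.al h n bd z1) cd).resolve_left fun t => ne (h.end_of_E t)
  obtain ⟨F, _, _, _, φ, f⟩ := lp n
  have q : Fintype.card F % 8 = 5 := by
    have k := Bad.nsq h n bd z1 f.toChart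
    rw [Int.cast_ofNat, FiniteField.isSquare_two_iff] at k
    have := FiniteField.isSquare_neg_one_iff.1 (show IsSquare (-1 : F) from ⟨2, by
      have : ((5 : ℕ) : F) = 0 := CharP.cast_eq_zero F 5
      push_cast at this
      linear_combination -this⟩)
    omega
  intro c d cd
  obtain ⟨F', _, _, _, φ', f'⟩ := lp cd
  exact ⟨F', _, _, ‹_›, φ', f', by rw [h.full_card cd f', (h.E_card c a).1, ← h.full_card n f, q]⟩

end CL.Cq
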