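/- S3235, disconnected case: basics and charts. -/
import Mathlib
import Cfsg.Agent.CHEV.Cq.Defs

set_option autoImplicit false

namespace CL.Cq

open Subgroup CL.PT CL.PT.L2x

variable {p : ℕ} {G Ω : Type*} [Group G] [MulAction G Ω] [Finite G] {S : Ω → Set G} {a b : Ω} {x y : G}

namespace Bas

open Matrix

variable {F : Type} [Field F]

theorem cen {c e : G} (h1 : Commute x e) (h2 : Commute y e) (hc : c ∈ zpowers x ⊔ zpowers y) : Commute c e :=
  mem_centralizer_singleton_iff.1 (sup_le (zpowers_le.2 (mem_centralizer_singleton_iff.2 h1))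
    (zpowers_le.2 (mem_centralizer_singleton_iff.2 h2)) hc)

/-- conjugation by `diag(s, 1)`, the function -/
def rf (s : F) (hs : s ≠ 0) (A : SpecialLinearGroup (Fin 2) F) : SpecialLinearGroup (Fin 2) F :=
  ⟨!![A.1 0 0, A.1 0 1 * s; A.1 1 0 / s, A.1 1 1], by
    have := det2 A
    rw [det_fin_two_of]
    field_simp
    linear_combination this⟩

theorem rf_val (s : F) (hs : s ≠ 0) (A : SpecialLinearGroup (Fin 2) F) :
    (rf s hs A).1 = !![A.1 0 0, A.1 0 1 * s; A.1 1 0 / s, A.1 1 1] := rfl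

/-- conjugation by `diag(s, 1)` -/
def rs (s : F) (hs : s ≠ 0) : SpecialLinearGroup (Fin 2) F →* SpecialLinearGroup (Fin 2) F where
  toFun := rf s hs
  map_one' := by apply ext2 <;> simp [rf_val]
  map_mul' A B := by
    apply ext2 <;>
      simp only [mul_ap, rf_val, of_apply, cons_val', cons_val_zero, cons_val_one, cons_val_fin_one] <;> field_simp

theorem rs_val (s : F) (hs : s ≠ 0) (A : SpecialLinearGroup (Fin 2) F) :
    (rs s hs A).1 = !![A.1 0 0, A.1 0 1 * s; A.1 1 0 / s, A.1 1 1] := rfl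

theorem rs_uu (s : F) (hs : s ≠ 0) (t : F) : rs s hs (uu t) = uu (t * s) := by
  apply ext2 <;> simp [rs_val, uu_val]

theorem rs_ll (s : F) (hs : s ≠ 0) (t : F) : rs s hs (ll t) = ll (t / s) := by
  apply ext2 <;> simp [rs_val, ll_val]

theorem rs_dd (s : F) (hs : s ≠ 0) (t : F) (ht : t ≠ 0) : rs s hs (dd t ht) = dd t ht := by
  apply ext2 <;> simp [rs_val, dd_val]

theorem rs_rs (s : F) (hs : s ≠ 0) (A : SpecialLinearGroup (Fin 2) F) : rs s hs (rs s⁻¹ (inv_ne_zero hs) A) = A := by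
  apply ext2 <;> simp [rs_val, hs]

theorem rs_rs' (s : F) (hs : s ≠ 0) (A : SpecialLinearGroup (Fin 2) F) : rs s⁻¹ (inv_ne_zero hs) (rs s hs A) = A := by
  apply ext2 <;> simp [rs_val, hs]

theorem rs_neg (s : F) (hs : s ≠ 0) : rs s hs (-1) = -1 := by
  apply ext2 <;> simp [rs_val]

theorem rs_ker (s : F) (hs : s ≠ 0) {A : SpecialLinearGroup (Fin 2) F} (e : rs s hs A = 1 ∨ rs s hs A = -1) :
    A = 1 ∨ A = -1 := by
  rcases e with e | e
  · left; rw [← rs_rs' s hs A, e, map_one]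
  · right; rw [← rs_rs' s hs A, e, rs_neg]

theorem uu_eq {t : F} (e : uu t = 1 ∨ uu t = -1) : t = 0 := by
  rcases e with e | e <;> simpa [uu_val] using congrArg (fun A : SpecialLinearGroup (Fin 2) F => A.1 0 1) e

theorem ll_eq {t : F} (e : ll t = 1 ∨ ll t = -1) : t = 0 := by
  rcases e with e | e <;> simpa [ll_val] using congrArg (fun A : SpecialLinearGroup (Fin 2) F => A.1 1 0) e

theorem conj_ker {k A : SpecialLinearGroup (Fin 2) F} (e : k * A * k⁻¹ = 1 ∨ k * A * k⁻¹ = -1) : A = 1 ∨ A = -1 := by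
  rcases e with e | e
  · left; simpa [mul_assoc] using congrArg (fun x => k⁻¹ * x * k) e
  · right; simpa [mul_assoc] using congrArg (fun x => k⁻¹ * x * k) e

theorem bd0 {t : F} (ht : t ≠ 0) : uu t * ll (-t⁻¹) * uu t = ll (-t⁻¹) * uu t * ll (-t⁻¹) := by
  apply ext2 <;> simp [mul_ap, uu_val, ll_val, ht]

theorem cube {t : F} (ht : t ≠ 0) : (uu t * ll (-t⁻¹)) ^ 3 = -1 := by
  rw [pow_succ, pow_two]
  apply ext2 <;> simp [mul_ap, uu_val, ll_val, ht]

theorem uu_p [CharP F p] (t : F) : uu t ^ p = 1 := by rw [uu_pow, CharP.cast_eq_zero, zero_mul, uu_zero]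

theorem ll_p [CharP F p] (t : F) : ll t ^ p = 1 := by rw [ll_pow, CharP.cast_eq_zero, zero_mul, ll_zero]

theorem uu_c (s t : F) : Commute (uu s) (uu t) := by
  simp only [Commute, SemiconjBy]
  rw [← uu_add, ← uu_add, add_comm]

theorem ll_c (s t : F) : Commute (ll s) (ll t) := by
  simp only [Commute, SemiconjBy]
  rw [← ll_add, ← ll_add, add_comm]

theorem Ec (h : Sys p S) {e f : G} (he : e ∈ E S a) (hf : f ∈ E S a) : Commute e f := by
  have := isMulCommutative_closure (k := S a) fun x hx y hy => (h.comm hx hy).eq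
  exact setLike_mul_comm (s := closure (S a)) he hf

theorem nsolv (h : Sys p S) (n : a ≠ b) (hx : x ∈ S a) (hy : y ∈ S b) :
    ¬ Group.IsSolvable ↥(zpowers x ⊔ zpowers y) := by
  intro hs
  have : Nontrivial ↥(zpowers x ⊔ zpowers y) :=
    ⟨⟨⟨x, mem_sup_left (mem_zpowers x)⟩, 1, fun e => h.ne hx (congrArg Subtype.val e)⟩⟩
  exact (Group.IsSolvable.commutator_lt_top_of_nontrivial (G := ↥(zpowers x ⊔ zpowers y))).ne
    ((h.l2 n hx hy).perfect h.pr h.p5)

end Bas

open Bas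
open scoped commutatorElement

namespace Sys

variable (h : Sys p S)
include h

/-- closure induction -/
theorem Ep_comm (X : Subgroup G) {e f : G} (he : e ∈ Ep S X a) (hf : f ∈ E S a) : Commute e f := Ec h (Ep_le S X a he) hf
theorem E_comm {e f : G} (he : e ∈ E S a) (hf : f ∈ E S a) : Commute e f := Ec h he hf
theorem E_pow {e : G} (he : e ∈ E S a) : e ^ p = 1 := by
  induction he using closure_induction with
  | mem x hx => exact h.pow hx
  | one => exact one_pow p
  | mul x y hx hy k l => rw [(Ec h hx hy).mul_pow, k, l, mul_one]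
  | inv x hx k => rw [inv_pow, k, inv_one]
theorem E_fix {e : G} (he : e ∈ E S a) : e • a = a :=
  (closure_le (MulAction.stabilizer G a)).2 (fun _ hx => h.fix hx) he
theorem E_conj (g : G) {e : G} (he : e ∈ E S a) : g * e * g⁻¹ ∈ E S (g • a) :=
  (closure_le ((E S (g • a)).comap (MulAut.conj g).toMonoidHom)).2 (fun _ hx => subset_closure (h.conj g hx)) he
theorem Ep_conj {X : Subgroup G} {g : G} (hg : g ∈ X) {e : G} (he : e ∈ Ep S X a) : g * e * g⁻¹ ∈ Ep S X (g • a) :=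
  (closure_le ((Ep S X (g • a)).comap (MulAut.conj g).toMonoidHom)).2
    (fun _ hx => subset_closure ⟨h.conj g hx.1, mul_mem (mul_mem hg hx.2) (inv_mem hg)⟩) he
theorem E_pg (a : Ω) : IsPGroup p (E S a) := fun g => ⟨1, Subtype.ext (by simpa using h.E_pow g.2)⟩

/-- `⟨x, y⟩` is perfect (`IsL2.perfect`) and non-trivial. -/
theorem ncomm (n : a ≠ b) (hx : x ∈ S a) (hy : y ∈ S b) : ¬ Commute x y := by
  intro c
  apply nsolv h n hx hy
  apply Group.isSolvable_of_comm
  intro u v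
  exact Subtype.ext (cen (cen (Commute.refl x) c.symm v.2).symm (cen c (Commute.refl y) v.2).symm u.2)

/-- If `c ≠ a`, take `y ∈ S c`; `x` normalises the `p`-group `E c`, so `⟨x, y⟩ ≤ ⟨x⟩ E c` is a `p`-group, nilpotent, perfect, non-trivial. -/
theorem F0 {c : Ω} (hx : x ∈ S a) (e : x • c = c) : c = a := by
  by_contra n
  obtain ⟨y, hy⟩ := h.ex c
  apply nsolv h (Ne.symm n) hx hy
  have := Fact.mk h.pr
  have e' : x⁻¹ • c = c := by rw [inv_smul_eq_iff, e]
  have nm : zpowers x ≤ normalizer (E S c : Set G) := by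
    rw [zpowers_le, mem_normalizer_iff]
    intro r
    constructor
    · intro hr
      simpa [e] using h.E_conj x hr
    · intro hr
      have := h.E_conj x⁻¹ hr
      rw [e'] at this
      simpa [mul_assoc] using this
  have pg : IsPGroup p ↥(zpowers x ⊔ E S c) :=
    IsPGroup.to_sup_of_normal_right' ((h.E_pg a).to_le (zpowers_le.2 (subset_closure hx))) (h.E_pg c) nm
  have pg' : IsPGroup p ↥(zpowers x ⊔ zpowers y) :=
    pg.to_le (sup_le_sup_left (zpowers_le.2 (subset_closure hy)) _)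
  have := pg'.isNilpotent
  infer_instance

theorem pt_eq (hx : x ∈ S a) (hb : x ∈ S b) : a = b := by
  by_contra n
  exact h.ncomm n hx hb (Commute.refl x)

/-- `IsL2.syl_gen` in `⟨x, y⟩`; a conjugate of `x` commuting with `x` is in `S a` (`conj`, `ncomm`). -/
theorem syl (n : a ≠ b) (hx : x ∈ S a) (hy : y ∈ S b) {c : G} (hc : c ∈ zpowers x ⊔ zpowers y) (cp : c ^ p = 1)
    (cm : Commute x c) : c ∈ Ep S (zpowers x ⊔ zpowers y) a := by
  have k := (h.l2 n hx hy).syl_gen h.pr h.p5 (a := ⟨x, mem_sup_left (mem_zpowers x)⟩) (Subtype.ext (h.pow hx))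
    (fun e => h.ne hx (congrArg Subtype.val e)) (c := ⟨c, hc⟩) (Subtype.ext cp) (Subtype.ext cm)
  refine (closure_le ((Ep S (zpowers x ⊔ zpowers y) a).subgroupOf (zpowers x ⊔ zpowers y))).2 ?_ k
  rintro d ⟨c1, g, rfl⟩
  have m := h.conj g.1 hx
  have e : a = g.1 • a := by
    by_contra n'
    exact h.ncomm n' hx m (congrArg Subtype.val c1)
  rw [← e] at m
  exact Subgroup.subset_closure (Set.mem_inter m
    (mul_mem (mul_mem g.2 (mem_sup_left (mem_zpowers x))) (inv_mem g.2)))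

/-- `c`, `c w` commute, so `a' = a`.  If `s ≠ a`: `⟨c w, e⟩` is perfect and lies in `⟨c, e⟩ ⟨w⟩` (`w` centralises `c`, `e`), so it lies in the commutator subgroup `≤ ⟨c, e⟩`; so `w ∈ Z ⟨c, e⟩`, `w * w = 1` (`center_sq`), `w = 1`. -/
theorem b1 {a' s : Ω} {c w e : G} (hc : c ∈ S a) (hw : c * w ∈ S a') (w1 : w ≠ 1) (wp : w ^ p = 1) (cw : Commute c w)
    (he : e ∈ S s) (we : Commute w e) : s = a := by
  by_contra n
  have aa : a = a' := by
    by_contra n'
    exact h.ncomm n' hc hw ((Commute.refl c).mul_right cw)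
  subst aa
  have cm {x : G} (hx : x ∈ zpowers e ⊔ zpowers c) : Commute x w := cen we.symm cw hx
  have pf := (h.l2 n he hw).perfect h.pr h.p5
  let M : Subgroup G :=
    { carrier := {g | ∃ x ∈ zpowers e ⊔ zpowers c, ∃ k : ℤ, g = x * w ^ k}
      one_mem' := ⟨1, one_mem _, 0, by simp⟩
      mul_mem' := by
        rintro _ _ ⟨x, hx, k, rfl⟩ ⟨y, hy, l, rfl⟩
        exact ⟨x * y, mul_mem hx hy, k + l, by rw [zpow_add, ((cm hy).zpow_right k).symm.mul_mul_mul_comm]⟩
      inv_mem' := by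
        rintro _ ⟨x, hx, k, rfl⟩
        exact ⟨x⁻¹, inv_mem hx, -k, by rw [mul_inv_rev, zpow_neg, ((cm hx).zpow_right k).inv_inv.eq]⟩ }
  have le : zpowers e ⊔ zpowers (c * w) ≤ M := sup_le (zpowers_le.2 ⟨e, mem_sup_left (mem_zpowers e), 0, by simp⟩)
    (zpowers_le.2 ⟨c, mem_sup_right (mem_zpowers c), 1, by simp⟩)
  have k : ⁅M, M⁆ ≤ zpowers e ⊔ zpowers c := commutator_le.2 (by
    rintro _ ⟨x, hx, k, rfl⟩ _ ⟨y, hy, l, rfl⟩
    have : ⁅x * w ^ k, y * w ^ l⁆ = ⁅x, y⁆ := by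
      rw [commutatorElement_def, mul_assoc (_ * _), ← mul_inv_rev, ((cm hy).zpow_right k).symm.mul_mul_mul_comm,
        ((cm hx).zpow_right l).symm.mul_mul_mul_comm, ← zpow_add, ← zpow_add, add_comm l]
      simp [commutatorElement_def, mul_assoc]
    exact this ▸ mul_mem (mul_mem (mul_mem hx hy) (inv_mem hx)) (inv_mem hy))
  have m : c * w ∈ zpowers e ⊔ zpowers c := by
    refine k (commutator_mono le le ?_)
    rw [← map_subtype_commutator, pf, ← MonoidHom.range_eq_map, range_subtype]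
    exact mem_sup_right (mem_zpowers _)
  have m' : w ∈ zpowers e ⊔ zpowers c := (mul_mem_cancel_left (mem_sup_right (mem_zpowers c))).1 m
  have s : w * w = 1 := congrArg Subtype.val ((h.l2 n he hc).center_sq h.pr h.p5 (z := ⟨w, m'⟩)
    (mem_center_iff.2 fun x => Subtype.ext (cm x.2)))
  obtain ⟨j, hj⟩ := h.pr.odd_of_ne_two (by have := h.p5; omega)
  rw [hj, pow_succ, pow_mul, pow_two, s, one_pow, one_mul] at wp
  exact w1 wp

/-- `w = x y x` has `w x w⁻¹ = y`, `w y w⁻¹ = x`; use `conj`, `pt_eq`.  `x y x • a = b` gives `y • a = x⁻¹ • b`. -/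
theorem bd (hx : x ∈ S a) (hy : y ∈ S b) (d : Bd x y) : (x * y * x) • a = b ∧ (x * y * x) • b = a ∧ y • a = x⁻¹ • b := by
  have d' : x * y * x = y * x * y := d
  have e1 : x * y * x * x * (x * y * x)⁻¹ = y := by
    rw [mul_inv_eq_iff_eq_mul]
    calc x * y * x * x = y * x * y * x := by rw [d']
      _ = _ := by group
  have e2 : x * y * x * y * (x * y * x)⁻¹ = x := by
    rw [mul_inv_eq_iff_eq_mul]
    calc x * y * x * y = x * (y * x * y) := by group
      _ = _ := by rw [← d']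
  have m1 := h.conj (x * y * x) hx
  have m2 := h.conj (x * y * x) hy
  rw [e1] at m1
  rw [e2] at m2
  have k1 : (x * y * x) • a = b := h.pt_eq m1 hy
  refine ⟨k1, h.pt_eq m2 hx, ?_⟩
  rw [mul_smul, mul_smul, h.fix hx] at k1
  rw [← k1, inv_smul_smul]

/-- The local chart.  `L2x.mdl` (redo it keeping `Fintype`), lift `x`, `y`; conjugate as in `IsL2.partner` to `x = u(s)`, `y = l(t)`, then rescale by the automorphism `A ↦ diag(s,1) A diag(s,1)⁻¹` (entries `a, s b, c / s, d`) to get `s = 1`.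
`φ (uu t) ∈ E a` by `syl`; `φ (ll (-1))` is conjugate to `x` by `x y' x`, and commutes with `y`, so it is in `S b`.
Last two parts: an element of `E a` in the range has a lift of order `p` commuting with `u(1)` (`lift`, `comm_lift`, `low_zero`, `eq_uu`). -/
theorem chart (n : a ≠ b) (hx : x ∈ S a) (hy : y ∈ S b) :
    ∃ (F : Type) (_ : Field F) (_ : Fintype F) (_ : CharP F p) (φ : Matrix.SpecialLinearGroup (Fin 2) F →* G),
      Chart S a b φ ∧ φ (uu 1) = x ∧ (∃ t, φ (ll t) = y) ∧ φ.range = zpowers x ⊔ zpowers y := by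
  obtain ⟨K, _, _, φ, hs, hk⟩ := mdl h.pr (h.l2 n hx hy)
  have hp := h.pr
  have p5 := h.p5
  have : Finite K := by
    refine Finite.of_injective (fun t => φ (uu t)) fun s t e => ?_
    have e' : φ (uu s) = φ (uu t) := e
    refine sub_eq_zero.1 (uu_eq (hk _ ?_))
    rw [sub_eq_add_neg, uu_add, uu_neg, map_mul, map_inv, e', mul_inv_cancel]
  have nc := h.ncomm n hx hy
  obtain ⟨A, eA, hA⟩ := lift hp p5 hs hk (a := ⟨x, mem_sup_left (mem_zpowers x)⟩) (Subtype.ext (h.pow hx))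
  obtain ⟨B, eB, hB⟩ := lift hp p5 hs hk (a := ⟨y, mem_sup_right (mem_zpowers y)⟩) (Subtype.ext (h.pow hy))
  have nc' : ¬ Commute A B := fun c => nc (by
    have := c.map φ
    rw [eA, eB] at this
    exact congrArg Subtype.val this)
  obtain ⟨g, s, rfl⟩ := conj_uu (trace_two hp hA)
  have s0 : s ≠ 0 := by
    rintro rfl
    simp [uu_zero] at nc'
  obtain ⟨C, rfl⟩ : ∃ C, B = g * C * g⁻¹ := ⟨g⁻¹ * B * g, by group⟩
  have hC : C ^ p = 1 := by
    rw [conj_pow] at hB
    have := congrArg (fun x => g⁻¹ * x * g) hB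
    simpa [mul_assoc] using this
  have tr := trace_two hp hC
  have c0 : C.1 1 0 ≠ 0 := by
    intro c0
    apply nc'
    rw [eq_uu tr c0]
    simp only [Commute, SemiconjBy]
    rw [conj_mul, conj_mul, ← uu_add, ← uu_add, add_comm]
  obtain ⟨r, t, rfl⟩ : ∃ r t, C = uu r * ll t * (uu r)⁻¹ := ⟨_, _, eq_ll tr c0⟩
  have ea : g * uu s * g⁻¹ = (g * uu r) * uu s * (g * uu r)⁻¹ := by
    rw [mul_assoc g (uu r), ← uu_add, add_comm, uu_add]
    group
  have eb : g * (uu r * ll t * (uu r)⁻¹) * g⁻¹ = (g * uu r) * ll t * (g * uu r)⁻¹ := by group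
  rw [ea] at eA
  rw [eb] at eB
  generalize g * uu r = k at eA eB
  let ψ : Matrix.SpecialLinearGroup (Fin 2) K →* G :=
    (zpowers x ⊔ zpowers y).subtype.comp (φ.comp ((MulAut.conj k).toMonoidHom.comp (rs s s0)))
  have ev : ∀ A, ψ A = (φ (k * rs s s0 A * k⁻¹) : G) := fun _ => rfl
  have e1 : ψ (uu 1) = x := by rw [ev, rs_uu, one_mul, eA]
  have e2 : ψ (ll (t * s)) = y := by rw [ev, rs_ll, mul_div_cancel_right₀ _ s0, eB]
  have rg : ψ.range = zpowers x ⊔ zpowers y := by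
    apply le_antisymm
    · rintro _ ⟨A, rfl⟩
      exact Subtype.property _
    · exact sup_le (zpowers_le.2 ⟨_, e1⟩) (zpowers_le.2 ⟨_, e2⟩)
  refine ⟨K, inferInstance, Fintype.ofFinite K, inferInstance, ψ, ⟨?_, e1 ▸ hx, ?_, ?_, ?_⟩, e1, ⟨_, e2⟩, rg⟩
  · intro A e
    exact rs_ker s s0 (conj_ker (hk _ (Subtype.ext e)))
  · have m := h.conj (ψ ww) hx
    rw [← e1, ← map_inv, ← map_mul, ← map_mul, ← neg_neg (1 : K), ← ww_uu] at m
    have e : ψ ww • a = b := by
      by_contra n'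
      exact h.ncomm n' m hy (e2 ▸ (ll_c _ _).map ψ)
    exact e ▸ m
  · intro r
    exact Ep_le S _ a (h.syl n hx hy (rg ▸ ⟨_, rfl⟩) (by rw [← map_pow, uu_p, map_one]) (e1 ▸ (uu_c _ _).map ψ))
  · intro r
    exact Ep_le S _ b (h.syl n.symm hy hx (by rw [sup_comm, ← rg]; exact ⟨_, rfl⟩) (by rw [← map_pow, ll_p, map_one])
      (e2 ▸ (ll_c _ _).map ψ))

/-- from `chart` -/
theorem partner (n : a ≠ b) (hx : x ∈ S a) (hy : y ∈ S b) :
    ∃ y' ∈ S b, y' ∈ zpowers x ⊔ zpowers y ∧ Bd x y' ∧ (x * y') ^ 6 = 1 := by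
  obtain ⟨K, _, _, _, φ, c, e, -, rg⟩ := h.chart n hx hy
  refine ⟨φ (ll (-1)), c.l1, rg ▸ ⟨_, rfl⟩, ?_, ?_⟩
  · have := congrArg φ (bd0 (one_ne_zero (α := K)))
    rw [inv_one] at this
    simpa only [map_mul, e, Bd] using this
  · have := cube (one_ne_zero (α := K))
    rw [inv_one] at this
    rw [← e, ← map_mul, ← map_pow, show 6 = 3 * 2 by norm_num, pow_mul, this]
    simp

end Sys

theorem Bd.symm (d : Bd x y) : Bd y x := Eq.symm d

end CL.Cq
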