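/- S3235, disconnected case: basics and charts. -/
import Mathlib
import Cfsg.Agent.CHEV.Cq.BasA

set_option autoImplicit false

namespace CL.Cq

open Subgroup CL.PT CL.PT.L2x

variable {p : ℕ} {G Ω : Type*} [Group G] [MulAction G Ω] [Finite G] {S : Ω → Set G} {a b : Ω} {x y : G}

section chart

variable {F : Type} [Field F] [CharP F p] {φ : Matrix.SpecialLinearGroup (Fin 2) F →* G}

/-- matrix computation -/
theorem bd_uu (φ : Matrix.SpecialLinearGroup (Fin 2) F →* G) {t : F} (ht : t ≠ 0) : Bd (φ (uu t)) (φ (ll (-t⁻¹))) := by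
  simpa only [map_mul, Bd] using congrArg φ (Bas.bd0 ht)

namespace BasB

open Bas

theorem swap0 (c : Chart S a b φ) : Chart S b a (φ.comp (MulAut.conj ww).toMonoidHom) ∧
    (∀ t, φ.comp (MulAut.conj ww).toMonoidHom (uu t) = φ (ll (-t))) ∧
    (∀ t, φ.comp (MulAut.conj ww).toMonoidHom (ll t) = φ (uu (-t))) := by
  have e1 : ∀ t, φ.comp (MulAut.conj ww).toMonoidHom (uu t) = φ (ll (-t)) := by
    intro t
    rw [ww_uu, neg_neg]
    rfl
  have e2 : ∀ t, φ.comp (MulAut.conj ww).toMonoidHom (ll t) = φ (uu (-t)) := by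
    intro t
    show φ (ww * ll t * ww⁻¹) = _
    congr 1
    rw [mul_inv_eq_iff_eq_mul]
    apply ext2 <;> simp [mul_ap, uu_val, ll_val, ww_val]
  refine ⟨⟨fun g e => conj_ker (c.ker _ e), ?_, ?_, fun t => ?_, fun t => ?_⟩, e1, e2⟩
  · rw [e1]; exact c.l1
  · rw [e2, neg_neg]; exact c.u1
  · rw [e1]; exact c.lE _
  · rw [e2]; exact c.uE _

theorem ofE (h : Sys p S) (c : Chart S a b φ) {e : G} (he : e ∈ E S a) (hr : e ∈ φ.range) : ∃ t, φ (uu t) = e := by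
  have hp := h.pr
  have p5 := h.p5
  obtain ⟨A, rfl, hA⟩ : ∃ A, φ A = e ∧ A ^ p = 1 := by
    obtain ⟨A, rfl⟩ := hr
    have ha := h.E_pow he
    rw [← map_pow] at ha
    rcases c.ker _ ha with e | e
    · exact ⟨A, rfl, e⟩
    · refine ⟨-A, ?_, ?_⟩
      · rw [← neg_one_mul, map_mul, ← e, ha, one_mul]
      · rw [(hp.odd_of_ne_two (by omega)).neg_pow, e, neg_neg]
  have k := comm_lift hp p5 c.ker hA (h.E_comm he (c.uE 1))
  exact ⟨_, congrArg φ (eq_uu (trace_two hp hA) (low_zero one_ne_zero k.symm)).symm⟩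

theorem stab0 (h : Sys p S) (c : Chart S a b φ) {A : Matrix.SpecialLinearGroup (Fin 2) F} (e : φ A • a = a) :
    ∃ t s hs, A = uu t * dd s hs := by
  have m := h.E_conj (φ A) (c.uE 1)
  rw [e, ← map_inv, ← map_mul, ← map_mul] at m
  have hB : (A * uu 1 * A⁻¹) ^ p = 1 := by rw [conj_pow, uu_p]; simp
  have k := comm_lift h.pr h.p5 c.ker hB (h.E_comm m (c.uE 1))
  have e1 := eq_uu (trace_two h.pr hB) (low_zero one_ne_zero k.symm)
  generalize (A * uu 1 * A⁻¹).1 0 1 = r at e1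
  rw [mul_inv_eq_iff_eq_mul] at e1
  have e2 := congrArg (fun A : Matrix.SpecialLinearGroup (Fin 2) F => A.1 1 1) e1
  simp only [mul_ap, uu_val] at e2
  have c0 : A.1 1 0 = 0 := by simpa using e2
  have d := det2 A
  rw [c0, mul_zero, sub_zero] at d
  have s0 : A.1 0 0 ≠ 0 := left_ne_zero_of_mul_eq_one d
  refine ⟨A.1 0 1 * A.1 0 0, A.1 0 0, s0, ?_⟩
  apply ext2 <;> simp [mul_ap, uu_val, dd_val, s0, c0]
  exact eq_inv_of_mul_eq_one_right d

theorem uu_zpow (t : F) (k : ℤ) : uu t ^ k = uu (k * t) := by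
  obtain ⟨n, rfl | rfl⟩ := k.eq_nat_or_neg
  · simp [uu_pow]
  · rw [zpow_neg, zpow_natCast, uu_pow, ← uu_neg]
    simp

theorem lmem (h : Sys p S) (c : Chart S a b φ) {t : F} (ht : φ (uu t) ∈ S a) : φ (ll (-t⁻¹)) ∈ S b := by
  have t0 : t ≠ 0 := by
    rintro rfl
    exact h.ne ht (by rw [uu_zero, map_one])
  have m := h.conj (φ (uu t * ll (-t⁻¹) * uu t)) ht
  have e : uu t * ll (-t⁻¹) * uu t * uu t * (uu t * ll (-t⁻¹) * uu t)⁻¹ = ll (-t⁻¹) := by
    rw [mul_inv_eq_iff_eq_mul]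
    calc _ = ll (-t⁻¹) * uu t * ll (-t⁻¹) * uu t := by rw [bd0 t0]
      _ = _ := by group
  rw [← map_inv, ← map_mul, ← map_mul, e] at m
  have e' : φ (uu t * ll (-t⁻¹) * uu t) • a = b := by
    by_contra n'
    exact h.ncomm n' m c.l1 ((ll_c _ _).map φ)
  exact e' ▸ m

theorem dsm (h : Sys p S) (c : Chart S a b φ) (s : F) (hs : s ≠ 0) : φ (dd s hs) • a = a ∧ φ (dd s hs) • b = b := by
  constructor
  · have m := h.conj (φ (dd s hs)) c.u1
    rw [← map_inv, ← map_mul, ← map_mul, dd_uu] at m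
    by_contra n'
    exact h.ncomm n' m c.u1 ((uu_c _ _).map φ)
  · have m := h.conj (φ (dd s hs))⁻¹ c.l1
    rw [inv_inv, ← map_inv, ← map_mul, ← map_mul, dd_ll, map_inv] at m
    have : (φ (dd s hs))⁻¹ • b = b := by
      by_contra n'
      exact h.ncomm n' m c.l1 ((ll_c _ _).map φ)
    rw [inv_smul_eq_iff] at this
    exact this.symm

end BasB

open Bas BasB

namespace Chart

variable (h : Sys p S) (n : a ≠ b) (c : Chart S a b φ)
include h n c

theorem u_inj {s t : F} (e : φ (uu s) = φ (uu t)) : s = t := by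
  refine sub_eq_zero.1 (uu_eq (c.ker _ ?_))
  rw [sub_eq_add_neg, uu_add, uu_neg, map_mul, map_inv, e, mul_inv_cancel]
theorem l_inj {s t : F} (e : φ (ll s) = φ (ll t)) : s = t := by
  refine sub_eq_zero.1 (ll_eq (c.ker _ ?_))
  rw [sub_eq_add_neg, ll_add, ll_neg, map_mul, map_inv, e, mul_inv_cancel]
/-- lift of order `p` commuting with `u(1)` -/
theorem of_E {e : G} (he : e ∈ E S a) (hr : e ∈ φ.range) : ∃ t, φ (uu t) = e := ofE h c he hr
theorem of_E' {e : G} (he : e ∈ E S b) (hr : e ∈ φ.range) : ∃ t, φ (ll t) = e := by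
  obtain ⟨c', e1, -⟩ := swap0 c
  obtain ⟨A, rfl⟩ := hr
  obtain ⟨t, ht⟩ := ofE h c' he ⟨ww⁻¹ * A * ww, by simp [mul_assoc]⟩
  exact ⟨-t, by rw [← e1, ht]⟩
/-- `ww⁻¹ = u(1) l(-1) u(1)`, `Sys.bd` -/
theorem w_smul : φ ww • a = b ∧ φ ww • b = a := by
  obtain ⟨-, e1, e2⟩ := swap0 c
  have m1 := h.conj (φ ww) c.u1
  have m2 := h.conj (φ ww) c.l1
  rw [← map_inv, ← map_mul, ← map_mul] at m1 m2
  have f1 : φ (ww * uu 1 * ww⁻¹) = φ (ll (-1)) := e1 1
  have f2 : φ (ww * ll (-1) * ww⁻¹) = φ (uu (- -1)) := e2 (-1)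
  rw [f1] at m1
  rw [f2, neg_neg] at m2
  exact ⟨h.pt_eq m1 c.l1, h.pt_eq m2 c.u1⟩
/-- `dd s` is a product of elements ... : `φ (dd s) x φ (dd s)⁻¹ ∈ S (φ (dd s) • a)` commutes with `x`; use `ncomm` -/
theorem d_smul (s : F) (hs : s ≠ 0) : φ (dd s hs) • a = a ∧ φ (dd s hs) • b = b := dsm h c s hs
/-- if `φ A` fixes `a` it conjugates `φ (uu 1)` into `E a`; `of_E` and a matrix computation -/
theorem stab {A : Matrix.SpecialLinearGroup (Fin 2) F} (e : φ A • a = a) : ∃ t s hs, A = uu t * dd s hs := stab0 h c e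
theorem stab' {A : Matrix.SpecialLinearGroup (Fin 2) F} (e : φ A • b = b) : ∃ t s hs, A = ll t * dd s hs := by
  obtain ⟨c', -, -⟩ := swap0 c
  obtain ⟨t, s, hs, k⟩ := stab0 h c' (A := ww⁻¹ * A * ww) (by simpa [mul_assoc] using e)
  refine ⟨-t, s⁻¹, inv_ne_zero hs, ?_⟩
  have : A = ww * (uu t * dd s hs) * ww⁻¹ := by rw [← k]; group
  rw [this, mul_inv_eq_iff_eq_mul]
  apply ext2 <;> simp [mul_ap, uu_val, ll_val, ww_val, dd_val]
theorem pt_inj {s t : F} (e : φ (uu s) • b = φ (uu t) • b) : s = t := by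
  have k : φ (uu (s - t)) • b = b := by
    rw [sub_eq_neg_add, uu_add, uu_neg, map_mul, map_inv, mul_smul, e, inv_smul_smul]
  obtain ⟨r, u, hu, k'⟩ := c.stab' h n k
  have := congrArg (fun A : Matrix.SpecialLinearGroup (Fin 2) F => A.1 0 1) k'
  simp only [mul_ap, uu_val, ll_val, dd_val] at this
  exact sub_eq_zero.1 (by simpa using this)
theorem pt_ne (t : F) : φ (uu t) • b ≠ a := by
  intro e
  rw [← h.E_fix (c.uE t)] at e
  exact n (MulAction.injective _ e).symm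
theorem d_pt (s : F) (hs : s ≠ 0) (t : F) : φ (dd s hs) • φ (uu t) • b = φ (uu (s * s * t)) • b := by
  rw [← dd_uu s hs, map_mul, map_mul, mul_smul, mul_smul, map_inv]
  congr 2
  rw [eq_inv_smul_iff, (dsm h c s hs).2]
/-- `ww u(t) = u(-t⁻¹) * (lower triangular)` -/
theorem w_pt {t : F} (ht : t ≠ 0) : φ ww • φ (uu t) • b = φ (uu (-t⁻¹)) • b := by
  have e : ww * uu t = uu (-t⁻¹) * (ll t * dd t⁻¹ (inv_ne_zero ht)) := by
    apply ext2 <;> simp [mul_ap, uu_val, ll_val, ww_val, dd_val, ht]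
  rw [← mul_smul, ← map_mul, e, map_mul, map_mul, mul_smul, mul_smul, (dsm h c _ _).2, h.E_fix (c.lE t)]
/-- Bruhat: the set `{a} ∪ φ(u F) b` is invariant -/
theorem inv_pt (A : Matrix.SpecialLinearGroup (Fin 2) F) {d : Ω} (hd : d ∈ insert a (Set.range fun t => φ (uu t) • b)) :
    φ A • d ∈ insert a (Set.range fun t => φ (uu t) • b) := by
  let P : Matrix.SpecialLinearGroup (Fin 2) F → Prop := fun A =>
    ∀ d ∈ insert a (Set.range fun t => φ (uu t) • b), φ A • d ∈ insert a (Set.range fun t => φ (uu t) • b)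
  have Pm : ∀ A B, P A → P B → P (A * B) := fun A B k l d hd => by
    rw [map_mul, mul_smul]
    exact k _ (l _ hd)
  have Pu : ∀ t, P (uu t) := by
    rintro t d (rfl | ⟨s, rfl⟩)
    · exact Or.inl (h.E_fix (c.uE t))
    · exact Or.inr ⟨t + s, by simp only [uu_add, map_mul, mul_smul]⟩
  have Pw : P ww := by
    rintro d (rfl | ⟨s, rfl⟩)
    · exact Or.inr ⟨0, by simp only [uu_zero, map_one, one_smul, (c.w_smul h n).1]⟩
    · by_cases s0 : s = 0
      · left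
        simp only [s0, uu_zero, map_one, one_smul, (c.w_smul h n).2]
      · exact Or.inr ⟨_, (c.w_pt h n s0).symm⟩
  have Pl : ∀ t, P (ll t) := by
    intro t
    have : ll t = ww * uu (-t) * (ww * ww * ww) := by
      apply ext2 <;> simp [mul_ap, uu_val, ll_val, ww_val]
    rw [this]
    exact Pm _ _ (Pm _ _ Pw (Pu _)) (Pm _ _ (Pm _ _ Pw Pw) Pw)
  have k : ∀ A : Matrix.SpecialLinearGroup (Fin 2) F, A.1 1 0 ≠ 0 → P A := fun A c0 => by
    rw [decomp c0]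
    exact Pm _ _ (Pm _ _ (Pu _) (Pl _)) (Pu _)
  revert d
  show P A
  by_cases c0 : A.1 1 0 = 0
  · have d := det2 A
    rw [c0, mul_zero, sub_zero] at d
    have : (ll 1 * A).1 1 0 ≠ 0 := by
      rw [mul_ap, c0]
      simpa [ll_val] using left_ne_zero_of_mul_eq_one d
    have e : A = ll (-1) * (ll 1 * A) := by rw [ll_neg, inv_mul_cancel_left]
    rw [e]
    exact Pm _ _ (Pl _) (k _ this)
  · exact k A c0
/-- conjugation by the torus, and `zpow` -/
theorem sq_mem {t : F} (ht : φ (uu t) ∈ S a) {s : F} (hs : s ≠ 0) {k : ℤ} (hk : (k : F) ≠ 0) : φ (uu (k * (s * s * t))) ∈ S a := by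
  have t0 : t ≠ 0 := by
    rintro rfl
    exact h.ne ht (by rw [uu_zero, map_one])
  have m := h.conj (φ (dd s hs)) ht
  rw [← map_inv, ← map_mul, ← map_mul, dd_uu, (dsm h c s hs).1] at m
  rw [← uu_zpow, map_zpow]
  refine h.zpow m ?_
  rw [← map_zpow, uu_zpow]
  intro e
  exact mul_ne_zero hk (mul_ne_zero (mul_ne_zero hs hs) t0) (uu_eq (c.ker _ e))
/-- conjugate by `u(t) l(-t⁻¹) u(t)` -/
theorem l_mem {t : F} (ht : φ (uu t) ∈ S a) : φ (ll (-t⁻¹)) ∈ S b := lmem h c ht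
/-- rescaling by `diag(t₀, 1)` -/
theorem rescale {t₀ : F} (ht : φ (uu t₀) ∈ S a) : ∃ ψ : Matrix.SpecialLinearGroup (Fin 2) F →* G, Chart S a b ψ ∧
    (∀ t, ψ (uu t) = φ (uu (t * t₀))) ∧ (∀ t, ψ (ll t) = φ (ll (t / t₀))) ∧ (∀ s hs, ψ (dd s hs) = φ (dd s hs)) ∧
    ψ.range = φ.range := by
  have t0 : t₀ ≠ 0 := by
    rintro rfl
    exact h.ne ht (by rw [uu_zero, map_one])
  have e1 : ∀ t, φ.comp (rs t₀ t0) (uu t) = φ (uu (t * t₀)) := fun t => by rw [MonoidHom.comp_apply, rs_uu]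
  have e2 : ∀ t, φ.comp (rs t₀ t0) (ll t) = φ (ll (t / t₀)) := fun t => by rw [MonoidHom.comp_apply, rs_ll]
  refine ⟨φ.comp (rs t₀ t0), ⟨fun g e => rs_ker t₀ t0 (c.ker _ e), ?_, ?_, fun t => ?_, fun t => ?_⟩, e1, e2,
    fun s hs => by rw [MonoidHom.comp_apply, rs_dd], ?_⟩
  · rw [e1, one_mul]; exact ht
  · rw [e2, neg_div, one_div]; exact lmem h c ht
  · rw [e1]; exact c.uE _
  · rw [e2]; exact c.lE _
  · apply le_antisymm
    · rintro _ ⟨A, rfl⟩
      exact ⟨_, rfl⟩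
    · rintro _ ⟨A, rfl⟩
      exact ⟨rs t₀⁻¹ (inv_ne_zero t0) A, by rw [MonoidHom.comp_apply, rs_rs]⟩
/-- compose with conjugation by `ww` -/
theorem swap : ∃ ψ : Matrix.SpecialLinearGroup (Fin 2) F →* G, Chart S b a ψ ∧
    (∀ t, ψ (uu t) = φ (ll (-t))) ∧ (∀ t, ψ (ll t) = φ (uu (-t))) ∧ ψ (-1) = φ (-1) ∧ ψ.range = φ.range := by
  obtain ⟨c', e1, e2⟩ := swap0 c
  refine ⟨_, c', e1, e2, by simp, ?_⟩
  apply le_antisymm
  · rintro _ ⟨A, rfl⟩
    exact ⟨_, rfl⟩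
  · rintro _ ⟨A, rfl⟩
    exact ⟨ww⁻¹ * A * ww, by simp [mul_assoc]⟩
/-- `(u(1) l(-1)) ^ 3 = -1` -/
theorem neg : φ (-1) = (φ (uu 1) * φ (ll (-1))) ^ 3 := by
  have := cube (one_ne_zero (α := F))
  rw [inv_one] at this
  rw [← map_mul, ← map_pow, this]

end Chart

end chart

end CL.Cq
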