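/- S3235, disconnected case: basics and charts. -/
import Mathlib
import Cfsg.Agent.CHEV.Cq.BasB

set_option autoImplicit false

namespace CL.Cq

open Subgroup CL.PT CL.PT.L2x

variable {p : ℕ} {G Ω : Type*} [Group G] [MulAction G Ω] [Finite G] {S : Ω → Set G} {a b : Ω} {x y : G}

/-- Take `x`, `y` from `g2` and the local chart of `⟨x, y⟩` (`syl` gives `φ (uu t) ∈ Ep`).  If `e ∈ Ep a` acts on `Φ` as `g = φ A`, then `A = u(t) dd s` (`stab`); `g ^ p` is trivial on `φ(u F) b ⊆ Φ`, so `s ^ (2 p) = 1`, `s = ±1`; if `s = -1` then `g ^ p = φ (-1)` is trivial on `Φ`.  For `b` conjugate by `φ ww ∈ X`.  `orb (Ep a) b = φ(u F) b` has `|F|` points. -/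
theorem RCon.chart [Finite Ω] (h : Sys p S) {X : Subgroup G} {Φ : Set Ω} (r : RCon S X Φ) (iv : ∀ g ∈ X, ∀ c ∈ Φ, g • c ∈ Φ)
    (ha : a ∈ Φ) (hb : b ∈ Φ) (n : a ≠ b) :
    ∃ (F : Type) (_ : Field F) (_ : Fintype F) (_ : CharP F p) (φ : Matrix.SpecialLinearGroup (Fin 2) F →* G),
      Chart S a b φ ∧ φ.range ≤ X ∧ (∀ t, φ (uu t) ∈ Ep S X a) ∧ (∀ t, φ (ll t) ∈ Ep S X b) ∧
      (∀ e ∈ Ep S X a, ∃ t, ∀ c ∈ Φ, e • c = φ (uu t) • c) ∧ (∀ e ∈ Ep S X b, ∃ t, ∀ c ∈ Φ, e • c = φ (ll t) • c) ∧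
      (Φ = insert a (Set.range fun t => φ (uu t) • b) ∨
        (Φ.ncard = Fintype.card F ^ 3 + 1 ∧ ∃ c ∈ Φ, φ (-1) • c ≠ c)) := by
  obtain ⟨x, hx, xX, y, hy, yX, hg⟩ := r.g2 a ha b hb n
  obtain ⟨F, i1, i2, i3, φ, c, ex, ⟨t₀, ey⟩, hr⟩ := h.chart n hx hy
  have LX : zpowers x ⊔ zpowers y ≤ X := sup_le (zpowers_le.2 xX) (zpowers_le.2 yX)
  have rX : φ.range ≤ X := hr ▸ LX
  have mX : ∀ A, φ A ∈ X := fun A => rX ⟨A, rfl⟩
  have mL : ∀ A, φ A ∈ zpowers x ⊔ zpowers y := fun A => hr ▸ (⟨A, rfl⟩ : φ A ∈ φ.range)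
  have mono : ∀ {Y : Subgroup G} (d : Ω), Y ≤ X → Ep S Y d ≤ Ep S X d := fun d hY =>
    closure_mono (Set.inter_subset_inter_right _ hY)
  have hu : ∀ t, φ (uu t) ∈ Ep S X a := fun t =>
    mono a LX (h.syl n hx hy (mL _) (h.E_pow (c.uE t)) (h.E_comm (subset_closure hx) (c.uE t)))
  have hl : ∀ t, φ (ll t) ∈ Ep S X b := fun t =>
    mono b (sup_le (zpowers_le.2 yX) (zpowers_le.2 xX))
      (h.syl n.symm hy hx (sup_comm (zpowers x) (zpowers y) ▸ mL _) (h.E_pow (c.lE t))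
        (h.E_comm (subset_closure hy) (c.lE t)))
  have ka : ∀ e ∈ Ep S X a, ∃ t, ∀ d ∈ Φ, e • d = φ (uu t) • d := by
    intro e he
    obtain ⟨g, gL, hg'⟩ := hg e he
    rw [← hr] at gL
    obtain ⟨A, rfl⟩ := gL
    have fa : φ A • a = a := by rw [← hg' a ha]; exact h.E_fix (Ep_le S X a he)
    obtain ⟨t, s, hs, rfl⟩ := c.stab h n fa
    refine ⟨t, fun d hd => ?_⟩
    have e1 : ((φ (uu t))⁻¹ * e) • b = b := by
      rw [mul_smul, hg' b hb, map_mul, mul_smul, inv_smul_smul]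
      exact (c.d_smul h n s hs).2
    have e2 := r.sr a ha b hb n _ (mul_mem (inv_mem (hu t)) he) e1 d hd
    rw [mul_smul, inv_smul_eq_iff] at e2
    exact e2
  have kb : ∀ e ∈ Ep S X b, ∃ t, ∀ d ∈ Φ, e • d = φ (ll t) • d := by
    intro e he
    have h1 := h.Ep_conj (inv_mem (mX ww)) he
    have h2 : (φ ww)⁻¹ • b = a := by rw [inv_smul_eq_iff]; exact (c.w_smul h n).1.symm
    rw [h2, inv_inv] at h1
    obtain ⟨t, ht⟩ := ka _ h1
    refine ⟨-t, fun d hd => ?_⟩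
    have h3 := ht _ (iv _ (inv_mem (mX ww)) d hd)
    rw [mul_smul, mul_smul, smul_inv_smul, inv_smul_eq_iff] at h3
    rw [h3, ww_uu, neg_neg, map_mul, map_mul, map_inv, mul_smul, mul_smul]
  have ho : orb (Ep S X a) b = Set.range fun t => φ (uu t) • b := by
    ext d
    constructor
    · rintro ⟨u, hu', rfl⟩
      obtain ⟨t, ht⟩ := ka u hu'
      exact ⟨t, (ht b hb).symm⟩
    · rintro ⟨t, rfl⟩
      exact ⟨_, hu t, rfl⟩
  have hn : (Set.range fun t => φ (uu t) • b).ncard = Fintype.card F := by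
    rw [Set.ncard_range_of_injective fun s t e => c.pt_inj h n e, Nat.card_eq_fintype_card]
  refine ⟨F, i1, i2, i3, φ, c, rX, hu, hl, ka, kb, ?_⟩
  rcases r.ct a ha b hb n with h1 | ⟨h1, h2⟩
  · left
    rw [ho] at h1
    symm
    refine Set.eq_of_subset_of_ncard_le ?_ ?_ (Set.toFinite _)
    · rintro d (rfl | ⟨t, rfl⟩)
      · exact ha
      · exact iv _ (mX _) b hb
    · rw [Set.ncard_insert_of_notMem (by rintro ⟨t, ht⟩; exact c.pt_ne h n t ht) (Set.toFinite _), h1]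
  · right
    rw [ho, hn] at h1
    refine ⟨h1, ?_⟩
    rw [c.neg h n]
    refine h2 _ c.u1 (mX _) _ c.l1 (mX _) ?_
    simpa using bd_uu φ (one_ne_zero (α := F))

namespace Hy

variable (h : Hy p S)
include h

/-- `partner`, `bd` -/
theorem trans (a b : Ω) : ∃ g : G, g • a = b := by
  by_cases n : a = b
  · exact ⟨1, by rw [one_smul, n]⟩
  obtain ⟨x, hx⟩ := h.ex a
  obtain ⟨y, hy⟩ := h.ex b
  obtain ⟨y', hy', -, d, -⟩ := h.toSys.partner n hx hy
  exact ⟨_, (h.toSys.bd hx hy' d).1⟩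

/-- `1 ≠ N ⊴ G` moves a point `a` to `b = n • a`; for `x ∈ S a` the perfect group `⟨x, n x n⁻¹⟩` has cyclic image in `G / N`, so `x ∈ N`; by `trans` all `S c ⊆ N`. -/
theorem simple : IsSimpleGroup G := by
  obtain ⟨a₀, -, -⟩ := h.two.exists_pair_ne
  obtain ⟨x₀, hx₀⟩ := h.ex a₀
  haveI : Nontrivial G := ⟨⟨x₀, 1, h.ne hx₀⟩⟩
  refine ⟨fun N hN => ?_⟩
  by_cases hb : N = ⊥
  · exact Or.inl hb
  right
  obtain ⟨⟨m, mN⟩, m1⟩ := (Subgroup.ne_bot_iff_exists_ne_one).1 hb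
  have m1' : m ≠ 1 := fun e => m1 (Subtype.ext e)
  obtain ⟨a, ha⟩ : ∃ a : Ω, m • a ≠ a := by
    by_contra hc
    push Not at hc
    exact m1' (h.faith m hc)
  have key : ∀ x ∈ S a, x ∈ N := by
    intro x hx
    obtain ⟨y, -, yL, d, e6⟩ := h.toSys.partner ha.symm hx (h.conj m hx)
    have q : QuotientGroup.mk' N (m * x * m⁻¹) = QuotientGroup.mk' N x := by
      have : QuotientGroup.mk' N m = 1 := (QuotientGroup.eq_one_iff m).2 mN
      rw [map_mul, map_mul, map_inv, this, one_mul, inv_one, mul_one]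
    have yz : QuotientGroup.mk' N y ∈ zpowers (QuotientGroup.mk' N x) := by
      have : zpowers x ⊔ zpowers (m * x * m⁻¹) ≤ (zpowers (QuotientGroup.mk' N x)).comap (QuotientGroup.mk' N) :=
        sup_le (zpowers_le.2 (mem_zpowers _)) (zpowers_le.2 (by rw [mem_comap, q]; exact mem_zpowers _))
      exact this yL
    obtain ⟨k, hk⟩ := mem_zpowers_iff.1 yz
    have cm : Commute (QuotientGroup.mk' N x) (QuotientGroup.mk' N y) := hk ▸ (Commute.refl _).zpow_right k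
    have d' := congrArg (QuotientGroup.mk' N) d
    simp only [map_mul] at d'
    rw [← cm.eq, mul_assoc, mul_assoc, mul_right_inj, ← cm.eq, cm.eq, mul_right_inj] at d'
    have e12 : QuotientGroup.mk' N x ^ 12 = 1 := by
      have := congrArg (QuotientGroup.mk' N) e6
      rw [map_pow, map_mul, ← d', map_one, ← pow_two, ← pow_mul] at this
      exact this
    have ep : QuotientGroup.mk' N x ^ p = 1 := by rw [← map_pow, h.pow hx, map_one]
    have cop : Nat.Coprime p 12 := by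
      rw [Nat.Prime.coprime_iff_not_dvd h.pr]
      intro hd
      have h5 := h.p5
      have h12 := Nat.le_of_dvd (by norm_num) hd
      have hp := h.pr
      interval_cases p <;> first | omega | (revert hp; decide)
    have := pow_gcd_eq_one.2 ⟨ep, e12⟩
    rw [cop, pow_one] at this
    exact (QuotientGroup.eq_one_iff x).1 this
  rw [eq_top_iff, ← h.gen, closure_le]
  intro z hz
  obtain ⟨c, hc⟩ := Set.mem_iUnion.1 hz
  obtain ⟨g, hg⟩ := h.trans c a
  have := hN.conj_mem _ (key _ (hg ▸ h.conj g hc)) g⁻¹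
  simpa [mul_assoc] using this

/-- `ncomm` -/
theorem nab : ¬ IsMulCommutative G := by
  intro hc
  obtain ⟨a, b, n⟩ := h.two.exists_pair_ne
  obtain ⟨x, hx⟩ := h.ex a
  obtain ⟨y, hy⟩ := h.ex b
  exact h.toSys.ncomm n hx hy (hc.is_comm.comm x y)

/-- `x ∈ S a` fixes only `a` -/
theorem dvd [Finite Ω] : p ∣ Nat.card Ω - 1 ∧ p + 1 ≤ Nat.card Ω := by
  haveI := h.two
  haveI : Fact p.Prime := ⟨h.pr⟩
  obtain ⟨a, -, -⟩ := h.two.exists_pair_ne
  obtain ⟨x, hx⟩ := h.ex a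
  have pg : IsPGroup p (zpowers x) := (h.toSys.E_pg a).to_le (zpowers_le.2 (subset_closure hx))
  have hm := pg.card_modEq_card_fixedPoints Ω
  have fx : MulAction.fixedPoints (zpowers x) Ω = {a} := by
    ext c
    rw [MulAction.mem_fixedPoints, Set.mem_singleton_iff]
    constructor
    · intro hc
      exact h.toSys.F0 hx (hc ⟨x, mem_zpowers x⟩)
    · rintro rfl ⟨g, hg⟩
      exact h.toSys.E_fix ((zpowers_le.2 (subset_closure hx) : zpowers x ≤ E S c) hg)
  rw [fx, Nat.card_coe_set_eq, Set.ncard_singleton] at hm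
  have h2 : 1 < Nat.card Ω := Finite.one_lt_card
  have hd : p ∣ Nat.card Ω - 1 := (Nat.modEq_iff_dvd' h2.le).1 hm.symm
  have := Nat.le_of_dvd (by omega) hd
  exact ⟨hd, by omega⟩

/-- the kernel of the sign of a permutation representation of a non-abelian simple group -/
theorem even {α : Type*} [Fintype α] [DecidableEq α] (f : G →* Equiv.Perm α) (g : G) : Equiv.Perm.sign (f g) = 1 := by
  have : (⊤ : Subgroup G) ≤ (Equiv.Perm.sign.comp f).ker := by
    rw [← h.gen, closure_le]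
    intro z hz
    obtain ⟨c, hc⟩ := Set.mem_iUnion.1 hz
    have e : Equiv.Perm.sign (f z) ^ p = 1 := by rw [← map_pow, ← map_pow, h.pow hc, map_one, map_one]
    have od : Odd p := h.pr.odd_of_ne_two (by have := h.p5; omega)
    rcases Int.units_eq_one_or (Equiv.Perm.sign (f z)) with h1 | h1
    · exact h1
    · rw [h1, od.neg_one_pow] at e
      exact absurd e (by decide)
  exact this (mem_top g)

end Hy

end CL.Cq
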