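/- S3235, disconnected case: type `PSL₂`, a four-group in the two-point stabiliser. -/
import Mathlib
import Cfsg.Agent.CHEV.Cq.Cl

set_option autoImplicit false

namespace CL.Cq

open Subgroup CL.PT CL.PT.L2x

variable {p : ℕ} {G Ω : Type*} [Group G] [MulAction G Ω] [Finite G] [Finite Ω] {S : Ω → Set G} {D : Ω → Ω → ℤ → G} {a b : Ω}

namespace F2

omit [Finite G] in
theorem nm_Cm {O : Subgroup G} {d g : G} (hg : Nm g O) (c : Commute d g) : Nm g (Cm O d) := fun y hy => by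
  induction hy using closure_induction with
  | mem y hy =>
    obtain ⟨x, hx, rfl⟩ := hy
    refine subset_closure ⟨_, hg x hx, ?_⟩
    calc g * (x * d * x⁻¹ * d⁻¹) * g⁻¹ = g * x * g⁻¹ * (g * d * g⁻¹) * (g * x * g⁻¹)⁻¹ * (g * d * g⁻¹)⁻¹ := by group
      _ = _ := by rw [← c.eq, mul_inv_cancel_right]
  | one => simp
  | mul y z _ _ h1 h2 => rw [← conj_mul]; exact mul_mem h1 h2
  | inv y _ h1 => rw [← conj_inv]; exact inv_mem h1

omit [Finite G] in
theorem mem_of_cop {H : Subgroup G} {e : G} {m k : ℤ} (c : IsCoprime m k) (h1 : e ^ m ∈ H) (h2 : e ^ k ∈ H) : e ∈ H := by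
  obtain ⟨u, v, e1⟩ := c
  rw [← zpow_one e, ← e1, zpow_add, mul_comm u, mul_comm v, zpow_mul, zpow_mul]
  exact mul_mem (zpow_mem h1 u) (zpow_mem h2 v)

omit [Finite G] in
theorem mem_of_sq {H N : Subgroup G} (odd : Odd (Nat.card N)) {e : G} (he : e ∈ N) (h : e * e ∈ H) : e ∈ H := by
  obtain ⟨j, hj⟩ := odd
  have : e ^ Nat.card N = 1 := congrArg Subtype.val (pow_card_eq_one' (x := (⟨e, he⟩ : N)))
  rw [hj, pow_succ, pow_mul, sq, mul_eq_one_iff_inv_eq] at this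
  exact this ▸ inv_mem (pow_mem h j)

omit [Finite G] in
/-- an involution acting on a group of odd order -/
theorem dec {N : Subgroup G} (odd : Odd (Nat.card N)) {t x : G} (tt : t * t = 1) (tN : Nm t N) (hx : x ∈ N) :
    ∃ u ∈ zpowers (x * (t * x⁻¹ * t⁻¹)), Commute t (u⁻¹ * x) := by
  have ti : t⁻¹ = t := inv_eq_of_mul_eq_one_right tt
  have m := mul_mem hx (tN _ (inv_mem hx))
  have e1 : t * x * t⁻¹ = (x * (t * x⁻¹ * t⁻¹))⁻¹ * x := by group
  have e2 : t * (x * (t * x⁻¹ * t⁻¹)) * t⁻¹ = (x * (t * x⁻¹ * t⁻¹))⁻¹ := by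
    calc _ = t * x * t * x⁻¹ * (t * t)⁻¹ := by group
      _ = t * x * t⁻¹ * x⁻¹ := by rw [tt, ti, inv_one, mul_one]
      _ = _ := by group
  generalize x * (t * x⁻¹ * t⁻¹) = c at m e1 e2
  obtain ⟨j, hj⟩ := odd
  have o : c ^ Nat.card N = 1 := congrArg Subtype.val (pow_card_eq_one' (x := (⟨c, m⟩ : N)))
  refine ⟨c ^ (j + 1), pow_mem (mem_zpowers c) _, mul_inv_eq_iff_eq_mul.1 ?_⟩
  rw [← conj_mul, ← conj_inv, ← conj_pow, e2, e1, inv_pow, inv_inv, ← mul_assoc, mul_left_inj, pow_succ c j,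
    mul_inv_cancel_right, eq_inv_iff_mul_eq_one, ← pow_succ, ← pow_add, ← o, hj]
  congr 1
  ring

end F2

/-- `t = D a b i`, `n` even (`v4'`).  `Ctr` (conjugate `d` by `G_a`, `Sc_conj`): `C a` is transitive, `|C : W| = n - 1` odd.  `O = C a` if `|W|` is odd, else `oddtr`.  `N = Cm O d`, `comm_trs`, `comm_gen`; `σ` normalises `O`, commutes with `d`, so normalises `N`; `E ≤ N`.  `zl` for `N`, `W ⊓ N`, `E a`, `d`, `σ`; `fin`.
`Cσ`: `fix_plus` (`Fx σ ⊆ Ln a b`, `b ∈ Fx σ`), `C_Ln`.  `H`: `le_of_cen`, `cenC`, `s`-elements of `E W` are in `W`.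
`hd`: `d² = t` centralises `N / O₁`, so `N = O₁ C_N(t)` (odd order: `x = ([x,t]) ^ j c`).  Claim `C_N(t) ≤ W`; then `d` centralises and inverts `N / O₁`.  An element `e w` of `E W` commuting with `t` has `e = 1` (`t` inverts `e`, centralises `w`).  `P` (all `p`-elements) is normalised by `N` and `t`; `1 ≠ y ∈ W ∩ P` lies in `P₀ = C_P(t)`; `Z(P₀) ≠ 1` centralises `y`, so `Z(P₀) ≤ E W`, so `≤ W`.  For `g ∈ C_N(t)`, `1 ≠ ζ ∈ Z(P₀)`: `g ζ g⁻¹ ∈ Z(P₀) ≤ W` fixes exactly `Ln a b` and `g Ln a b`, so `g b ∈ Ln a b`, `g ∈ E W`, `g ∈ W`. -/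
theorem Hz.f2 (h : Hz p S D) {i : ℤ} (hi : i * i ≡ -1 [ZMOD p]) (al : ∀ a b : Ω, a ≠ b → D a b (-1) = 1) (t2 : Tr2 G Ω)
    (n : a ≠ b) {σ x d : G} (iσ : Iv σ) (σb : σ • b = b) (hx : x ∈ S a) (σx : Commute σ x) {k : ℤ} (hk : k * k ≡ -1 [ZMOD p])
    (sc : Sc S a d k) (db : d • b = b) (d2 : d * d = D a b i) (dσ : Commute d σ) (dW : ∀ w ∈ W S a b, Commute d w) :
    End G Ω := by
  have hp := h.pr
  have := Fact.mk hp
  have pp : Prime (p : ℤ) := Nat.prime_iff_prime_int.1 hp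
  have p5 : (5 : ℤ) ≤ p := by exact_mod_cast h.p5
  have nd : ∀ {j : ℤ}, j * j ≡ -1 [ZMOD p] → ¬ (p : ℤ) ∣ j := fun {j} e c => by
    have := Int.le_of_dvd one_pos (show (p : ℤ) ∣ 1 by simpa using (dvd_add e.symm.dvd (c.mul_left (-j))).trans (dvd_of_eq (by ring)))
    omega
  have k2 : ¬ k * k ≡ 1 [ZMOD p] := fun e => by
    have := Int.le_of_dvd two_pos (show (p : ℤ) ∣ 2 by simpa using (hk.symm.trans e).dvd)
    omega
  have z1 := al a b n
  have σa : σ • a = a := (h.toSys.pt_eq hx (by simpa [σx.eq] using h.conj σ hx)).symm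
  have da := h.Sc_fix (nd hk) sc
  obtain ⟨y₀, hy₀⟩ := h.ex b
  obtain ⟨y, hy, -, bd, -⟩ := h.toSys.partner n hx hy₀
  obtain ⟨it, -, -, ts, ev, -⟩ := h.v4' n z1 hi hx hy bd
  have tb := h.Db i n
  rw [← d2] at it ts tb
  have ct : Trs (C S a) a := h.Ctr (nd hk) k2 fun c hc => by
    obtain ⟨g, ga, rfl⟩ := t2 n (Ne.symm hc)
    exact ⟨g * d * g⁻¹, by simpa only [ga] using h.Sc_conj g sc, by rw [mul_smul, mul_smul, inv_smul_smul, db]⟩
  have nC : ∀ g : G, g • a = a → Nm g (C S a) := fun g ga u hu => by simpa only [ga] using h.C_conj g hu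
  have nE : ∀ g : G, g • a = a → Nm g (E S a) := fun g ga u hu => by simpa only [ga] using h.toSys.E_conj g hu
  have key : End G Ω ∨ ∃ O : Subgroup G, O ≤ C S a ∧ Odd (Nat.card O) ∧ E S a ≤ O ∧ (∀ g : G, g • a = a → Nm g O) ∧
      Trs O a := by
    by_cases o : Odd (Nat.card (C S a))
    · exact .inr ⟨_, le_rfl, o, h.E_le_C a, nC, ct⟩
    obtain ⟨⟨u, hu⟩, ou⟩ := exists_prime_orderOf_dvd_card' 2 (Nat.not_odd_iff_even.1 o).two_dvd
    rw [← Subgroup.orderOf_coe] at ou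
    have uu : u * u = 1 := by rw [← sq, ← ou, pow_orderOf_eq_one]
    have u1 : u ≠ 1 := fun e => by simp [e] at ou
    have fm := fix_mod (G := G) Nat.prime_two (R := zpowers u) (IsPGroup.of_card (n := 1) (by rw [Nat.card_zpowers, ou, pow_one]))
      {a}ᶜ fun g hg c hc e => hc (by
        rw [← h.C_fix (zpowers_le.2 hu hg)] at e
        exact MulAction.injective g e)
    obtain ⟨c, ca, hc⟩ : {c ∈ ({a}ᶜ : Set Ω) | ∀ g ∈ zpowers u, g • c = c}.Nonempty := by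
      rw [← Set.ncard_pos, Nat.pos_iff_ne_zero]
      intro e
      have := Set.ncard_add_ncard_compl ({a} : Set Ω)
      rw [e, Nat.ModEq] at fm
      rw [Set.ncard_singleton] at this
      obtain ⟨m, hm⟩ := ev
      omega
    obtain ⟨g, hg, gc⟩ := ct ca n.symm
    exact h.oddtr n z1 ct (u := g * u * g⁻¹) ⟨by rw [conj_mul, uu, mul_one, mul_inv_cancel], fun e => u1 (conj_eq_one_iff.1 e)⟩
      (mem_W.2 ⟨mul_mem (mul_mem hg hu) (inv_mem hg), by
        rw [← gc, mul_smul, mul_smul, inv_smul_smul, hc u (mem_zpowers u)]⟩)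
      (nd hk) k2 sc db
  obtain e | ⟨O, OC, odd, EO, nO, tO⟩ := key
  · exact e
  have tN : Trs (Cm O d) a := h.comm_trs (nd hk) k2 OC tO (nO d da) sc n db
  obtain ⟨NO, nN, dN, gen⟩ := h.comm_gen OC tN tO (nO d da) n dW
  have σN := F2.nm_Cm (nO σ σa) dσ
  have EN : E S a ≤ Cm O d := fun e he => by
    refine F2.mem_of_cop (m := p) (k := 1 - k) (pp.coprime_iff_not_dvd.2 fun c => k2 (Int.modEq_iff_dvd.2
      ((c.mul_left (1 + k)).trans (dvd_of_eq (by ring))))) (by rw [zpow_natCast, h.toSys.E_pow he]; exact one_mem _)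
      (subset_closure ⟨e, EO he, ?_⟩)
    rw [zpow_sub, zpow_one, ← sc e he]
    group
  refine h.fin OC nO NO nN ?_ tN
  have oN : Odd (Nat.card (Cm O d)) := odd.of_dvd_nat (card_dvd_of_le NO)
  have NC := NO.trans OC
  replace nN : ∀ g ∈ Cm O d, Nm g (Cm O d) := fun g hg => nN g (NO hg)
  generalize Cm O d = N at *
  refine zl (W := W S a b ⊓ N) (E := E S a) hp oN inf_le_right EN (h.toSys.E_pg a) (fun e he g hg => NC hg e he) dN σN
    (nE d da) (nE σ σa) dσ iσ.1 (fun w hw => dW w hw.1) (fun g hg c => ?_) gen (fun s R hs sp RN hR _ ne => ?_)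
    fun P O₁ PN hP all ⟨w, hw, wP, w1⟩ _ n1 _ _ inv _ g hg => ?_
  · obtain ⟨e, he, w, hw, rfl⟩ := h.C_Ln n (NC hg) ((h.fix_plus n z1 iσ.2 σb hx σx ts tb).1
      (show σ • g • b = g • b by rw [← mul_smul, c.eq, mul_smul, σb]))
    exact ⟨e, he, w, ⟨hw, (mul_mem_cancel_left (EN he)).1 hg⟩, rfl⟩
  · refine le_of_cen hs hR ne fun c _ cW c1 g hg cm => ⟨?_, RN hg⟩
    obtain ⟨e, he, w, hw, rfl, -⟩ := h.cenC n z1 cW.1 c1 (NC (RN hg)) cm
    obtain ⟨j, hj⟩ := hR ⟨_, hg⟩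
    have hj' : (e * w) ^ s ^ j = 1 := congrArg Subtype.val hj
    rw [(show Commute e w from hw.1 e he).mul_pow, mul_eq_one_iff_eq_inv] at hj'
    refine mul_mem (F2.mem_of_cop (m := p) (k := (s ^ j : ℕ)) (Nat.isCoprime_iff_coprime.2 (Nat.Coprime.pow_right j
      ((Nat.coprime_primes hp hs).2 (Ne.symm sp)))) ?_ ?_) hw
    · rw [zpow_natCast, h.toSys.E_pow he]; exact one_mem _
    · rw [zpow_natCast, hj']; exact inv_mem (pow_mem hw _)
  have tN : Nm (d * d) N := fun u hu => by simpa only [mul_assoc, mul_inv_rev] using dN _ (dN u hu)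
  have tW : ∀ w ∈ W S a b, Commute (d * d) w := fun w hw => (dW w hw).mul_left (dW w hw)
  have ew : ∀ e ∈ E S a, ∀ w ∈ W S a b, Commute (d * d) (e * w) → e * w ∈ W S a b := fun e he w hw c => by
    have c' : Commute (d * d) e := by simpa using c.mul_right (tW w hw).inv_right
    have e1 := ts e he
    rw [c'.eq, mul_inv_cancel_right, zpow_neg_one, eq_inv_iff_mul_eq_one] at e1
    exact mul_mem (F2.mem_of_sq oN (EN he) (e1 ▸ one_mem _)) hw
  have cP : ∀ u ∈ N, ∀ z ∈ P, u * z * u⁻¹ ∈ P := fun u hu z hz => all _ (nN u hu z (PN hz)) (by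
    obtain ⟨j, hj⟩ := hP ⟨z, hz⟩
    exact ⟨j, by rw [conj_pow, show z ^ p ^ j = 1 from congrArg Subtype.val hj, mul_one, mul_inv_cancel]⟩)
  have mc : ∀ {z : G}, z ∈ centralizer ({d * d} : Set G) ↔ Commute (d * d) z := fun {z} =>
    mem_centralizer_singleton_iff.trans eq_comm
  have nt : Nontrivial (P ⊓ centralizer {d * d} : Subgroup G) :=
    ⟨⟨⟨w, wP, mc.2 (tW w hw.1)⟩, 1, fun e => w1 (congrArg Subtype.val e)⟩⟩
  have := (hP.to_inf_left (K := centralizer {d * d})).center_nontrivial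
  obtain ⟨⟨⟨ζ, ζP, ζt⟩, hζ⟩, ζ1⟩ := exists_ne (1 : center (P ⊓ centralizer {d * d} : Subgroup G))
  have ζ1' : ζ ≠ 1 := fun e => ζ1 (Subtype.ext (Subtype.ext e))
  have cjW : ∀ u ∈ N, Commute (d * d) u → u * ζ * u⁻¹ ∈ W S a b := fun u hu c => by
    have c1 : u⁻¹ * w * u⁻¹⁻¹ * ζ = ζ * (u⁻¹ * w * u⁻¹⁻¹) := congrArg Subtype.val (mem_center_iff.1 hζ
      ⟨_, cP _ (inv_mem hu) w wP, mc.2 ((c.inv_right.mul_right (tW w hw.1)).mul_right c.inv_right.inv_right)⟩)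
    obtain ⟨e, he, w', hw', e1, -⟩ := h.cenC n z1 hw.1 w1 (NC (PN (cP u hu ζ ζP))) (by
      calc w * (u * ζ * u⁻¹) = u * (u⁻¹ * w * u⁻¹⁻¹ * ζ) * u⁻¹ := by group
        _ = _ := by rw [c1]; group)
    exact e1 ▸ ew e he w' hw' (e1 ▸ (c.mul_right (mc.1 ζt)).mul_right c.inv_right)
  have CW : ∀ u ∈ N, Commute (d * d) u → u ∈ W S a b := fun u hu c => by
    have ζb : ζ • b = b := by simpa using (cjW 1 (one_mem _) (Commute.one_right _)).2
    obtain ⟨e, he, w', hw', e1⟩ := h.C_Ln n (NC hu) ((h.fixW n z1 (cjW u hu c) fun e => ζ1' (conj_eq_one_iff.1 e)).le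
      (show (u * ζ * u⁻¹) • u • b = u • b by rw [mul_smul, mul_smul, inv_smul_smul, ζb]))
    exact e1 ▸ ew e he w' hw' (e1 ▸ c)
  obtain ⟨u, hu, c⟩ := F2.dec oN it.1 tN hg
  have m0 : g * (d * d * g⁻¹ * (d * d)⁻¹) ∈ O₁ := by
    have y1 := dN _ (inv_mem hg)
    have := mul_mem (n1 _ y1 _ (inv_mem (inv _ (inv_mem hg)))) (inv _ y1)
    convert this using 1
    group
  have uO := zpowers_le.2 m0 hu
  have uN := zpowers_le.2 (mul_mem hg (tN _ (inv_mem hg))) hu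
  have cN := mul_mem (inv_mem uN) hg
  have := inv _ cN
  rw [(dW _ (CW _ cN c)).eq, mul_inv_cancel_right] at this
  exact (mul_mem_cancel_left (inv_mem uO)).1 (F2.mem_of_sq oN cN this)

end CL.Cq
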