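/- S3235, disconnected case: the induction. -/
import Mathlib
import Cfsg.Agent.CHEV.Cq.Bas

set_option autoImplicit false

namespace CL.Cq

open Subgroup CL.PT CL.PT.L2x

universe u

variable {p : ℕ}

/-- `PSL₂(K)` is simple for `|K| ≥ 4` (library); a proper normal subgroup of `SL₂(K)` is central (`SL₂` perfect), so the kernel of `SL₂(K) → X → Y` is `1` or the centre. -/
theorem isL2_quot (hp : p.Prime) (p5 : 5 ≤ p) {X Y : Type*} [Group X] [Group Y] [Nontrivial Y] (h : IsL2 p X) (f : X →* Y)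
    (hf : Function.Surjective f) : IsL2 p Y := by
  have hX := IsL2.perfect hp p5 h
  obtain ⟨K, _, _, m, m1, hc, h⟩ := h
  have hK : 4 ≤ Nat.card K := by
    rw [Nat.card_eq_fintype_card, hc]
    exact le_trans (by omega) (Nat.le_self_pow (by omega) p)
  have hs := Matrix.ProjectiveSpecialLinearGroup.rank_two_simple hK
  have nt : f.ker ≠ ⊤ := fun e => by
    obtain ⟨y, hy⟩ := exists_ne (1 : Y)
    obtain ⟨x, rfl⟩ := hf y
    exact hy (MonoidHom.mem_ker.1 (e ▸ mem_top x))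
  have iso : f.ker = ⊥ → Nonempty (Y ≃* X) := fun e =>
    ⟨(MulEquiv.ofBijective f ⟨(MonoidHom.ker_eq_bot_iff f).1 e, hf⟩).symm⟩
  refine ⟨K, inferInstance, inferInstance, m, m1, hc, ?_⟩
  rcases h with ⟨⟨e⟩⟩ | ⟨⟨e⟩⟩
  · have := e.isSimpleGroup
    obtain ⟨i⟩ := iso ((MonoidHom.normal_ker f).eq_bot_or_eq_top.resolve_right nt)
    exact Or.inl ⟨i.trans e⟩
  by_cases hb : f.ker = ⊥
  · obtain ⟨i⟩ := iso hb
    exact Or.inr ⟨i.trans e⟩
  set g : Matrix.SpecialLinearGroup (Fin 2) K →* Y := f.comp e.symm.toMonoidHom with hg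
  have gs : Function.Surjective g := hf.comp e.symm.surjective
  set Z := center (Matrix.SpecialLinearGroup (Fin 2) K) with hZ
  have pm : ∀ z ∈ Z, z = 1 ∨ z = -1 := fun z hz => by
    obtain ⟨r, r2, hr⟩ := Matrix.SpecialLinearGroup.mem_center_iff.1 hz
    rw [Fintype.card_fin, sq, mul_self_eq_one_iff] at r2
    rcases r2 with rfl | rfl
    · exact Or.inl (Subtype.ext (by rw [← hr]; simp))
    · exact Or.inr (Subtype.ext (by rw [← hr, map_neg, map_one]; simp))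
  rcases hs.eq_bot_or_eq_top_of_normal (g.ker.map (QuotientGroup.mk' Z))
    ((MonoidHom.normal_ker g).map _ (QuotientGroup.mk'_surjective _)) with k | k
  · rw [Subgroup.map_eq_bot_iff, QuotientGroup.ker_mk'] at k
    obtain ⟨⟨x, hx⟩, x1⟩ := ne_bot_iff_exists_ne_one.1 hb
    have h1 : e x ∈ g.ker := by simpa [hg] using hx
    have h2 : e x = -1 := (pm _ (k h1)).resolve_left fun q =>
      x1 (Subtype.ext (e.injective (q.trans (map_one e).symm)))
    have h3 : g.ker = Z := le_antisymm k fun z hz => by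
      rcases pm z hz with rfl | rfl
      · exact one_mem _
      · exact h2 ▸ h1
    exact Or.inl ⟨(QuotientGroup.quotientKerEquivOfSurjective g gs).symm.trans
      (QuotientGroup.quotientMulEquivOfEq h3)⟩
  · refine absurd (eq_top_iff.2 (hX.ge.trans (commutator_le.2 fun x _ y _ => ?_))) nt
    obtain ⟨n, hn, q⟩ : QuotientGroup.mk' Z (e x) ∈ g.ker.map (QuotientGroup.mk' Z) := k ▸ mem_top _
    have h1 : n⁻¹ * e x ∈ Z := QuotientGroup.eq.1 q
    have h2 := congrArg g (mem_center_iff.1 h1 (e y))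
    have h3 : ∀ x, g (e x) = f x := fun x => by simp [hg]
    simp only [map_mul, map_inv, MonoidHom.mem_ker.1 hn, inv_one, one_mul, h3] at h2
    rw [MonoidHom.mem_ker, map_commutatorElement, commutatorElement_eq_one_iff_mul_comm]
    exact h2.symm

namespace Ind

set_option linter.unusedSectionVars false

variable {G Ω G' : Type*} [Group G] [MulAction G Ω] [Group G'] {Y : Subgroup G} {Φ : Set Ω}
  [MulAction G' Φ] (S : Ω → Set G) (ρ : Y →* G')

/-- the image of the system -/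
def im (c : Φ) : Set G' := ρ '' {y : Y | (y : G) ∈ S c}

/-- the root group inside `Y` -/
def E0 (Y : Subgroup G) (c : Ω) : Subgroup Y := closure {y : Y | (y : G) ∈ S c}

theorem E1 (c : Ω) : (E0 S Y c).map Y.subtype = Ep S Y c := by
  rw [E0, MonoidHom.map_closure, Ep]
  congr 1
  ext x
  exact ⟨fun ⟨y, h, e⟩ => e ▸ ⟨h, y.2⟩, fun h => ⟨⟨x, h.2⟩, h.1, rfl⟩⟩

theorem E2 (c : Φ) : (E0 S Y c).map ρ = Ep (im S ρ) ⊤ c := by
  rw [E0, MonoidHom.map_closure, Ep_top]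
  rfl

theorem zz {A B : Type*} [Group A] [Group B] (f : A →* B) (x y : A) :
    (zpowers x ⊔ zpowers y).map f = zpowers (f x) ⊔ zpowers (f y) := by
  rw [Subgroup.map_sup, MonoidHom.map_zpowers, MonoidHom.map_zpowers]

variable {S ρ} (hc : ∀ (y : Y) (c : Φ), ((ρ y • c : Φ) : Ω) = (y : G) • (c : Ω))
include hc

theorem sys [Finite G] [Nontrivial Φ] (h : Sys p S) (hs : Function.Surjective ρ)
    (ex : ∀ c ∈ Φ, ∃ x ∈ S c, x ∈ Y) : Sys p (im S ρ : Φ → Set G') := by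
  have ne : ∀ {a : Φ} {y : Y}, (y : G) ∈ S a → ρ y ≠ 1 := fun {a y} hy e => by
    obtain ⟨c, n⟩ := exists_ne a
    exact n (Subtype.ext (h.F0 hy (by rw [← hc, e, one_smul])))
  refine ⟨h.pr, h.p5, ?_, ?_, fun a => ?_, fun g => ?_, ?_, ?_, ?_, ?_⟩
  · rintro a _ ⟨y, hy, rfl⟩
    rw [← map_pow, show y ^ p = 1 from Subtype.ext (h.pow hy), map_one]
  · rintro a _ ⟨y, hy, rfl⟩
    exact ne hy
  · obtain ⟨x, hx, xY⟩ := ex a a.2
    exact ⟨_, ⟨x, xY⟩, hx, rfl⟩
  · rintro a _ ⟨y, hy, rfl⟩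
    obtain ⟨z, rfl⟩ := hs g
    exact ⟨z * y * z⁻¹, by rw [hc]; exact h.conj z hy, by simp⟩
  · rintro a _ k ⟨y, hy, rfl⟩ n
    refine ⟨y ^ k, h.zpow hy fun e => n ?_, map_zpow _ _ _⟩
    rw [← map_zpow, show y ^ k = 1 from Subtype.ext e, map_one]
  · rintro a _ _ ⟨x, hx, rfl⟩ ⟨y, hy, rfl⟩
    exact Commute.map (show Commute x y from Subtype.ext (h.comm hx hy)) ρ
  · rintro a _ ⟨y, hy, rfl⟩
    exact Subtype.ext ((hc y a).trans (h.fix hy))
  · rintro a b _ _ n ⟨x, hx, rfl⟩ ⟨y, hy, rfl⟩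
    have l := h.l2 (fun e => n (Subtype.ext e)) hx hy
    rw [← coe_subtype, ← zz] at l
    rw [← zz]
    have : Nontrivial ((zpowers x ⊔ zpowers y).map ρ) := (nontrivial_iff_ne_bot _).2 fun e =>
      ne hx (mem_bot.1 (e ▸ mem_map_of_mem ρ (mem_sup_left (mem_zpowers x))))
    exact isL2_quot h.pr h.p5 l ((ρ.subgroupMap _).comp
      (equivMapOfInjective _ _ Y.subtype_injective).symm.toMonoidHom)
      ((ρ.subgroupMap_surjective _).comp (MulEquiv.surjective _))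

theorem pull {X : Subgroup G} (YX : Y ≤ X) (XY : ∀ c ∈ Φ, ∀ x ∈ S c, x ∈ X → x ∈ Y)
    (r : RCon (im S ρ : Φ → Set G') ⊤ Set.univ) : RCon S X Φ := by
  have eE : ∀ a ∈ Φ, Ep S X a = (E0 S Y a).map Y.subtype := fun a ha => by
    rw [E1, Ep, Ep]
    congr 1
    exact Set.ext fun x => ⟨fun q => ⟨q.1, XY a ha x q.1 q.2⟩, fun q => ⟨q.1, YX q.2⟩⟩
  have nn : ∀ {a b} (ha : a ∈ Φ) (hb : b ∈ Φ), a ≠ b → (⟨a, ha⟩ : Φ) ≠ ⟨b, hb⟩ :=
    fun _ _ n e => n (congrArg Subtype.val e)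
  refine ⟨fun a ha b hb n e he q c hc' => ?_, fun a ha b hb n => ?_, fun a ha b hb n => ?_⟩
  · obtain ⟨y, hy, rfl⟩ := eE a ha ▸ he
    exact (hc y ⟨c, hc'⟩).symm.trans (congrArg Subtype.val (r.sr _ trivial _ trivial (nn ha hb n) (ρ y)
      (E2 S ρ ⟨a, ha⟩ ▸ mem_map_of_mem ρ hy) (Subtype.ext ((hc y _).trans q)) _ trivial))
  · obtain ⟨_, ⟨x, hx, rfl⟩, -, _, ⟨y, hy, rfl⟩, -, k⟩ := r.g2 _ trivial _ trivial (nn ha hb n)
    refine ⟨x, hx, YX x.2, y, hy, YX y.2, fun e he => ?_⟩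
    obtain ⟨z, hz, rfl⟩ := eE a ha ▸ he
    obtain ⟨g, hg, q⟩ := k (ρ z) (E2 S ρ ⟨a, ha⟩ ▸ mem_map_of_mem ρ hz)
    obtain ⟨w, hw, rfl⟩ := (zz ρ x y).ge hg
    exact ⟨w, (zz Y.subtype x y).le (mem_map_of_mem _ hw), fun c hc' => (hc z ⟨c, hc'⟩).symm.trans
      ((congrArg Subtype.val (q _ trivial)).trans (hc w _))⟩
  · have e1 : Φ.ncard = (Set.univ : Set Φ).ncard := by rw [Set.ncard_univ, Nat.card_coe_set_eq]
    have e2 : (orb (Ep S X a) b).ncard = (orb (Ep (im S ρ) ⊤ (⟨a, ha⟩ : Φ)) (⟨b, hb⟩ : Φ)).ncard := by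
      rw [← Set.ncard_image_of_injective _ Subtype.val_injective, eE a ha, ← E2]
      congr 1
      ext c
      constructor
      · rintro ⟨_, ⟨y, hy, rfl⟩, rfl⟩
        exact ⟨_, ⟨_, mem_map_of_mem ρ hy, rfl⟩, hc y _⟩
      · rintro ⟨_, ⟨_, ⟨y, hy, rfl⟩, rfl⟩, rfl⟩
        exact ⟨_, mem_map_of_mem _ hy, (hc y ⟨b, hb⟩).symm⟩
    rw [e1, e2]
    refine (r.ct _ trivial _ trivial (nn ha hb n)).imp_right fun k => ⟨k.1, fun x hx xX y hy yX d => ?_⟩
    obtain ⟨c, -, q⟩ := k.2 _ ⟨⟨x, XY a ha x hx xX⟩, hx, rfl⟩ trivial _ ⟨⟨y, XY b hb y hy yX⟩, hy, rfl⟩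
      trivial (by
        unfold Bd
        rw [← map_mul, ← map_mul, ← map_mul, ← map_mul]
        exact congrArg ρ (Subtype.ext d))
    refine ⟨c, c.2, fun e => q (Subtype.ext ?_)⟩
    rw [← map_mul, ← map_pow, hc]
    exact e

end Ind

/-- Strong induction on `Nat.card Ω`.  For `ih`: given `X`, `Φ` (if `Φ` has no two points `RCon` is vacuous), let `π : X →* Equiv.Perm Φ`, `S' c = π '' (S c ∩ X)`, `G' = closure (⋃ c, S' c)` as a type acting on `↥Φ` (`Subgroup` of `Equiv.Perm ↥Φ`, universe `u`).  `Sys` holds (`ne` by `F0`; `conj`: elements of `G'` are images of elements of `X`; `l2` by `isL2_quot`), faithful, generated.  Pull `RCon S' ⊤ univ` back: `Ep S X a` maps onto `E S' a` (closure induction), orbits correspond, `zpowers x ⊔ zpowers y` maps onto the same for the images, `Bd` maps to `Bd`. -/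
theorem done_all (step : ∀ {G Ω : Type u} [Group G] [MulAction G Ω] [Finite G] [Finite Ω] {S : Ω → Set G}, Hy p S → Done p S)
    {G Ω : Type u} [Group G] [MulAction G Ω] [Finite G] [Finite Ω] {S : Ω → Set G} (h : Sys p S)
    (faith : ∀ g : G, (∀ c : Ω, g • c = c) → g = 1) (gen : closure (⋃ a, S a) = ⊤) (two : Nontrivial Ω) : Done p S := by
  induction hn : Nat.card Ω using Nat.strong_induction_on generalizing G Ω with
  | _ n ih =>
  refine step ⟨h, faith, gen, two, fun X Φ ne iv ex => ?_⟩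
  rcases subsingleton_or_nontrivial Φ with t | t
  · have k : ∀ a ∈ Φ, ∀ b ∈ Φ, ¬ a ≠ b := fun a ha b hb n =>
      n (congrArg Subtype.val (Subsingleton.elim (⟨a, ha⟩ : Φ) ⟨b, hb⟩))
    exact ⟨fun a ha b hb n => (k a ha b hb n).elim, fun a ha b hb n => (k a ha b hb n).elim,
      fun a ha b hb n => (k a ha b hb n).elim⟩
  let T : Set G := ⋃ c : Φ, S c ∩ X
  have YX : closure T ≤ X := (closure_le X).2 (Set.iUnion_subset fun c => Set.inter_subset_right)
  have XY : ∀ c ∈ Φ, ∀ x ∈ S c, x ∈ X → x ∈ closure T := fun c hc x hx xX =>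
    subset_closure (Set.mem_iUnion.2 ⟨⟨c, hc⟩, hx, xX⟩)
  let _ : MulAction (closure T) Φ :=
    { smul := fun g c => ⟨(g : G) • (c : Ω), iv g (YX g.2) c c.2⟩
      one_smul := fun c => Subtype.ext (one_smul G (c : Ω))
      mul_smul := fun g k c => Subtype.ext (mul_smul (g : G) (k : G) (c : Ω)) }
  let π := MulAction.toPermHom (closure T) Φ
  have hs := π.rangeRestrict_surjective
  have hc : ∀ (y : closure T) (c : Φ), ((π.rangeRestrict y • c : Φ) : Ω) = (y : G) • (c : Ω) :=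
    fun _ _ => rfl
  refine Ind.pull hc YX XY (ih _ (hn ▸ Set.ncard_lt_card ne) (Ind.sys hc h hs fun c hc' => ?_)
    (fun g q => Subtype.ext (Equiv.ext q)) ?_ t rfl).1
  · obtain ⟨x, hx, xX⟩ := ex c hc'
    exact ⟨x, hx, XY c hc' x hx xX⟩
  · rw [eq_top_iff, ← map_top_of_surjective _ hs, ← closure_preimage_eq_top, MonoidHom.map_closure]
    refine closure_mono ?_
    rintro _ ⟨y, hy, rfl⟩
    obtain ⟨c, q⟩ := Set.mem_iUnion.1 hy
    exact Set.mem_iUnion.2 ⟨c, y, q.1, rfl⟩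

/-- `Sys p h.S` from the fields of `Br` (`perp x z ↔ z = x`).  If `P` has one point `x`, `G = E x` is abelian and non-trivial, against `sol`. -/
theorem clq (step : ∀ {G Ω : Type u} [Group G] [MulAction G Ω] [Finite G] [Finite Ω] {S : Ω → Set G}, Hy p S → Done p S)
    {G P : Type u} [Group G] [MulAction G P] [Finite G] [Finite P] (h : Br p G P) (cl : ∀ x z, h.perp x z → z = x) :
    Concl p G := by
  refine (done_all step (S := h.S) ⟨h.pr, h.p5, fun q => h.Epow (h.S_E q), h.S_ne, h.S_ex, h.S_conj, h.S_zpow,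
    fun q r => h.Ecomm (h.refl _) (h.S_E q) (h.S_E r), fun q => h.Efix (h.refl _) (h.S_E q),
    fun n q r => h.l2 (fun o => n (cl _ _ o).symm) q r⟩ h.faith ?_ ?_).2
  · rw [Subgroup.closure_iUnion, ← h.gen]
    exact iSup_congr fun x => (h.S_gen x).symm
  · by_contra t
    rw [not_nontrivial_iff_subsingleton] at t
    obtain ⟨x⟩ := h.ne
    obtain ⟨a, -, n⟩ := h.Ene x
    exact n (h.faith a fun _ => Subsingleton.elim _ _)

end CL.Cq
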