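/- S3235, disconnected case: two lemmas on finite fields. -/
import Mathlib
import Cfsg.Agent.CHEV.PT.L2
import Cfsg.Agent.PLOC.Dickson

set_option autoImplicit false

namespace CL.Cq

open Subgroup CL.PT CL.PT.L2x

variable {p : ℕ} {F : Type} [Field F] [Fintype F] [CharP F p]

namespace Jac

open Finset

/-- the correlation of the quadratic character -/
theorem corr {K : Type} [Field K] [Fintype K] [DecidableEq K] (h2 : ringChar K ≠ 2) (a b : K) :
    ∑ x : K, quadraticChar K (x + a) * quadraticChar K (x + b) = (if a = b then (Fintype.card K : ℤ) else 0) - 1 := by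
  have sh : ∑ x : K, quadraticChar K (x + a) * quadraticChar K (x + b) =
      ∑ x : K, quadraticChar K x * quadraticChar K (x + (b - a)) :=
    Fintype.sum_equiv (Equiv.addRight a) _ _ fun x => by
      simp only [Equiv.coe_addRight]; congr 2; ring
  have e : ∀ x : K, quadraticChar K x * quadraticChar K (x + (b - a)) =
      quadraticChar K (1 + (b - a) * x⁻¹) - if x = 0 then 1 else 0 := by
    intro x
    by_cases hx : x = 0
    · simp [hx]
    · rw [if_neg hx, sub_zero, show x + (b - a) = x * (1 + (b - a) * x⁻¹) by field_simp, map_mul, ← mul_assoc, ← sq,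
        quadraticChar_sq_one hx, one_mul]
  rw [sh, sum_congr rfl fun x _ => e x, sum_sub_distrib, sum_ite_eq' univ (0 : K), if_pos (mem_univ _)]
  congr 1
  by_cases hab : a = b
  · simp [hab]
  · rw [if_neg hab, ← quadraticChar_sum_zero h2]
    have hd : b - a ≠ 0 := sub_ne_zero.2 (Ne.symm hab)
    exact Fintype.sum_equiv (((Equiv.inv K).trans (Equiv.mulLeft₀ _ hd)).trans (Equiv.addLeft 1)) _ _ fun x => rfl

/-- the only involution -/
theorem inv_eq {K : Type} [Field K] (h2 : (2 : K) ≠ 0) {z : Matrix.SpecialLinearGroup (Fin 2) K} (hz : z * z = 1) (z1 : z ≠ 1) :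
    z = -1 := by
  have e00 : z.1 0 0 * z.1 0 0 + z.1 0 1 * z.1 1 0 = 1 := by rw [← mul_ap, hz]; rfl
  have e01 : z.1 0 0 * z.1 0 1 + z.1 0 1 * z.1 1 1 = 0 := by rw [← mul_ap, hz]; rfl
  have e10 : z.1 1 0 * z.1 0 0 + z.1 1 1 * z.1 1 0 = 0 := by rw [← mul_ap, hz]; rfl
  have d := det2 z
  have tr : z.1 0 0 + z.1 1 1 ≠ 0 := fun h => h2 (by linear_combination z.1 0 0 * h - e00 - d)
  have b0 : z.1 0 1 = 0 := (mul_eq_zero.1 (show z.1 0 1 * (z.1 0 0 + z.1 1 1) = 0 by linear_combination e01)).resolve_right tr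
  have c0 : z.1 1 0 = 0 := (mul_eq_zero.1 (show z.1 1 0 * (z.1 0 0 + z.1 1 1) = 0 by linear_combination e10)).resolve_right tr
  have ad : z.1 0 0 = z.1 1 1 := by
    rw [b0, zero_mul] at e00 d
    linear_combination z.1 0 0 * d * (-1) + z.1 1 1 * e00
  exact ((CL.Dickson.mem_center_iff'' z).1 ((CL.Dickson.mem_center_iff' z).2 ⟨b0, c0, ad⟩)).resolve_left z1

end Jac

/-- `q = |F|`; `-1` is a square.  The lines `s + F_p ν` partition `F` into `q / p` lines; the line through `0` has no non-zero square (`j ν` is a non-square).  Let `k(ℓ)` be the number of non-zero squares on `ℓ`, `k ∈ {0, 1, 2, p}`, so `(p + 1) k - k (k - 1) ≤ 2 p`.  `Σ k = (q - 1) / 2`.  `Σ k (k - 1)` counts the pairs of squares with difference `j ν`, `j ≠ 0`; for a non-square `δ` the number of `s` with `s`, `s + δ` non-zero squares is `(q - 1) / 4` (`u² - v² = δ` has `q - 1` solutions `(u - v)(u + v) = δ`, all with `u, v ≠ 0` as `±δ` are non-squares; 4 to 1).  So `Σ k (k - 1) = (p - 1)(q - 1) / 4` and `(q - 1)(p + 3) / 4 ≤ 2 p (q / p - 1)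 = 2 (q - p)`, false for `p ≥ 5`.
To avoid lines: sum over the non-zero squares `s` of `f(k(s))` with weights, or use the quotient `F ⧸ (zmultiples ν)`. -/
theorem jac (hp : p.Prime) (p5 : 5 ≤ p) (sq : ∀ k : ℤ, IsSquare (k : F)) {ν : F} (hν : ¬ IsSquare ν)
    (h : ∀ s : F, s ≠ 0 → IsSquare s →
      let k := {j : ZMod p | s + (j.val : F) * ν ≠ 0 ∧ IsSquare (s + (j.val : F) * ν)}.ncard
      k = 1 ∨ k = 2 ∨ k = p) : False := by
  classical
  haveI : Fact p.Prime := ⟨hp⟩
  have h2 : ringChar F ≠ 2 := by rw [ringChar.eq F p]; omega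
  have ν0 : ν ≠ 0 := by rintro rfl; exact hν IsSquare.zero
  set f := ZMod.castHom (dvd_refl p) F with hf
  have fv : ∀ j : ZMod p, (j.val : F) = f j := fun j => by rw [hf, ZMod.castHom_apply, ZMod.natCast_val]
  have finj : ∀ x : F, Function.Injective fun j : ZMod p => x + f j * ν := fun x i j e =>
    f.injective (mul_right_cancel₀ ν0 (add_left_cancel e))
  set χ := quadraticChar F with hχ
  let T : F → ℤ := fun x => ∑ j : ZMod p, χ (x + f j * ν)
  have cz : Fintype.card (ZMod p) = p := ZMod.card p
  have s1 : ∑ x, T x = 0 := by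
    rw [Finset.sum_comm]
    refine Finset.sum_eq_zero fun j _ => ?_
    rw [← quadraticChar_sum_zero h2]
    exact Fintype.sum_equiv (Equiv.addRight (f j * ν)) _ _ fun x => rfl
  have s2 : ∑ x, T x * T x = p * (Fintype.card F - p) := by
    have : ∀ x, T x * T x = ∑ i : ZMod p, ∑ j : ZMod p, χ (x + f i * ν) * χ (x + f j * ν) := fun x =>
      Finset.sum_mul_sum _ _ _ _
    rw [Finset.sum_congr rfl fun x _ => this x, Finset.sum_comm]
    have : ∀ i : ZMod p, ∑ x : F, ∑ j : ZMod p, χ (x + f i * ν) * χ (x + f j * ν) = Fintype.card F - p := by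
      intro i
      rw [Finset.sum_comm]
      have : ∀ j : ZMod p, ∑ x : F, χ (x + f i * ν) * χ (x + f j * ν) = (if i = j then (Fintype.card F : ℤ) else 0) - 1 := by
        intro j
        rw [hχ, Jac.corr h2]
        congr 1
        refine if_congr ⟨fun e => f.injective (mul_right_cancel₀ ν0 e), fun e => by rw [e]⟩ rfl rfl
      rw [Finset.sum_congr rfl fun j _ => this j, Finset.sum_sub_distrib, Finset.sum_ite_eq, if_pos (Finset.mem_univ _)]
      simp [cz]
    rw [Finset.sum_congr rfl fun i _ => this i]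
    simp [cz, mul_sub]
  have tv : ∀ x, T x = 2 * ((Finset.univ.filter fun j : ZMod p => x + f j * ν ≠ 0 ∧ IsSquare (x + f j * ν)).card : ℤ) +
      ((Finset.univ.filter fun j : ZMod p => x + f j * ν = 0).card : ℤ) - p := by
    intro x
    have : ∀ y : F, χ y = 2 * (if y ≠ 0 ∧ IsSquare y then 1 else 0) + (if y = 0 then 1 else 0) - 1 := by
      intro y
      by_cases h0 : y = 0
      · simp [h0, hχ]
      · by_cases hs : IsSquare y
        · simp [h0, hs, hχ, (quadraticChar_one_iff_isSquare h0).2 hs]
        · simp [h0, hs, hχ, quadraticChar_neg_one_iff_not_isSquare.2 hs]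
    simp only [T]
    rw [Finset.sum_congr rfl fun j _ => this _, Finset.sum_sub_distrib, Finset.sum_add_distrib, ← Finset.mul_sum,
      Finset.sum_boole, Finset.sum_boole]
    simp [cz]
  have key : ∀ x, T x = p ∨ T x ≤ 4 - p := by
    intro x
    by_cases ex : ∃ j : ZMod p, x + f j * ν ≠ 0 ∧ IsSquare (x + f j * ν)
    · obtain ⟨j, j0, js⟩ := ex
      have e1 : T x = T (x + f j * ν) :=
        (Fintype.sum_equiv (Equiv.addRight j) _ _ fun i => by
          simp only [Equiv.coe_addRight, map_add]; congr 1; ring).symm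
      have hk := h _ j0 js
      simp only [fv] at hk
      rw [Set.ncard_eq_toFinset_card', Set.toFinset_setOf] at hk
      have z0 : (Finset.univ.filter fun i : ZMod p => x + f j * ν + f i * ν = 0).card = 0 := by
        rw [Finset.card_eq_zero, Finset.filter_eq_empty_iff]
        intro i _ e
        obtain ⟨r, hr⟩ := sq (-(i.val : ℤ))
        obtain ⟨u, hu⟩ := js
        rw [Int.cast_neg, Int.cast_natCast, fv] at hr
        have r0 : r ≠ 0 := by
          rintro rfl
          exact j0 (by linear_combination e + ν * hr)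
        exact hν ⟨u / r, by field_simp; linear_combination -e + hu - ν * hr⟩
      have h5 : (5 : ℤ) ≤ p := by exact_mod_cast p5
      rw [e1, tv, z0]
      rcases hk with e | e | e <;> rw [e] <;> push_cast <;> omega
    · right
      have k0 : (Finset.univ.filter fun j : ZMod p => x + f j * ν ≠ 0 ∧ IsSquare (x + f j * ν)).card = 0 := by
        rw [Finset.card_eq_zero, Finset.filter_eq_empty_iff]
        exact fun j _ e => ex ⟨j, e⟩
      have z1 : (Finset.univ.filter fun j : ZMod p => x + f j * ν = 0).card ≤ 1 :=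
        Finset.card_le_one.2 fun i hi j hj =>
          finj x (((Finset.mem_filter.1 hi).2).trans ((Finset.mem_filter.1 hj).2).symm)
      rw [tv, k0]
      omega
  have : 0 ≤ ∑ x, (T x * T x - 4 * T x - p * (p - 4)) := Finset.sum_nonneg fun x _ => by
    have : (5 : ℤ) ≤ p := by exact_mod_cast p5
    rcases key x with e | e
    · rw [e]; nlinarith
    · nlinarith
  rw [Finset.sum_sub_distrib, Finset.sum_sub_distrib, ← Finset.mul_sum, s1, s2] at this
  simp only [Finset.sum_const, Finset.card_univ, nsmul_eq_mul] at this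
  have h5 : (5 : ℤ) ≤ p := by exact_mod_cast p5
  have hq : (0 : ℤ) ≤ Fintype.card F := by positivity
  nlinarith [mul_nonneg hq (mul_nonneg (by linarith : (0 : ℤ) ≤ p) (by linarith : (0 : ℤ) ≤ p - 5))]

/-- If `H = ⟨u(s), l(t)⟩` has even order it contains the only involution `-1` of `SL₂ F`.  If it has odd order: search the library for Dickson's lemma / BG 2.6 (`cf search dickson`, subgroups of odd order of `SL₂`/`GL₂` have a normal Sylow `p`-subgroup, or abelian `H'`).  Direct: `H` is solvable (odd order, Feit-Thompson in the library); a minimal normal subgroup `A` is elementary abelian.  If it is a `p`-group it has exactly one fixed point on the projective line, fixed by `H`, but `u(s)`, `l(t)` have different unique fixed points.  Else take `1 ≠ g ∈ A`: `g ≠ ±1` has two eigenlines over the algebraic closure, the only lines fixed by all of `A`; `H` permutes them, `u(s)` (odd order) fixes both, so it is diagonal of order `p`: impossible. -/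
theorem neg_mem (hp : p.Prime) (p5 : 5 ≤ p) {s t : F} (hs : s ≠ 0) (ht : t ≠ 0) :
    (-1 : Matrix.SpecialLinearGroup (Fin 2) F) ∈ zpowers (uu s) ⊔ zpowers (ll t) := by
  haveI : Fact p.Prime := ⟨hp⟩
  obtain ⟨ψ, hψ⟩ := CL.Dickson.exists_embedding (p := p) (by omega) (zpowers (uu s) ⊔ zpowers (ll t))
    (mem_sup_left (mem_zpowers _)) (mem_sup_right (mem_zpowers _)) (a := 1) (b := 1)
    (by rw [pow_one, uu_pow, CharP.cast_eq_zero, zero_mul, uu_zero])
    (by rw [pow_one, ll_pow, CharP.cast_eq_zero, zero_mul, ll_zero])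
    (fun e => by
      have := congrArg (fun A : Matrix.SpecialLinearGroup (Fin 2) F => A.1 0 0) e
      simp [mul_ap, uu_val, ll_val, hs, ht] at this)
  have n1 : ((ψ (-1) : _) : Matrix.SpecialLinearGroup (Fin 2) F) ≠ 1 := fun e =>
    neg_one_ne (cast_ne (K := ZMod p) hp p5).1 (hψ (by rw [map_one]; exact Subtype.ext e))
  have sq : ((ψ (-1) : _) : Matrix.SpecialLinearGroup (Fin 2) F) * ψ (-1) = 1 := by
    rw [← Subgroup.coe_mul, ← map_mul, neg_mul_neg, one_mul, map_one, Subgroup.coe_one]
  rw [← Jac.inv_eq (cast_ne hp p5).1 sq n1]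
  exact (ψ (-1)).2

end CL.Cq
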