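/- S3235, disconnected case: a fixed point free operator group on a `p`-group with two weights. -/
import Mathlib
import Cfsg.Agent.ODD.BG345
import Cfsg.Agent.SOLV.CoprimeSylow

set_option autoImplicit false

namespace CL.Cq.OLa

open Subgroup
open scoped commutatorElement

section ring

variable {H R : Type*} [Group H] [Ring R] (ρ : H →* R) (T : Subgroup H) [Fintype T]

theorem sum_conj {g : H} (hn : ∀ a ∈ T, g * a * g⁻¹ ∈ T) (fp : ∀ a ∈ T, Commute a g → a = 1) :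
    ∑ a : T, ρ a * ρ g * ρ (a : H)⁻¹ = (∑ a : T, ρ a) * ρ g := by
  let f : T → T := fun a => ⟨a * (g * (a : H)⁻¹ * g⁻¹), mul_mem a.2 (hn _ (inv_mem a.2))⟩
  have hf : Function.Injective f := fun a b e => by
    have e' : (a : H) * (g * (a : H)⁻¹ * g⁻¹) = b * (g * (b : H)⁻¹ * g⁻¹) := congrArg Subtype.val e
    refine Subtype.ext (inv_mul_eq_one.1 (fp _ (mul_mem (inv_mem b.2) a.2) ?_)).symm
    calc (b : H)⁻¹ * a * g = (b : H)⁻¹ * (a * (g * (a : H)⁻¹ * g⁻¹)) * g * a := by group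
      _ = _ := by rw [e']; group
  rw [Finset.sum_mul, ← (Finite.injective_iff_bijective.1 hf).sum_comp fun a : T => ρ a * ρ g]
  refine Finset.sum_congr rfl fun a _ => ?_
  rw [← map_mul, ← map_mul, ← map_mul]
  congr 1
  simp only [f]
  group

theorem key {d : H} {r : ℕ} {μ : ℤ} (hr : r.Prime) (r2 : r ≠ 2) (dr : d ^ r = 1) (hn : ∀ a ∈ T, d * a * d⁻¹ ∈ T)
    (fp : ∀ a ∈ T, Commute a d → a = 1)
    (g : (ρ d * ρ d - (1 + μ) • ρ d + μ • 1) * (ρ d * ρ d - (1 + μ) • ρ d + μ • 1) = 0) :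
    ∃ c : ℤ, (c = μ ^ 2 ∨ r = 3 ∧ c = μ ^ 2 - 2 * (1 + μ)) ∧
      ∀ a ∈ T, (c * Nat.card T) • ρ a = (c * Nat.card T) • 1 := by
  obtain ⟨S, hS⟩ : ∃ S, S = ∑ a : T, ρ a := ⟨_, rfl⟩
  let Φ : R →+ R := AddMonoidHom.mk' (fun X => ∑ a : T, ρ a * X * ρ (a : H)⁻¹) fun X Y => by
    simp only [mul_add, add_mul, Finset.sum_add_distrib]
  have hn' : ∀ i : ℕ, ∀ a ∈ T, d ^ i * a * (d ^ i)⁻¹ ∈ T := fun i => by
    induction i with
    | zero => simp
    | succ i ih =>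
      intro a ha
      have := hn _ (ih a ha)
      rwa [show d * (d ^ i * a * (d ^ i)⁻¹) * d⁻¹ = d ^ (i + 1) * a * (d ^ (i + 1))⁻¹ by group] at this
  have p1 : ∀ i : ℕ, ¬ r ∣ i → Φ (ρ d ^ i) = S * ρ d ^ i := fun i hi => by
    rw [← map_pow, hS]
    refine sum_conj ρ T (hn' i) fun a ha c => fp a ha ?_
    obtain ⟨j, e⟩ := exists_pow_eq_self_of_coprime (x := d) (n := i)
      (((Nat.Prime.coprime_iff_not_dvd hr).2 hi).symm.coprime_dvd_right (orderOf_dvd_of_pow_eq_one dr))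
    exact e ▸ c.pow_right j
  have p0 : Φ 1 = (Nat.card T : ℤ) • (1 : R) := by
    show ∑ a : T, ρ a * 1 * ρ (a : H)⁻¹ = _
    simp only [mul_one, ← map_mul, mul_inv_cancel, map_one, Finset.sum_const, Finset.card_univ, Nat.card_eq_fintype_card,
      natCast_zsmul]
  have g' : ρ d ^ 4 - (2 * (1 + μ)) • ρ d ^ 3 + ((1 + μ) ^ 2 + 2 * μ) • ρ d ^ 2 - (2 * μ * (1 + μ)) • ρ d ^ 1 +
      (μ ^ 2) • 1 = 0 := by
    rw [← g]
    simp only [mul_add, add_mul, mul_sub, sub_mul, smul_mul_assoc, mul_smul_comm, mul_one, one_mul, pow_succ, pow_zero, mul_assoc]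
    module
  have g1 := congrArg Φ g'
  have g2 := congrArg (S * ·) g'
  have n1 : ¬ r ∣ 1 := fun h => hr.ne_one (Nat.dvd_one.1 h)
  have n2 : ¬ r ∣ 2 := fun h => r2 ((Nat.prime_dvd_prime_iff_eq hr Nat.prime_two).1 h)
  have n4 : ¬ r ∣ 4 := fun h => n2 (hr.dvd_of_dvd_pow (show r ∣ 2 ^ 2 from h))
  simp only [map_add, map_sub, map_zsmul, map_zero, p0, p1 _ n1, p1 _ n2, p1 _ n4] at g1
  simp only [mul_add, mul_sub, mul_smul_comm, mul_one, mul_zero] at g2
  have fin : ∀ c : ℤ, (c * Nat.card T) • (1 : R) = c • S → ∀ a ∈ T, (c * Nat.card T) • ρ a = (c * Nat.card T) • 1 :=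
    fun c e a ha => by
      have : ρ a * S = S := by
        rw [hS, Finset.mul_sum, ← Equiv.sum_comp (Equiv.mulLeft (⟨a, ha⟩ : T)) fun a : T => ρ a]
        exact Finset.sum_congr rfl fun b _ => (map_mul ρ _ _).symm
      rw [← mul_one (ρ a), ← mul_smul_comm, e, mul_smul_comm, this]
  by_cases r3 : r = 3
  · refine ⟨_, Or.inr ⟨r3, rfl⟩, fin _ ?_⟩
    have e : ρ d ^ 3 = 1 := by rw [← map_pow, ← r3, dr, map_one]
    rw [e, p0] at g1
    rw [e, mul_one] at g2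
    rw [← sub_eq_zero, ← sub_self (0 : R)]
    nth_rewrite 1 [← g1]
    rw [← g2]
    module
  · refine ⟨_, Or.inl rfl, fin _ ?_⟩
    rw [p1 3 fun h => r3 ((Nat.prime_dvd_prime_iff_eq hr Nat.prime_three).1 h)] at g1
    rw [← sub_eq_zero, ← sub_self (0 : R)]
    nth_rewrite 1 [← g1]
    rw [← g2]
    module

end ring

variable {Γ : Type*} [Group Γ]

/-- the action of the normaliser on the abelianisation -/
noncomputable def act (P : Subgroup Γ) : normalizer (P : Set Γ) →* AddMonoid.End (Additive (Abelianization P)) where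
  toFun g := MonoidHom.toAdditive (Abelianization.map (P.normalizerMonoidHom g).toMonoidHom)
  map_one' := AddMonoidHom.ext fun v => by
    obtain ⟨x, rfl⟩ : ∃ x : P, Additive.ofMul (Abelianization.of x) = v := QuotientGroup.mk_surjective v
    rw [map_one]
    rfl
  map_mul' g h := AddMonoidHom.ext fun v => by
    obtain ⟨x, rfl⟩ : ∃ x : P, Additive.ofMul (Abelianization.of x) = v := QuotientGroup.mk_surjective v
    rw [map_mul]
    rfl

theorem act_of (P : Subgroup Γ) (g : normalizer (P : Set Γ)) (x : P) :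
    act P g (Additive.ofMul (Abelianization.of x)) =
      Additive.ofMul (Abelianization.of ⟨g * x * (g : Γ)⁻¹, (mem_normalizer_iff.1 g.2 _).1 x.2⟩) := rfl

/-- the word `(d - 1) (d - μ)` -/
def Fw (d : Γ) (μ : ℕ) (x : Γ) : Γ := d * (d * x * d⁻¹) * d⁻¹ * ((d * x * d⁻¹) ^ (1 + μ))⁻¹ * x ^ μ

theorem Fw_eq {d e w : Γ} {μ : ℕ} (c : Commute e w) (de : d * e * d⁻¹ = e ^ μ) (dw : Commute d w) : Fw d μ (e * w) = 1 := by
  have h1 : ∀ i : ℕ, d * (e ^ i * w) * d⁻¹ = e ^ (μ * i) * w := fun i => by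
    rw [pow_mul, ← de, conj_pow, mul_assoc d, mul_assoc (e ^ i), ← dw.inv_left.eq]
    group
  have h2 := h1 1
  rw [pow_one, mul_one] at h2
  have h3 : (e ^ μ) ^ (1 + μ) * w ^ (1 + μ) = e ^ μ * w ^ μ * (e ^ (μ * μ) * w) := by
    rw [(c.symm.pow_pow μ (μ * μ)).mul_mul_mul_comm, ← pow_mul, mul_add, mul_one, pow_add, add_comm 1, pow_succ]
  rw [Fw, h2, h1, (c.pow_left μ).mul_pow, c.mul_pow, h3]
  group

theorem Fw_mem {P : Subgroup Γ} {d x : Γ} (μ : ℕ) (dP : d ∈ normalizer (P : Set Γ)) (hx : x ∈ P) : Fw d μ x ∈ P :=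
  have h := (mem_normalizer_iff.1 dP x).1 hx
  mul_mem (mul_mem ((mem_normalizer_iff.1 dP _).1 h) (inv_mem (pow_mem h _))) (pow_mem hx _)

theorem nc {g : Γ} {A B : Subgroup Γ} (h1 : g ∈ normalizer (A : Set Γ)) (h2 : g ∈ normalizer (B : Set Γ)) :
    g ∈ normalizer ((⁅A, B⁆ : Subgroup Γ) : Set Γ) := by
  rw [mem_normalizer_iff_conj_smul_eq] at *
  exact (map_commutator _ _ _).trans (congrArg₂ _ h1 h2)

variable [Finite Γ]

theorem cent {p r μ : ℕ} (hp : p.Prime) (hr : r.Prime) (r2 : r ≠ 2) (μr : μ ^ r ≡ 1 [MOD p]) (μ1 : ¬ μ ≡ 1 [MOD p])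
    (rp : r ≠ p) {T : Subgroup Γ} {d : Γ} (dr : orderOf d = r) (dT : d ∈ normalizer (T : Set Γ)) (pT : ¬ p ∣ Nat.card T)
    (fp : ∀ a ∈ T, Commute a d → a = 1) (P : Subgroup Γ) (hP : IsPGroup p P) (TP : T ≤ normalizer (P : Set Γ))
    (dP : d ∈ normalizer (P : Set Γ))
    (h : ∀ y ∈ P, y ≠ 1 → Commute d y → ∀ x ∈ P, Commute y x → Fw d μ x = 1) : P ≤ centralizer (T : Set Γ) := by
  have := Fact.mk hp
  induction hn : Nat.card P using Nat.strong_induction_on generalizing P with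
  | _ n ih =>
  have ih' : ∀ Q < P, T ≤ normalizer (Q : Set Γ) → d ∈ normalizer (Q : Set Γ) → Q ≤ centralizer (T : Set Γ) :=
    fun Q lt h1 h2 => ih _ (hn ▸ Set.Finite.card_lt_card (Set.toFinite _) lt) Q (hP.to_le lt.le) h1 h2
      (fun y hy y1 c x hx => h y (lt.le hy) y1 c x (lt.le hx)) rfl
  obtain ⟨k, hk⟩ := IsPGroup.iff_card.1 hP
  have cop : (Nat.card T).Coprime (Nat.card P) := hk ▸ (((Nat.Prime.coprime_iff_not_dvd hp).2 pT).symm.pow_right k)
  have nil := hP.isNilpotent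
  have l1 : ⁅P, T⁆ ≤ P := commutator_le.2 fun x hx a ha => by
    rw [commutatorElement_def, mul_assoc, mul_assoc, ← mul_assoc a]
    exact mul_mem hx ((mem_normalizer_iff.1 (TP ha) _).1 (inv_mem hx))
  rcases l1.lt_or_eq with lt | e1
  · exact coprime_le_centralizer_of_commutator_le T P TP cop (Or.inr inferInstance)
      (ih' _ lt (fun a ha => nc (TP ha) (le_normalizer ha)) (nc dP dT))
  by_cases P0 : P = ⊥
  · exact P0.le.trans bot_le
  have l2 : ⁅P, P⁆ < P := commutator_lt_of_isPGroup hP hP le_normalizer P0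
  have c2 := ih' _ l2 (fun a ha => nc (TP ha) (TP ha)) (nc dP dP)
  have c3 : ⁅P, ⁅P, P⁆⁆ = ⊥ := by
    nth_rewrite 1 [← e1]
    refine commutator_commutator_eq_bot_of_rotate ?_ (commutator_eq_bot_iff_le_centralizer.2 (le_trans ?_ c2))
    · rw [commutator_comm T, commutator_eq_bot_iff_le_centralizer.2 c2, commutator_bot_left]
    · exact commutator_le.2 fun x hx a ha => by
        rw [commutatorElement_def, mul_assoc, mul_assoc, ← mul_assoc a]
        exact mul_mem hx ((mem_normalizer_iff.1 (nc (le_normalizer ha) (le_normalizer ha)) _).1 (inv_mem hx))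
  have c4 : ∀ x ∈ P, ∀ z ∈ ⁅P, P⁆, Commute x z := fun x hx z hz =>
    commutatorElement_eq_one_iff_commute.1 (mem_bot.1 (c3.le (commutator_mem_commutator hx hz)))
  have cz : Nat.card (zpowers d) = r := by rw [Nat.card_zpowers, dr]
  by_cases hy : ∃ y ∈ P, y ≠ 1 ∧ Commute d y
  swap
  · refine le_centralizer_iff.1 ((CL.BG.Frobenius_Wielandt_fixpoint' (K := T) (R := zpowers d) (zpowers_le.2 dT)
      (fun x hx x1 => eq_bot_iff.2 fun a ha => mem_bot.2 (fp a ha.1 ?_)) TP (zpowers_le.2 dP) inferInstance cop.symm ?_).2.1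
      (eq_bot_iff.2 fun y hy' => mem_bot.2 (by_contra fun y1 => hy ⟨y, hy'.1, y1, hy'.2 d (mem_zpowers d)⟩)))
    · have : d ∈ zpowers x := by
        have := Fact.mk (cz ▸ hr)
        obtain ⟨i, hi⟩ := mem_zpowers_iff.1 (mem_zpowers_of_prime_card (G := zpowers d) rfl (g := ⟨x, hx⟩)
          (g' := ⟨d, mem_zpowers d⟩) fun e => x1 (congrArg Subtype.val e))
        exact ⟨i, congrArg Subtype.val hi⟩
      obtain ⟨i, rfl⟩ := this
      exact (show Commute a x from mem_centralizer_singleton_iff.1 ha.2).zpow_right i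
    · rw [cz, hk]
      exact ((Nat.coprime_primes hp hr).2 rp.symm).pow_left k
  obtain ⟨y, yP, y1, dy⟩ := hy
  let φ : P →* Γ := MonoidHom.mk' (fun x => ⁅(x : Γ), y⁆) fun a b => by
    have := (c4 a a.2 _ (commutator_mem_commutator b.2 yP)).eq
    have e := (c4 _ (l2.le (commutator_mem_commutator a.2 yP)) _ (commutator_mem_commutator b.2 yP)).eq
    rw [e, ← mul_inv_eq_iff_eq_mul, ← mul_inv_eq_iff_eq_mul.2 this]
    simp only [commutatorElement_def, Subgroup.coe_mul]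
    group
  have dm : ∀ {x : Γ}, x ∈ P → d * x * d⁻¹ ∈ P := fun hx => (mem_normalizer_iff.1 dP _).1 hx
  have φd : ∀ x : P, φ ⟨d * x * d⁻¹, dm x.2⟩ = d * φ x * d⁻¹ := fun x => by
    show ⁅d * x * d⁻¹, y⁆ = d * ⁅(x : Γ), y⁆ * d⁻¹
    rw [conjugate_commutatorElement, dy.eq, mul_inv_cancel_right]
  have f2 : ∀ x ∈ P, Fw d μ (Fw d μ x) = 1 := fun x hx => by
    refine h y yP y1 dy _ (Fw_mem μ dP hx) (commutatorElement_eq_one_iff_commute.1 ?_).symm
    have m := commutator_mem_commutator hx yP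
    rw [← h y yP y1 dy _ (l2.le m) (c4 y yP _ m)]
    have : φ ⟨_, Fw_mem μ dP hx⟩ = φ (⟨d * (d * x * d⁻¹) * d⁻¹, dm (dm hx)⟩ * (⟨d * x * d⁻¹, dm hx⟩ ^ (1 + μ))⁻¹ *
      ⟨x, hx⟩ ^ μ) := rfl
    rw [map_mul, map_mul, map_inv, map_pow, map_pow, φd ⟨_, dm hx⟩, φd ⟨x, hx⟩] at this
    exact this
  have := Fintype.ofFinite (T.subgroupOf (normalizer (P : Set Γ)))
  have G1 : ∀ x : P, (act P ⟨d, dP⟩ * act P ⟨d, dP⟩ - (1 + (μ : ℤ)) • act P ⟨d, dP⟩ + (μ : ℤ) • 1 :
      AddMonoid.End (Additive (Abelianization P))) (Additive.ofMul (Abelianization.of x)) =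
      Additive.ofMul (Abelianization.of ⟨_, Fw_mem μ dP x.2⟩) := fun x => by
    have : (⟨_, Fw_mem μ dP x.2⟩ : P) = ⟨d * (d * x * d⁻¹) * d⁻¹, dm (dm x.2)⟩ * (⟨d * x * d⁻¹, dm x.2⟩ ^ (1 + μ))⁻¹ *
      x ^ μ := rfl
    rw [this, map_mul Abelianization.of, map_mul Abelianization.of, map_inv Abelianization.of, map_pow Abelianization.of,
      map_pow Abelianization.of, ofMul_mul, ofMul_mul, ofMul_inv, ofMul_pow, ofMul_pow,
      ← sub_eq_add_neg, ← natCast_zsmul, ← natCast_zsmul, Nat.cast_add, Nat.cast_one]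
    rfl
  obtain ⟨c, hc, e⟩ := key (act P) (T.subgroupOf (normalizer (P : Set Γ))) (d := ⟨d, dP⟩) (μ := μ) hr r2
    (Subtype.ext (by rw [← dr]; exact pow_orderOf_eq_one d)) (fun a ha => (mem_normalizer_iff.1 dT _).1 ha)
    (fun a ha c => Subtype.ext (fp a ha (congrArg Subtype.val c.eq))) (AddMonoidHom.ext fun v => by
      obtain ⟨x, rfl⟩ : ∃ x : P, Additive.ofMul (Abelianization.of x) = v := QuotientGroup.mk_surjective v
      refine (congrArg _ (G1 x)).trans ((G1 _).trans ?_)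
      rw [show (⟨_, Fw_mem μ dP (Fw_mem μ dP x.2)⟩ : P) = 1 from Subtype.ext (f2 x x.2)]
      rfl)
  have pc : ¬ (p : ℤ) ∣ c := fun k => by
    have m0 : (μ : ZMod p) ^ r = 1 := by exact_mod_cast (ZMod.natCast_eq_natCast_iff _ _ _).2 μr
    have m1 : (μ : ZMod p) - 1 ≠ 0 := fun e => μ1 ((ZMod.natCast_eq_natCast_iff _ _ _).1 (by
      rw [Nat.cast_one]; exact sub_eq_zero.1 e))
    have m2 : (μ : ZMod p) ≠ 0 := fun e => by
      rw [e, zero_pow hr.ne_zero] at m0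
      exact zero_ne_one m0
    have k' := (ZMod.intCast_zmod_eq_zero_iff_dvd c p).2 k
    rcases hc with rfl | ⟨rfl, rfl⟩
    · push_cast at k'
      exact pow_ne_zero 2 m2 k'
    · push_cast at k'
      have m3 : (μ : ZMod p) ^ 2 + μ + 1 = 0 := (mul_eq_zero.1 (show (μ - 1 : ZMod p) * (μ ^ 2 + μ + 1) = 0 by
        linear_combination m0)).resolve_left m1
      have m4 : ((3 : ℕ) : ZMod p) = 0 := (mul_eq_zero.1 (show ((3 : ℕ) : ZMod p) * μ ^ 2 = 0 by
        push_cast; linear_combination k' + 2 * m3)).resolve_right (pow_ne_zero 2 m2)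
      exact rp ((Nat.prime_dvd_prime_iff_eq hp hr).1 ((ZMod.natCast_eq_zero_iff _ _).1 m4)).symm
  refine absurd (e1.ge.trans (commutator_le.2 fun x hx a ha => ?_)) l2.not_ge
  have e2 := DFunLike.congr_fun (e ⟨a, TP ha⟩ ha) (Additive.ofMul (Abelianization.of ⟨x, hx⟩))
  have e3 : (Abelianization.of (⟨a * x * a⁻¹, (mem_normalizer_iff.1 (TP ha) _).1 hx⟩ * ⟨x, hx⟩⁻¹ : P)) ^
      (c * Nat.card T) = 1 := by
    rw [map_mul, map_inv, mul_zpow, inv_zpow, mul_inv_eq_one, ← Nat.card_congr (subgroupOfEquivOfLe TP).toEquiv]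
    exact e2
  obtain ⟨j, hj⟩ := IsPGroup.iff_orderOf.1 (hP.of_surjective Abelianization.of QuotientGroup.mk_surjective)
    (Abelianization.of (⟨a * x * a⁻¹, (mem_normalizer_iff.1 (TP ha) _).1 hx⟩ * ⟨x, hx⟩⁻¹ : P))
  have e4 := orderOf_dvd_iff_zpow_eq_one.2 e3
  rw [hj] at e4
  rcases j with _ | j
  · have e5 : _ ∈ commutator P := (QuotientGroup.eq_one_iff _).1 (orderOf_eq_one_iff.1 hj)
    have e6 := mem_map_of_mem P.subtype e5
    rw [map_subtype_commutator] at e6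
    have e7 := inv_mem e6
    convert e7 using 1
    simp only [commutatorElement_def, coe_subtype, Subgroup.coe_mul, Subgroup.coe_inv]
    group
  · have e5 : (p : ℤ) ∣ c * Nat.card T := (Int.natCast_dvd_natCast.2 (dvd_pow_self p j.succ_ne_zero)).trans e4
    exact ((Nat.prime_iff_prime_int.1 hp).dvd_or_dvd e5).elim (fun k => (pc k).elim)
      fun k => (pT (Int.natCast_dvd_natCast.1 k)).elim

end CL.Cq.OLa
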