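/- Weights of an operator on a `p`-group and on the centralizer of a fixed element. -/
import Mathlib
import Cfsg.Agent.CHEV.Cq.ZL

set_option autoImplicit false

namespace CL.Cq.WL

open Subgroup
open scoped commutatorElement

variable {Γ : Type*} [Group Γ] [Finite Γ]

/-- `ν` is a weight of `d` on `Q` -/
def Wt (p ν : ℕ) (d : Γ) (Q : Subgroup Γ) : Prop := ∃ (B : Subgroup Γ) (x : Γ), B ≤ Q ∧ Nm d B ∧ x ∈ Q ∧ x ∉ B ∧
  Nm x B ∧ x ^ p ∈ B ∧ (x ^ ν)⁻¹ * (d * x * d⁻¹) ∈ B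

/-- the centralizer of `y` modulo `Z` -/
def Cz (P Z : Subgroup Γ) [n : Z.Normal] (y : Γ) : Subgroup Γ where
  carrier := {x | x ∈ P ∧ ⁅x, y⁆ ∈ Z}
  one_mem' := ⟨one_mem _, by simp⟩
  mul_mem' := fun {a b} ha hb => ⟨mul_mem ha.1 hb.1, by
    rw [show ⁅a * b, y⁆ = a * ⁅b, y⁆ * a⁻¹ * ⁅a, y⁆ by simp only [commutatorElement_def]; group]
    exact mul_mem (n.conj_mem _ hb.2 a) ha.2⟩
  inv_mem' := fun {a} ha => ⟨inv_mem ha.1, by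
    rw [show ⁅a⁻¹, y⁆ = a⁻¹ * ⁅a, y⁆⁻¹ * a by simp only [commutatorElement_def]; group]
    exact n.conj_mem' _ (inv_mem ha.2) a⟩

omit [Finite Γ] in
theorem cj {d y : Γ} (dy : Commute d y) (g : Γ) : ⁅d * g * d⁻¹, y⁆ = d * ⁅g, y⁆ * d⁻¹ := by
  rw [conjugate_commutatorElement, dy.eq, mul_inv_cancel_right]

theorem step {P Z Z' : Subgroup Γ} [nP : P.Normal] [Z.Normal] [n : Z'.Normal] (ZP : Z ≤ P) (le : Z' ≤ Z)
    (cz : ∀ z ∈ Z, ∀ g ∈ P, ⁅z, g⁆ ∈ Z') {d y : Γ} (yP : y ∈ P) (dy : Commute d y) {p ν : ℕ}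
    (h : Wt p ν d (Cz P Z y)) : Wt p ν d (Cz P Z' y) := by
  obtain ⟨B, x, BC, dB, xC, xB, nB, xp, w⟩ := h
  by_cases c : ∃ b ∈ B, b⁻¹ * x ∈ Cz P Z' y
  · obtain ⟨b, hb, hc⟩ := c
    have dC : Nm d (Cz P Z' y) := fun g hg => ⟨nP.conj_mem _ hg.1 d, cj dy g ▸ n.conj_mem _ hg.2 d⟩
    have k : ∀ m : ℕ, (b⁻¹ * x) ^ m * (x ^ m)⁻¹ ∈ B := fun m => by
      induction m with
      | zero => simp
      | succ m ih =>
        rw [show (b⁻¹ * x) ^ (m + 1) * (x ^ (m + 1))⁻¹ = b⁻¹ * (x * ((b⁻¹ * x) ^ m * (x ^ m)⁻¹) * x⁻¹) by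
          rw [pow_succ', pow_succ']; group]
        exact mul_mem (inv_mem hb) (nB _ ih)
    refine ⟨B ⊓ Cz P Z' y, b⁻¹ * x, inf_le_right, fun g hg => ⟨dB g hg.1, dC g hg.2⟩, hc,
      fun m => xB (by simpa using mul_mem hb m.1), fun g hg => ⟨?_, (Cz P Z' y).mul_mem ((Cz P Z' y).mul_mem hc hg.2) (inv_mem hc)⟩,
      ⟨by simpa using mul_mem (k p) xp, pow_mem hc p⟩, ?_, (Cz P Z' y).mul_mem (inv_mem (pow_mem hc ν)) (dC _ hc)⟩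
    · have := mul_mem (mul_mem (inv_mem hb) (nB g hg.1)) hb
      rwa [show b⁻¹ * (x * g * x⁻¹) * b = b⁻¹ * x * g * (b⁻¹ * x)⁻¹ by group] at this
    · have := mul_mem ((mem_normalizer_iff''.1 (pow_mem (mem_normalizer_fintype nB) ν) _).1
        (mul_mem (inv_mem (k ν)) (dB _ (inv_mem hb)))) w
      rwa [show (x ^ ν)⁻¹ * (((b⁻¹ * x) ^ ν * (x ^ ν)⁻¹)⁻¹ * (d * b⁻¹ * d⁻¹)) * x ^ ν * ((x ^ ν)⁻¹ * (d * x * d⁻¹)) =
        ((b⁻¹ * x) ^ ν)⁻¹ * (d * (b⁻¹ * x) * d⁻¹) by generalize (b⁻¹ * x) ^ ν = u; group] at this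
  let π := QuotientGroup.mk' Z'
  have cm : ∀ z ∈ Z, ∀ g ∈ P, π z * π g = π g * π z := fun z hz g hg => by
    rw [← commutatorElement_eq_one_iff_mul_comm, ← map_commutatorElement]
    exact (QuotientGroup.eq_one_iff _).2 (cz z hz g hg)
  let φ : Cz P Z y →* Γ ⧸ Z' := MonoidHom.mk' (fun g => π ⁅g.1, y⁆) fun a b => by
    rw [show ⁅(a * b).1, y⁆ = a.1 * ⁅b.1, y⁆ * a.1⁻¹ * ⁅a.1, y⁆ by simp only [commutatorElement_def, coe_mul]; group,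
      map_mul, map_mul, map_mul, ← cm _ b.2.2 _ a.2.1, map_inv, mul_inv_cancel_right, cm _ b.2.2 _ (ZP a.2.2)]
  let A := ((B.subgroupOf (Cz P Z y)).map φ).comap π
  have mA : ∀ z, z ∈ A ↔ ∃ b ∈ B, π ⁅b, y⁆ = π z := fun z =>
    ⟨fun ⟨b, hb, e⟩ => ⟨b, hb, e⟩, fun ⟨b, hb, e⟩ => ⟨⟨b, BC hb⟩, hb, e⟩⟩
  have AZ : A ≤ Z := fun z hz => by
    obtain ⟨b, hb, e⟩ := (mA z).1 hz
    simpa only [mul_inv_cancel_left] using mul_mem (BC hb).2 (le (QuotientGroup.eq.1 e))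
  have ZC : Z ≤ Cz P Z' y := fun z hz => ⟨ZP hz, cz z hz y yP⟩
  have dx : d * x * d⁻¹ ∈ Cz P Z y := by simpa using mul_mem (pow_mem xC ν) (BC w)
  refine ⟨A, ⁅x, y⁆, AZ.trans ZC, fun z hz => ?_, ZC xC.2, fun m => ?_, fun z hz => ?_, ?_, ?_⟩
  · obtain ⟨b, hb, e⟩ := (mA z).1 hz
    exact (mA _).2 ⟨_, dB b hb, by rw [cj dy, map_mul, map_mul, e, map_mul, map_mul]⟩
  · obtain ⟨b, hb, e⟩ := (mA _).1 m
    have : φ (⟨b, BC hb⟩⁻¹ * ⟨x, xC⟩) = 1 := by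
      rw [map_mul, map_inv, inv_mul_eq_one]; exact e
    exact c ⟨b, hb, mul_mem (inv_mem (BC hb).1) xC.1, (QuotientGroup.eq_one_iff _).1 this⟩
  · obtain ⟨b, hb, e⟩ := (mA z).1 hz
    exact (mA _).2 ⟨b, hb, by rw [map_mul, map_mul, cm _ xC.2 _ (ZP (AZ hz)), map_inv, mul_inv_cancel_right, e]⟩
  · exact (mA _).2 ⟨_, xp, (map_pow φ ⟨x, xC⟩ p).trans (map_pow π _ p).symm⟩
  · refine (mA _).2 ⟨_, w, ?_⟩
    rw [← cj dy, map_mul, map_inv, map_pow]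
    exact (map_mul φ (⟨x, xC⟩ ^ ν)⁻¹ ⟨_, dx⟩).trans (by rw [map_inv, map_pow])

theorem nrm {P : Subgroup Γ} [P.Normal] {p : ℕ} (hp : p.Prime) (hP : IsPGroup p P) {d y : Γ} (yP : y ∈ P)
    (dy : Commute d y) {ν : ℕ} (h : Wt p ν d P) : Wt p ν d (P ⊓ centralizer {y}) := by
  have := Fact.mk hp
  have N : ∀ i, (P.lowerCentralSeries i).Normal := fun i => by
    induction i with
    | zero => assumption
    | succ i _ => rw [Subgroup.lowerCentralSeries_succ]; infer_instance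
  have k : ∀ i, Wt p ν d (Cz P (P.lowerCentralSeries i) y) := fun i => by
    induction i with
    | zero =>
      obtain ⟨B, x, a, b, c, e⟩ := h
      have l : P ≤ Cz P (P.lowerCentralSeries 0) y := fun g hg =>
        ⟨hg, mul_mem (mul_mem (mul_mem hg yP) (inv_mem hg)) (inv_mem yP)⟩
      exact ⟨B, x, a.trans l, b, l c, e⟩
    | succ i ih =>
      exact step (P.lowerCentralSeries_antitone (Nat.zero_le i)) (P.lowerCentralSeries_antitone i.le_succ)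
        (fun z hz g hg => commutator_mem_commutator hz hg) yP dy ih
  obtain ⟨i, hi⟩ := (isNilpotent_iff_lowerCentralSeries P).1 hP.isNilpotent
  obtain ⟨B, x, a, b, c, e⟩ := k i
  have l : Cz P (P.lowerCentralSeries i) y ≤ P ⊓ centralizer {y} := fun g hg => ⟨hg.1,
    mem_centralizer_singleton_iff.2 (commutatorElement_eq_one_iff_mul_comm.1 (mem_bot.1 (hi ▸ hg.2)))⟩
  exact ⟨B, x, a.trans l, b, l c, e⟩

theorem wl {P B : Subgroup Γ} {p r : ℕ} (hp : p.Prime) (_hr : r ∣ p - 1) (hP : IsPGroup p P) {d y x : Γ} (_dr : d ^ r = 1)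
    (dP : Nm d P) (yP : y ∈ P) (dy : Commute d y) {ν : ℕ} (BP : B ≤ P) (dB : Nm d B) (xP : x ∈ P) (xB : x ∉ B)
    (nB : Nm x B) (xp : x ^ p ∈ B) (w : (x ^ ν)⁻¹ * (d * x * d⁻¹) ∈ B) :
    ∃ (B' : Subgroup Γ) (x' : Γ), B' ≤ P ⊓ centralizer {y} ∧ Nm d B' ∧ x' ∈ P ⊓ centralizer {y} ∧ x' ∉ B' ∧ Nm x' B' ∧
      x' ^ p ∈ B' ∧ (x' ^ ν)⁻¹ * (d * x' * d⁻¹) ∈ B' := by
  have l : P ≤ normalizer (P : Set Γ) := le_normalizer
  obtain ⟨A, u, a1, a2, a3, a4, a5, a6, a7⟩ := nrm (P := P.subgroupOf (normalizer (P : Set Γ))) hp hP.comap_subtype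
    (d := ⟨d, mem_normalizer_fintype dP⟩) (y := ⟨y, l yP⟩) yP (Subtype.ext dy) (ν := ν)
    ⟨B.subgroupOf _, ⟨x, l xP⟩, fun _ h => BP h, fun g h => dB g h, xP, xB, fun g h => nB g h, xp, w⟩
  have m : ∀ g : normalizer (P : Set Γ), g ∈ P.subgroupOf _ ⊓ centralizer {⟨y, l yP⟩} → g.1 ∈ P ⊓ centralizer {y} :=
    fun g h => ⟨h.1, mem_centralizer_singleton_iff.2 (congrArg Subtype.val (mem_centralizer_singleton_iff.1 h.2))⟩
  refine ⟨A.map (Subgroup.subtype _), u, ?_, ?_, m u a3, fun h => a4 ((mem_map_iff_mem (subtype_injective _)).1 h), ?_,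
    mem_map_of_mem _ a6, mem_map_of_mem _ a7⟩ <;> rintro _ ⟨g, hg, rfl⟩
  exacts [m g (a1 hg), mem_map_of_mem _ (a2 g hg), mem_map_of_mem _ (a5 g hg)]

end CL.Cq.WL
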