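/- S3235, disconnected case: the nilpotency criterion for an operator of odd prime order (pure group theory). -/
import Mathlib
import Cfsg.Agent.CHEV.Cq.ZL
import Cfsg.Agent.CHEV.Cq.WL
import Cfsg.Agent.CHEV.Cq.OLa
import Cfsg.Agent.ODD.BG38
import Cfsg.Agent.SOLV.Fitting
import Cfsg.Agent.S0205

set_option autoImplicit false

namespace CL.Cq

open Subgroup

variable {Γ : Type*} [Group Γ] [Finite Γ]

/-- WL.  "`ν` is a weight of `d` on `(Z, Q)`": there are a `d`-invariant `B`, `Z ≤ B`, and `x ∈ Q`, `x ∉ B`, `x` normalising `B ≤ Q`, `x ^ p ∈ B`, `d x d⁻¹ ∈ x ^ ν B`.  Claim: a weight on `P` is a weight on `C_P(y)`.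
Induction on the index of a `d`-invariant `Z ⊴ P` (downwards from `P`), or pass to `P / Z₀`: `Z₀ ≤ Z(P)` of order `p`, `d`-invariant (`d ^ r = 1`, `r ∣ p - 1`: `d` is diagonalisable on `Ω₁ Z(P)`; e.g. for `v ≠ 0` some `Σ ν^{-i} d^i v ≠ 0`).  A weight on `P` is a weight on `Z₀ ≤ C_P(y)` or on `P / Z₀`, so on `C₁ / Z₀`, `C₁ = {x | [x, y] ∈ Z₀}`; `x ↦ [x, y]` is a `d`-equivariant homomorphism `C₁ → Z₀` with kernel `C_P(y)`; so a weight on `C₁` is a weight on `C_P(y)` or that of `Z₀`.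
Equivalent and perhaps easier: by coprime action a weight `ν` on `Q` gives an element `x' ≠ 1` of `Q` with `d x' d⁻¹ = x' ^ ν'`, `ν' ≡ ν (p)`; free choice of route. -/
theorem wl {P B : Subgroup Γ} {p r : ℕ} (hp : p.Prime) (hr : r ∣ p - 1) (hP : IsPGroup p P) {d y x : Γ} (dr : d ^ r = 1) (dP : Nm d P)
    (yP : y ∈ P) (dy : Commute d y) {ν : ℕ} (BP : B ≤ P) (dB : Nm d B) (xP : x ∈ P) (xB : x ∉ B) (nB : Nm x B) (xp : x ^ p ∈ B)
    (w : (x ^ ν)⁻¹ * (d * x * d⁻¹) ∈ B) :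
    ∃ (B' : Subgroup Γ) (x' : Γ), B' ≤ P ⊓ centralizer {y} ∧ Nm d B' ∧ x' ∈ P ⊓ centralizer {y} ∧ x' ∉ B' ∧ Nm x' B' ∧ x' ^ p ∈ B' ∧
      (x' ^ ν)⁻¹ * (d * x' * d⁻¹) ∈ B' := by
  exact WL.wl hp hr hP dr dP yP dy BP dB xP xB nB xp w

namespace OL

open Cfsg
open scoped commutatorElement

theorem le_of_idx {r : ℕ} [Fact r.Prime] {O N W : Subgroup Γ} [hn : O.Normal] (ON : O ≤ N) (hO : IsPGroup r O)
    (idx : ¬ r ∣ W.relIndex N) : O ≤ W := fun x hx => by
  obtain ⟨q, hq⟩ := (hO.comap_subtype (K := N)).nonempty_fixed_point_of_prime_not_dvd_card (N ⧸ W.subgroupOf N) idx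
  obtain ⟨n, rfl⟩ := QuotientGroup.mk_surjective q
  have k : (n : Γ) * x * (n : Γ)⁻¹ ∈ O := hn.conj_mem _ hx _
  have e := QuotientGroup.eq.1 (show (((⟨_, ON k⟩ * n : N)) : N ⧸ W.subgroupOf N) = n from hq ⟨⟨_, ON k⟩, k⟩)
  have e' : ((n : Γ) * x * (n : Γ)⁻¹ * n)⁻¹ * n ∈ W := e
  simpa using e'

theorem fit_eq (N : Subgroup Γ) [N.Normal] : fittingOf N = ⨆ s : Nat.Primes, pCore (s : ℕ) Γ ⊓ N := by
  rw [fittingOf_def, fittingSubgroup_eq_iSup_pCore, Subgroup.map_iSup]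
  exact iSup_congr fun s => map_pCore_of_normal N

theorem fit_normal (N : Subgroup Γ) [N.Normal] : (fittingOf N).Normal :=
  normalizer_eq_top_iff.1 (top_le_iff.1 (le_normalizer_of_normal.trans (normalizer_le_normalizer_fittingOf N)))

/-- A normal subgroup that is a `t`-group modulo `F(N)`: what centralises the other cores lies in `F(N)`. -/
theorem mem_fit {N K : Subgroup Γ} [N.Normal] [K.Normal] (KN : K ≤ N) (t : Nat.Primes)
    (hK : ∀ x ∈ K, ∃ k, x ^ (t : ℕ) ^ k ∈ fittingOf N) {x : Γ} (hx : x ∈ K)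
    (hc : ∀ s : Nat.Primes, s ≠ t → x ∈ centralizer ((pCore (s : ℕ) Γ ⊓ N : Subgroup Γ) : Set Γ)) : x ∈ fittingOf N := by
  have := factPrime t
  obtain ⟨Q, hQ⟩ : ∃ Q : Subgroup Γ, Q = ⨆ s : {s : Nat.Primes // s ≠ t}, pCore (s.1 : ℕ) Γ ⊓ N := ⟨_, rfl⟩
  have : Q.Normal := hQ ▸ iSup_normal _
  have l : fittingOf N ≤ (pCore (t : ℕ) Γ) ⊔ Q := by
    rw [fit_eq]
    refine iSup_le fun s => ?_
    by_cases e : s = t
    · exact e ▸ inf_le_left.trans le_sup_left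
    · exact le_sup_of_le_right (hQ ▸ le_iSup (fun s : {s : Nat.Primes // s ≠ t} => pCore (s.1 : ℕ) Γ ⊓ N) ⟨s, e⟩)
  have pg : IsPGroup t (K.map (QuotientGroup.mk' Q)) := by
    rintro ⟨_, y, hy, rfl⟩
    obtain ⟨k, hk⟩ := hK y hy
    have m := map_mono (f := QuotientGroup.mk' Q) l (mem_map_of_mem _ hk)
    rw [Subgroup.map_sup, QuotientGroup.map_mk'_self, sup_bot_eq] at m
    obtain ⟨j, hj⟩ := (isPGroup_pCore (t : ℕ) Γ).map _ ⟨_, m⟩
    refine ⟨k + j, Subtype.ext ?_⟩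
    rw [pow_add, pow_mul, coe_pow, coe_pow, ← map_pow]
    exact congrArg Subtype.val hj
  have := pg.isNilpotent
  have nil : Group.IsNilpotent (K ⊓ centralizer (Q : Set Γ) : Subgroup Γ) :=
    Subgroup.isNilpotent_of_ker_le_center (((QuotientGroup.mk' Q).comp (Subgroup.subtype _)).codRestrict
      (K.map (QuotientGroup.mk' Q)) fun y => mem_map_of_mem _ y.2.1) fun y hy => mem_center_iff.2 fun g =>
        Subtype.ext (g.2.2 y ((QuotientGroup.eq_one_iff _).1 (congrArg Subtype.val hy))).symm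
  refine le_fittingOf (inf_le_left.trans KN) le_normalizer_of_normal nil ⟨hx, ?_⟩
  refine le_centralizer_iff.1 (hQ.le.trans (iSup_le fun s => le_centralizer_iff.1 (zpowers_le.2 (hc s.1 s.2))))
    (mem_zpowers x)

structure OH (N W E : Subgroup Γ) (d : Γ) (p r μ : ℕ) : Prop where
  hp : p.Prime
  hr : r.Prime
  r2 : r ≠ 2
  odd : Odd (Nat.card N)
  WN : W ≤ N
  EN : E ≤ N
  Ep : ∀ e ∈ E, e ^ p = 1
  Ec : ∀ e ∈ E, ∀ x ∈ N, Commute e x
  dr : d ^ r = 1
  μr : μ ^ r ≡ 1 [MOD p]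
  μ1 : ¬ μ ≡ 1 [MOD p]
  dE : ∀ e ∈ E, d * e * d⁻¹ = e ^ μ
  dW : ∀ w ∈ W, Commute d w
  Cd : ∀ x ∈ N, Commute d x → x ∈ W
  idx : ¬ r ∣ W.relIndex N
  gen : ∀ H : Subgroup Γ, (∀ x ∈ N, x * d * x⁻¹ * d⁻¹ ∈ H) → N ≤ H
  Cw : ∀ w ∈ W, w ≠ 1 → ∀ x ∈ N, Commute w x → ∃ e ∈ E, ∃ w' ∈ W, x = e * w'

namespace OH

variable {N W E : Subgroup Γ} {d : Γ} {p r μ : ℕ} (h : OH N W E d p r μ)
include h

theorem rp : r ≠ p := fun e => by
  have := Fact.mk h.hp
  refine h.μ1 ((ZMod.natCast_eq_natCast_iff _ _ _).1 ?_)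
  rw [← (ZMod.natCast_eq_natCast_iff _ _ _).2 h.μr, Nat.cast_pow, e, ZMod.pow_card]

theorem sw {s : ℕ} (hs : s.Prime) (sp : s ≠ p) {R : Subgroup Γ} (RN : R ≤ N) (hR : IsPGroup s R) {w : Γ} (wR : w ∈ R)
    (wW : w ∈ W) (w1 : w ≠ 1) : R ≤ W := by
  have := Fact.mk hs
  have k : ∀ w ∈ W, w ≠ 1 → ∀ x ∈ R, Commute w x → x ∈ W := fun w wW w1 x hx c => by
    obtain ⟨e, he, v, hv, rfl⟩ := h.Cw w wW w1 x (RN hx) c
    obtain ⟨k, hk⟩ := hR ⟨_, hx⟩
    have e1 : (e * v) ^ s ^ k = 1 := congrArg Subtype.val hk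
    rw [(h.Ec e he v (h.WN hv)).mul_pow, mul_eq_one_iff_eq_inv] at e1
    obtain ⟨j, e2⟩ := exists_pow_eq_self_of_coprime (x := e) (n := s ^ k)
      ((((Nat.coprime_primes hs h.hp).2 sp).pow_left k).coprime_dvd_right (orderOf_dvd_of_pow_eq_one (h.Ep e he)))
    exact mul_mem (e2 ▸ pow_mem (e1 ▸ inv_mem (pow_mem hv _)) j) hv
  have : Nontrivial R := ⟨⟨w, wR⟩, 1, fun e => w1 (congrArg Subtype.val e)⟩
  have := hR.center_nontrivial
  obtain ⟨⟨c, hc⟩, c1⟩ := exists_ne (1 : center R)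
  have cm : ∀ x ∈ R, Commute x c := fun x hx => congrArg Subtype.val (mem_center_iff.1 hc ⟨x, hx⟩)
  exact fun x hx => k c (k w wW w1 c c.2 (cm w wR)) (fun e => c1 (Subtype.ext (Subtype.ext e))) x hx (cm x hx).symm

theorem le_of_mem {H : Subgroup Γ} [hn : H.Normal] (hd : d ∈ H) : N ≤ H :=
  h.gen H fun x _ => mul_mem (hn.conj_mem _ hd _) (inv_mem hd)

theorem of_cent {w : Γ} (wW : w ∈ W) (w1 : w ≠ 1) (c : ∀ x ∈ N, Commute w x) : Group.IsNilpotent N := by
  have l : N ≤ E := h.gen E fun x hx => by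
    obtain ⟨e, he, v, hv, rfl⟩ := h.Cw w wW w1 x hx (c x hx)
    rw [show e * v * d * (e * v)⁻¹ * d⁻¹ = e * (d * e * d⁻¹)⁻¹ by rw [mul_assoc e, ← (h.dW v hv).eq]; group, h.dE e he]
    exact mul_mem he (inv_mem (pow_mem he _))
  let _ : CommGroup N := { (inferInstance : Group N) with mul_comm := fun a b => Subtype.ext (h.Ec a (l a.2) b b.2) }
  infer_instance

variable [N.Normal] (d1 : d ≠ 1)
  (hO : ∀ s : Nat.Primes, (s : ℕ) ≠ p → ∀ w ∈ pCore (s : ℕ) Γ ⊓ N, w ∈ W → w = 1)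
include d1 hO

theorem cent {t : Nat.Primes} (tr : (t : ℕ) ≠ r) {T : Subgroup Γ} (TN : T ≤ N) (hT : IsPGroup t T)
    (dT : d ∈ normalizer (T : Set Γ)) {s : Nat.Primes} (st : s ≠ t) :
    ⁅T, zpowers d⁆ ≤ centralizer ((pCore (s : ℕ) Γ ⊓ N : Subgroup Γ) : Set Γ) := by
  have := factPrime t
  have := factPrime s
  have := Fact.mk h.hr
  have st' : (s : ℕ) ≠ t := fun e => st (Subtype.ext e)
  have od : orderOf d = r := orderOf_eq_prime h.dr d1
  have cz : Nat.card (zpowers d) = r := by rw [Nat.card_zpowers, od]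
  obtain ⟨k, hk⟩ := IsPGroup.iff_card.1 hT
  have pg : IsPGroup s (pCore (s : ℕ) Γ ⊓ N : Subgroup Γ) := (isPGroup_pCore _ _).to_inf_left
  by_cases sp : (s : ℕ) = p
  · by_cases hw : ∃ w ∈ T, w ∈ W ∧ w ≠ 1
    · obtain ⟨w, w1, w2, w3⟩ := hw
      have l := h.sw t.2 (fun e => st' (sp.trans e.symm)) TN hT w1 w2 w3
      refine (commutator_eq_bot_iff_le_centralizer.2 fun x hx => ?_).le.trans bot_le
      rintro _ ⟨i, rfl⟩
      exact (h.dW x (l hx)).zpow_left i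
    refine le_trans ?_ (le_centralizer_iff.1 (OLa.cent h.hp h.hr h.r2 h.μr h.μ1 h.rp od dT ?_
      (fun a ha c => by_contra fun a1 => hw ⟨a, ha, h.Cd a (TN ha) c.symm, a1⟩) _ (sp ▸ pg) le_normalizer_of_normal
      (le_normalizer_of_normal (K := ⊤) (mem_top d)) fun y hy y1 c x hx c' => ?_))
    · refine commutator_le.2 fun x hx a ha => ?_
      rw [commutatorElement_def, mul_assoc, mul_assoc, ← mul_assoc a]
      exact mul_mem hx ((mem_normalizer_iff.1 (zpowers_le.2 dT ha) _).1 (inv_mem hx))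
    · rw [hk, ← sp]
      exact fun e => st' ((Nat.prime_dvd_prime_iff_eq s.2 t.2).1 (s.2.dvd_of_dvd_pow e))
    · obtain ⟨e, he, v, hv, rfl⟩ := h.Cw y (h.Cd y hy.2 c) y1 x hx.2 c'
      exact OLa.Fw_eq (h.Ec e he v (h.WN hv)) (h.dE e he) (h.dW v hv)
  by_cases sr : (s : ℕ) = r
  · exact fun x _ y hy => by
      rw [hO s sp y hy (le_of_idx inf_le_right (sr ▸ pg) h.idx hy), one_mul, mul_one]
  obtain ⟨j, hj⟩ := IsPGroup.iff_card.1 pg
  have := pg.isNilpotent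
  refine CL.BG.odd_prime_sdprod_sol_cent1 (zpowers_le.2 dT) (h.odd.of_dvd_nat (card_dvd_of_le TN)) ?_ (cz ▸ h.hr)
    inferInstance le_normalizer_of_normal le_normalizer_of_normal ?_ ?_
    (eq_bot_iff.2 fun y hy => mem_bot.2 (hO s sp y hy.1 (h.Cd y hy.1.2 (hy.2 d (mem_zpowers d)))))
  · rw [hk, cz]
    exact ((Nat.coprime_primes t.2 h.hr).2 tr).pow_left k
  · rw [hj, hk]
    exact ((Nat.coprime_primes s.2 t.2).2 st').pow j k
  · rw [hj, cz]
    exact ((Nat.coprime_primes s.2 h.hr).2 sr).pow_left j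

theorem ndvd : ¬ r ∣ Nat.card (fittingOf N) := fun k => by
  have := Fact.mk h.hr
  obtain ⟨x, hx⟩ := exists_prime_orderOf_dvd_card' r k
  have o : orderOf (x : Γ) = r := by rw [← hx]; exact orderOf_coe x
  have pg : IsPGroup r (zpowers (x : Γ)) := IsPGroup.of_card (n := 1) (by rw [Nat.card_zpowers, o, pow_one])
  have l := (fittingOf_of_normal N).le x.2
  have m : (x : Γ) ∈ pCore r Γ ⊓ N :=
    ⟨le_pCore_of_le_fittingSubgroup (zpowers_le.2 l.1) pg (mem_zpowers _), l.2⟩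
  rw [hO ⟨r, h.hr⟩ h.rp _ m (le_of_idx inf_le_right (isPGroup_pCore _ _).to_inf_left h.idx m), orderOf_one] at o
  exact h.hr.one_lt.ne o

theorem nil' : Group.IsNilpotent N := by
  have := fit_normal N
  have := Fact.mk h.hr
  have FN := fittingOf_le N
  have sol : Group.IsSolvable N := Cfsg.Agent.S0205.result h.odd
  obtain ⟨π, hπ⟩ : ∃ π, π = QuotientGroup.mk' (fittingOf N) := ⟨_, rfl⟩
  have kπ : π.ker = fittingOf N := hπ ▸ QuotientGroup.ker_mk' _
  have sπ : Function.Surjective π := hπ ▸ QuotientGroup.mk'_surjective _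
  have : (N.map π).Normal := Normal.map inferInstance _ sπ
  have := fit_normal (N.map π)
  have key : π d ∈ centralizer ((fittingOf (N.map π) : Subgroup _) : Set (Γ ⧸ fittingOf N)) := by
    refine le_centralizer_iff.1 ?_ (mem_zpowers _)
    refine (fit_eq (N.map π)).le.trans (iSup_le fun t y hy => ?_)
    have := factPrime t
    have pg : IsPGroup t (pCore (t : ℕ) _ ⊓ N.map π : Subgroup _) := (isPGroup_pCore _ _).to_inf_left
    suffices Commute (π d) y by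
      rintro _ ⟨i, rfl⟩
      exact this.zpow_left i
    by_cases tr : (t : ℕ) = r
    · obtain ⟨w, hw, rfl⟩ := le_of_idx (W := W.map π) (r := r) inf_le_right (by rw [← tr]; exact pg) (fun k => h.idx (by
        rw [relIndex_map_map, kπ, sup_eq_left.2 FN] at k
        exact k.trans (relIndex_dvd_of_le_left _ le_sup_left))) hy
      exact (h.dW w hw).map π
    obtain ⟨K, hK⟩ : ∃ K, K = (pCore (t : ℕ) _ ⊓ N.map π).comap π := ⟨_, rfl⟩
    have : K.Normal := hK ▸ Normal.comap inferInstance _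
    have KN : K ≤ N := by
      rw [hK]
      exact (comap_mono inf_le_right).trans (comap_map_eq_self (kπ.le.trans FN)).le
    obtain ⟨j, hj⟩ := IsPGroup.iff_card.1 pg
    have eK : K.map π = pCore (t : ℕ) _ ⊓ N.map π := hK ▸ map_comap_eq_self_of_surjective sπ _
    have cop : (Nat.card (zpowers d)).Coprime (Nat.card K) := by
      rw [Nat.card_zpowers, orderOf_eq_prime h.dr d1, ← CL.card_map_mul_card_inf_ker K π, eK, hj, kπ]
      exact (((Nat.coprime_primes h.hr t.2).2 (Ne.symm tr)).pow_right j).mul_right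
        (((Nat.Prime.coprime_iff_not_dvd h.hr).2 (h.ndvd d1 hO)).coprime_dvd_right (card_dvd_of_le inf_le_right))
    obtain ⟨T, hT⟩ := coprime_exists_invariant_sylow (zpowers d) K le_normalizer_of_normal cop (Or.inl inferInstance) t
    have l : ⁅(T : Subgroup K).map K.subtype, zpowers d⁆ ≤ fittingOf N := fun x hx => by
      refine mem_fit KN t (fun y hy => ?_) ((commutator_mono (map_subtype_le _) le_top).trans (commutator_le_left _ _) hx)
        fun s st => h.cent d1 hO tr ((map_subtype_le _).trans KN) (T.isPGroup'.map _) (hT (mem_zpowers d)) st hx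
      obtain ⟨k, hk⟩ := pg ⟨π y, eK.le (mem_map_of_mem π hy)⟩
      exact ⟨k, kπ.le (by rw [MonoidHom.mem_ker, map_pow]; exact congrArg Subtype.val hk)⟩
    have sj : Function.Surjective (π.subgroupMap K) := π.subgroupMap_surjective K
    have pg' : IsPGroup t (K.map π) := eK ▸ pg
    have tp : ((T.mapSurjective sj : Sylow t _) : Subgroup (K.map π)) = ⊤ :=
      ((T.mapSurjective sj).is_maximal' (pg'.to_subgroup ⊤) le_top).symm
    obtain ⟨τ, hτ, e⟩ : (⟨y, eK.ge hy⟩ : K.map π) ∈ (T : Subgroup K).map (π.subgroupMap K) := tp.ge (mem_top _)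
    rw [← show π τ = y from congrArg Subtype.val e]
    refine (commutatorElement_eq_one_iff_commute.1 ?_).symm
    rw [← map_commutatorElement]
    exact kπ.ge (l (commutator_mem_commutator (mem_map_of_mem K.subtype hτ) (mem_zpowers d)))
  have l1 : N.map π ≤ centralizer ((fittingOf (N.map π) : Subgroup _) : Set (Γ ⧸ fittingOf N)) :=
    map_le_iff_le_comap.2 (h.le_of_mem (H := (centralizer ((fittingOf (N.map π) : Subgroup _) : Set (Γ ⧸ fittingOf N))).comap π) key)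
  have l2 : N.map π ≤ fittingOf (N.map π) := (le_inf l1 le_rfl).trans (centralizer_fittingOf_inf_le
    (Group.isSolvable_of_surjective (π.subgroupMap_surjective N)))
  have l3 : N ≤ fittingOf N := h.gen _ fun x hx => kπ.le (by
    rw [MonoidHom.mem_ker, map_mul, map_mul, map_mul, map_inv, map_inv, key _ (l2 (mem_map_of_mem π hx))]
    group)
  exact le_antisymm FN l3 ▸ isNilpotent_fittingOf N

omit d1 hO in
theorem nil : Group.IsNilpotent N := by
  by_cases d1 : d = 1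
  · have : N = ⊥ := eq_bot_iff.2 (h.gen _ fun x _ => by simp [d1])
    rw [this]
    infer_instance
  by_cases hO : ∀ s : Nat.Primes, (s : ℕ) ≠ p → ∀ w ∈ pCore (s : ℕ) Γ ⊓ N, w ∈ W → w = 1
  · exact h.nil' d1 hO
  push Not at hO
  obtain ⟨s, sp, w, w1, w2, w3⟩ := hO
  have := factPrime s
  have l := h.sw s.2 sp inf_le_right (isPGroup_pCore _ _).to_inf_left w1 w2 w3
  have l' := h.le_of_mem (H := centralizer ((pCore (s : ℕ) Γ ⊓ N : Subgroup Γ) : Set Γ)) fun y hy => (h.dW y (l hy)).symm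
  exact h.of_cent w2 w3 fun x hx => l' hx w w1

end OH

end OL

/-- OL.  `r ∣ p - 1`, `r ≠ p`.  `N` is solvable; `A = {d}`; `nil_of_fac`, `pc`.  A Sylow `r`-subgroup `R₀` of `W` is Sylow in `N` (`idx`) and centralised by `d`; it covers every `r`-section `X / Y` with `X, Y ⊴ N`.  For a prime `s ≠ p`, an `s`-subgroup `R ≤ N` with `R ∩ W ≠ 1` lies in `W` (if `R₀ = R ∩ W < R`, take `1 ≠ c ∈ Z(N_R(R₀)) ∩ R₀`; `N_R(R₀) ≤ C(c) ≤ E W`, and `s`-elements of `E W` are in `W`).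
STEP 1 (`s ≠ p`).  `s = r`: `d` centralises `M`.  `s ≠ r`, `C_M(d) ≠ 1`: coprime action gives an `s`-element of `C_{M₁}(d) ≤ W` outside `M₂`, a Sylow `s`-subgroup of `M₁` containing it lies in `W`; `d` centralises `M`.  In both cases `N = Cm N d` centralises `M`.  `C_M(d) = 1`: `A = N / C_N(M)`; for each prime `u`, `O_u(A)` is centralised by `d` (`u = s`: trivial; `u = r`: covered by `R₀`; else S3769 (BG 3.4) in the semidirect / quotient group `M₁... : V = M`, `K = O_u(A)`, `R = ⟨d⟩`).  So `d` centralises `F(A)`, hence so does `[A, d] = A`, `A ≤ C_A(F(A)) ≤ F(A)`, `A = [A, d] = 1`.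
STEP 2 (`s = p`).  `A = N / C_N(M)` is a nilpotent `p'`-group with `A = [A, d]`, `r ∤ |A|`.  Choose `ν` with `ν ^ r ≡ 1` which is not an eigenvalue of `d` on `M`: if `C_M(d) = 0`, `ν = 1`.  Else `C_{M₁}(d) ≤ W` gives a `p`-element `1 ≠ y ∈ W ∩ P`; `C_P(y) ≤ E W` has only the weights `μ` (on `E`) and `1` (for `x' = e w`: `d x' d⁻¹ = e ^ μ w`; if `ν ≢ 1, μ` ... `(d - 1)(d - μ)` kills every section), so by `wl` `ν = μ²` (`≢ 1, μ` as `r` is odd) is not an eigenvalue on `M`.  In `GL(M)` (or `MulAut`, `M ⋊ Aut M`) the element `d' = ν⁻¹ d` has `d' ^ r = 1`, no fixed vector, normalises the image of `A` acting as `d`; S3769 gives `[A, d] = 1`, `A = 1`. -/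
theorem ol {N W E : Subgroup Γ} {d : Γ} {p r μ : ℕ} (hp : p.Prime) (hr : r.Prime) (r2 : r ≠ 2) (odd : Odd (Nat.card N))
    (WN : W ≤ N) (EN : E ≤ N) (Ep : ∀ e ∈ E, e ^ p = 1) (Ec : ∀ e ∈ E, ∀ x ∈ N, Commute e x) (dN : Nm d N) (dr : d ^ r = 1)
    (μr : μ ^ r ≡ 1 [MOD p]) (μ1 : ¬ μ ≡ 1 [MOD p]) (dE : ∀ e ∈ E, d * e * d⁻¹ = e ^ μ) (dW : ∀ w ∈ W, Commute d w)
    (Cd : ∀ x ∈ N, Commute d x → x ∈ W) (idx : ¬ r ∣ W.relIndex N) (gen : N ≤ Cm N d)
    (Cw : ∀ w ∈ W, w ≠ 1 → ∀ x ∈ N, Commute w x → ∃ e ∈ E, ∃ w' ∈ W, x = e * w') : Group.IsNilpotent N := by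
  have dn : d ∈ normalizer (N : Set Γ) := mem_normalizer_fintype dN
  have : (N.subgroupOf (normalizer (N : Set Γ))).Normal := normal_in_normalizer
  have e := subgroupOfEquivOfLe (le_normalizer (H := N))
  have h : OL.OH (N.subgroupOf (normalizer (N : Set Γ))) (W.subgroupOf _) (E.subgroupOf _) ⟨d, dn⟩ p r μ :=
    ⟨hp, hr, r2, Nat.card_congr e.toEquiv ▸ odd, comap_mono WN, comap_mono EN, fun e he => Subtype.ext (Ep e he),
      fun e he x hx => Subtype.ext (Ec e he x hx), Subtype.ext dr, μr, μ1, fun e he => Subtype.ext (dE e he),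
      fun w hw => Subtype.ext (dW w hw), fun x hx c => Cd x hx (congrArg Subtype.val c.eq),
      by rwa [relIndex_subgroupOf le_normalizer], fun H hH x hx => by
        obtain ⟨y, hy, e⟩ := (gen.trans ((closure_le (H.map (Subgroup.subtype _))).2 (by
          rintro _ ⟨y, hy, rfl⟩
          exact mem_map_of_mem _ (hH ⟨y, le_normalizer hy⟩ hy)))) hx
        exact (show y = x from Subtype.ext e) ▸ hy,
      fun w hw w1 x hx c => by
        obtain ⟨e, he, v, hv, k⟩ := Cw w hw (fun e => w1 (Subtype.ext e)) x hx (congrArg Subtype.val c.eq)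
        exact ⟨⟨e, le_normalizer (EN he)⟩, he, ⟨v, le_normalizer (WN hv)⟩, hv, Subtype.ext k⟩⟩
  have := h.nil
  exact Group.nilpotent_of_mulEquiv e

end CL.Cq
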