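/- S3235, disconnected case: type `PSL₂`, `p - 1` not a power of 2. -/
import Mathlib
import Cfsg.Agent.CHEV.Cq.Cl
import Cfsg.Agent.CHEV.Cq.OL
import Cfsg.Agent.S0033

set_option autoImplicit false
set_option maxHeartbeats 400000

namespace CL.Cq

open Subgroup CL.PT CL.PT.L2x

variable {p : ℕ} {G Ω : Type*} [Group G] [MulAction G Ω] [Finite G] [Finite Ω] {S : Ω → Set G} {D : Ω → Ω → ℤ → G} {a b : Ω}

namespace Nx

theorem fm {s : ℕ} (hs : s.Prime) {g : G} (hg : g ^ s = 1) (Φ : Set Ω) (iv : ∀ c ∈ Φ, g • c ∈ Φ) :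
    Φ.ncard ≡ {c ∈ Φ | g • c = c}.ncard [MOD s] := by
  have := Fact.mk hs
  have e := fix_mod hs (R := zpowers g) (fun x => ⟨1, by
    obtain ⟨_, k, rfl⟩ := x
    exact Subtype.ext (show (g ^ k) ^ s ^ 1 = 1 by
      rw [pow_one, ← zpow_natCast, ← zpow_mul, mul_comm, zpow_mul, zpow_natCast, hg, one_zpow])⟩) Φ fun x hx c hc => by
      obtain ⟨k, rfl⟩ := (mem_powers_iff_mem_zpowers.2 hx)
      induction k with
      | zero => simpa using hc
      | succ k ih => simpa only [pow_succ', mul_smul] using iv _ (ih (npow_mem_zpowers g k))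
  rwa [show {c ∈ Φ | ∀ x ∈ zpowers g, x • c = c} = {c ∈ Φ | g • c = c} from Set.ext fun c => and_congr_right fun _ =>
    ⟨fun k => k g (mem_zpowers g), fun k x hx => (zpowers_le (H := MulAction.stabilizer G c)).2 k hx⟩] at e

theorem nm {g : G} {H : Subgroup G} (h : Nm g H) : g ∈ normalizer (H : Set G) :=
  mem_normalizer_fintype h

section
variable {F : Type} [Field F]

theorem wu (t : F) : ww * uu t * ww⁻¹ = ll (-t) := by rw [ww_uu, neg_neg]

theorem wl (t : F) : ww * ll t * ww⁻¹ = uu (-t) := by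
  rw [mul_inv_eq_iff_eq_mul]
  apply ext2 <;> simp [mul_ap, ww_val, uu_val, ll_val]

theorem wd (s : F) (hs : s ≠ 0) : ww * dd s hs * (ww * dd s hs) = -1 := by
  apply ext2 <;> simp [mul_ap, ww_val, dd_val, hs]

end

end Nx

/-- Let `i ∈ C a` be an involution.  It fixes only `a` (the `W a c` are conjugate, of odd order), so `n` is odd.  Full chart `φ` over `F` (`cenW`).  If `-1` is a square in `F`, `v4` gives `n` even.  So `|F| ≡ 3 (4)`.  A conjugate `i'` of `i` exchanges `a`, `b` (2-transitivity) and has one fixed point `a'`; it keeps `ℓ = Ln a b` (`LP_line`: `Ln b a = Ln a b`), of even size, so it has no fixed point on `ℓ`.  It normalises `W`; `1 ≠ w ∈ C_W(i')` would fix `a' ∉ ℓ`; so it is enough to show that `i'` centralises `W`.  `m = φ ww`, `g = m⁻¹ i' ∈ G_ab`, `Full.aut`: `α`, `σ`.  `i'² = 1` on `u(t)`: `i' u(t) i' = l(-α σ t)`, `i' l(s) i' = u(-α⁻¹ σ s)`, so `σ α = α`, `σ² = 1`; `σ = 1` (else `δ`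 with `σ δ = -δ`; `|F|` is the square of `|Fix σ|`, `≡ 1 (4)`; or `eig`-type: `-1` non-square, `δ` or `-δ` is `r²`, `(σ r / r)² = -1`).  `i' pt(s) = pt(-1 / (α s))` has no fixed point, so `-α` is a non-square, `α = β²`; `g φ(dd β)⁻¹ = w ∈ W` (`full_W`), `i' = k w`, `k ∈ range φ` commuting with `w`; `k² = w⁻² ∈ W ∩ range φ = 1` (centre, `φ (-1) = 1`), `w = 1`. -/
theorem Hz.n_odd (h : Hz p S D) (al : ∀ a b : Ω, a ≠ b → D a b (-1) = 1) (t : Trs (C S a) a) (n : a ≠ b)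
    (w1 : W S a b ≠ ⊥) (wo : Odd (Nat.card (W S a b))) : Odd (Nat.card (C S a)) := by
  have := Fact.mk Nat.prime_two
  refine Nat.not_even_iff_odd.1 fun ev => ?_
  obtain ⟨⟨i, hi⟩, o⟩ := exists_prime_orderOf_dvd_card' 2 ev.two_dvd
  rw [← Subgroup.orderOf_coe] at o
  have o : orderOf i = 2 := o
  have w2 : ∀ w ∈ W S a b, w ^ 2 = 1 → w = 1 := fun w hw e => orderOf_eq_one_iff.1 (Nat.eq_one_of_dvd_coprimes
    (Nat.coprime_two_left.2 wo) (orderOf_dvd_of_pow_eq_one e) (orderOf_dvd_natCard _ hw))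
  have ii : i ^ 2 = 1 := o ▸ pow_orderOf_eq_one i
  have fx : ∀ c, i • c = c → c = a := fun c e => by_contra fun ca => by
    obtain ⟨u, hu, rfl⟩ := t n.symm ca
    have := w2 (u⁻¹ * i * u⁻¹⁻¹) (mem_W.2 ⟨mul_mem (mul_mem (inv_mem hu) hi) (inv_mem (inv_mem hu)), by
      rw [inv_inv, mul_smul, mul_smul, e, inv_smul_smul]⟩)
      (by rw [conj_pow, ii, mul_one, mul_inv_cancel])
    rw [conj_eq_one_iff.1 this, orderOf_one] at o
    omega
  have od := Nx.fm Nat.prime_two ii (Set.univ : Set Ω) fun _ _ => trivial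
  rw [show {c ∈ (Set.univ : Set Ω) | i • c = c} = {a} from Set.ext fun c =>
    ⟨fun k => fx c k.2, fun k => ⟨trivial, k ▸ h.C_fix hi⟩⟩, Set.ncard_univ, Set.ncard_singleton] at od
  obtain ⟨⟨w, hw⟩, w1⟩ := ne_bot_iff_exists_ne_one.1 w1
  have w1 : w ≠ 1 := fun e => w1 (Subtype.ext e)
  have lp := (h.cenW (R := {w}) ⟨w, rfl, w1⟩ n fun _ e => e ▸ hw).1
  obtain ⟨F, _, _, _, φ, f⟩ := id lp
  have z1 : φ (-1) = 1 := (h.Dz n f.toChart).symm.trans (al a b n)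
  have ns : ¬ IsSquare (-1 : F) := fun ⟨ι, e⟩ => by
    have ι0 : ι ≠ 0 := fun q => by simp [q] at e
    have := (h.v4 n f.toChart (al a b n) e.symm ι0 fun x hx => by
      obtain ⟨s, rfl⟩ := f.uS x hx
      rw [← map_inv, ← map_mul, ← map_mul, dd_uu, ← e, neg_one_mul, uu_neg, map_inv, zpow_neg_one]).1
    rw [Nat.even_iff] at this
    rw [Nat.ModEq] at od
    omega
  have i2 : ∀ c : Ω, i • i • c = c := fun c => by rw [← mul_smul, ← pow_two, ii, one_smul]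
  obtain ⟨g, ga, gb⟩ := h.tr2_of (fun u hu => h.C_fix hu) t (fun e => n (fx b e.symm).symm : b ≠ i • b) n
  obtain ⟨j, hj⟩ : ∃ j, j = g * i * g⁻¹ := ⟨_, rfl⟩
  have ja : j • a = b := by rw [hj, mul_smul, mul_smul, ← ga, inv_smul_smul, gb]
  have jb : j • b = a := by rw [hj, mul_smul, mul_smul, inv_smul_eq_iff.2 gb.symm, i2, ga]
  have jj : j ^ 2 = 1 := by rw [hj, conj_pow, ii, mul_one, mul_inv_cancel]
  have jf : ∀ c, j • c = c → c = g • a := fun c e => by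
    rw [hj, mul_smul, mul_smul, smul_eq_iff_eq_inv_smul] at e
    exact inv_smul_eq_iff.1 (fx _ e)
  have jg : j • g • a = g • a := by rw [hj, mul_smul, mul_smul, inv_smul_smul, h.C_fix hi]
  have nl : g • a ∉ Ln S a b := fun hl => by
    have e := Nx.fm Nat.prime_two jj (Ln S a b) fun c hc => by
      have := h.Ln_smul j a b hc
      rwa [ja, jb, (h.LP_line n lp (Or.inr ⟨1, one_mem _, one_smul _ _⟩) (Or.inl rfl) n.symm).2.1] at this
    rw [show {c ∈ Ln S a b | j • c = c} = {g • a} from Set.ext fun c =>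
      ⟨fun k => jf c k.2, fun k => k ▸ ⟨hl, jg⟩⟩, h.Ln_card n, Set.ncard_singleton, Nat.ModEq] at e
    have := Nat.odd_iff.1 (h.E_card a b).2.1
    omega
  have wa := f.toChart.w_smul h.toSys n
  obtain ⟨k, rfl⟩ : ∃ k, j = φ ww * k := ⟨_, (mul_inv_cancel_left _ j).symm⟩
  have ka : k • a = a := smul_left_cancel (φ ww) (by rw [← mul_smul, ja, wa.1])
  have kb : k • b = b := smul_left_cancel (φ ww) (by rw [← mul_smul, jb, wa.2])
  obtain ⟨α, σ, α0, ku, kl, -, kp⟩ := f.aut h n ka kb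
  have cj : ∀ x : G, φ ww * k * x * (φ ww * k)⁻¹ = φ ww * (k * x * k⁻¹) * (φ ww)⁻¹ := fun x => by group
  have key : ∀ t, t = α⁻¹ * (σ α * σ (σ t)) := fun t => f.toChart.u_inj h.toSys n (by
    calc φ (uu t) = φ ww * k * (φ ww * k * φ (uu t) * (φ ww * k)⁻¹) * (φ ww * k)⁻¹ := by
          rw [← mul_assoc, ← mul_assoc, ← pow_two, jj, one_mul, mul_assoc, ← mul_inv_rev, ← pow_two, jj, inv_one, mul_one]
      _ = _ := by
          rw [cj (φ (uu t)), ku, ← map_inv, ← map_mul, ← map_mul, Nx.wu, cj, kl, ← map_inv, ← map_mul, ← map_mul, Nx.wl]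
          simp)
  have σα : σ α = α := by
    have := key 1
    rw [map_one, map_one, mul_one, eq_inv_mul_iff_mul_eq₀ α0, mul_one] at this
    exact this.symm
  have σ1 : ∀ t, σ t = t := by_contra fun q => ns (sq_fix (cast_ne h.pr h.p5).1 σ
    (fun t => by simpa only [σα, inv_mul_cancel_left₀ α0] using (key t).symm) (not_forall.1 q) (by simp))
  obtain ⟨β, hβ⟩ : IsSquare (-1 * -α) := sq_mul_of_not ns fun ⟨γ, e⟩ => by
    have γ0 : γ ≠ 0 := fun q => α0 (by simpa [q] using e)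
    refine nl (jf (φ (uu γ⁻¹) • b) ?_ ▸ Or.inr ⟨_, f.uE _, rfl⟩)
    rw [mul_smul, kp, σ1, f.toChart.w_pt h.toSys n (mul_ne_zero α0 (inv_ne_zero γ0)), neg_eq_iff_eq_neg.1 e]
    congr 3
    field_simp
  rw [neg_mul_neg, one_mul] at hβ
  have β0 : β ≠ 0 := fun q => α0 (by simpa [q] using hβ)
  obtain ⟨v, rfl⟩ : ∃ v, k = φ (dd β β0) * v := ⟨_, (mul_inv_cancel_left _ k).symm⟩
  have hv : v ∈ W S a b := ⟨fun e he => by
      obtain ⟨s, rfl⟩ := f.uS e he
      have := ku s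
      rw [σ1, hβ, ← dd_uu β β0, map_mul, map_mul, map_inv, mul_inv_rev, ← mul_assoc, mul_left_inj, mul_assoc, mul_assoc,
        mul_right_inj, ← mul_assoc, mul_inv_eq_iff_eq_mul] at this
      exact this.symm,
    smul_left_cancel (φ (dd β β0)) (by rw [← mul_smul, kb, (f.toChart.d_smul h.toSys n β β0).2])⟩
  rw [← mul_assoc, ← map_mul, ((h.full_W n f).1 hv _).symm.mul_pow, pow_two, ← map_mul, Nx.wd, z1, one_mul] at jj
  rw [w2 v hv jj, mul_one, ← map_mul] at jf jg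
  refine nl (h.fixW n (al a b n) hw w1 ▸ jf _ ?_)
  rw [← mul_smul, ← ((h.full_W n f).1 hw _).eq, mul_smul, jg]

/-- `p ≠ 5`, `Ctr7`.  `λ` of order `r` modulo `p`, `d = D a b λ`: `d ^ r = 1`, scalar `μ = λ²`, `μ² ≢ 1`, fixes only `a`, `b` (`sc_fix`), centralises `G_ab`.  `C_C(d) ≤ W` (it keeps `Fx d = {a, b}` and fixes `a`).
`W = 1`: `d` is fixed-point-free of order `r` on `C a`, Thompson S0033, `fin` with `O = N = C a`.
`W ≠ 1`: get `O` from `n_odd` (`O = C a`) or `oddtr`; `N = Cm O d`, `comm_trs`, `comm_gen`; `E ≤ N` (`e ^ (1 - μ)`); `ol` for `N`, `W ⊓ N`, `E a`: the index is `n - 1 ≡ 1 (r)` (`fix_mod`), `Cw` is `cenC`; `fin`. -/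
theorem Hz.pn (h : Hz p S D) (al : ∀ a b : Ω, a ≠ b → D a b (-1) = 1) {r : ℕ} (hr : r.Prime) (r2 : r ≠ 2) (rp : r ∣ p - 1) :
    End G Ω := by
  have := Fact.mk h.pr
  have := Fact.mk hr
  have := h.two
  obtain ⟨a, b, n⟩ := exists_pair_ne Ω
  have r4 : ¬ r ∣ 2 ^ 2 := fun d => r2 ((Nat.prime_dvd_prime_iff_eq hr Nat.prime_two).1 (hr.dvd_of_dvd_pow d))
  have t : Trs (C S a) a := h.Ctr7 (fun e => r4 (by rwa [e] at rp)) a
  obtain ⟨u, hu⟩ := exists_prime_orderOf_dvd_card' (G := (ZMod p)ˣ) r (by rwa [Nat.card_eq_fintype_card, ZMod.card_units])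
  obtain ⟨l, hl⟩ : ∃ l : ℕ, (l : ZMod p) = u := ⟨_, ZMod.natCast_zmod_val _⟩
  have pw : ∀ k : ℕ, l ^ k ≡ 1 [MOD p] ↔ r ∣ k := fun k => by
    rw [← ZMod.natCast_eq_natCast_iff, Nat.cast_pow, hl, Nat.cast_one, ← Units.val_pow_eq_pow_val, Units.val_eq_one, ← hu,
      orderOf_dvd_iff_pow_eq_one]
  have nd : ∀ k : ℕ, ¬ (p : ℤ) ∣ (l : ℤ) ^ k := fun k d => by
    have := (ZMod.intCast_zmod_eq_zero_iff_dvd _ p).2 d
    rw [Int.cast_pow, Int.cast_natCast, hl, ← Units.val_pow_eq_pow_val] at this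
    exact Units.ne_zero _ this
  have l0 : ¬ (p : ℤ) ∣ l := by simpa using nd 1
  have hk : ¬ (p : ℤ) ∣ l * l := pow_two (l : ℤ) ▸ nd 2
  have k2 : ¬ (l : ℤ) * l * (l * l) ≡ 1 [ZMOD p] := fun e => r4 ((pw _).1 (Int.natCast_modEq_iff.1 (by
    push_cast
    convert e using 1
    ring)))
  have μ1 : ¬ l * l ≡ 1 [MOD p] := fun e => r4 (((pw 2).1 (pow_two l ▸ e)).trans (by decide))
  have sc := h.Dsc n l0
  have da := h.Da (l : ℤ) n
  have db := h.Db (l : ℤ) n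
  have dW : ∀ w ∈ W S a b, Commute (D a b l) w := fun w hw => (h.D_comm n l (h.C_fix hw.1) hw.2).symm
  have dr : D a b l ^ r = 1 := by
    have : ∀ k : ℕ, D a b l ^ k = D a b (l ^ k) := fun k => by
      induction k with
      | zero => rw [pow_zero, pow_zero, h.D1 n]
      | succ k ih => rw [pow_succ, pow_succ, h.Dmul n (nd k) l0, ih]
    rw [this, h.Dmod n (by exact_mod_cast Int.natCast_modEq_iff.2 ((pw r).2 dvd_rfl) : (l : ℤ) ^ r ≡ 1 [ZMOD p]), h.D1 n]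
  generalize D a b l = d at sc da db dW dr
  have fx : ∀ c, c ≠ a → d • c = c → c = b := fun c ca e => h.sc_fix hk k2 sc ca n.symm e db
  have mv : ∀ {x : G} {c : Ω}, x • a = a → c ≠ a → x • c ≠ a := fun e ca q => ca (smul_left_cancel _ (q.trans e.symm))
  have Cd : ∀ x ∈ C S a, Commute d x → x ∈ W S a b := fun x hx c =>
    ⟨hx, fx _ (mv (h.C_fix hx) n.symm) (by rw [← mul_smul, c.eq, mul_smul, db])⟩
  have nC : ∀ g : G, g • a = a → Nm g (C S a) := fun g e x hx => e ▸ h.C_conj g hx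
  by_cases w1 : W S a b = ⊥
  · refine h.fin le_rfl nC le_rfl (fun g hg => nC g (h.C_fix hg)) (CL.Frob.isNilpotent_of_prime (R := zpowers d)
      (zpowers_le.2 (Nx.nm (nC d da))) ?_ (eq_bot_iff.2 fun x hx => w1.le (Cd x hx.1 (hx.2 d (mem_zpowers d))))) t
    rw [Nat.card_zpowers, orderOf_eq_prime dr fun e => ?_]
    · exact hr
    · exact k2 ((h.Sc_uniq sc (h.Sc_one.2 (e ▸ one_mem _))).mul (h.Sc_uniq sc (h.Sc_one.2 (e ▸ one_mem _))))
  obtain e | ⟨O, OC, odd, EO, nO, tO⟩ : End G Ω ∨ ∃ O : Subgroup G, O ≤ C S a ∧ Odd (Nat.card O) ∧ E S a ≤ O ∧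
      (∀ g : G, g • a = a → Nm g O) ∧ Trs O a := by
    rcases Nat.even_or_odd (Nat.card (W S a b)) with ev | wo
    · have := Fact.mk Nat.prime_two
      obtain ⟨⟨i, hi⟩, o⟩ := exists_prime_orderOf_dvd_card' 2 ev.two_dvd
      refine h.oddtr n (al a b n) t (u := i) ⟨?_, fun e => ?_⟩ hi hk k2 sc db
      · exact (pow_two i).symm.trans (congrArg Subtype.val (o ▸ pow_orderOf_eq_one _))
      · rw [show (⟨i, hi⟩ : W S a b) = 1 from Subtype.ext e, orderOf_one] at o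
        omega
    · exact Or.inr ⟨_, le_rfl, h.n_odd al t n w1 wo, h.E_le_C a, nC, t⟩
  · exact e
  have tN : Trs (Cm O d) a := h.comm_trs hk k2 OC tO (nO d da) sc n db
  obtain ⟨NO, nN, dN, gen⟩ := h.comm_gen OC tN tO (nO d da) n dW
  have EN : E S a ≤ Cm O d := fun e he => by
    refine (zpowers_le (g := e ^ (1 - l * l : ℤ))).2 (Subgroup.subset_closure (by refine ⟨e, EO he, ?_⟩; rw [mul_assoc, mul_assoc, ← mul_assoc d, sc _ (inv_mem he), zpow_sub, zpow_one, inv_zpow])) (mem_zpowers_zpow_iff.2 ?_)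
    · refine Int.isCoprime_iff_gcd_eq_one.1 (IsCoprime.of_isCoprime_of_dvd_right
        ((Nat.prime_iff_prime_int.1 h.pr).coprime_iff_not_dvd.2 fun q => μ1 (Int.natCast_modEq_iff.1 ?_)).symm
        (Int.natCast_dvd_natCast.2 (orderOf_dvd_of_pow_eq_one (h.toSys.E_pow he))))
      exact Int.modEq_iff_dvd.2 (by exact_mod_cast q)
  refine h.fin OC nO NO nN (ol (W := W S a b ⊓ Cm O d) (μ := l * l) h.pr hr r2 (odd.of_dvd_nat (card_dvd_of_le NO))
    inf_le_right EN (fun e he => h.toSys.E_pow he) (fun e he x hx => OC (NO hx) e he) dN dr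
    (by rw [← pow_two, ← pow_mul]; exact (pw _).2 (dvd_mul_left r 2)) μ1
    (fun e he => by rw [sc e he, ← zpow_natCast, Nat.cast_mul]) (fun w hw => dW w hw.1)
    (fun x hx c => ⟨Cd x (OC (NO hx)) c, hx⟩) (fun q => ?_) gen fun w hw w1 x hx c => ?_) tN
  · have e := Nx.fm hr dr ({a}ᶜ : Set Ω) fun c hc => mv da hc
    rw [show {c ∈ ({a}ᶜ : Set Ω) | d • c = c} = {b} from Set.ext fun c =>
      ⟨fun k => fx c k.1 k.2, fun k => k ▸ ⟨n.symm, db⟩⟩, Set.ncard_singleton] at e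
    rw [relIndex, show (W S a b ⊓ Cm O d).subgroupOf (Cm O d) = MulAction.stabilizer (Cm O d) b from
      Subgroup.ext fun x => ⟨fun k => k.1.2, fun k => ⟨⟨OC (NO x.2), k⟩, x.2⟩⟩, MulAction.index_stabilizer,
      show MulAction.orbit (Cm O d) b = {a}ᶜ from Set.ext fun c => ⟨fun ⟨x, k⟩ => k ▸ mv (h.C_fix (OC (NO x.2))) n.symm,
        fun k => (tN n.symm k).elim fun x q => ⟨⟨x, q.1⟩, q.2⟩⟩] at q
    exact hr.ne_one (Nat.dvd_one.1 ((e.dvd_iff dvd_rfl).1 q))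
  · obtain ⟨e, he, w', hw', rfl, -⟩ := h.cenC n (al a b n) hw.1 w1 (OC (NO hx)) c
    exact ⟨e, he, w', ⟨hw', (mul_mem_cancel_left (EN he)).1 hx⟩, rfl⟩

end CL.Cq
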