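/- S3235, disconnected case, `p = 5`, `W = 1`: the fixed points of `σ`. -/
import Mathlib
import Cfsg.Agent.CHEV.Cq.Cl

set_option autoImplicit false

namespace CL.Cq.Psi0

open Subgroup CL.PT CL.PT.L2x

universe u

variable {G Ω : Type u} [Group G] [MulAction G Ω] [Finite G] [Finite Ω] {S : Ω → Set G} {D : Ω → Ω → ℤ → G} {a b : Ω} {σ x : G}

theorem psi_tb0 (h : Hz 5 S D) (al : ∀ a b : Ω, a ≠ b → D a b (-1) = 1) (w1 : ∀ a b : Ω, a ≠ b → W S a b = ⊥) (n : a ≠ b)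
    (iσ : Iv σ) (σb : σ • b = b) (hx : x ∈ S a) (σx : Commute σ x) :
    ∃ (K : Type) (_ : Field K) (_ : Fintype K) (u : K → G), (∀ y z, u (y + z) = u y * u z) ∧
    (∀ y, u y ∈ C S a ∧ Commute σ (u y)) ∧ (∀ g ∈ C S a, Commute σ g → ∃ y, u y = g) ∧
    (∀ y z, u y • b = u z • b → y = z) ∧
    (∀ g : G, Commute σ g → g • a = b → g • b = a →
      ∃ (c : K) (θ : K ≃+* K), c ≠ 0 ∧ ∀ y, y ≠ 0 → g • u y • b = u (c / θ y) • b) := by
  obtain ⟨F, i1, i2, i3, φ, c, -, cm, -, -, e | ⟨-, d, -, hd⟩⟩ := h.cen (R := {σ}) ⟨σ, rfl, iσ.2⟩ n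
    (by rintro _ rfl; exact σb) hx (by rintro _ rfl; exact σx)
  swap
  · exact absurd (by rw [al a b n, one_smul]) hd
  rw [Hz.Fs_one] at e
  have cm' : ∀ A, Commute σ (φ A) := cm σ rfl
  have sy := h.toSys
  have k3 : ∀ g ∈ C S a, Commute σ g → ∃ y, φ (uu y) = g := by
    intro g hg cg
    have m : g • b ∈ Fx Ω σ := by
      change σ • g • b = g • b
      rw [← mul_smul, cg.eq, mul_smul, σb]
    rw [e] at m
    rcases m with m | ⟨t, m⟩
    · exact absurd (MulAction.injective g ((h.C_fix hg).trans m.symm)) n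
    · have : (φ (uu t))⁻¹ * g ∈ W S a b := by
        refine ⟨(C S a).mul_mem ((C S a).inv_mem (h.E_le_C a (c.uE t))) hg, ?_⟩
        change ((φ (uu t))⁻¹ * g) • b = b
        rw [mul_smul, ← m, inv_smul_smul]
      rw [w1 a b n, mem_bot, inv_mul_eq_one] at this
      exact ⟨t, this⟩
  refine ⟨F, i1, i2, fun y => φ (uu y), fun y z => by simp only [uu_add, map_mul],
    fun y => ⟨h.E_le_C a (c.uE y), cm' _⟩, k3, fun y z q => c.pt_inj sy n q, fun g cg ga gb => ?_⟩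
  obtain ⟨wa, wb⟩ := c.w_smul sy n
  have wa' : (φ ww)⁻¹ • b = a := by rw [inv_smul_eq_iff, wa]
  have wb' : (φ ww)⁻¹ • a = b := by rw [inv_smul_eq_iff, wb]
  have fa : (g * (φ ww)⁻¹) • a = a := by rw [mul_smul, wb', gb]
  have fb : (g * (φ ww)⁻¹) • b = b := by rw [mul_smul, wa', ga]
  have cg' : Commute σ (g * (φ ww)⁻¹) := cg.mul_right (cm' _).inv_right
  have gn : ∀ A, (g * (φ ww)⁻¹) * φ A * (g * (φ ww)⁻¹)⁻¹ ∈ φ.range := by
    generalize g * (φ ww)⁻¹ = k at fa fb cg'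
    have : (φ.range.comap (MulAut.conj k).toMonoidHom).comap φ = ⊤ := by
      refine gen_top _ (fun t => ?_) (fun t => ?_)
      · have m := sy.E_conj k (c.uE t)
        rw [fa] at m
        obtain ⟨y, hy⟩ := k3 _ (h.E_le_C a m) ((cg'.mul_right (cm' _)).mul_right cg'.inv_right)
        exact ⟨_, hy⟩
      · have m := sy.E_conj k (c.lE t)
        rw [fb] at m
        have m' := sy.E_conj (φ ww)⁻¹ m
        rw [wa'] at m'
        obtain ⟨y, hy⟩ := k3 _ (h.E_le_C a m') (((cm' _).inv_right.mul_right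
          ((cg'.mul_right (cm' _)).mul_right cg'.inv_right)).mul_right (cm' _).inv_right.inv_right)
        refine ⟨ww * uu y * ww⁻¹, ?_⟩
        change _ = k * φ (ll t) * k⁻¹
        rw [map_mul, map_mul, hy, map_inv]
        group
    intro A
    have m : A ∈ (φ.range.comap (MulAut.conj k).toMonoidHom).comap φ := by rw [this]; trivial
    exact m
  obtain ⟨α, θ, α0, -, -, -, q⟩ := c.aut sy n fa fb gn
  refine ⟨-α, θ, neg_ne_zero.2 α0, fun y y0 => ?_⟩
  have : g = g * (φ ww)⁻¹ * φ ww := by group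
  change g • φ (uu y) • b = φ (uu (-α / θ y)) • b
  rw [this, mul_smul, c.w_pt sy n y0, q, map_neg, map_inv₀, div_eq_mul_inv, mul_neg, neg_mul]

end CL.Cq.Psi0
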