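/- S3235, disconnected case, `p = 5`, `W = 1`: first lemmas. -/
import Mathlib
import Cfsg.Agent.CHEV.Cq.Cl
import Cfsg.Agent.CHEV.Cq.F2

set_option autoImplicit false
set_option linter.unusedSectionVars false

namespace CL.Cq

open Subgroup CL.PT CL.PT.L2x

universe u

variable {G Ω : Type u} [Group G] [MulAction G Ω] [Finite G] [Finite Ω] {S : Ω → Set G} {D : Ω → Ω → ℤ → G} {a b : Ω} {σ x : G}

theorem PsiA.fix {p : ℕ} (h : Sys p S) (hx : x ∈ S a) (σx : Commute σ x) : σ • a = a := by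
  have := h.conj σ hx
  rw [σx.eq, mul_inv_cancel_right] at this
  exact h.pt_eq this hx

theorem PsiA.τ (h : Hz 5 S D) (n : a ≠ b) : Sc S a (D a b 2) (-1) :=
  h.Sc_mod (h.Dsc n (by decide)) (by decide)

namespace Hz

variable (h : Hz 5 S D) (al : ∀ a b : Ω, a ≠ b → D a b (-1) = 1) (w1 : ∀ a b : Ω, a ≠ b → W S a b = ⊥) (n : a ≠ b)
  (iσ : Iv σ) (σb : σ • b = b) (hx : x ∈ S a) (σx : Commute σ x)
include h al w1 n iσ σb hx σx

theorem psi_nil : Odd (Nat.card (C S a)) ∧ (∀ g ∈ C S a, Commute σ g → g ∈ E S a) ∧ Group.IsNilpotent (C S a) := by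
  have odd : Odd (Nat.card (C S a)) := by
    refine Nat.not_even_iff_odd.1 fun ev => ?_
    obtain ⟨s, hs⟩ := exists_prime_orderOf_dvd_card' 2 ev.two_dvd
    have ss : (s : G) * s = 1 := by rw [← sq, ← coe_pow, ← hs, pow_orderOf_eq_one, coe_one]
    have sa := h.C_fix s.2
    have e := AutB.even_ncard (s := {a}ᶜ) (fun c => (s : G) • c)
      (fun c hc e => hc (smul_left_cancel _ (e.trans sa.symm))) (fun c => by rw [← mul_smul, ss, one_smul])
      fun c hc e => by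
        have : (s : G) ∈ W S a c := ⟨s.2, e⟩
        rw [w1 a c (Ne.symm hc), mem_bot, OneMemClass.coe_eq_one] at this
        simp [this] at hs
    obtain ⟨y, hy, d⟩ := AutD.par h n hx
    have e' := (h.v4' n (al a b n) (i := 2) (by decide) hx hy d).2.2.2.2.1
    rw [← Set.ncard_add_ncard_compl {a}, Set.ncard_singleton, add_comm, Nat.even_add_one] at e'
    exact e' e
  have cE : ∀ g ∈ C S a, Commute σ g → g ∈ E S a := fun g hg c => by
    obtain ⟨e, he, w, hw, rfl⟩ := h.C_Ln n hg ((h.fix_plus n (al a b n) iσ.2 σb hx σx (PsiA.τ h n)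
      (h.Db 2 n)).1 (show σ • g • b = g • b by rw [← mul_smul, c.eq, mul_smul, σb]))
    rw [w1 a b n, mem_bot] at hw
    rwa [hw, mul_one]
  have nm : Nm σ (C S a) := fun g hg => by
    have := h.C_conj σ hg
    rwa [PsiA.fix h.toSys hx σx] at this
  have σi : σ⁻¹ = σ := inv_eq_of_mul_eq_one_right iσ.1
  have iv : ∀ g ∈ C S a, σ * g * σ⁻¹ * g ∈ E S a := fun g hg => by
    obtain ⟨_, ⟨k, rfl⟩, c⟩ := F2.dec odd iσ.1 nm hg
    beta_reduce at c
    have hv := zpow_mem (mul_mem hg (nm _ (inv_mem hg))) k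
    have e := cE _ (mul_mem (inv_mem hv) hg) c
    have e1 : σ * (g * (σ * g⁻¹ * σ⁻¹)) ^ k * σ⁻¹ = ((g * (σ * g⁻¹ * σ⁻¹)) ^ k)⁻¹ := by
      rw [← conj_zpow, ← inv_zpow]
      congr 1
      rw [σi, mul_assoc, mul_assoc, mul_assoc (σ * g⁻¹), iσ.1]
      simp [σi, mul_assoc]
    generalize (g * (σ * g⁻¹ * σ⁻¹)) ^ k = u at hv e e1 c
    obtain ⟨e', rfl⟩ : ∃ e', g = u * e' := ⟨u⁻¹ * g, by group⟩
    rw [inv_mul_cancel_left] at e c
    convert mul_mem e e using 1
    calc _ = σ * u * σ⁻¹ * (σ * e' * σ⁻¹ * u) * e' := by group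
      _ = _ := by rw [e1, c.eq, mul_inv_cancel_right, hv _ e]; group
  refine ⟨odd, cE, ⟨2, eq_top_iff.2 fun g _ => Subgroup.mem_upperCentralSeries_succ_iff.2 fun k => ?_⟩⟩
  rw [Subgroup.upperCentralSeries_one, mem_center_iff]
  have e1 := iv _ (inv_mem g.2)
  have e2 := iv _ (inv_mem k.2)
  have : (g : G) * k * (g : G)⁻¹ * (k : G)⁻¹ ∈ E S a := by
    convert mul_mem (inv_mem (mul_mem e1 e2)) (iv _ (mul_mem (inv_mem g.2) (inv_mem k.2))) using 1
    have := g.2 _ e2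
    calc _ = (σ * (k : G)⁻¹ * σ⁻¹ * (k : G)⁻¹)⁻¹ * ((σ * (k : G)⁻¹ * σ⁻¹ * (k : G)⁻¹) * g) * k *
        (g : G)⁻¹ * (k : G)⁻¹ := by group
      _ = _ := by rw [this]; group
  exact fun l => Subtype.ext (l.2 _ this).symm

theorem psi_two {s m : G} (is : Iv s) (ne : s ≠ m) (mm : m * m = 1) {c d e : Ω} (ms : Sc S c m (-1))
    (cd : c ≠ d) (sc : s • c = c) (sd : s • d = d) (se : s • e = e) (md : m • d = d) (me : m • e = e) :
    e = c ∨ e = d := by
  obtain ⟨y, hy, k | k⟩ := h.mx cd (i := 2) (by decide) is.1 sc sd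
  · exact (h.fix_plus cd (al c d cd) is.2 sd hy (mul_inv_eq_iff_eq_mul.1 k) ms md).2 e se me
  · refine (h.fix_plus cd (al c d cd) (s := s * m) (fun e => ne (by rw [← mul_one s, ← mm, ← mul_assoc, e, one_mul]))
      (by rw [mul_smul, md, sd]) hy (mul_inv_eq_iff_eq_mul.1 ?_) ms md).2 e (by rw [mul_smul, me, se]) me
    have := ms y (subset_closure hy)
    rw [zpow_neg_one] at this
    calc _ = s * (m * y * m⁻¹) * s⁻¹ := by group
      _ = (s * y * s⁻¹)⁻¹ := by rw [this]; group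
      _ = y := by rw [k, inv_inv]

end Hz

end CL.Cq
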