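/- S3235, disconnected case, `p = 5`, `W = 1`: an element of `G_ab` acting on `E a` as the scalar `2`. -/
import Mathlib
import Cfsg.Agent.CHEV.Cq.Cl

set_option autoImplicit false
set_option linter.unusedSectionVars false
set_option maxHeartbeats 400000

namespace CL.Cq.PsiD

open Subgroup CL.PT CL.PT.L2x

variable {G Ω : Type*} [Group G] [MulAction G Ω] [Finite G] [Finite Ω] {S : Ω → Set G} {D : Ω → Ω → ℤ → G} {a b : Ω} {σ x : G}

/-- the statement of `norm3` -/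
def N3 : Prop := ∀ {F : Type} [Field F] [Finite F] (θ : F ≃+* F) (_ : ∃ t, θ t ≠ t) {c : F} (_ : c ≠ 0)
    (_ : ∀ t, t ≠ 0 → c / θ (c / θ t) = t), ∃ t₁ t₂ t₃ : F, t₁ ≠ t₂ ∧ t₁ ≠ t₃ ∧ t₂ ≠ t₃ ∧ t₁ ≠ 0 ∧ t₂ ≠ 0 ∧ t₃ ≠ 0 ∧
      c / θ t₁ = t₁ ∧ c / θ t₂ = t₂ ∧ c / θ t₃ = t₃

/-- the statement of `psi_two` -/
def Two (S : Ω → Set G) : Prop := ∀ {s m : G} (_ : Iv s) (_ : s ≠ m) (_ : m * m = 1) {c d e : Ω} (_ : Sc S c m (-1))
    (_ : c ≠ d) (_ : s • c = c) (_ : s • d = d) (_ : s • e = e) (_ : m • d = d) (_ : m • e = e), e = c ∨ e = d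

/-- the conclusion of `psi_tb`, `psi_tb0` -/
def TB (S : Ω → Set G) (a b : Ω) (s : G) : Prop :=
  ∃ (K : Type) (_ : Field K) (_ : Fintype K) (u : K → G), (∀ y z, u (y + z) = u y * u z) ∧
    (∀ y, u y ∈ C S a ∧ Commute s (u y)) ∧ (∀ g ∈ C S a, Commute s g → ∃ y, u y = g) ∧
    (∀ y z, u y • b = u z • b → y = z) ∧
    (∀ g : G, Commute s g → g • a = b → g • b = a →
      ∃ (c : K) (θ : K ≃+* K), c ≠ 0 ∧ ∀ y, y ≠ 0 → g • u y • b = u (c / θ y) • b)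

/-- an involution of type `-1` exchanging `a` and `b` -/
structure Sw (S : Ω → Set G) (a b : Ω) (m : G) : Prop where
  mm : m * m = 1
  ma : m • a = b
  mb : m • b = a
  sc : ∀ c, m • c = c → Sc S c m (-1)

theorem key (h : Hz 5 S D) (n : a ≠ b) (n3 : N3) (two : Two S) {s : G} (is : Iv s) (sa : s • a = a) (sb : s • b = b)
    (tb : TB S a b s) {m₁ m₂ : G} (w₁ : Sw S a b m₁) (w₂ : Sw S a b m₂) (c₁ : Commute s m₁) (c₂ : Commute s m₂)
    {e : G} (he : e ∈ C S a) (se : Commute s e) (e1 : e ≠ 1) (de : m₁ * m₂ * e * (m₁ * m₂)⁻¹ = e * e)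
    {g : G} (hg : g ∈ C S a) (sg : Commute s g) : m₁ * m₂ * g * (m₁ * m₂)⁻¹ = g * g := by
  obtain ⟨K, _, _, u, ad, uc, us, ui, sw⟩ := tb
  have u0 : u 0 = 1 := by
    have := ad 0 0
    rw [add_zero] at this
    exact left_eq_mul.1 this
  have lin : ∀ {m : G}, Sw S a b m → Commute s m → ∃ c : K, c ≠ 0 ∧ ∀ y, y ≠ 0 → m • u y • b = u (c / y) • b := by
    intro m w cm
    obtain ⟨c, θ, c0, e⟩ := sw m cm w.ma w.mb
    by_cases θ1 : ∃ t, θ t ≠ t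
    · exfalso
      obtain ⟨t₁, t₂, t₃, d12, d13, d23, z1, z2, z3, f1, f2, f3⟩ := n3 θ θ1 c0 fun t ht => ui _ _ (by
        rw [← e _ (div_ne_zero c0 ((map_ne_zero θ).2 ht)), ← e t ht, ← mul_smul, w.mm, one_smul])
      have fs : ∀ t, s • u t • b = u t • b := fun t => by rw [← mul_smul, (uc t).2.eq, mul_smul, sb]
      have fm : ∀ {t}, t ≠ 0 → c / θ t = t → m • u t • b = u t • b := fun ht f => by rw [e _ ht, f]
      rcases two is (fun c => n (by rw [← w.ma, ← c, sa])) w.mm (w.sc _ (fm z1 f1)) (fun c => d12 (ui _ _ c))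
        (fs t₁) (fs t₂) (fs t₃) (fm z2 f2) (fm z3 f3) with c | c
      · exact d13 (ui _ _ c).symm
      · exact d23 (ui _ _ c).symm
    · push Not at θ1
      exact ⟨c, c0, fun y hy => by rw [e y hy, θ1]⟩
  obtain ⟨k₁, z₁, f₁⟩ := lin w₁ c₁
  obtain ⟨k₂, z₂, f₂⟩ := lin w₂ c₂
  have da : (m₁ * m₂) • a = a := by rw [mul_smul, w₂.ma, w₁.mb]
  have db : (m₁ * m₂) • b = b := by rw [mul_smul, w₂.mb, w₁.ma]
  have cj : ∀ y, m₁ * m₂ * u y * (m₁ * m₂)⁻¹ = u (k₁ / k₂ * y) := by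
    intro y
    by_cases y0 : y = 0
    · rw [y0, mul_zero, u0, mul_one, mul_inv_cancel]
    obtain ⟨y', e⟩ := us _ (da ▸ h.C_conj (m₁ * m₂) (uc y).1)
      (((c₁.mul_right c₂).mul_right (uc y).2).mul_right (c₁.mul_right c₂).inv_right)
    rw [← e]
    refine congrArg u (ui _ _ ?_)
    rw [e, mul_smul, inv_smul_eq_iff.2 db.symm, mul_smul, mul_smul, f₂ y y0, f₁ _ (div_ne_zero z₂ y0)]
    congr 2
    field_simp
  obtain ⟨y₀, rfl⟩ := us e he se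
  obtain ⟨y, rfl⟩ := us g hg sg
  have y0 : y₀ ≠ 0 := fun c => e1 (c ▸ u0)
  rw [cj, ← ad] at de ⊢
  have : k₁ / k₂ = 2 := mul_right_cancel₀ y0 ((ui _ _ (by rw [de])).trans (two_mul y₀).symm)
  rw [this, two_mul]

variable {F : Type} [Field F]

theorem mu_val {β : F} (hβ : β ≠ 0) : (AutA.mu β).1 = !![0, β; -β⁻¹, 0] := by
  ext i j
  fin_cases i <;> fin_cases j <;> simp [AutA.mu, mul_ap, uu_val, ll_val, hβ]

theorem mu_neg {β : F} (hβ : β ≠ 0) : AutA.mu (-β) = AutA.mu β * -1 := by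
  apply ext2 <;> simp [mu_val hβ, mu_val (neg_ne_zero.2 hβ)]

theorem mu_sq {β : F} (hβ : β ≠ 0) : AutA.mu β * AutA.mu β = -1 := by
  apply ext2 <;> simp [mul_ap, mu_val hβ, hβ]

theorem mu_eq {β : F} (hβ : β ≠ 0) : AutA.mu β = dd (-β) (neg_ne_zero.2 hβ) * ww := by
  apply ext2 <;> simp [mul_ap, mu_val hβ, dd_val, ww_val]

theorem mu_cj [CharP F 5] {β : F} (hβ : β ≠ 0) (h2 : (2 : F) ≠ 0) :
    ∃ R : Matrix.SpecialLinearGroup (Fin 2) F, R * dd 2 h2 = AutA.mu β * R := by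
  have h5 : (5 : F) = 0 := by exact_mod_cast CharP.cast_eq_zero F 5
  obtain ⟨R, hR⟩ : ∃ R : Matrix.SpecialLinearGroup (Fin 2) F, R.1 = !![-2, 2 * β; β⁻¹, 1] :=
    ⟨⟨_, by rw [Matrix.det_fin_two]; simp [hβ]; linear_combination -h5⟩, rfl⟩
  refine ⟨R, ?_⟩
  apply ext2 <;> simp [mul_ap, mu_val hβ, dd_val, hβ, hR]
  · linear_combination -h5
  · field_simp
  · field_simp; linear_combination h5

variable (h : Hz 5 S D) (al : ∀ a b : Ω, a ≠ b → D a b (-1) = 1) (w1 : ∀ a b : Ω, a ≠ b → W S a b = ⊥) (n : a ≠ b)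
  (iσ : Iv σ) (σb : σ • b = b) (hx : x ∈ S a) (σx : Commute σ x)

include h hx σx in
theorem σa : σ • a = a := by
  have := h.conj σ hx
  rw [σx.eq, mul_inv_cancel_right] at this
  exact h.toSys.pt_eq this hx

include h w1 n iσ σb hx σx in
/-- a chart on which `σ` acts by a non-trivial field automorphism -/
theorem exA : ∃ (F : Type) (_ : Field F) (_ : Fintype F) (_ : CharP F 5) (φ : Matrix.SpecialLinearGroup (Fin 2) F →* G)
    (α : F) (θ : F ≃+* F), Chart S a b φ ∧ (∃ t, θ t ≠ t) ∧ (∀ t, θ (θ t) = t) ∧ α * θ α = 1 ∧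
      (∀ t, σ * φ (uu t) * σ⁻¹ = φ (uu (α * θ t))) ∧ ∀ t, σ * φ (ll t) * σ⁻¹ = φ (ll (α⁻¹ * θ t)) := by
  have sa := σa h hx σx
  obtain ⟨x', hx', nx⟩ : ∃ x' ∈ S a, σ * x' * σ⁻¹ ≠ x' := by
    by_contra c
    push Not at c
    refine iσ.2 (mem_bot.1 (w1 a b n ▸ mem_W.2 ⟨h.Sc_one.1 fun e he => ?_, σb⟩))
    rw [zpow_one]
    induction he using closure_induction with
    | mem y hy => exact c y hy
    | one => simp
    | mul y z _ _ k l => rw [← conj_mul, k, l]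
    | inv y _ k => rw [← conj_inv, k]
  obtain ⟨F, _, _, _, φ, α, θ, c, e1, -, θθ, αα, fu, fl, -⟩ := h.mxg n hx' sa σb (k := 1) (by rw [iσ.1]; simp)
  by_cases θ1 : ∃ t, θ t ≠ t
  · exact ⟨F, inferInstance, inferInstance, inferInstance, φ, α, θ, c, θ1, θθ, by simpa using αα, fu, fl⟩
  push Not at θ1
  have iv : σ * x' * σ⁻¹ = x'⁻¹ := by
    rw [θ1, Int.cast_one] at αα
    rcases mul_self_eq_one_iff.1 αα with e | e
    · exact absurd (by rw [← e1, fu, e, θ1, mul_one]) nx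
    · rw [← e1, fu, e, θ1, mul_one, uu_neg, map_inv]
  clear fu fl θθ αα θ1 e1 c
  obtain ⟨y, hy, d⟩ := AutD.par h n hx
  have ex : σ * x * σ⁻¹ = x := by rw [σx.eq, mul_inv_cancel_right]
  have ey : σ * y * σ⁻¹ = y := by
    refine h.toSys.uniq h.sr n hx (σb ▸ h.conj σ hy) hy ?_ d
    rw [← ex]
    unfold Bd at d ⊢
    simp only [conj_mul, d]
  obtain ⟨F, _, _, _, φ, c, e1, -, ⟨β, e2⟩, rg⟩ := h.chart2 n hx hx' hy d
  obtain ⟨α, θ, -, fu, fl, -⟩ := c.aut h.toSys n sa σb fun A => AutD.nrm rg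
    (by rw [iv, rg]; exact inv_mem (mem_sup_left (mem_zpowers _))) (by rw [ey, rg]; exact mem_sup_right (mem_zpowers _))
    ⟨A, rfl⟩
  have α1 : α = 1 := by
    have := fu 1
    rw [e1, ex, ← e1, map_one θ, mul_one] at this
    exact (c.u_inj h.toSys n this).symm
  subst α1
  refine ⟨F, inferInstance, inferInstance, inferInstance, φ, 1, θ, c, ⟨β, fun e => nx ?_⟩, fun t => c.u_inj h.toSys n ?_, by simp, fu, fl⟩
  · rw [← e2, fu, e, one_mul]
  · have := fu (1 * θ t)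
    rw [← fu, show σ * (σ * φ (uu t) * σ⁻¹) * σ⁻¹ = σ * σ * φ (uu t) * (σ * σ)⁻¹ by group, iσ.1] at this
    simpa using this.symm

include h al w1 n iσ σb hx σx in
theorem psi_d (n3 : N3) (two : Two S) (tb : TB S a b (σ * D a b 2)) (tb0 : TB S a b σ) :
    ∃ d : G, Sc S a d 2 ∧ d • b = b := by
  have sa := σa h hx σx
  obtain ⟨F, _, _, _, φ, α, θ, c, θ1, θθ, αα, fu, fl⟩ := exA h w1 n iσ σb hx σx
  have h2 : (2 : F) ≠ 0 := (cast_ne h.pr h.p5).1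
  have tt : D a b 2 * D a b 2 = 1 := by
    rw [← h.Dmul n (by decide) (by decide), h.Dmod n (l := -1) (by decide), al a b n]
  have ts : Sc S a (D a b 2) (-1) := h.Sc_mod (h.Dsc n (by decide)) (by decide)
  have σt := h.D_comm n 2 sa σb
  have tφ : D a b 2 = φ (dd 2 h2) := by
    rw [h.Dch (k := 2) (by simpa using h2) n c]
    exact congrArg φ (AutA.dd_congr _ _ (by simp))
  have n1 := AutB.neg_one h n c (al a b n)
  have sw : ∀ {β : F}, β ≠ 0 → Sw S a b (φ (AutA.mu β)) := by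
    intro β hβ
    refine ⟨by rw [← map_mul, mu_sq hβ, n1], ?_, ?_, fun e he => ?_⟩
    · rw [mu_eq hβ, map_mul, mul_smul, (c.w_smul h.toSys n).1, (c.d_smul h.toSys n _ _).2]
    · rw [mu_eq hβ, map_mul, mul_smul, (c.w_smul h.toSys n).2, (c.d_smul h.toSys n _ _).1]
    · obtain ⟨R, hR⟩ := mu_cj hβ h2
      have := h.Sc_conj (φ R) ts
      rw [tφ, ← map_mul, hR, map_mul, mul_inv_cancel_right] at this
      exact h.sc_pm (.inr rfl) this he
  have cσ : ∀ {β : F}, β ≠ 0 → (α * θ β = β ∨ α * θ β = -β) → Commute σ (φ (AutA.mu β)) := by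
    intro β hβ e
    have : σ * φ (AutA.mu β) * σ⁻¹ = φ (AutA.mu (α * θ β)) := by
      simp only [AutA.mu, map_mul]
      rw [← conj_mul, ← conj_mul, fu, fl, map_neg, map_inv₀, mul_inv, mul_neg]
    refine mul_inv_eq_iff_eq_mul.1 (this.trans ?_)
    rcases e with e | e
    · rw [e]
    · rw [e, mu_neg hβ, map_mul, n1, mul_one]
  have ct : ∀ {β : F}, β ≠ 0 → Commute (D a b 2) (φ (AutA.mu β)) := fun hβ =>
    Commute.symm (mul_inv_eq_iff_eq_mul.1 ((h.D_swap n 2 (sw hβ).ma (sw hβ).mb).trans (inv_eq_of_mul_eq_one_right tt)))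
  obtain ⟨γ, hγ⟩ := sq_fix h2 θ θθ θ1 (c := 2) (map_ofNat θ 2)
  have γ0 : γ ≠ 0 := fun e => h2 (by rw [hγ, e, mul_zero])
  have θγ : θ γ = γ ∨ θ γ = -γ := mul_self_eq_mul_self_iff.1 (by rw [← map_mul, ← hγ, map_ofNat])
  have ττ : ∀ s, α * θ (α * θ s) = s := fun s => by rw [map_mul, θθ, ← mul_assoc, αα, one_mul]
  obtain ⟨β₁, z₁, f₁⟩ : ∃ β : F, β ≠ 0 ∧ α * θ β = β := by
    by_contra k
    push Not at k
    have k' : ∀ s, s + α * θ s = 0 := fun s => by_contra fun e => k _ e (by rw [map_add, mul_add, ττ, add_comm])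
    obtain ⟨t, ht⟩ := θ1
    have := k' 1
    rw [map_one] at this
    exact ht (by linear_combination θ t * this - k' t)
  obtain ⟨β₂, z₂, f₂⟩ : ∃ β : F, β ≠ 0 ∧ α * θ β = -β := by
    by_contra k
    push Not at k
    have k' : ∀ s, s - α * θ s = 0 := fun s => by_contra fun e => k _ e (by rw [map_sub, mul_sub, ττ, neg_sub])
    obtain ⟨t, ht⟩ := θ1
    have := k' 1
    rw [map_one] at this
    exact ht (by linear_combination θ t * this - k' t)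
  have z₃ := mul_ne_zero z₁ γ0
  have f₃ : α * θ (β₁ * γ) = β₁ * γ ∨ α * θ (β₁ * γ) = -(β₁ * γ) := by
    rw [map_mul, ← mul_assoc, f₁]
    rcases θγ with e | e <;> simp [e]
  have dm : φ (AutA.mu (β₁ * γ)) * φ (AutA.mu β₁) = φ (dd γ γ0) := by
    rw [AutA.dd_mu γ0 z₁, map_mul, map_inv, inv_eq_of_mul_eq_one_right (sw z₁).mm]
  have du : ∀ s, φ (dd γ γ0) * φ (uu s) * (φ (dd γ γ0))⁻¹ = φ (uu s) * φ (uu s) := fun s => by
    rw [← map_inv, ← map_mul, ← map_mul, dd_uu, ← hγ, two_mul, uu_add, map_mul]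
  have u1 : ∀ {s : F}, s ≠ 0 → φ (uu s) ≠ 1 := fun hs e =>
    hs (c.u_inj h.toSys n (by rw [e, uu_zero, map_one]))
  have inv : ∀ e ∈ E S a, σ * e * σ⁻¹ = e⁻¹ → Commute (σ * D a b 2) e := fun e he k =>
    mul_inv_eq_iff_eq_mul.1 (by
      rw [show σ * D a b 2 * e * (σ * D a b 2)⁻¹ = σ * (D a b 2 * e * (D a b 2)⁻¹) * σ⁻¹ by group, ts e he,
        zpow_neg_one, ← conj_inv, k, inv_inv])
  have ist : Iv (σ * D a b 2) := ⟨by rw [σt.symm.mul_mul_mul_comm, iσ.1, tt, one_mul], fun e => by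
    have k := ts x (subset_closure hx)
    rw [eq_inv_of_mul_eq_one_right e, σx.inv_left.eq, mul_inv_cancel_right, zpow_neg_one, eq_inv_iff_mul_eq_one] at k
    have p5 := h.pow hx
    rw [show x ^ 5 = x * x * (x * x) * x by simp only [pow_succ, pow_zero, one_mul, mul_assoc], k, one_mul,
      one_mul] at p5
    exact h.ne hx p5⟩
  have k1 := fun {g} => key h n n3 two iσ sa σb tb0 (sw z₃) (sw z₁) (cσ z₃ f₃) (cσ z₁ (.inl f₁))
    (h.E_le_C a (c.uE β₁)) (mul_inv_eq_iff_eq_mul.1 (by rw [fu, f₁])) (u1 z₁) (by rw [dm, du]) (g := g)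
  have k2 := fun {g} => key h n n3 two ist (by rw [mul_smul, h.Da 2 n, sa]) (by rw [mul_smul, h.Db 2 n, σb]) tb
    (sw z₃) (sw z₁) ((cσ z₃ f₃).mul_left (ct z₃)) ((cσ z₁ (.inl f₁)).mul_left (ct z₁))
    (h.E_le_C a (c.uE β₂)) (inv _ (c.uE β₂) (by rw [fu, f₂, uu_neg, map_inv])) (u1 z₂) (by rw [dm, du]) (g := g)
  rw [dm] at k1 k2
  refine ⟨φ (dd γ γ0), fun e he => ?_, (c.d_smul h.toSys n _ _).2⟩
  generalize φ (dd γ γ0) = δ at k1 k2
  have hf : σ * e * σ⁻¹ ∈ E S a := sa ▸ h.toSys.E_conj σ he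
  have ff : σ * (σ * e * σ⁻¹) * σ⁻¹ = e := by
    rw [show σ * (σ * e * σ⁻¹) * σ⁻¹ = σ * σ * e * (σ * σ)⁻¹ by group, iσ.1]; simp
  have cm := h.toSys.E_comm he hf
  have eA := k1 (h.E_le_C a (mul_mem he hf)) (mul_inv_eq_iff_eq_mul.1 (by rw [← conj_mul, ff, cm.eq]))
  have eB := k2 (h.E_le_C a (mul_mem he (inv_mem hf))) (inv _ (mul_mem he (inv_mem hf))
    (by rw [← conj_mul, ← conj_inv, ff, mul_inv_rev, inv_inv]))
  generalize σ * e * σ⁻¹ = f at *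
  have ab : e * f * (e * f⁻¹) = e ^ 2 := by rw [cm.symm.mul_mul_mul_comm, mul_inv_cancel, mul_one, pow_two]
  have cab : Commute (e * f) (e * f⁻¹) := h.toSys.E_comm (mul_mem he hf) (mul_mem he (inv_mem hf))
  have e2 : δ * e ^ 2 * δ⁻¹ = e ^ 4 := by
    rw [← ab, ← conj_mul, eA, eB, cab.mul_mul_mul_comm, ab, ← pow_add]
  have p5 := h.toSys.E_pow he
  have e6 : (e ^ 2) ^ 3 = e := by rw [← pow_mul, show 2 * 3 = 5 + 1 from rfl, pow_succ, p5, one_mul]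
  calc δ * e * δ⁻¹ = (e ^ 4) ^ 3 := by rw [← e2, conj_pow, e6]
    _ = e ^ (2 : ℤ) := by rw [← pow_mul, show 4 * 3 = 5 * 2 + 2 from rfl, pow_add, pow_mul, p5, one_pow, one_mul, zpow_two, pow_two]

end CL.Cq.PsiD
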