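/- The norm equation in a quadratic extension of finite fields. -/
import Mathlib

set_option autoImplicit false

namespace CL.Cq.PsiN

theorem surj {F : Type*} [Field F] [Finite F] (θ : F ≃+* F) {s : F} (hs : θ s ≠ s)
    (θθ : ∀ t, θ (θ t) = t) {c : F} (c0 : c ≠ 0) (hc : θ c = c) : ∃ t, t * θ t = c := by
  let τ : Fˣ →* Fˣ := Units.map (θ : F →* F)
  let N : Fˣ →* Fˣ := MonoidHom.id _ * τ
  let M : Fˣ →* Fˣ := τ / MonoidHom.id _
  have hN : ∀ t, (N t : F) = t * θ t := fun t => rfl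
  have hM : ∀ t, (M t : F) = θ t / t := fun t => by simp [M, τ]
  have h1 : N.ker ≤ M.range := fun r hr => by
    have e : (r : F) * θ r = 1 := by rw [← hN, MonoidHom.mem_ker.1 hr, Units.val_one]
    obtain ⟨a, ha⟩ : ∃ a, a + θ r * θ a ≠ 0 := by
      by_contra hn
      push Not at hn
      have h1 := hn 1
      rw [map_one, mul_one] at h1
      exact hs (by linear_combination (θ s) * h1 - hn s)
    refine ⟨Units.mk0 _ ha, Units.ext ?_⟩
    rw [hM, Units.val_mk0, div_eq_iff ha, map_add, map_mul, θθ, θθ]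
    linear_combination (-θ a) * e
  have h2 : N.range ≤ M.ker := by
    rintro _ ⟨t, rfl⟩
    refine Units.ext ?_
    rw [hM, hN, map_mul, θθ, mul_comm, div_self (mul_ne_zero t.ne_zero (by simp)), Units.val_one]
  have h3 : Nat.card M.ker ≤ Nat.card N.range := by
    have e1 := N.ker.card_mul_index
    have e2 := M.ker.card_mul_index
    rw [Subgroup.index_ker] at e1 e2
    refine Nat.le_of_mul_le_mul_right (c := Nat.card M.range) ?_ Nat.card_pos
    rw [e2, ← e1, mul_comm]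
    exact Nat.mul_le_mul_left _ (Subgroup.card_le_of_le h1)
  obtain ⟨t, ht⟩ := (Subgroup.eq_of_le_of_card_ge h2 h3).ge (x := Units.mk0 c c0)
    (Units.ext (by rw [hM, Units.val_mk0, hc, div_self c0, Units.val_one]))
  exact ⟨t, by rw [← hN, ht, Units.val_mk0]⟩

theorem norm3 {F : Type*} [Field F] [Finite F] (θ : F ≃+* F) (θ1 : ∃ t, θ t ≠ t) {c : F} (c0 : c ≠ 0)
    (iv : ∀ t, t ≠ 0 → c / θ (c / θ t) = t) : ∃ t₁ t₂ t₃ : F, t₁ ≠ t₂ ∧ t₁ ≠ t₃ ∧ t₂ ≠ t₃ ∧ t₁ ≠ 0 ∧ t₂ ≠ 0 ∧ t₃ ≠ 0 ∧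
      c / θ t₁ = t₁ ∧ c / θ t₂ = t₂ ∧ c / θ t₃ = t₃ := by
  obtain ⟨s, hs⟩ := θ1
  have nz : ∀ {t : F}, t ≠ 0 → θ t ≠ 0 := fun h => by simpa using h
  have hc : θ c = c := by
    have := iv 1 one_ne_zero
    rw [map_one, div_one, div_eq_one_iff_eq (nz c0)] at this
    exact this.symm
  have θθ : ∀ t, θ (θ t) = t := fun t => by
    by_cases ht : t = 0
    · simp [ht]
    · have := iv t ht
      rwa [map_div₀, hc, div_div_cancel₀ c0] at this
  obtain ⟨t, ht⟩ := surj θ hs θθ c0 hc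
  have t0 : t ≠ 0 := fun h => c0 (by rw [← ht, h, zero_mul])
  have s0 : s ≠ 0 := fun h => hs (by simp [h])
  have s1 : s + 1 ≠ 0 := fun h => hs (by simp [eq_neg_of_add_eq_zero_left h])
  have key : ∀ {u : F}, u ≠ 0 → c / θ (t * (θ u / u)) = t * (θ u / u) := fun {u} hu => by
    have := nz hu
    have := nz t0
    rw [map_mul, map_div₀, θθ, ← ht]
    field_simp
  refine ⟨t, t * (θ s / s), t * (θ (s + 1) / (s + 1)), fun h => hs ?_, fun h => hs ?_, fun h => hs ?_,
    t0, mul_ne_zero t0 (div_ne_zero (nz s0) s0), mul_ne_zero t0 (div_ne_zero (nz s1) s1),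
    by rw [← ht, mul_div_cancel_right₀ _ (nz t0)], key s0, key s1⟩
  · exact (div_eq_one_iff_eq s0).1 (mul_left_cancel₀ t0 (h.symm.trans (mul_one t).symm))
  · simpa using (div_eq_one_iff_eq s1).1 (mul_left_cancel₀ t0 (h.symm.trans (mul_one t).symm))
  · have := (div_eq_div_iff s0 s1).1 (mul_left_cancel₀ t0 h)
    rw [map_add, map_one] at this
    linear_combination this

end CL.Cq.PsiN
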