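/- S3235, disconnected case: all pairs of type `SL₂`. -/
import Mathlib
import Cfsg.Agent.CHEV.Cq.Cl
import Cfsg.Agent.S0215

set_option autoImplicit false
set_option linter.unusedSectionVars false

namespace CL.Cq

open Subgroup CL.PT CL.PT.L2x Cfsg

variable {p : ℕ} {G Ω : Type*} [Group G] [MulAction G Ω] [Finite G] [Finite Ω] {S : Ω → Set G} {D : Ω → Ω → ℤ → G} {a b c : Ω}

namespace SLx

theorem cj (h : Hz p S D) (n : a ≠ b) {g : G} (ga : g • a = a) (k : ℤ) : g * D a b k * g⁻¹ = D a (g • b) k := by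
  rw [← h.Deqv g k n, ga]

theorem ne_of {g : G} (n : a ≠ b) (ga : g • a = a) : a ≠ g • b := fun e =>
  n ((MulAction.injective g) (show g • a = g • b by rw [ga, ← e]))

theorem reach (h : Hz p S D) (n : a ≠ b) (n' : a ≠ c) (z1 : D a b (-1) ≠ 1) (z2 : D a c (-1) ≠ 1) {M : Subgroup G}
    (EM : E S a ≤ M) (m : D a b (-1) * D a c (-1) ∈ M) : ∃ u ∈ M, u • b = c := by
  have od := h.z_odd n n' z1 z2
  rcases dih (h.z_sq n) (h.z_sq n') with ⟨-, k, e, -⟩ | ⟨k, l, iv, -⟩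
  · have ga : (D a b (-1) * D a c (-1)) ^ k • a = a :=
      h.C_fix (pow_mem (mul_mem (h.z_mem n).1 (h.z_mem n').1) k)
    rw [cj h n ga] at e
    have f : (D a b (-1) * D a c (-1)) ^ k • b ∈ Fx Ω (D a c (-1)) := by
      have := h.Db (-1) (ne_of n ga)
      rwa [e] at this
    rw [(h.fixz n' z2).2] at f
    obtain ⟨u, hu, e'⟩ := f.resolve_left (ne_of n ga).symm
    exact ⟨u⁻¹ * _ ^ k, mul_mem (inv_mem (EM hu)) (pow_mem m k), by rw [mul_smul, ← e', inv_smul_smul]⟩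
  · have := Fact.mk Nat.prime_two
    have o2 := orderOf_eq_prime (p := 2) (by rw [pow_two]; exact iv.1) iv.2
    exact absurd (od.of_dvd_nat (o2 ▸ orderOf_pow_dvd k)) (by decide)

theorem trs {U : Subgroup G} (h : ∀ c, c ≠ a → ∃ u ∈ U, u • b = c) : Trs U a := fun hx hy => by
  obtain ⟨u, hu, rfl⟩ := h _ hx
  obtain ⟨v, hv, rfl⟩ := h _ hy
  exact ⟨v * u⁻¹, mul_mem hv (inv_mem hu), by rw [mul_smul, inv_smul_smul]⟩

theorem nm_cm {O : Subgroup G} {g d : G} (gO : Nm g O) (c : Commute g d) : Nm g (Cm O d) := by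
  have : Cm O d ≤ (Cm O d).comap (MulAut.conj g).toMonoidHom := by
    refine (closure_le _).2 ?_
    rintro _ ⟨x, hx, rfl⟩
    refine subset_closure ⟨_, gO x hx, ?_⟩
    change g * _ * g⁻¹ = _
    have e : d = g * d * g⁻¹ := by rw [c.eq, mul_inv_cancel_right]
    conv_rhs => rw [e]
    group
  exact this

theorem fixpt {s : ℕ} (hs : s.Prime) {R : Subgroup G} (hR : IsPGroup s R) {Φ : Set Ω} (iv : ∀ x ∈ R, ∀ c ∈ Φ, x • c ∈ Φ)
    (Ra : ∀ x ∈ R, x • a = a) (ha : a ∈ Φ) {m : ℕ} (hm : Φ.ncard = m + 1) (sm : ¬ s ∣ m) :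
    ∃ c ∈ Φ, c ≠ a ∧ ∀ x ∈ R, x • c = c := by
  have k := fix_mod hs hR (Φ \ {a}) fun x hx c hc => ⟨iv x hx c hc.1, fun e => hc.2 (MulAction.injective x
    (show x • c = x • a by rw [Ra x hx]; exact e))⟩
  rw [Set.ncard_sdiff_singleton_of_mem ha, hm, Nat.add_sub_cancel] at k
  obtain ⟨c, hc, e⟩ := Set.nonempty_of_ncard_ne_zero (fun e => sm ((Nat.modEq_zero_iff_dvd).1 (e ▸ k)))
  exact ⟨c, hc.1, hc.2, e⟩

theorem fs_card (h : Hz p S D) {R : Set G} (r1 : ∃ w ∈ R, w ≠ 1) (n : a ≠ b) (rw : ∀ w ∈ R, w ∈ W S a b) :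
    ∃ k, (Fs Ω R).ncard = p ^ k + 1 := by
  obtain ⟨-, -, k, -, e⟩ := h.E_card a a
  rcases (h.cenW r1 n rw).2 with f | ⟨f, -⟩
  · exact ⟨k, by rw [f, h.Ln_card n, e]⟩
  · exact ⟨k * 3, by rw [f, e, pow_mul]⟩

theorem sq_mem {O : Subgroup G} {x : G} (od : Odd (orderOf x)) (m : x * x ∈ O) : x ∈ O := by
  obtain ⟨k, hk⟩ := od
  have : x = (x * x) ^ (k + 1) := by
    rw [← pow_two, ← pow_mul, show 2 * (k + 1) = orderOf x + 1 by omega, pow_succ, pow_orderOf_eq_one, one_mul]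
  exact this ▸ pow_mem m _

theorem core (h : Hz p S D) (n : a ≠ b) (z1 : D a b (-1) ≠ 1) {O : Subgroup G} (OC : O ≤ C S a) (od : Odd (Nat.card O))
    (nO : ∀ g : G, g • a = a → Nm g O) (t' : Trs O a) (k : ℤ) (EN : E S a ≤ Cm O (D a b k)) (t : Trs (Cm O (D a b k)) a)
    (H : ∀ (s : ℕ) (R : Subgroup G), s.Prime → s ≠ p → R ≤ C S a → IsPGroup s R → Nm (D a b (-1)) R → R ⊓ W S a b ≠ ⊥ →
      R ≤ W S a b)
    (j : D a b k * D a b k = D a b (-1) ∨ Odd (orderOf (D a b k))) : End G Ω := by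
  have dW : ∀ l, ∀ w ∈ W S a b, Commute (D a b l) w := fun l w hw => (h.D_comm n l (h.C_fix hw.1) hw.2).symm
  obtain ⟨NO, nN, dN, gen⟩ := h.comm_gen OC t t' (nO _ (h.Da k n)) n (dW k)
  have dz := h.D_comm n (-1) (h.Da k n) (h.Db k n)
  have nE : ∀ l, Nm (D a b l) (E S a) := fun l x hx => by
    simpa only [h.Da l n] using h.toSys.E_conj (D a b l) hx
  have oN := od.of_dvd_nat (card_dvd_of_le NO)
  refine h.fin OC nO NO nN (zl (W := W S a b ⊓ Cm O (D a b k)) h.pr oN inf_le_right EN (h.toSys.E_pg a)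
    (fun e he x hx => OC (NO hx) e he) dN (nm_cm (nO _ (h.Da _ n)) dz.symm) (nE _) (nE _) dz (h.z_sq n)
    (fun w hw => dW k w hw.1) (fun x hx c => ?_) gen (fun s R hs sp RN hR zR ne => ?_)
    fun P O₁ _ _ _ _ _ n1 d1 _ i1 i2 x hx => ?_) t
  · obtain ⟨e, he, w, hw, rfl⟩ := h.C_Ln n (OC (NO hx)) (by
      rw [← (h.fixz n z1).2]
      change _ • _ • b = _
      rw [← mul_smul, c.eq, mul_smul, h.Db _ n])
    exact ⟨e, he, w, ⟨hw, (mul_mem_cancel_left (EN he)).1 hx⟩, rfl⟩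
  · exact le_inf (H s R hs sp (RN.trans (NO.trans OC)) hR zR fun e => ne (eq_bot_iff.2
      ((inf_le_inf_left _ inf_le_left).trans e.le))) RN
  · set d := D a b k
    have ox : Odd (orderOf x) := oN.of_dvd_nat (orderOf_dvd_natCard _ hx)
    have s2 : ∀ x ∈ Cm O d, x⁻¹ * (d * d * x * (d * d)⁻¹) ∈ O₁ := fun x hx => by
      have := mul_mem (inv_mem (n1 _ (inv_mem hx) _ (i1 x hx))) (i1 _ (dN x hx))
      convert this using 1
      group
    refine sq_mem ox ?_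
    rcases j with j | ⟨m, hm⟩
    · have := mul_mem (i2 x hx) (inv_mem (s2 x hx))
      rw [← j] at this
      convert this using 1
      group
    · have s3 : ∀ l : ℕ, x⁻¹ * ((d * d) ^ l * x * ((d * d) ^ l)⁻¹) ∈ O₁ := fun l => by
        induction l with
        | zero => simp
        | succ l ih =>
          have := mul_mem (s2 x hx) (d1 _ (d1 _ ih))
          convert this using 1
          rw [pow_succ']
          generalize (d * d) ^ l = q
          group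
      have e : (d * d) ^ (m + 1) = d := by
        rw [← pow_two, ← pow_mul, show 2 * (m + 1) = orderOf d + 1 by omega, pow_succ, pow_orderOf_eq_one, one_mul]
      have := mul_mem (i1 x hx) (inv_mem (s3 (m + 1)))
      rw [e] at this
      convert this using 1
      group

theorem E_le (h : Hz p S D) {O : Subgroup G} (EO : E S a ≤ O) {d : G} {k : ℤ} (sc : Sc S a d k) (hk : ¬ (p : ℤ) ∣ 1 - k) :
    E S a ≤ Cm O d := by
  intro e he
  obtain ⟨u, v, huv⟩ := (Nat.prime_iff_prime_int.1 h.pr).irreducible.coprime_iff_not_dvd.2 hk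
  have m : e ^ v * d * (e ^ v)⁻¹ * d⁻¹ ∈ Cm O d := subset_closure ⟨_, EO (zpow_mem he v), rfl⟩
  have k1 := sc _ (inv_mem (zpow_mem he v))
  have k2 : e ^ (p : ℤ) = 1 := by rw [zpow_natCast, h.toSys.E_pow he]
  have k3 : e = e ^ v * (e ^ v)⁻¹ ^ k := by
    conv_lhs => rw [← zpow_one e, ← huv, zpow_add, mul_comm u, zpow_mul, k2, one_zpow, one_mul]
    group
  rw [k3, ← k1]
  simpa only [mul_assoc] using m

end SLx

open SLx

theorem Hz.sl_odd (h : Hz p S D) (al : ∀ a b : Ω, a ≠ b → D a b (-1) ≠ 1) (a : Ω) :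
    ∃ O : Subgroup G, O ≤ C S a ∧ Odd (Nat.card O) ∧ E S a ≤ O ∧ (∀ g : G, g • a = a → Nm g O) ∧ Trs O a := by
  have := h.two
  have := Fact.mk Nat.prime_two
  obtain ⟨b, n⟩ := exists_ne a
  replace n := n.symm
  let z : C S a := ⟨_, (h.z_mem n).1⟩
  have zz : z ^ 2 = 1 := Subtype.ext (by rw [pow_two]; exact h.z_sq n)
  have oz : orderOf z = 2 := orderOf_eq_prime zz fun e => al a b n (congrArg Subtype.val e)
  obtain ⟨P, hP⟩ := (IsPGroup.of_card (G := zpowers z) (p := 2) (n := 1) (by rw [Nat.card_zpowers, oz, pow_one])).exists_le_sylow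
  obtain ⟨N, nN, oN, hN⟩ := Cfsg.Agent.S0215.result P z oz (hP (mem_zpowers z)) fun g hg => by
    have ga := h.C_fix g.2
    have od := h.z_odd n (ne_of n ga) (al _ _ n) (al _ _ (ne_of n ga))
    rw [← cj h n ga] at od
    obtain ⟨k, hk⟩ := P.2.exists_orderOf_eq_pow ⟨_, mul_mem (hP (mem_zpowers z)) hg⟩
    rw [← orderOf_coe, ← orderOf_coe] at hk
    change orderOf (D a b (-1) * (g * D a b (-1) * (g : G)⁻¹)) = _ at hk
    rcases k with _ | k
    · have e : z * (g * z * g⁻¹) = 1 := Subtype.ext (orderOf_eq_one_iff.1 hk)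
      rw [pow_two] at zz
      exact mul_left_cancel (e.trans zz.symm)
    · exact absurd ((hk ▸ od).of_dvd_nat (dvd_pow_self 2 k.succ_ne_zero)) (by decide)
  have OC : (pPrimeCore 2 (C S a)).map (C S a).subtype ≤ C S a := map_subtype_le _
  have EO : E S a ≤ (pPrimeCore 2 (C S a)).map (C S a).subtype :=
    le_map_pPrimeCore (h.E_le_C a) (centralizer_le_normalizer _) (Nat.coprime_two_right.2 (h.E_card a a).2.1)
  refine ⟨_, OC, Nat.coprime_two_right.1 (coprime_card_map_pPrimeCore _), EO, fun g ga x hx => ?_,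
    trs (b := b) fun c n' => ?_⟩
  · refine (mem_normalizer_iff.1 (normalizer_le_normalizer_map_pPrimeCore (C S a) ?_) x).1 hx
    refine mem_normalizer_iff.2 fun y => ⟨fun hy => ga ▸ h.C_conj g hy, fun hy => ?_⟩
    simpa [mul_assoc, inv_smul_eq_iff.2 ga.symm] using h.C_conj g⁻¹ hy
  · replace n' := n'.symm
    refine reach h n n' (al _ _ n) (al _ _ n') EO ?_
    have od := h.z_odd n n' (al _ _ n) (al _ _ n')
    rcases dih (h.z_sq n) (h.z_sq n') with ⟨-, k, e, -⟩ | ⟨k, l, iv, -⟩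
    · refine ⟨_, le_pPrimeCore (Nat.coprime_two_right.2 oN)
        (hN ⟨_, pow_mem (mul_mem (h.z_mem n).1 (h.z_mem n').1) k⟩), ?_⟩
      change D a b (-1) * _ ^ k * (D a b (-1))⁻¹ * (_ ^ k)⁻¹ = _
      rw [inv_eq_of_mul_eq_one_right (h.z_sq n), mul_assoc, mul_assoc, ← mul_assoc (_ ^ k), e]
    · have o2 := orderOf_eq_prime (p := 2) (by rw [pow_two]; exact iv.1) iv.2
      exact absurd (od.of_dvd_nat (o2 ▸ orderOf_pow_dvd k)) (by decide)

theorem Hz.sl_H (h : Hz p S D) (n : a ≠ b) (z1 : D a b (-1) ≠ 1) {s : ℕ} {R : Subgroup G} (hs : s.Prime) (sp : s ≠ p)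
    (RC : R ≤ C S a) (hR : IsPGroup s R) (zR : Nm (D a b (-1)) R) (ne : R ⊓ W S a b ≠ ⊥) : R ≤ W S a b := by
  refine le_of_cen hs hR ne fun c cR cW c1 g gR cg => ?_
  have nd : ∀ {s k : ℕ}, s.Prime → s ≠ p → ¬ s ∣ p ^ k := fun hs sp e =>
    sp ((Nat.prime_dvd_prime_iff_eq hs h.pr).1 (hs.dvd_of_dvd_pow e))
  have zc := h.D_comm n (-1) (h.C_fix cW.1) cW.2
  let R₁ := R ⊓ centralizer {c}
  obtain ⟨k, hk⟩ := fs_card h (R := {c}) ⟨c, rfl, c1⟩ n (by rintro _ rfl; exact cW)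
  obtain ⟨b', -, n', fb⟩ := fixpt (R := R₁) hs (hR.to_le inf_le_left) (Φ := Fs Ω {c}) (a := a)
    (by
      rintro x hx y hy _ rfl
      rw [← mul_smul, hx.2 _ rfl, mul_smul, hy _ rfl])
    (fun x hx => h.C_fix (RC hx.1)) (by rintro _ rfl; exact h.C_fix cW.1) hk (nd hs sp)
  obtain ⟨l, hl⟩ := fs_card h (R := (R₁ : Set G)) ⟨c, ⟨cR, by rintro _ rfl; rfl⟩, c1⟩ n'.symm
    fun w hw => ⟨RC hw.1, fb w hw⟩
  have zz := h.z_sq n
  have zi := inv_eq_of_mul_eq_one_right zz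
  have z2 : IsPGroup 2 (zpowers (D a b (-1))) := by
    have := Fact.mk Nat.prime_two
    exact IsPGroup.of_card (n := 1) (by
      rw [Nat.card_zpowers, pow_one]; exact orderOf_eq_prime (by rw [pow_two, zz]) z1)
  obtain ⟨b'', f1, n'', f2⟩ := fixpt Nat.prime_two z2 (Φ := Fs Ω (R₁ : Set G)) (a := a)
    (fun x hx y hy w hw => by
      have m : x⁻¹ * w * x⁻¹⁻¹ ∈ R₁ := by
        have : zpowers (D a b (-1)) ≤ normalizer (R₁ : Set G) := zpowers_le.2 (mem_normalizer_fintype fun y hy =>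
          ⟨zR y hy.1, mem_centralizer_singleton_iff.2
            ((zc.symm.mul_left (mem_centralizer_singleton_iff.1 hy.2)).mul_left zc.symm.inv_left)⟩)
        exact (mem_normalizer_iff.1 (this (inv_mem hx)) w).1 hw
      have := hy _ m
      rwa [inv_inv, mul_smul, mul_smul, inv_smul_eq_iff] at this)
    (fun x hx => h.C_fix (zpowers_le.2 (h.z_mem n).1 hx)) (fun w hw => h.C_fix (RC hw.1)) hl
    (nd Nat.prime_two (by have := h.p5; omega))
  have m : b'' ∈ Ln S a b := (h.fixz n z1).2 ▸ f2 _ (mem_zpowers _)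
  rw [← (h.Ln_mem n m n'').2.1]
  exact ⟨RC gR, f1 g ⟨gR, by rintro _ rfl; exact cg⟩⟩

theorem Hz.sl (h : Hz p S D) (al : ∀ a b : Ω, a ≠ b → D a b (-1) ≠ 1) : End G Ω := by
  have := h.two
  have := Fact.mk h.pr
  have p5 := h.p5
  obtain ⟨a, b, n⟩ := exists_pair_ne Ω
  obtain ⟨O, OC, od, EO, nO, t⟩ := h.sl_odd al a
  have H := fun s R hs sp RC hR zR ne => h.sl_H n (al a b n) (s := s) (R := R) hs sp RC hR zR ne
  have nd : ∀ m : ℕ, ¬ p ∣ m → ¬ (p : ℤ) ∣ m := fun m k e => k (Int.natCast_dvd_natCast.1 e)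
  have n2 : ∀ m : ℕ, ¬ p ∣ 2 ^ m := fun m e => by
    have := Nat.le_of_dvd two_pos (h.pr.dvd_of_dvd_pow e)
    omega
  by_cases p3 : p % 4 = 3
  · have n255 : ¬ p ∣ 255 := fun e => by
      rw [show 255 = 3 * 5 * 17 by norm_num, h.pr.dvd_mul, h.pr.dvd_mul] at e
      rcases e with (e | e) | e <;> have := (Nat.prime_dvd_prime_iff_eq h.pr (by norm_num)).1 e <;> omega
    have sc := h.Dsc n (k := 4) (nd 4 (n2 2))
    refine core h n (al a b n) OC od nO t 4 (E_le h EO sc fun e => nd 255 n255 (e.trans (by norm_num)))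
      (h.comm_trs (nd 16 (n2 4)) (fun e => nd 255 n255 (e.dvd.trans (by norm_num))) OC t (nO _ (h.Da 4 n)) sc n (h.Db 4 n))
      H (.inr ?_)
    have pw : ∀ m : ℕ, D a b 4 ^ m = D a b (4 ^ m) := fun m => by
      induction m with
      | zero => rw [pow_zero, pow_zero, h.D1 n]
      | succ m ih =>
        rw [pow_succ, pow_succ, ih, h.Dmul (k := 4 ^ m) (l := 4) n (fun e => nd 4 (n2 2)
          ((Nat.prime_iff_prime_int.1 h.pr).dvd_of_dvd_pow e)) (nd 4 (n2 2))]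
    refine Odd.of_dvd_nat (n := p / 2) (by rw [Nat.odd_iff]; omega) (orderOf_dvd_of_pow_eq_one ?_)
    rw [pw, ← h.D1 n]
    refine h.Dmod n ?_
    have := Int.ModEq.pow_card_sub_one_eq_one h.pr (n := 2)
      ((Nat.prime_iff_prime_int.1 h.pr).irreducible.coprime_iff_not_dvd.2 (nd 2 (n2 1))).symm
    rwa [show p - 1 = 2 * (p / 2) by omega, pow_mul] at this
  · obtain ⟨r, hr⟩ := ZMod.exists_sq_eq_neg_one_iff.2 p3
    obtain ⟨i, rfl⟩ := ZMod.intCast_surjective r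
    have hi : i * i ≡ -1 [ZMOD p] := (ZMod.intCast_eq_intCast_iff _ _ _).1 (by push_cast; exact hr.symm)
    have ip : ¬ (p : ℤ) ∣ i := fun e => nd 1 (fun e => h.pr.one_lt.ne' (Nat.dvd_one.1 e)) (by
      have := (Int.ModEq.dvd hi).add (e.mul_right i)
      rwa [sub_add_cancel, dvd_neg] at this)
    have dd : D a b i * D a b i = D a b (-1) := by rw [← h.Dmul n ip ip, h.Dmod n hi]
    have EN := E_le h EO (h.Sc_mod (h.Dsc n ip) hi) (nd 2 (n2 1))
    refine core h n (al a b n) OC od nO t i EN (trs (b := b) fun c n' => ?_) H (.inl dd)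
    refine reach h n n'.symm (al _ _ n) (al _ _ n'.symm) EN ?_
    obtain ⟨x, hx, rfl⟩ := t n.symm n'
    have m : x * D a b i * x⁻¹ * (D a b i)⁻¹ ∈ Cm O (D a b i) := subset_closure ⟨x, hx, rfl⟩
    have m' := inv_mem (mul_mem m (nm_cm (nO _ (h.Da i n)) (Commute.refl _) _ m))
    have zi := inv_eq_of_mul_eq_one_right (h.z_sq n)
    rw [← cj h n (h.C_fix (OC hx))]
    convert m' using 1
    conv_lhs => enter [2]; rw [← zi]
    rw [← dd]
    simp only [mul_inv_rev, inv_inv, mul_assoc, inv_mul_cancel_left]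

end CL.Cq
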