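/- S3235, disconnected case: semiregularity, part 1, the lemmas on `Sys`. -/
import Mathlib
import Cfsg.Agent.CHEV.Cq.Bas

set_option autoImplicit false

namespace CL.Cq

open Subgroup CL.PT CL.PT.L2x

variable {p : ℕ} {G Ω : Type*} [Group G] [MulAction G Ω] [Finite G] [Finite Ω] {S : Ω → Set G} {a b : Ω} {x y : G}

/-- `N_a(b)` -/
def NN (S : Ω → Set G) (a b : Ω) : Subgroup G := E S a ⊓ MulAction.stabilizer G b

theorem mem_NN {g : G} : g ∈ NN S a b ↔ g ∈ E S a ∧ g • b = b := Iff.rfl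

namespace Sr1

theorem nrm {H M : Subgroup G} (k : ∀ g ∈ H, ∀ m ∈ M, g * m * g⁻¹ ∈ M) : H ≤ normalizer (M : Set G) := fun g hg =>
  mem_normalizer_iff.2 fun m => ⟨k g hg m, fun hm => by simpa [mul_assoc] using k g⁻¹ (inv_mem hg) _ hm⟩

theorem N1 {u : G} (hu : u ∈ NN S a b) : u ∈ E S a := hu.1
theorem N2 {u : G} (hu : u ∈ NN S a b) : u • b = b := hu.2
theorem Z1 {A B : Subgroup G} {u : G} (hu : u ∈ A ⊓ B) : u ∈ A := hu.1
theorem Z2 {A B : Subgroup G} {u : G} (hu : u ∈ A ⊓ B) : u ∈ B := hu.2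

variable (h : Sys p S)
include h

theorem cj {g e : G} (hg : g • a = a) (he : e ∈ E S a) : g * e * g⁻¹ ∈ E S a := by
  simpa [hg] using h.E_conj g he

theorem cjS {g : G} (hg : g • a = a) (hx : x ∈ S a) : g * x * g⁻¹ ∈ S a := by
  simpa [hg] using h.conj g hx

theorem cjN {g u : G} {c d : Ω} (ha : g • a = c) (hb : g • b = d) (hu : u ∈ NN S a b) : g * u * g⁻¹ ∈ NN S c d :=
  ⟨ha ▸ h.E_conj g hu.1, by
    have : u • b = b := hu.2
    change (g * u * g⁻¹) • d = d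
    rw [← hb, mul_smul, inv_smul_smul, mul_smul, this]⟩

theorem NN_nrm : NN S b a ≤ normalizer (NN S a b : Set G) :=
  nrm fun _ hv _ hu => cjN h hv.2 (h.E_fix hv.1) hu

theorem ZN {ζ : G} (hζ : ζ ∈ E S a ⊓ E S b) : ζ ∈ NN S a b := ⟨hζ.1, h.E_fix hζ.2⟩

theorem one_of {g : G} {j : ℕ} (hg : g ^ p = 1) (hj : g ^ j = 1) (j0 : j ≠ 0) (jp : j < p) : g = 1 :=
  (pow_eq_one_iff_of_coprime ((Nat.coprime_of_lt_prime j0 jp h.pr))).1 ⟨hg, hj⟩

end Sr1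

open Sr1

namespace Sys

variable (h : Sys p S) (n : a ≠ b)
include h n

/-- for `x ∈ S a` with partner `y`: `m` centralises `y`, so `y` is a partner of `x' = m x m⁻¹`; `bd`: `x⁻¹ b = y a = x'⁻¹ b`.  Then closure induction (`e ↦ e⁻¹ m e m⁻¹` is a homomorphism on the abelian `E a`). -/
theorem cmE {e m : G} (he : e ∈ E S a) (hm : m ∈ NN S b a) : e⁻¹ * (m * e * m⁻¹) ∈ NN S a b := by
  have ma : m • a = a := (N2 hm)
  refine mem_NN.2 ⟨mul_mem (inv_mem he) (cj h ma he), ?_⟩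
  rw [mul_smul, inv_smul_eq_iff]
  induction he using closure_induction with
  | mem x hx =>
    obtain ⟨y₀, hy₀⟩ := h.ex b
    obtain ⟨y, hy, -, d, -⟩ := h.partner n hx hy₀
    have my : m * y * m⁻¹ = y := by rw [(h.E_comm (N1 hm) (subset_closure hy)).eq, mul_inv_cancel_right]
    have d' : Bd (m * x * m⁻¹) y := by
      rw [← my]
      unfold Bd at d ⊢
      simp only [conj_mul, d]
    have e1 := (h.bd hx hy d).2.2
    have e2 := (h.bd (cjS h ma hx) hy d').2.2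
    have c := h.comm hx (cjS h ma hx)
    generalize m * x * m⁻¹ = x' at e2 c ⊢
    rw [e1, inv_smul_eq_iff] at e2
    conv_lhs => rw [e2, ← mul_smul, ← mul_smul, ← c.eq, mul_inv_cancel_right]
  | one => simp
  | mul e f he hf k l =>
    rw [← conj_mul, mul_smul, l, ← mul_smul, (h.E_comm (cj h ma he) hf).eq, mul_smul, k, ← mul_smul,
      (h.E_comm hf he).eq]
  | inv e he k =>
    have c := h.E_comm he (cj h ma he)
    rw [← conj_inv]
    generalize m * e * m⁻¹ = e' at k c ⊢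
    rw [inv_smul_eq_iff, ← mul_smul, ← c.inv_left.eq, mul_smul, k, inv_smul_smul]

/-- `M = N N'` -/
theorem M_mem {g : G} : g ∈ NN S a b ⊔ NN S b a ↔ ∃ u ∈ NN S a b, ∃ v ∈ NN S b a, g = u * v := by
  refine ⟨fun hg => ?_, by rintro ⟨u, hu, v, hv, rfl⟩; exact mul_mem (mem_sup_left hu) (mem_sup_right hv)⟩
  have k := Subgroup.coe_mul_of_right_le_normalizer_left (NN S a b) (NN S b a) (NN_nrm h)
  have hg' : g ∈ ((NN S a b ⊔ NN S b a : Subgroup G) : Set G) := hg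
  rw [k] at hg'
  obtain ⟨u, hu, v, hv, e⟩ := hg'
  exact ⟨u, hu, v, hv, e.symm⟩
theorem M_pg : IsPGroup p ↥(NN S a b ⊔ NN S b a) :=
  IsPGroup.to_sup_of_normal_left' ((h.E_pg a).to_le inf_le_left) ((h.E_pg b).to_le inf_le_left) (NN_nrm h)
theorem M_conj0 {g m : G} (hg : g ∈ E S a) (hm : m ∈ NN S a b ⊔ NN S b a) : g * m * g⁻¹ ∈ NN S a b ⊔ NN S b a := by
  obtain ⟨u, hu, v, hv, rfl⟩ := (h.M_mem n).1 hm
  have k := h.cmE n (inv_mem hg) hv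
  rw [← conj_mul, (h.E_comm hg (N1 hu)).eq, mul_inv_cancel_right,
    show g * v * g⁻¹ = g⁻¹⁻¹ * (v * g⁻¹ * v⁻¹) * v by group]
  exact mul_mem (mem_sup_left hu) (mul_mem (mem_sup_left k) (mem_sup_right hv))
theorem M_conj {g m : G} (hg : g ∈ E S a ⊔ E S b) (hm : m ∈ NN S a b ⊔ NN S b a) : g * m * g⁻¹ ∈ NN S a b ⊔ NN S b a := by
  have k : E S a ⊔ E S b ≤ normalizer ((NN S a b ⊔ NN S b a : Subgroup G) : Set G) :=
    sup_le (nrm fun _ hg _ hm => h.M_conj0 n hg hm) (nrm fun _ hg _ hm => by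
      rw [sup_comm] at hm ⊢
      exact h.M_conj0 n.symm hg hm)
  exact (mem_normalizer_iff.1 (k hg) m).1 hm
theorem M_fix {g m : G} (hg : g ∈ E S a ⊔ E S b) (hm : m ∈ NN S a b ⊔ NN S b a) : m • g • a = g • a := by
  obtain ⟨u, hu, v, hv, e⟩ := (h.M_mem n).1 (h.M_conj n (inv_mem hg) hm)
  have va : v • a = a := (N2 hv)
  rw [show m = g * (g⁻¹ * m * g⁻¹⁻¹) * g⁻¹ by group, e, mul_smul, inv_smul_smul, mul_smul, mul_smul, va, h.E_fix (N1 hu)]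
/-- commutators of `N` and `N'` lie in `Z = E a ⊓ E b`, which is centralised by `E a ⊔ E b` -/
theorem NN_comm {u v : G} (hu : u ∈ NN S a b) (hv : v ∈ NN S b a) : u⁻¹ * (v * u * v⁻¹) ∈ E S a ⊓ E S b := by
  refine mem_inf.2 ⟨mul_mem (inv_mem (N1 hu)) (cj h (N2 hv) (N1 hu)), ?_⟩
  rw [show u⁻¹ * (v * u * v⁻¹) = u⁻¹ * v * u⁻¹⁻¹ * v⁻¹ by group]
  exact mul_mem (cj h (N2 (inv_mem hu)) (N1 hv)) (inv_mem (N1 hv))
/-- conjugate by `x y x` -/
theorem NN_card : Nat.card (NN S a b) = Nat.card (NN S b a) := by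
  obtain ⟨x, hx⟩ := h.ex a
  obtain ⟨y₀, hy₀⟩ := h.ex b
  obtain ⟨y, hy, -, d, -⟩ := h.partner n hx hy₀
  obtain ⟨wa, wb, -⟩ := h.bd hx hy d
  generalize x * y * x = w at wa wb
  have k : ∀ {a b : Ω}, w • a = b → w • b = a → Nat.card (NN S a b) ≤ Nat.card (NN S b a) := fun wa wb =>
    Nat.card_le_card_of_injective (fun u => ⟨w * u.1 * w⁻¹, cjN h wa wb u.2⟩) fun u v e =>
      Subtype.ext (by simpa using congrArg Subtype.val e)
  exact le_antisymm (k wa wb) (k wb wa)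

/-- the action of `w = x y x` on `N` -/
theorem wconj (hx : x ∈ S a) (hy : y ∈ S b) (d : Bd x y) {u β : G} (hu : u ∈ NN S a b) (hβ : β = y * u * y⁻¹ * u⁻¹) :
    β ∈ NN S b a ∧ x * β * x⁻¹ * β⁻¹ * u ∈ E S a ⊓ E S b ∧
      x * y * x * u * (x * y * x)⁻¹ * β⁻¹ ∈ E S a ⊓ E S b := by
  have b1 : β ∈ NN S b a := by
    have := h.cmE n.symm (inv_mem (subset_closure hy)) hu
    rwa [show y⁻¹⁻¹ * (u * y⁻¹ * u⁻¹) = β by rw [hβ]; group] at this
  have a1 : x * β * x⁻¹ * β⁻¹ ∈ NN S a b := by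
    have := h.cmE n (inv_mem (subset_closure hx)) b1
    rwa [show x⁻¹⁻¹ * (β * x⁻¹ * β⁻¹) = x * β * x⁻¹ * β⁻¹ by group] at this
  have xu : x * u * x⁻¹ = u := by rw [(h.E_comm (subset_closure hx) (N1 hu)).eq, mul_inv_cancel_right]
  have e : x * y * x * u * (x * y * x)⁻¹ * β⁻¹ = x * β * x⁻¹ * β⁻¹ * (β * u * β⁻¹) := by
    calc _ = x * (y * (x * u * x⁻¹) * y⁻¹ * u⁻¹) * x⁻¹ * (x * u * x⁻¹) * β⁻¹ := by group
      _ = _ := by rw [xu, ← hβ]; group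
  have z : x * y * x * u * (x * y * x)⁻¹ * β⁻¹ ∈ E S a ⊓ E S b :=
    mem_inf.2 ⟨e ▸ mul_mem (N1 a1) (cj h (N2 b1) (N1 hu)), mul_mem ((h.bd hx hy d).1 ▸ h.E_conj _ (N1 hu)) (inv_mem (N1 b1))⟩
  refine ⟨b1, ?_, z⟩
  have := mul_mem z (inv_mem (h.NN_comm n hu b1))
  rwa [e, show x * β * x⁻¹ * β⁻¹ * (β * u * β⁻¹) * (u⁻¹ * (β * u * β⁻¹))⁻¹ = x * β * x⁻¹ * β⁻¹ * u by group] at this

/-- `m Z` is fixed by `x` and by the partner `y`, so by `w = x y x`, which maps `N'` to `N`: `m ∈ N Z ≤ E a` -/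
theorem cm_inj (hx : x ∈ S a) {m : G} (hm : m ∈ NN S b a) (z : x⁻¹ * (m * x * m⁻¹) ∈ E S b) : m ∈ E S a := by
  obtain ⟨y₀, hy₀⟩ := h.ex b
  obtain ⟨y, hy, -, d, -⟩ := h.partner n hx hy₀
  have ca := N1 (h.cmE n (subset_closure hx) hm)
  have k := (h.bd hx hy d).2.1 ▸ h.E_conj (x * y * x) (N1 hm)
  have e1 : x * m * x⁻¹ = x * (x⁻¹ * (m * x * m⁻¹))⁻¹ * x⁻¹ * m := by group
  generalize x⁻¹ * (m * x * m⁻¹) = c at z ca e1
  have xc : x * c⁻¹ * x⁻¹ = c⁻¹ := by rw [(h.E_comm (subset_closure hx) (inv_mem ca)).eq, mul_inv_cancel_right]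
  rw [xc] at e1
  have e2 : y * (c⁻¹ * m) * y⁻¹ = c⁻¹ * m := by
    rw [(h.E_comm (subset_closure hy) (mul_mem (inv_mem z) (N1 hm))).eq, mul_inv_cancel_right]
  rw [show x * y * x * m * (x * y * x)⁻¹ = x * (y * (x * m * x⁻¹) * y⁻¹) * x⁻¹ by group, e1, e2, ← conj_mul, xc,
    e1] at k
  exact (mul_mem_cancel_left (inv_mem ca)).1 ((mul_mem_cancel_left (inv_mem ca)).1 k)

/-- `m ↦ x⁻¹ m x m⁻¹` induces an injective homomorphism (or just an injective map) `N' / Z → N / Z` of sets of the same size -/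
theorem cm_surj (hx : x ∈ S a) {w : G} (hw : w ∈ NN S a b) :
    ∃ m ∈ NN S b a, ∃ ζ ∈ E S a ⊓ E S b, w = x⁻¹ * (m * x * m⁻¹) * ζ := by
  obtain ⟨y₀, hy₀⟩ := h.ex b
  obtain ⟨y, hy, -, d, -⟩ := h.partner n hx hy₀
  obtain ⟨b1, z, -⟩ := h.wconj n hx hy d hw rfl
  generalize y * w * y⁻¹ * w⁻¹ = β at b1 z
  refine ⟨β, b1, _, z, ?_⟩
  rw [(h.comm hx (cjS h (N2 b1) hx)).inv_left.eq]
  group

/-- `b1` with `e ∈ S b` -/
theorem uniqZ (hx : x ∈ S a) {ζ : G} (hζ : ζ ∈ E S a ⊓ E S b) (h' : x * ζ ∈ S a) : ζ = 1 := by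
  by_contra c
  obtain ⟨y, hy⟩ := h.ex b
  exact n (h.b1 hx h' c (h.E_pow (Z1 hζ)) (h.E_comm (subset_closure hx) (Z1 hζ)) hy
    (h.E_comm (Z2 hζ) (subset_closure hy))).symm

/-- `cm_surj`, `uniqZ` -/
theorem fibre (hx : x ∈ S a) {w : G} (hw : w ∈ NN S a b) (h' : x * w ∈ S a) : ∃ m ∈ NN S b a, x * w = m * x * m⁻¹ := by
  obtain ⟨m, hm, ζ, hζ, rfl⟩ := h.cm_surj n hx hw
  rw [← mul_assoc, mul_inv_cancel_left] at h' ⊢
  exact ⟨m, hm, by rw [h.uniqZ n (cjS h (N2 hm) hx) hζ h', mul_one]⟩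

/-- `w = c ζ₀`, `c = x⁻¹ m x m⁻¹`, `ζ = c⁻¹ m c m⁻¹ ∈ Z`; `m ^ j x m ^ (-j) = x c ^ j ζ ^ (j (j - 1) / 2)`, so by `uniqZ` `x w ^ j ∈ S a` iff `ζ₀ ^ j = ζ ^ (j (j - 1) / 2)`, iff `j = 0` or `ζ₀ ^ 2 = ζ ^ (j - 1)` (exponent `p`).  If `ζ = 1`: all `j` or only `0`; else at most one more `j`. -/
theorem cnt (hx : x ∈ S a) {w : G} (hw : w ∈ NN S a b) :
    let k := {j : ZMod p | x * w ^ j.val ∈ S a}.ncard
    k = 1 ∨ k = 2 ∨ k = p := by
  dsimp only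
  have : Fact p.Prime := ⟨h.pr⟩
  obtain ⟨m, hm, ζ₀, h0, rfl⟩ := h.cm_surj n hx hw
  have hc := h.cmE n (subset_closure hx) hm
  have hζ := h.NN_comm n hc hm
  have e1 : m * x * m⁻¹ = x * (x⁻¹ * (m * x * m⁻¹)) := by group
  generalize x⁻¹ * (m * x * m⁻¹) = c at *
  have e2 : m * c * m⁻¹ = c * (c⁻¹ * (m * c * m⁻¹)) := by group
  generalize c⁻¹ * (m * c * m⁻¹) = ζ at *
  have e3 : m * ζ * m⁻¹ = ζ := by rw [(h.E_comm (N1 hm) (Z2 hζ)).eq, mul_inv_cancel_right]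
  have it : ∀ j : ℕ, m ^ j * x * (m ^ j)⁻¹ = x * c ^ j * ζ ^ j.choose 2 := by
    intro j
    induction j with
    | zero => simp
    | succ j ih =>
      rw [show m ^ (j + 1) * x * (m ^ (j + 1))⁻¹ = m * (m ^ j * x * (m ^ j)⁻¹) * m⁻¹ by group, ih, ← conj_mul,
        ← conj_mul, ← conj_pow, ← conj_pow, e1, e2, e3, (h.E_comm (N1 hc) (Z1 hζ)).mul_pow, Nat.choose_succ_succ' j 1,
        Nat.choose_one_right]
      group
  have key : ∀ j : ℕ, x * (c * ζ₀) ^ j ∈ S a ↔ ζ₀ ^ j = ζ ^ j.choose 2 := by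
    intro j
    have s := cjS h (N2 (pow_mem hm j)) hx
    have e : x * (c * ζ₀) ^ j = m ^ j * x * (m ^ j)⁻¹ * ((ζ ^ j.choose 2)⁻¹ * ζ₀ ^ j) := by
      rw [it, (h.E_comm (N1 hc) (Z1 h0)).mul_pow]; group
    rw [e]
    refine ⟨fun hs => ?_, fun hs => by rwa [hs, inv_mul_cancel, mul_one]⟩
    exact (inv_mul_eq_one.1 (h.uniqZ n s (mul_mem (inv_mem (pow_mem hζ _)) (pow_mem h0 _)) hs)).symm
  have sq : ∀ j : ZMod p, j ≠ 0 → ζ₀ ^ j.val = ζ ^ j.val.choose 2 → ζ₀ ^ 2 * ζ = ζ ^ j.val := by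
    intro j j0 e
    have j0' : j.val ≠ 0 := by simpa using j0
    obtain ⟨i, hi⟩ := Nat.exists_eq_succ_of_ne_zero j0'
    have ch : j.val.choose 2 * 2 = i * j.val := by
      rw [Nat.choose_two_right, Nat.div_mul_cancel (Nat.even_mul_pred_self _).two_dvd, hi, mul_comm]; rfl
    have cm : Commute (ζ₀ ^ 2) (ζ ^ i)⁻¹ := h.E_comm (pow_mem (Z1 h0) _) (inv_mem (pow_mem (Z1 hζ) _))
    have := one_of h (g := ζ₀ ^ 2 * (ζ ^ i)⁻¹) (h.E_pow (mul_mem (pow_mem (Z1 h0) _) (inv_mem (pow_mem (Z1 hζ) _))))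
      (by rw [cm.mul_pow, ← pow_mul, mul_comm 2, pow_mul, e, ← pow_mul, ch, inv_pow, ← pow_mul, mul_inv_cancel])
      j0' j.val_lt
    rw [mul_inv_eq_one.1 this, hi, pow_succ]
  have k0 : ζ₀ ^ (0 : ZMod p).val = ζ ^ (0 : ZMod p).val.choose 2 := by simp
  simp only [key]
  by_cases ex : ∃ j : ZMod p, j ≠ 0 ∧ ζ₀ ^ j.val = ζ ^ j.val.choose 2
  · obtain ⟨j, j0, e⟩ := ex
    by_cases z1 : ζ = 1
    · have := sq j j0 e
      rw [z1, one_pow, mul_one] at this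
      have z0 : ζ₀ = 1 := one_of h (h.E_pow (Z1 h0)) this two_ne_zero (by have := h.p5; omega)
      refine .inr (.inr ?_)
      simp [z0, z1]
    · refine .inr (.inl ?_)
      refine Eq.trans ?_ (Set.ncard_pair j0.symm)
      congr 1
      ext i
      refine ⟨fun hi => ?_, by rintro (rfl | rfl); exacts [k0, e]⟩
      by_cases i0 : i = 0
      · exact .inl i0
      · have o : orderOf ζ = p := orderOf_eq_prime (h.E_pow (Z1 hζ)) z1
        exact .inr (ZMod.val_injective p (pow_injOn_Iio_orderOf (x := ζ) (o ▸ i.val_lt) (o ▸ j.val_lt)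
          ((sq i i0 hi).symm.trans (sq j j0 e))))
  · left
    rw [← Set.ncard_singleton (0 : ZMod p)]
    congr 1
    ext i
    refine ⟨fun hi => by_contra fun i0 => ex ⟨i, i0, hi⟩, by rintro rfl; exact k0⟩

/-- On `M / Z` (additive): `x` fixes `N`, `v ↦ v + A v` on `N'`; `y` fixes `N'`, `u ↦ u + B u` on `N`.  `w = x y x` maps `u` to `u + B u + A B u ∈ N'`, so `A B u = -u`, `w u = B u`; likewise `w v = A v`; `w² u = -u`, `w² = (x y) ^ 3`. -/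
theorem zinv (hx : x ∈ S a) (hy : y ∈ S b) (d : Bd x y) {u : G} (hu : u ∈ NN S a b) :
    (x * y) ^ 3 * u * ((x * y) ^ 3)⁻¹ * u ∈ E S a ⊓ E S b := by
  obtain ⟨b1, z1, z2⟩ := h.wconj n hx hy d hu rfl
  generalize y * u * y⁻¹ * u⁻¹ = β at b1 z1 z2
  obtain ⟨-, -, z3⟩ := h.wconj n.symm hy hx d.symm b1 rfl
  have d' : x * y * x = y * x * y := d
  have w2 : (x * y) ^ 3 = x * y * x * (x * y * x) := by
    conv_rhs => rw [d']; lhs; rw [← d']
    simp only [pow_succ, pow_zero, one_mul, mul_assoc]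
  obtain ⟨wa, wb, -⟩ := h.bd hx hy d
  rw [← d', inf_comm] at z3
  rw [w2]
  generalize x * y * x = w at *
  have z4 : w * (w * u * w⁻¹ * β⁻¹) * w⁻¹ ∈ E S a ⊓ E S b := ⟨wb ▸ h.E_conj w (Z2 z2), wa ▸ h.E_conj w (Z1 z2)⟩
  have := mul_mem z4 (mul_mem z3 z1)
  rwa [show w * (w * u * w⁻¹ * β⁻¹) * w⁻¹ * (w * β * w⁻¹ * (x * β * x⁻¹ * β⁻¹)⁻¹ * (x * β * x⁻¹ * β⁻¹ * u)) =
    w * w * u * (w * w)⁻¹ * u by group] at this

/-- the partners of `x` in `S b` are the `N_a(b)`-conjugates of one of them (`bd`, `fibre`), a set of `p`-power size: an involution that centralises `x` and fixes `b` fixes one of them -/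
theorem partner_fix (hx : x ∈ S a) {s : G} (ss : s * s = 1) (sx : Commute s x) (sb : s • b = b) :
    ∃ y ∈ S b, Bd x y ∧ Commute s y := by
  classical
  have : Fact p.Prime := ⟨h.pr⟩
  have : Fact (Nat.Prime 2) := ⟨Nat.prime_two⟩
  obtain ⟨y₀, hy₀⟩ := h.ex b
  obtain ⟨y, hy, -, d, -⟩ := h.partner n hx hy₀
  have cjP : ∀ {g z : G}, Commute g x → g • b = b → z ∈ S b ∧ Bd x z → g * z * g⁻¹ ∈ S b ∧ Bd x (g * z * g⁻¹) := by
    intro g z gx gb hz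
    refine ⟨cjS h gb hz.1, ?_⟩
    have e : g * x * g⁻¹ = x := by rw [gx.eq, mul_inv_cancel_right]
    have d : x * z * x = z * x * z := hz.2
    conv_lhs => rw [← e]
    unfold Bd
    simp only [conj_mul, d]
  let _ : MulAction (NN S a b) G := MulAction.compHom G (MulAut.conj.comp (NN S a b).subtype)
  have ob : MulAction.orbit (NN S a b) y = {z | z ∈ S b ∧ Bd x z} := by
    ext z
    constructor
    · rintro ⟨u, rfl⟩
      exact cjP (h.E_comm u.2.1 (subset_closure hx)) u.2.2 ⟨hy, d⟩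
    · rintro ⟨hz, dz⟩
      have m : y⁻¹ * z ∈ NN S b a := mem_NN.2 ⟨mul_mem (inv_mem (subset_closure hy)) (subset_closure hz), by
        rw [mul_smul, (h.bd hx hz dz).2.2, ← (h.bd hx hy d).2.2, inv_smul_smul]⟩
      obtain ⟨u, hu, e⟩ := h.fibre n.symm hy m (by rwa [mul_inv_cancel_left])
      rw [mul_inv_cancel_left] at e
      exact ⟨⟨u, hu⟩, e.symm⟩
  have pg : IsPGroup p (NN S a b) := (h.E_pg a).to_le fun _ => N1
  obtain ⟨j, hj⟩ := pg.card_orbit y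
  rw [ob] at hj
  let f : {z | z ∈ S b ∧ Bd x z} → {z | z ∈ S b ∧ Bd x z} := fun z => ⟨s * z.1 * s⁻¹, cjP sx sb z.2⟩
  have fi : Function.Involutive f := fun z => Subtype.ext (by
    change s * (s * z.1 * s⁻¹) * s⁻¹ = z.1
    rw [show s * (s * z.1 * s⁻¹) * s⁻¹ = s * s * z.1 * (s * s)⁻¹ by group, ss]; simp)
  have := Fintype.ofFinite {z | z ∈ S b ∧ Bd x z}
  obtain ⟨z, hz⟩ := Equiv.Perm.exists_fixed_point_of_prime (p := 2) (n := 1) (σ := fi.toPerm f) (by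
    rw [← Nat.card_eq_fintype_card, hj]
    intro c
    have := (Nat.prime_dvd_prime_iff_eq Nat.prime_two h.pr).1 (Nat.prime_two.dvd_of_dvd_pow c)
    have := h.p5
    omega) (by ext z; exact congrArg Subtype.val (fi z))
  exact ⟨z.1, z.2.1, z.2.2, mul_inv_eq_iff_eq_mul.1 (congrArg Subtype.val hz)⟩

end Sys

end CL.Cq
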