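/- S3235, disconnected case: semiregularity, part 1. -/
import Mathlib
import Cfsg.Agent.CHEV.Cq.Sr1a
import Cfsg.Agent.TECH.Conj

set_option autoImplicit false

namespace CL.Cq

open Subgroup CL.PT CL.PT.L2x

variable {p : ℕ} {G Ω : Type*} [Group G] [MulAction G Ω] [Finite G] [Finite Ω] {S : Ω → Set G} {a b : Ω} {x y : G}

namespace Hy

variable (h : Hy p S) (n : a ≠ b)
include h n

/-- `K = E a ⊔ E b`, `Φ` = `K`-orbit of `a`, proper as `1 ≠ N` fixes it pointwise (`M_fix`, `faith`); `ih`, `RCon.chart` (`Ep_eq`; `E c` for `c ∈ Φ` is a `K`-conjugate of `E a`).  `K` acts on `Φ` like `range φ`, so `Φ = {a} ∪ φ(u F) b` (`inv_pt`). -/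
theorem chartI (ne : NN S a b ≠ ⊥) :
    ∃ (F : Type) (_ : Field F) (_ : Fintype F) (_ : CharP F p) (φ : Matrix.SpecialLinearGroup (Fin 2) F →* G),
      Chart S a b φ ∧ (∀ e ∈ E S a, ∃ t, ∃ u ∈ NN S a b, e = φ (uu t) * u) ∧ (∀ e ∈ E S b, ∃ t, ∃ v ∈ NN S b a, e = φ (ll t) * v) ∧
      (∀ g ∈ E S a ⊔ E S b, ∃ A, ∃ m ∈ NN S a b ⊔ NN S b a, g = φ A * m) ∧
      ∀ g ∈ E S a ⊔ E S b, g • a ∈ insert a (Set.range fun t => φ (uu t) • b) := by
  have hs := h.toSys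
  have iv : ∀ g ∈ E S a ⊔ E S b, ∀ c ∈ orb (E S a ⊔ E S b) a, g • c ∈ orb (E S a ⊔ E S b) a := by
    rintro g hg _ ⟨u, hu, rfl⟩
    exact ⟨g * u, mul_mem hg hu, mul_smul _ _ _⟩
  obtain ⟨x, hx⟩ := h.ex a
  have xK : x ∈ E S a ⊔ E S b := mem_sup_left (subset_closure hx)
  have ha : a ∈ orb (E S a ⊔ E S b) a := ⟨1, one_mem _, one_smul _ _⟩
  have hb : b ∈ orb (E S a ⊔ E S b) a := by
    obtain ⟨y, hy⟩ := h.ex b
    obtain ⟨y', hy', -, d, -⟩ := hs.partner n hx hy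
    exact ⟨_, mul_mem (mul_mem xK (mem_sup_right (subset_closure hy'))) xK, (hs.bd hx hy' d).1⟩
  have r := h.ih (E S a ⊔ E S b) (orb (E S a ⊔ E S b) a) (fun e => ne (eq_bot_iff.2 fun m hm => h.faith m fun c => by
      obtain ⟨g, hg, rfl⟩ : c ∈ orb (E S a ⊔ E S b) a := e ▸ Set.mem_univ c
      exact hs.M_fix n hg (mem_sup_left hm))) iv (by
    rintro _ ⟨u, hu, rfl⟩
    exact ⟨_, h.conj u hx, mul_mem (mul_mem hu xK) (inv_mem hu)⟩)
  obtain ⟨F, i1, i2, i3, φ, c, rK, -, -, ka, kb, -⟩ := r.chart hs iv ha hb n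
  rw [Ep_eq le_sup_left] at ka
  rw [Ep_eq le_sup_right] at kb
  have k1 : ∀ e ∈ E S a, ∃ t, ∃ u ∈ NN S a b, e = φ (uu t) * u := fun e he => by
    obtain ⟨t, ht⟩ := ka e he
    exact ⟨t, (φ (uu t))⁻¹ * e, mem_NN.2 ⟨mul_mem (inv_mem (c.uE t)) he, by
      show (_ * _) • b = b
      rw [mul_smul, ht b hb, inv_smul_smul]⟩, by group⟩
  have k2 : ∀ e ∈ E S b, ∃ t, ∃ v ∈ NN S b a, e = φ (ll t) * v := fun e he => by
    obtain ⟨t, ht⟩ := kb e he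
    exact ⟨t, (φ (ll t))⁻¹ * e, mem_NN.2 ⟨mul_mem (inv_mem (c.lE t)) he, by
      show (_ * _) • a = a
      rw [mul_smul, ht a ha, inv_smul_smul]⟩, by group⟩
  have k3 : ∀ g ∈ E S a ⊔ E S b, ∃ A, ∃ m ∈ NN S a b ⊔ NN S b a, g = φ A * m := by
    have nm : φ.range ≤ normalizer ((NN S a b ⊔ NN S b a : Subgroup G) : Set G) :=
      MSS.le_normalizer_of_cj_le (by rintro g hg _ ⟨m, hm, rfl⟩; exact hs.M_conj n (rK hg) hm)
    have le : E S a ⊔ E S b ≤ φ.range ⊔ (NN S a b ⊔ NN S b a) := sup_le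
      (fun e he => by
        obtain ⟨t, u, hu, rfl⟩ := k1 e he
        exact mul_mem (mem_sup_left ⟨_, rfl⟩) (mem_sup_right (mem_sup_left hu)))
      (fun e he => by
        obtain ⟨t, u, hu, rfl⟩ := k2 e he
        exact mul_mem (mem_sup_left ⟨_, rfl⟩) (mem_sup_right (mem_sup_right hu)))
    intro g hg
    obtain ⟨_, ⟨A, rfl⟩, m, hm, e⟩ := (MSS.mem_sup_of_normalizes_right nm).1 (le hg)
    exact ⟨A, m, hm, e.symm⟩
  refine ⟨F, i1, i2, i3, φ, c, k1, k2, k3, fun g hg => ?_⟩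
  obtain ⟨A, m, hm, rfl⟩ := k3 g hg
  have := hs.M_fix n (one_mem _) hm
  rw [one_smul] at this
  rw [mul_smul, this]
  exact c.inv_pt hs n A (Set.mem_insert _ _)

/-- `N ≤ Z` is centralised by `range φ`.  For `s = φ(u t) ζ ∈ S a`: `φ(dd 2) s φ(dd 2)⁻¹ = φ(u t) ^ 4 ζ` and `s ^ 4 = φ(u t) ^ 4 ζ ^ 4` are in `S a`; `uniqZ`: `ζ ^ 3 = 1`, `ζ = 1`.  So `E a = φ(u F)`, `pt_inj`. -/
theorem NZ (le : NN S a b ≤ E S b) : NN S a b = ⊥ := by
  by_contra ne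
  have hs := h.toSys
  obtain ⟨F, i1, i2, i3, φ, c, k1, -⟩ := h.chartI n ne
  have h2 : (2 : F) ≠ 0 := (cast_ne h.pr h.p5).1
  have cop : ∀ k, 0 < k → k < 5 → ∀ g : G, g ^ p = 1 → g ^ k = 1 → g = 1 := fun k k0 k5 g e1 e2 => by
    have := pow_gcd_eq_one.2 ⟨e1, e2⟩
    rwa [(Nat.coprime_of_lt_prime k0.ne' (by have := h.p5; omega) h.pr).gcd_eq_one, pow_one] at this
  have key : ∀ s ∈ S a, s ∈ φ.range := by
    intro s hs'
    obtain ⟨t, ζ, hζ, rfl⟩ := k1 s (subset_closure hs')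
    have cz : ∀ A, Commute (φ A) ζ := fun A => by
      have := gen_top ((centralizer {ζ}).comap φ)
        (fun t => mem_centralizer_singleton_iff.2 (hs.E_comm (c.uE t) hζ.1))
        (fun t => mem_centralizer_singleton_iff.2 (hs.E_comm (c.lE t) (le hζ)))
      exact mem_centralizer_singleton_iff.1 (show A ∈ (centralizer {ζ}).comap φ from this ▸ mem_top A)
    have a1 := h.conj (φ (dd 2 h2)) hs'
    rw [(c.d_smul hs n 2 h2).1] at a1
    have e1 : φ (dd 2 h2) * (φ (uu t) * ζ) * (φ (dd 2 h2))⁻¹ = φ (uu t) ^ 4 * ζ := by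
      rw [← map_pow, uu_pow, show ((4 : ℕ) : F) * t = 2 * 2 * t by push_cast; ring, ← dd_uu 2 h2, map_mul, map_mul, map_inv,
        mul_assoc, mul_assoc, mul_assoc, mul_assoc, (cz _).inv_left.eq]
    have a2 := h.zpow (k := (4 : ℕ)) hs' (by
      rw [zpow_natCast]; exact fun e => h.ne hs' (cop 4 (by norm_num) (by norm_num) _ (h.pow hs') e))
    rw [zpow_natCast, (cz _).mul_pow, pow_succ' ζ 3, ← mul_assoc] at a2
    rw [e1] at a1
    have z3 := hs.uniqZ n a1 (pow_mem (show ζ ∈ E S a ⊓ E S b from ⟨hζ.1, le hζ⟩) 3) a2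
    rw [cop 3 (by norm_num) (by norm_num) _ (hs.E_pow hζ.1) z3, mul_one]
    exact ⟨_, rfl⟩
  refine ne (eq_bot_iff.2 fun m hm => ?_)
  obtain ⟨t, rfl⟩ := c.of_E hs n hm.1 ((closure_le _).2 key hm.1)
  have : t = 0 := c.pt_inj hs n (by rw [uu_zero, map_one, one_smul]; exact hm.2)
  rw [this, uu_zero, map_one]
  exact one_mem _

end Hy

end CL.Cq
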