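/- S3235, disconnected case: semiregularity, part 2. -/
import Mathlib
import Cfsg.Agent.CHEV.Cq.Sr1
import Cfsg.Agent.CHEV.Cq.Jac

set_option autoImplicit false

namespace CL.Cq

open Subgroup CL.PT CL.PT.L2x

variable {p : ℕ} {G Ω : Type*} [Group G] [MulAction G Ω] [Finite G] [Finite Ω] {S : Ω → Set G} {a b c : Ω}

theorem Sr2.ns {F : Type} [Field F] [Fintype F] {t ν : F} (ht : ¬ IsSquare t) (hν : ¬ IsSquare ν) :
    ∃ r, r ≠ 0 ∧ r * r * t = ν := by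
  classical
  have t0 : t ≠ 0 := fun e => ht (e ▸ IsSquare.zero)
  have ν0 : ν ≠ 0 := fun e => hν (e ▸ IsSquare.zero)
  obtain ⟨r, hr⟩ := (quadraticChar_one_iff_isSquare (mul_ne_zero t0 ν0)).1 (by
    rw [map_mul, quadraticChar_neg_one_iff_not_isSquare.2 ht, quadraticChar_neg_one_iff_not_isSquare.2 hν]
    rfl)
  refine ⟨r / t, div_ne_zero (fun e => mul_ne_zero t0 ν0 (by rw [hr, e, mul_zero])) t0, ?_⟩
  field_simp
  linear_combination -hr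

theorem Sr2.sw (h : Sys p S) (n : a ≠ b) (ne : NN S a b ≠ ⊥) : NN S b a ≠ ⊥ := fun e =>
  ne (card_eq_one.1 (by rw [h.NN_card n, e, card_bot]))

theorem Hy.coex (h : Hy p S) (n : a ≠ b) (n' : a ≠ c) (ne : NN S a b ≠ ⊥) : NN S a c ≠ ⊥ := fun z => by
  have g := h.toSys
  obtain ⟨m, hm, mE⟩ := SetLike.not_le_iff_exists.1 fun le => Sr2.sw g n ne (h.NZ n.symm le)
  obtain ⟨s, hs⟩ := g.ex a
  have sE : s ∈ E S a := subset_closure hs
  have hw := g.cmE n sE hm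
  have w1 : s⁻¹ * (m * s * m⁻¹) ≠ 1 := fun e => mE (g.cm_inj n hs hm (e ▸ one_mem _))
  have hs' : m * s * m⁻¹ ∈ S a := by
    have := g.conj m hs
    rwa [hm.2] at this
  obtain ⟨y₀, hy₀⟩ := g.ex c
  obtain ⟨y, hy, -, d, -⟩ := g.partner n' hs hy₀
  obtain ⟨F, i1, i2, i3, φ, ch, u1, -, rg⟩ := g.chart n' hs' hy
  obtain ⟨x, hx, xm, d', -⟩ := g.partner n'.symm hy hs'
  have e : s = x := by
    have k : s⁻¹ * x ∈ NN S a c := mem_NN.2 ⟨mul_mem (inv_mem sE) (subset_closure hx), by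
      rw [mul_smul, (g.bd hy hx d').2.2, ← (g.bd hy hs d.symm).2.2, inv_smul_smul]⟩
    rw [z, mem_bot] at k
    exact inv_mul_eq_one.1 k
  subst e
  rw [sup_comm, ← rg] at xm
  obtain ⟨t₀, ht₀⟩ := ch.of_E g n' sE xm
  obtain ⟨ψ, c', -, -, -, rg'⟩ := ch.rescale g n' (ht₀ ▸ hs)
  obtain ⟨ν, hν⟩ := c'.of_E g n' hw.1 (rg' ▸ mul_mem (inv_mem xm) ⟨_, u1⟩)
  have key : ∀ t, ψ (uu t) ∈ S a → ∀ r, r ≠ 0 → ∀ k : ℤ, (k : F) ≠ 0 → k * (r * r * t) ≠ ν :=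
    fun t ht r r0 k k0 e => by
      have := c'.sq_mem g n' ht r0 k0
      rw [e, hν] at this
      exact n (g.F0 this hw.2).symm
  have ν0 : ν ≠ 0 := fun e => w1 (by rw [← hν, e, uu_zero, map_one])
  have nν : ¬ IsSquare ν := fun ⟨r, hr⟩ =>
    key 1 c'.u1 r (fun e => ν0 (by rw [hr, e, mul_zero])) 1 (by simp) (by simp [hr])
  have mem : ∀ t, ψ (uu t) ∈ S a ↔ t ≠ 0 ∧ IsSquare t := fun t => by
    refine ⟨fun ht => ⟨fun e => g.ne ht (by rw [e, uu_zero, map_one]), by_contra fun k => ?_⟩,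
      fun ⟨t0, r, hr⟩ => ?_⟩
    · obtain ⟨r, r0, hr⟩ := Sr2.ns k nν
      exact key t ht r r0 1 (by simp) (by simp [hr])
    · simpa [hr] using c'.sq_mem g n' c'.u1 (s := r) (fun e => t0 (by rw [hr, e, mul_zero])) (k := 1)
        (by simp)
  refine jac g.pr g.p5 (fun k => by_contra fun hk => ?_) nν fun t t0 ht => ?_
  · obtain ⟨r, r0, hr⟩ := Sr2.ns hk nν
    exact key 1 c'.u1 r r0 k (fun e => hk (e ▸ IsSquare.zero)) (by rw [← hr]; ring)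
  · have := g.cnt n ((mem t).2 ⟨t0, ht⟩) hw
    simp only [← hν, ← map_pow, ← map_mul, uu_pow, ← uu_add, mem] at this
    exact this

theorem Hy.allI (h : Hy p S) (n : a ≠ b) (ne : NN S a b ≠ ⊥) {c d : Ω} (cd : c ≠ d) : NN S c d ≠ ⊥ := by
  by_cases e : a = c
  · exact e ▸ h.coex n (e ▸ cd) ne
  · exact h.coex (Ne.symm e) cd (Sr2.sw h.toSys e (h.coex n e ne))

end CL.Cq
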