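/- S3235, disconnected case: semiregularity, part 3. -/
import Mathlib
import Cfsg.Agent.CHEV.Cq.Sr2

set_option autoImplicit false

namespace CL.Cq

open Subgroup CL.PT CL.PT.L2x

variable {p : ℕ} {G Ω : Type*} [Group G] [MulAction G Ω] [Finite G] [Finite Ω] {S : Ω → Set G} {a b c : Ω}

namespace Sr3

theorem odd_p (h : Sys p S) : Odd p := h.pr.odd_of_ne_two (by have := h.p5; omega)

omit [Finite G] in
theorem sq_one {M : Subgroup G} (po : Odd p) (hM : IsPGroup p M) {m : G} (hm : m ∈ M) (e : m * m = 1) : m = 1 := by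
  obtain ⟨k, hk⟩ := hM ⟨m, hm⟩
  have hk' : m ^ p ^ k = 1 := by simpa using congrArg Subtype.val hk
  obtain ⟨j, hj⟩ : Odd (p ^ k) := po.pow
  rw [hj, pow_succ, pow_mul, pow_two, e, one_pow, one_mul] at hk'
  exact hk'

omit [Finite G] in
theorem inv_conj {M H : Subgroup G} (po : Odd p) (hM : IsPGroup p M) {z m : G} (zz : z * z = 1)
    (cj : ∀ m ∈ M, z * m * z⁻¹ ∈ M) (hm : m ∈ M) (hH : z * m ∈ H) : ∃ μ ∈ M, μ * z * μ⁻¹ ∈ H := by
  have zi : z⁻¹ = z := inv_eq_of_mul_eq_one_right zz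
  have g2 : (z * m) ^ 2 ∈ M := by
    have := M.mul_mem (cj m hm) hm
    rw [zi] at this
    simpa [pow_two, mul_assoc] using this
  obtain ⟨k, hk⟩ := hM ⟨_, g2⟩
  have hk' : ((z * m) ^ 2) ^ p ^ k = 1 := by simpa using congrArg Subtype.val hk
  obtain ⟨j, hj⟩ : Odd (p ^ k) := po.pow
  set m1 := m * ((z * m) ^ 2) ^ j with hm1
  have m1M : m1 ∈ M := M.mul_mem hm (M.pow_mem g2 j)
  have e1 : z * m1 = (z * m) ^ p ^ k := by
    rw [hj, pow_succ', pow_mul, hm1, mul_assoc]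
  have e2 : z * m1 * (z * m1) = 1 := by
    rw [e1, ← pow_two, ← pow_mul, mul_comm, pow_mul, hk']
  obtain ⟨l, hl⟩ := hM ⟨_, m1M⟩
  have hl' : m1 ^ p ^ l = 1 := by simpa using congrArg Subtype.val hl
  obtain ⟨i, hi⟩ : Odd (p ^ l) := po.pow
  refine ⟨m1 ^ i, M.pow_mem m1M i, ?_⟩
  have e3 : z * m1 * z⁻¹ = m1⁻¹ := by
    rw [zi]; exact eq_inv_of_mul_eq_one_left (by simpa [mul_assoc] using e2)
  have e4 : z * m1 ^ i * z⁻¹ = (m1 ^ i)⁻¹ := by rw [← conj_pow, e3, inv_pow]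
  have e5 : m1 ^ i * z = z * (m1 ^ i)⁻¹ := by
    rw [← e4, zi, ← mul_assoc, ← mul_assoc, zz, one_mul]
  have e6 : (m1 ^ i)⁻¹ * (m1 ^ i)⁻¹ = m1 := by
    rw [← mul_inv_rev, ← pow_add, inv_eq_iff_mul_eq_one, ← pow_succ, ← two_mul, ← hi, hl']
  rw [e5, mul_assoc, e6, e1]
  exact H.pow_mem hH _

section
variable {F : Type} [Field F] [CharP F p] {φ : Matrix.SpecialLinearGroup (Fin 2) F →* G}

theorem rng (C : Chart S b c φ) (A : Matrix.SpecialLinearGroup (Fin 2) F) : φ A ∈ E S b ⊔ E S c := by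
  have := gen_top (comap φ (E S b ⊔ E S c)) (fun t => mem_sup_left (C.uE t)) (fun t => mem_sup_right (C.lE t))
  have h2 : A ∈ comap φ (E S b ⊔ E S c) := this ▸ mem_top A
  exact h2

theorem l_pt (h : Sys p S) (bc : b ≠ c) (C : Chart S b c φ) {t : F} (ht : t ≠ 0) : φ (ll t) • b = φ (uu t⁻¹) • c := by
  have e : ll t = uu t⁻¹ * (ll (-t) * (dd t⁻¹ (inv_ne_zero ht) * ww)) := by
    apply ext2 <;> simp [mul_ap, uu_val, ll_val, dd_val, ww_val, ht]
  rw [e, map_mul, map_mul, map_mul, mul_smul, mul_smul, mul_smul, (C.w_smul h bc).1, (C.d_smul h bc _ _).2,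
    h.E_fix (C.lE _)]

/-- modulo `M` -/
theorem md_mul (h : Sys p S) (bc : b ≠ c) (C : Chart S b c φ) {A B : Matrix.SpecialLinearGroup (Fin 2) F} {μ ν : G}
    (hμ : μ ∈ NN S b c ⊔ NN S c b) (hν : ν ∈ NN S b c ⊔ NN S c b) :
    ∃ ρ ∈ NN S b c ⊔ NN S c b, φ A * μ * (φ B * ν) = φ (A * B) * ρ :=
  ⟨_, mul_mem (h.M_conj bc (inv_mem (rng C B)) hμ) hν, by rw [map_mul]; group⟩

theorem z_ne (h : Hy p S) (bc : b ≠ c) (C : Chart S b c φ) (ne : NN S b c ≠ ⊥) : φ (-1) ≠ 1 := by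
  intro z1
  refine ne (h.NZ bc fun u hu => ?_)
  have d : Bd (φ (uu 1)) (φ (ll (-1))) := by simpa using bd_uu φ (t := 1) one_ne_zero
  have := (h.toSys.zinv bc C.u1 C.l1 d hu).2
  rw [← C.neg h.toSys bc, z1] at this
  have h2 : u ^ 2 ∈ E S c := by simpa [pow_two] using this
  obtain ⟨j, hj⟩ := odd_p h.toSys
  have h3 := h.toSys.E_pow hu.1
  rw [hj, pow_succ, pow_mul] at h3
  rw [← inv_eq_of_mul_eq_one_right h3]
  exact inv_mem (pow_mem h2 j)

end

theorem cardT {F : Type} [Field F] [Fintype F] [CharP F p] (hp : p.Prime) {T : Set F} (h0 : (0 : F) ∉ T) (h1 : (1 : F) ∈ T)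
    (cl : ∀ s, s ≠ 0 → ∀ t ∈ T, s * s * t ∈ T) : ¬ p ∣ Nat.card T := by
  classical
  have sq : ∀ {t : F}, t ≠ 0 → IsSquare t → t ∈ T := by
    rintro t ht ⟨s, rfl⟩
    simpa using cl s (fun e => ht (by simp [e])) 1 h1
  have ns : ∀ {s t : F}, s ∈ T → ¬ IsSquare s → t ≠ 0 → t ∈ T := by
    intro s t hs ns ht
    by_cases st : IsSquare t
    · exact sq ht st
    have s0 : s ≠ 0 := fun e => h0 (e ▸ hs)
    have : IsSquare (t * s) := by
      rw [← quadraticChar_one_iff_isSquare (mul_ne_zero ht s0), map_mul, quadraticChar_neg_one_iff_not_isSquare.2 st,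
        quadraticChar_neg_one_iff_not_isSquare.2 ns]
      norm_num
    obtain ⟨r, hr⟩ := this
    have r0 : r ≠ 0 := fun e => mul_ne_zero ht s0 (by simp [hr, e])
    have := cl (r / s) (div_ne_zero r0 s0) s hs
    convert this using 1
    field_simp
    linear_combination hr
  let H : Subgroup Fˣ :=
    { carrier := {u | (u : F) ∈ T}
      one_mem' := h1
      mul_mem' := by
        intro u v hu hv
        by_cases su : IsSquare (u : F)
        · obtain ⟨r, hr⟩ := su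
          have := cl r (fun e => u.ne_zero (by simp [hr, e])) v hv
          rw [← hr] at this
          exact this
        · exact ns hu su (u * v).ne_zero
      inv_mem' := by
        intro u hu
        have := cl (u : F)⁻¹ (inv_ne_zero u.ne_zero) u hu
        show ((u⁻¹ : Fˣ) : F) ∈ T
        simpa using this }
  have e : Nat.card T = Nat.card H := by
    refine (Nat.card_congr (Equiv.ofBijective (fun u : H => (⟨u.1, u.2⟩ : T)) ⟨fun u v e => ?_, fun t => ?_⟩)).symm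
    · exact Subtype.ext (Units.ext (congrArg Subtype.val e))
    · exact ⟨⟨Units.mk0 t.1 fun e => h0 (e ▸ t.2), t.2⟩, rfl⟩
  intro d
  rw [e] at d
  have d2 := d.trans H.card_subgroup_dvd_card
  rw [Nat.card_units, Nat.card_eq_fintype_card] at d2
  obtain ⟨n, -, hn⟩ := FiniteField.card F p
  have d3 : p ∣ Fintype.card F := hn ▸ dvd_pow_self p n.ne_zero
  have : p ∣ 1 := by
    have := Nat.dvd_sub d3 d2
    rwa [Nat.sub_sub_self Fintype.card_pos] at this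
  exact hp.one_lt.ne' (Nat.dvd_one.1 this)

end Sr3

open Sr3 Bas

/-- L1.  `chartI` for `(b, c)`: `φ`, `M = N_b(c) N_c(b)`, `z = φ (-1) ≠ 1` (`Chart.neg`, `zinv`, `NZ`).  Let `m = φ(u s) u₀ ∈ N_b(a)` move `c`, `m' = φ(l t) v₀ ∈ N_c(a)` move `b`; `s, t ≠ 0`.  `neg_mem`: `H = ⟨m, m'⟩ ≤ G_a` contains an element of `z M` (the set of `A` with `φ A M ∩ H ≠ ∅` is a subgroup, `M_conj`); its `p ^ k`-th power `z''` is an involution of `z M ∩ H` (`M` is a `p`-group normalised by `z`).  `z'' = μ z μ⁻¹` with `μ ∈ M` (`z z''` has odd order: dihedral), so `z''` centralises `x = μ φ(u 1) μ⁻¹ ∈ S b` and fixes `a`, `b`, `c`.  `ih` for `X = C(z'')`, `Φ = Fx z''` (`partner_fix`), `RCon.chart` for `(b, c)`: `ψ`.  `ψ (-1) = (x₁ y₁) ^ 3` with `x₁ = φ(u s₁) u₁`, `y₁ = φ(l t₁) v₁` braided; modulo `M` (elements of `M` fix `b`, `c` and the points `φ(u F) c`; `bd`) `t₁ = -s₁⁻¹`, so `ψ (-1) ∈ z M`; it is an involution commuting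 with `z''`, their product is in `M` with square `1`: `ψ (-1) = z''` is trivial on `Φ`.  So `Φ = {b} ∪ ψ(u F') c`, `a = e c` with `e ∈ E b`; then `m ∈ E b` fixes `c = e⁻¹ a`. -/
theorem Hy.l1 (h : Hy p S) (ab : a ≠ b) (ac : a ≠ c) (bc : b ≠ c) (ne : NN S b c ≠ ⊥) :
    (∀ m ∈ NN S b a, m • c = c) ∨ ∀ m ∈ NN S c a, m • b = b := by
  by_contra nh
  push Not at nh
  obtain ⟨⟨m, hm, mc⟩, m', hm', mb⟩ := nh
  obtain ⟨F, _, _, _, φ, C, hU, hL, -, -⟩ := h.chartI bc ne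
  have hs := h.toSys
  have po := odd_p hs
  obtain ⟨s, u0, hu0, es⟩ := hU m hm.1
  obtain ⟨t, v0, hv0, et⟩ := hL m' hm'.1
  have s0 : s ≠ 0 := by
    rintro rfl
    rw [uu_zero, map_one, one_mul] at es
    exact mc (es ▸ hu0.2)
  have t0 : t ≠ 0 := by
    rintro rfl
    rw [ll_zero, map_one, one_mul] at et
    exact mb (et ▸ hv0.2)
  let T : Subgroup (Matrix.SpecialLinearGroup (Fin 2) F) :=
    { carrier := {A | ∃ μ ∈ NN S b c ⊔ NN S c b, φ A * μ ∈ MulAction.stabilizer G a}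
      one_mem' := ⟨1, one_mem _, by simp⟩
      mul_mem' := by
        rintro A B ⟨μ, hμ, e⟩ ⟨ν, hν, e'⟩
        obtain ⟨ρ, hρ, e''⟩ := md_mul hs bc C (A := A) (B := B) hμ hν
        exact ⟨ρ, hρ, e'' ▸ mul_mem e e'⟩
      inv_mem' := by
        rintro A ⟨μ, hμ, e⟩
        refine ⟨_, hs.M_conj bc (rng C A) (inv_mem hμ), ?_⟩
        convert inv_mem e using 1
        rw [map_inv]; group }
  have hT : zpowers (uu s) ⊔ zpowers (ll t) ≤ T :=
    sup_le (zpowers_le.2 ⟨u0, mem_sup_left hu0, es ▸ hm.2⟩) (zpowers_le.2 ⟨v0, mem_sup_right hv0, et ▸ hm'.2⟩)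
  obtain ⟨μ0, hμ0, e0⟩ := hT (neg_mem hs.pr hs.p5 s0 t0)
  set z := φ (-1) with hz
  have zz : z * z = 1 := by rw [hz, ← map_mul]; simp
  have zc : ∀ A, Commute z (φ A) := fun A => by
    rw [hz, Commute, SemiconjBy, ← map_mul, ← map_mul]; simp
  obtain ⟨μ, hμ, e1⟩ := inv_conj po (hs.M_pg bc) zz (fun m hm => hs.M_conj bc (rng C _) hm) hμ0 e0
  have μb : μ • b = b := by simpa using hs.M_fix bc (one_mem _) hμ
  have μc : μ • c = c := by
    have := hs.M_fix bc (rng C ww) hμ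
    rwa [(C.w_smul hs bc).1] at this
  have μb' : μ⁻¹ • b = b := inv_smul_eq_iff.2 μb.symm
  have μc' : μ⁻¹ • c = c := inv_smul_eq_iff.2 μc.symm
  have za : z • μ⁻¹ • a = μ⁻¹ • a := by
    have : (μ * z * μ⁻¹) • a = a := e1
    rw [eq_inv_smul_iff, ← mul_smul, ← mul_smul, this]
  have zd : z = φ (dd (-1) (neg_ne_zero.2 one_ne_zero)) := by
    rw [hz]; congr 1
    apply ext2 <;> simp [dd_val]
  have zb : z • b = b := zd ▸ (C.d_smul hs bc _ _).1
  have zc' : z • c = c := zd ▸ (C.d_smul hs bc _ _).2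
  have iv : ∀ g ∈ centralizer {z}, ∀ d ∈ Fx Ω z, g • d ∈ Fx Ω z := by
    intro g hg d hd
    have h1 : z * g = g * z := hg z rfl
    have h2 : z • d = d := hd
    show z • g • d = g • d
    rw [← mul_smul, h1, mul_smul, h2]
  have r := h.ih (centralizer {z}) (Fx Ω z)
    (fun e => z_ne h bc C ne (h.faith z fun d => (show d ∈ Fx Ω z from e ▸ Set.mem_univ d))) iv (by
      intro d hd
      by_cases bd : b = d
      · exact ⟨_, bd ▸ C.u1, mem_centralizer_singleton_iff.2 (zc _).symm⟩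
      · obtain ⟨y, hy, -, cy⟩ := hs.partner_fix bd C.u1 zz (zc _) hd
        exact ⟨y, hy, mem_centralizer_singleton_iff.2 cy.symm⟩)
  obtain ⟨F', _, _, _, ψ, D, hX, -, -, -, -, alt⟩ := r.chart hs iv zb zc' bc
  have key : ψ (-1) = z := by
    obtain ⟨s1, u1, hu1, e2⟩ := hU _ (D.uE 1)
    obtain ⟨t1, v1, hv1, e3⟩ := hL _ (D.lE (-1))
    have d : Bd (ψ (uu 1)) (ψ (ll (-1))) := by simpa using bd_uu ψ (t := 1) one_ne_zero
    have t10 : t1 ≠ 0 := by
      rintro rfl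
      rw [ll_zero, map_one, one_mul] at e3
      exact bc (hs.F0 D.l1 (e3 ▸ hv1.2))
    have e4 := (hs.bd D.u1 D.l1 d).2.2
    have h1 : v1 • b = b := hv1.2
    have h2 : u1⁻¹ • c = c := inv_smul_eq_iff.2 (show u1 • c = c from hu1.2).symm
    rw [e2, e3, mul_smul, h1, l_pt hs bc C t10, (hs.E_comm (C.uE s1) hu1.1).eq, mul_inv_rev, mul_smul, h2, ← map_inv,
      ← uu_neg] at e4
    have e5 := C.pt_inj hs bc e4
    have s10 : s1 ≠ 0 := fun e => inv_ne_zero t10 (by rw [e5, e, neg_zero])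
    have e6 : t1 = -s1⁻¹ := by rw [← inv_inv t1, e5, inv_neg]
    obtain ⟨ρ, hρ, e7⟩ := md_mul hs bc C (A := uu s1) (B := ll t1) (mem_sup_left hu1) (mem_sup_right hv1)
    obtain ⟨ρ2, hρ2, e8⟩ := md_mul hs bc C (A := uu s1 * ll t1) (B := uu s1 * ll t1) hρ hρ
    obtain ⟨ρ3, hρ3, e9⟩ := md_mul hs bc C (A := uu s1 * ll t1 * (uu s1 * ll t1)) (B := uu s1 * ll t1) hρ2 hρ
    have e10 : ψ (-1) = z * ρ3 := by
      rw [D.neg hs bc, e2, e3, e7, pow_three', e8, e9, ← pow_three', e6, cube s10]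
    have c1 : z * ψ (-1) = ψ (-1) * z := hX ⟨_, rfl⟩ z rfl
    have c2 : ψ (-1) * ψ (-1) = 1 := by rw [← map_mul]; simp
    have c3 : ρ3 = z * ψ (-1) := by rw [e10, ← mul_assoc, zz, one_mul]
    have c4 : ρ3 * ρ3 = 1 := by
      rw [c3]
      calc z * ψ (-1) * (z * ψ (-1)) = z * (ψ (-1) * z) * ψ (-1) := by group
        _ = 1 := by rw [← c1, ← mul_assoc, zz, one_mul, c2]
    rw [e10, sq_one po (hs.M_pg bc) hρ3 c4, mul_one]
  rcases alt with alt | ⟨-, d, hd, nd⟩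
  · have ha : μ⁻¹ • a ∈ Fx Ω z := za
    rw [alt] at ha
    rcases ha with ha | ⟨t1, ha⟩
    · exact ab (smul_left_cancel μ⁻¹ (ha.trans μb'.symm))
    · have h1 : μ⁻¹ * m * μ⁻¹⁻¹ ∈ E S b := by
        have := hs.E_conj μ⁻¹ hm.1
        rwa [μb'] at this
      have h2 : (μ⁻¹ * m * μ⁻¹⁻¹) • μ⁻¹ • a = μ⁻¹ • a := by
        rw [mul_smul, inv_smul_smul, mul_smul, show m • a = a from hm.2]
      have ha' : ψ (uu t1) • c = μ⁻¹ • a := ha
      rw [← ha', ← mul_smul, (hs.E_comm h1 (D.uE t1)).eq, mul_smul, smul_left_cancel_iff, inv_inv, mul_smul, μc, mul_smul,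
        inv_smul_eq_iff, μc] at h2
      exact mc h2
  · exact nd (key ▸ hd)

/-- `chartI` for `(b, c)`: `T = {t | ∃ u ∈ N_b(c), φ(u t) u ∈ S b} ⊆ F - 0` is non-empty and closed under multiplication by non-zero squares (conjugate by `φ(dd s)`, which normalises `N_b(c)`), so `|T| = (q - 1) / 2` or `q - 1`, prime to `p`.  The `p`-group `N = N_a(b)` fixes `b`, `c`, acts on `T` (or: on the set of points `S b • c`, in bijection with `T` by `pt_inj`), fixes a point `y • c`: `y⁻¹ (m y m⁻¹)` fixes `c` for all `m ∈ N`.  `Z = E a ⊓ E b ≤ N` fixes `c`.  `cm_surj` for the pair `(b, a)`. -/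
theorem Hy.l2' (h : Hy p S) (ab : a ≠ b) (bc : b ≠ c) (ne : NN S b c ≠ ⊥) (e : ∀ m ∈ NN S a b, m • c = c) :
    ∀ m ∈ NN S b a, m • c = c := by
  obtain ⟨F, _, _, _, φ, C, hU, -, -, -⟩ := h.chartI bc ne
  have hs := h.toSys
  haveI := Fact.mk hs.pr
  let T : Set F := {t | ∃ u ∈ NN S b c, φ (uu t) * u ∈ S b}
  have nT : ¬ p ∣ Nat.card T := by
    refine cardT hs.pr ?_ ⟨1, one_mem _, by simpa using C.u1⟩ ?_
    · rintro ⟨u, hu, e⟩
      rw [uu_zero, map_one, one_mul] at e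
      exact bc (hs.F0 e hu.2).symm
    · rintro s s0 t ⟨u, hu, e⟩
      obtain ⟨d1, d2⟩ := C.d_smul hs bc s s0
      refine ⟨φ (dd s s0) * u * (φ (dd s s0))⁻¹, ⟨?_, ?_⟩, ?_⟩
      · have := hs.E_conj (φ (dd s s0)) hu.1
        rwa [d1] at this
      · show (φ (dd s s0) * u * (φ (dd s s0))⁻¹) • c = c
        rw [mul_smul, mul_smul, inv_smul_eq_iff.2 d2.symm, show u • c = c from hu.2, d2]
      · have := hs.conj (φ (dd s s0)) e
        rw [d1] at this
        convert this using 1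
        rw [← dd_uu s s0, map_mul, map_mul, map_inv]; group
  let P : SubMulAction (NN S a b) Ω :=
    { carrier := {d | ∃ y ∈ S b, y • c = d}
      smul_mem' := by
        rintro m d ⟨y, hy, rfl⟩
        refine ⟨m.1 * y * m.1⁻¹, ?_, ?_⟩
        · have := hs.conj m.1 hy
          rwa [show m.1 • b = b from m.2.2] at this
        · rw [mul_smul, inv_smul_eq_iff.2 (e m.1 m.2).symm, mul_smul]; rfl }
  have cP : Nat.card P = Nat.card T := by
    refine (Nat.card_congr (Equiv.ofBijective (fun t : T => (⟨φ (uu t.1) • c, ?_⟩ : P)) ⟨fun s t e => ?_, ?_⟩)).symm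
    · obtain ⟨u, hu, e⟩ := t.2
      exact ⟨_, e, by rw [mul_smul, show u • c = c from hu.2]⟩
    · exact Subtype.ext (C.pt_inj hs bc (congrArg Subtype.val e))
    · rintro ⟨d, y, hy, rfl⟩
      obtain ⟨t, u, hu, e⟩ := hU y (subset_closure hy)
      exact ⟨⟨t, u, hu, e ▸ hy⟩, Subtype.ext (by
        show φ (uu t) • c = y • c
        rw [e, mul_smul, show u • c = c from hu.2])⟩
  have pg : IsPGroup p (NN S a b) := (hs.E_pg a).to_le inf_le_left
  obtain ⟨⟨d, y, hy, rfl⟩, fx⟩ := pg.nonempty_fixed_point_of_prime_not_dvd_card P (cP ▸ nT)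
  intro w hw
  obtain ⟨m, hm, ζ, hζ, rfl⟩ := hs.cm_surj ab.symm hy hw
  have h1 : m • y • c = y • c := congrArg Subtype.val (fx ⟨m, hm⟩)
  rw [mul_smul, e ζ ⟨hζ.2, hs.E_fix hζ.1⟩, mul_smul, mul_smul, inv_smul_eq_iff.2 (e m hm).symm, mul_smul, h1, inv_smul_smul]

/-- Suppose not; all pairs have `N ≠ 1` (`allI`); take `a ≠ b` with `|N_a(b)|` minimal.  If `N_a(b)` moves `c` (`c ≠ a, b`): `l1` with apex `c`: `N_a(c) ≤ G_b` gives `N_a(c) ≤ N_a(b)`, equality by minimality, contradiction; so `N_b(c) ≤ N_b(a)`, equal by minimality (`NN_card`); `l2'` with `a`, `b` exchanged: `N_a(b)` fixes `c`.  So `N_a(b)` fixes all points; `faith`. -/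
theorem Hy.sreg (h : Hy p S) : SR S := by
  intro a0 b0 n0 e0 he0 f0
  by_contra e1
  have ne : NN S a0 b0 ≠ ⊥ := fun e => e1 (mem_bot.1 (e ▸ (⟨he0, f0⟩ : e0 ∈ NN S a0 b0)))
  have hs := h.toSys
  obtain ⟨⟨a, b⟩, ab, mn⟩ := Set.exists_min_image {x : Ω × Ω | x.1 ≠ x.2} (fun x => Nat.card (NN S x.1 x.2))
    (Set.toFinite _) ⟨(a0, b0), n0⟩
  have ab : a ≠ b := ab
  refine h.allI n0 ne ab (eq_bot_iff.2 fun m hm => mem_bot.2 (h.faith m fun c => ?_))
  by_cases ca : c = a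
  · rw [ca]; exact hs.E_fix hm.1
  by_cases cb : c = b
  · rw [cb]; exact hm.2
  rcases h.l1 ca cb ab (h.allI n0 ne ab) with q | q
  · have : NN S a c = NN S a b :=
      eq_of_le_of_card_ge (fun m hm => ⟨hm.1, q m hm⟩) (mn (a, c) (Ne.symm ca))
    exact (this ▸ hm : m ∈ NN S a c).2
  · have : NN S b c = NN S b a :=
      eq_of_le_of_card_ge (fun m hm => ⟨hm.1, q m hm⟩) (hs.NN_card ab ▸ mn (b, c) (Ne.symm cb))
    exact h.l2' ab.symm (Ne.symm ca) (h.allI n0 ne (Ne.symm ca)) (fun m hm => (this ▸ hm : m ∈ NN S b c).2) m hm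

end CL.Cq
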