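/- S3235, disconnected case, `p = 5`: three elements `B ^ (-k) C ^ k` of `SL₂(F)` generate a group with two non-commuting elements of order 5. -/
import Mathlib
import Cfsg.Agent.CHEV.PT.L2
import Cfsg.Agent.CLAS.Dickson
import Cfsg.Agent.CLAS.SL2Lift

set_option autoImplicit false

namespace CL.Cq.Tri

open Subgroup Matrix CL.PT CL.PT.L2x CL.Dk CL.PGL2
open scoped MatrixGroups

variable {K : Type} [Field K]

/-- `B ^ (-k) C ^ k` -/
def gg (s r k : K) : SL(2, K) := uu (-(k * s)) * ll (k * r)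

theorem gg_val (s r k : K) : (gg s r k).1 0 0 = 1 - k * k * (s * r) ∧ (gg s r k).1 0 1 = -(k * s) ∧ (gg s r k).1 1 0 = k * r ∧
    (gg s r k).1 1 1 = 1 := by
  refine ⟨?_, ?_, ?_, ?_⟩ <;> simp [gg, mul_ap, uu_val, ll_val]
  ring

theorem inv_val (A : SL(2, K)) : (A⁻¹).1 0 0 = A.1 1 1 ∧ (A⁻¹).1 0 1 = -A.1 0 1 ∧ (A⁻¹).1 1 0 = -A.1 1 0 ∧ (A⁻¹).1 1 1 = A.1 0 0 := by
  rw [SpecialLinearGroup.SL2_inv_expl]
  simp

theorem sc_iff {A : SL(2, K)} : sl2pgl K A = 1 ↔ A.1 0 1 = 0 ∧ A.1 1 0 = 0 ∧ A.1 0 0 = A.1 1 1 := by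
  rw [sl2pgl_apply, ofMat_eq_one_iff]

theorem sq_tr {A : SL(2, K)} (t : A.1 0 0 + A.1 1 1 ≠ 0) (e : sl2pgl K A * sl2pgl K A = 1) : sl2pgl K A = 1 := by
  rw [← map_mul, sc_iff, mul_ap, mul_ap, mul_ap, mul_ap] at e
  exact sc_iff.2 ⟨(mul_eq_zero.1 (show (A.1 0 0 + A.1 1 1) * A.1 0 1 = 0 by linear_combination e.1)).resolve_left t,
    (mul_eq_zero.1 (show (A.1 0 0 + A.1 1 1) * A.1 1 0 = 0 by linear_combination e.2.1)).resolve_left t,
    sub_eq_zero.1 ((mul_eq_zero.1 (show (A.1 0 0 + A.1 1 1) * (A.1 0 0 - A.1 1 1) = 0 by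
      linear_combination e.2.2)).resolve_left t)⟩

theorem tr34 {A : SL(2, K)} {τ : K} (t : A.1 0 0 + A.1 1 1 = τ) (n : A.1 0 1 ≠ 0)
    (e : sl2pgl K A ^ 3 = 1 ∨ sl2pgl K A ^ 4 = 1) : τ * τ = 1 ∨ τ = 0 ∨ τ * τ = 2 := by
  have d := det2 A
  subst t
  rcases e with e | e
  · rw [← map_pow, sc_iff, pow_succ, sq] at e
    simp only [mul_ap] at e
    exact Or.inl (sub_eq_zero.1 ((mul_eq_zero.1 (show A.1 0 1 * ((A.1 0 0 + A.1 1 1) * (A.1 0 0 + A.1 1 1) - 1) = 0 by
      linear_combination e.1 + A.1 0 1 * d)).resolve_left n))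
  · rw [← map_pow, sc_iff, show 4 = 2 * 2 from rfl, pow_mul, sq, sq] at e
    simp only [mul_ap] at e
    have := (mul_eq_zero.1 (show A.1 0 1 * ((A.1 0 0 + A.1 1 1) * ((A.1 0 0 + A.1 1 1) * (A.1 0 0 + A.1 1 1) - 2)) = 0 by
      linear_combination e.1 + 2 * A.1 0 1 * (A.1 0 0 + A.1 1 1) * d)).resolve_left n
    exact Or.inr ((mul_eq_zero.1 this).imp_right sub_eq_zero.1)

theorem nofix {s r : K} (h2 : (2 : K) ≠ 0) (hs : s ≠ 0) (hr : r ≠ 0) {x : P1 K} (e1 : sl2pgl K (gg s r 1) • x = x)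
    (e4 : sl2pgl K (gg s r (-1)) • x = x) : False := by
  obtain ⟨a1, a2, a3, a4⟩ := gg_val s r 1
  obtain ⟨b1, b2, b3, b4⟩ := gg_val s r (-1)
  rw [sl2pgl_apply] at e1 e4
  rcases eq_inf_or_pt x with rfl | ⟨t, rfl⟩
  · rw [ofMat_smul_inf_eq_inf, a3, one_mul] at e1
    exact hr e1
  · rw [ofMat_smul_pt_eq_pt, a1, a2, a3, a4] at e1
    rw [ofMat_smul_pt_eq_pt, b1, b2, b3, b4] at e4
    have : t = 0 := (mul_eq_zero.1 (show 2 * s * r * t = 0 by linear_combination -e1 - e4)).resolve_left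
      (mul_ne_zero (mul_ne_zero h2 hs) hr)
    subst this
    exact hs (by linear_combination -e1)

theorem p34 (g : Equiv.Perm (Fin 4)) : g ^ 3 = 1 ∨ g ^ 4 = 1 := by
  revert g
  decide +kernel

theorem core [IsAlgClosed K] [CharP K 5] {s r : K} (hs : s ≠ 0) (hr : r ≠ 0) (H : Subgroup SL(2, K)) [Finite H]
    (h1 : gg s r 1 ∈ H) (h3 : gg s r (-2) ∈ H) (h4 : gg s r (-1) ∈ H) : ∃ u ∈ H, u ^ 5 = 1 ∧ u ≠ 1 := by
  by_contra no
  have : Fact (Nat.Prime 5) := ⟨by norm_num⟩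
  have c5 : (5 : K) = 0 := by exact_mod_cast CharP.cast_eq_zero K 5
  obtain ⟨h2, c3⟩ := cast_ne (K := K) (p := 5) (by norm_num) le_rfl
  have c4 : (4 : K) ≠ 0 := by
    rw [show (4 : K) = 2 * 2 by norm_num]
    exact mul_ne_zero h2 h2
  obtain ⟨a1, a2, a3, a4⟩ := gg_val s r 1
  obtain ⟨b1, b2, b3, b4⟩ := gg_val s r (-1)
  obtain ⟨d1, d2, d3, d4⟩ := gg_val s r (-2)
  let X := H.map (sl2pgl K)
  have : Finite X := Finite.of_surjective _ ((sl2pgl K).subgroupMap_surjective H)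
  have m : ∀ {g}, g ∈ H → sl2pgl K g ∈ X := fun hg => mem_map_of_mem _ hg
  have n5 : ∀ g : X, g ^ 5 = 1 → g = 1 := by
    rintro ⟨_, u, hu, rfl⟩ e
    have e' : sl2pgl K u ^ 5 = 1 := congrArg Subtype.val e
    have e2 : (u ^ 5) ^ 6 = 1 := by
      rw [← map_pow, sl2pgl_eq_one_iff] at e'
      rcases e' with k | k <;> rw [k]
      · exact one_pow _
      · exact Even.neg_one_pow (by decide)
    by_contra ne
    refine no ⟨u ^ 6, pow_mem hu _, by rw [← pow_mul, mul_comm, pow_mul, e2], fun k => ne (Subtype.ext ?_)⟩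
    have := congrArg (sl2pgl K) k
    rwa [map_pow, pow_succ, e', one_mul, map_one] at this
  have un : ∀ x, unp X.subtype x = ⊥ := fun x => eq_bot_iff.2 fun g hg =>
    n5 g (Subtype.ext (pow_char_eq_one_of_mem_unipAt 5 hg))
  have cu : ∀ x, Nat.card (unp X.subtype x) = 1 := fun x => by rw [un, card_bot]
  rcases dickson_pre X.subtype_injective with ⟨x, e⟩ | ⟨x, y, xy, e, -⟩ | ⟨e, -⟩ | ⟨-, x, e⟩ | ⟨x, e, -⟩
  · exact nofix h2 hs hr (show (⟨_, m h1⟩ : X) ∈ stab X.subtype x from e ▸ mem_top _)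
      (show (⟨_, m h4⟩ : X) ∈ stab X.subtype x from e ▸ mem_top _)
  · have k : ∀ g ∈ H, g.1 0 0 + g.1 1 1 ≠ 0 → sl2pgl K g • x = x := fun g hg t => by
      rcases (show (⟨_, m hg⟩ : X) ∈ pairN X.subtype x y from e ▸ mem_top _) with q | q
      · exact q.1
      · rw [sq_tr t (mul_self_eq_one_of_swap xy q.1 q.2), one_smul]
    by_cases t : s * r = 2
    · obtain ⟨i1, i2, i3, i4⟩ := inv_val (gg s r 1)
      obtain ⟨j1, j2, j3, j4⟩ := inv_val (gg s r (-1))
      have f3 := k _ h3 (by rw [d1, d4, t]; exact fun q => c4 (by linear_combination q + 2 * c5))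
      have f31 := k _ (mul_mem (inv_mem h1) h3) (by
        rw [mul_ap, mul_ap, i1, i2, i3, i4, a1, a2, a3, a4, d1, d2, d3, d4]
        exact fun q => c4 (by linear_combination q + (9 : K) * t + 4 * c5))
      have f14 := k _ (mul_mem (inv_mem h4) h1) (by
        rw [mul_ap, mul_ap, j1, j2, j3, j4, a1, a2, a3, a4, b1, b2, b3, b4]
        exact fun q => c4 (by linear_combination q + (4 : K) * t + 2 * c5))
      rw [map_mul, mul_smul, f3, map_inv, inv_smul_eq_iff] at f31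
      rw [map_mul, mul_smul, ← f31, map_inv, inv_smul_eq_iff] at f14
      exact nofix h2 hs hr f31.symm f14.symm
    · exact nofix h2 hs hr (k _ h1 (by rw [a1, a4]; exact fun q => t (by linear_combination -q)))
        (k _ h4 (by rw [b1, b4]; exact fun q => t (by linear_combination -q)))
  · have k : ∀ g : X, g ^ 3 = 1 ∨ g ^ 4 = 1 := by
      rcases e with ⟨⟨e⟩⟩ | ⟨⟨e⟩⟩ | ⟨⟨e⟩⟩
      · exact fun g => (p34 (e g).1).imp (fun q => e.injective (by rw [map_pow, map_one]; exact Subtype.ext q))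
          fun q => e.injective (by rw [map_pow, map_one]; exact Subtype.ext q)
      · exact fun g => (p34 (e g)).imp (fun q => e.injective (by rw [map_pow, map_one, q]))
          fun q => e.injective (by rw [map_pow, map_one, q])
      · refine absurd ?_ (not_dvd_card_of_unp_eq_bot 5 un)
        rw [Nat.card_congr e.toEquiv, Nat.card_eq_fintype_card, card_alternatingGroup]
        simp only [Fintype.card_fin]
        decide
    have k' : ∀ g ∈ H, sl2pgl K g ^ 3 = 1 ∨ sl2pgl K g ^ 4 = 1 := fun g hg =>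
      (k ⟨_, m hg⟩).imp (congrArg Subtype.val) (congrArg Subtype.val)
    have t1 := tr34 (τ := 2 - s * r) (by rw [a1, a4]; ring) (by rw [a2]; simpa using hs) (k' _ h1)
    have t3 := tr34 (τ := 2 + s * r) (by rw [d1, d4]; linear_combination -(s * r) * c5) (by rw [d2]; simp [hs, h2]) (k' _ h3)
    have c1 : (1 : K) ≠ 0 := one_ne_zero
    have β : (s * r - 2) * (s * r + 2) = 0 := by
      have h0 := mul_ne_zero hs hr
      generalize s * r = β at *
      rcases t1 with t1 | t1 | t1 <;> rcases t3 with t3 | t3 | t3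
      · exact absurd (show 2 * β = 0 by linear_combination t1 - t3 + 2 * β * c5) (mul_ne_zero h2 h0)
      · linear_combination (β - 2) * t3
      · have : β = 2 := by linear_combination 2 * t3 - 2 * t1 - 3 * β * c5
        subst this
        exact absurd (by linear_combination -t1) c1
      · linear_combination -(β + 2) * t1
      · linear_combination -(β + 2) * t1
      · linear_combination -(β + 2) * t1
      · have : β = -2 := by linear_combination 2 * t3 - 2 * t1 - 3 * β * c5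
        subst this
        exact absurd (by linear_combination -t3) c1
      · linear_combination (β - 2) * t3
      · exact absurd (show 2 * β = 0 by linear_combination t1 - t3 + 2 * β * c5) (mul_ne_zero h2 h0)
    have w := mul_mem (mul_mem h1 h3) h4
    obtain ⟨g, t, e⟩ := conj_uu (A := gg s r 1 * gg s r (-2) * gg s r (-1)) (by
      simp only [mul_ap, a1, a2, a3, a4, b1, b2, b3, b4, d1, d2, d3, d4]
      linear_combination (-4 * (s * r)) * β + ((s * r) ^ 2 - 4 * (s * r)) * c5)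
    refine no ⟨_, w, ?_, fun q => ?_⟩
    · rw [e, conj_pow, uu_pow, CharP.cast_eq_zero, zero_mul, uu_zero, mul_one, mul_inv_cancel]
    · have q1 : (gg s r 1 * gg s r (-2) * gg s r (-1)).1 0 1 = 0 := by rw [q]; rfl
      simp only [mul_ap, a1, a2, b2, b4, d1, d2, d3, d4] at q1
      exact mul_ne_zero c3 hs (by linear_combination q1 - 4 * s * β - s * (3 - s * r) * c5)
  · rw [cu] at e
    omega
  · rw [cu] at e
    omega

theorem two {F : Type} [Field F] [Finite F] [CharP F 5] {s r : F} (hs : s ≠ 0) (hr : r ≠ 0) (H : Subgroup SL(2, F))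
    (h1 : gg s r 1 ∈ H) (h3 : gg s r (-2) ∈ H) (h4 : gg s r (-1) ∈ H) :
    ∃ u ∈ H, ∃ v ∈ H, u ^ 5 = 1 ∧ v ^ 5 = 1 ∧ ¬ Commute u v := by
  have : Fact (Nat.Prime 5) := ⟨by norm_num⟩
  let f := algebraMap F (AlgebraicClosure F)
  let μ : SL(2, F) →* SL(2, AlgebraicClosure F) := SpecialLinearGroup.map f
  have inj : Function.Injective μ := fun A B e => Subtype.ext (Matrix.ext fun i j =>
    f.injective (congrArg (fun C : SL(2, AlgebraicClosure F) => C.1 i j) e))
  have mg : ∀ k, μ (gg s r k) = gg (f s) (f r) (f k) := fun k => by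
    obtain ⟨a1, a2, a3, a4⟩ := gg_val s r k
    obtain ⟨b1, b2, b3, b4⟩ := gg_val (f s) (f r) (f k)
    have v : ∀ i j, (μ (gg s r k)).1 i j = f ((gg s r k).1 i j) := fun _ _ => rfl
    apply ext2 <;> simp only [v, a1, a2, a3, a4, b1, b2, b3, b4, map_sub, map_mul, map_one, map_neg]
  have : Finite (H.map μ) := Finite.of_surjective _ (μ.subgroupMap_surjective H)
  obtain ⟨_, ⟨u, hu, rfl⟩, u5, u1⟩ := core ((map_ne_zero f).2 hs) ((map_ne_zero f).2 hr) (H.map μ)
    ⟨_, h1, by rw [mg, map_one]⟩ ⟨_, h3, by rw [mg, map_neg, map_ofNat]⟩ ⟨_, h4, by rw [mg, map_neg, map_one]⟩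
  have u5' : u ^ 5 = 1 := inj (by rw [map_pow, u5, map_one])
  by_contra no
  have k : ∀ g ∈ H, Commute u (g * u * g⁻¹) := fun g hg => by
    by_contra c
    exact no ⟨u, hu, _, mul_mem (mul_mem hg hu) (inv_mem hg), u5', by rw [conj_pow, u5', mul_one, mul_inv_cancel], c⟩
  obtain ⟨x, t, rfl⟩ := conj_uu (trace_two (by norm_num) u5')
  have t0 : t ≠ 0 := by
    rintro rfl
    exact u1 (by rw [uu_zero, mul_one, mul_inv_cancel, map_one])
  have fx : ∀ g ∈ H, sl2pgl F g • sl2pgl F x • (inf : P1 F) = sl2pgl F x • inf := fun g hg => by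
    have c : Commute (uu t) (x⁻¹ * g * x * uu t * (x⁻¹ * g * x)⁻¹) := by
      have := (k g hg).map (MulAut.conj x⁻¹)
      simp only [MulAut.conj_apply, inv_inv] at this
      rwa [show x⁻¹ * (x * uu t * x⁻¹) * x = uu t by group, show x⁻¹ * (g * (x * uu t * x⁻¹) * g⁻¹) * x =
        x⁻¹ * g * x * uu t * (x⁻¹ * g * x)⁻¹ by group] at this
    have l := low_zero t0 c
    obtain ⟨i1, i2, i3, i4⟩ := inv_val (x⁻¹ * g * x)
    generalize hy : x⁻¹ * g * x = y at *
    simp only [mul_ap, i1, i3, uu_val] at l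
    simp at l
    have : y.1 1 0 = 0 := by
      have : t * (y.1 1 0 * y.1 1 0) = 0 := by linear_combination -l
      simpa [t0] using this
    rw [← inv_smul_eq_iff, ← mul_smul, ← mul_smul, ← map_inv, ← map_mul, ← map_mul, hy, sl2pgl_apply, ofMat_smul_inf_eq_inf]
    exact this
  exact nofix (cast_ne (K := F) (p := 5) (by norm_num) le_rfl).1 hs hr (fx _ h1) (fx _ h4)

end CL.Cq.Tri
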