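/- S3235, disconnected case, `p = 5`: `D a b 2` determines `b`; there is no bad pair when all pairs are line pairs. -/
import Mathlib
import Cfsg.Agent.CHEV.Cq.Tor
import Cfsg.Agent.CHEV.Cq.ClA
import Cfsg.Agent.CHEV.Cq.TriM

set_option autoImplicit false

namespace CL.Cq

open Subgroup CL.PT CL.PT.L2x

variable {G Ω : Type*} [Group G] [MulAction G Ω] [Finite G] [Finite Ω] {S : Ω → Set G} {D : Ω → Ω → ℤ → G}
  {a b c d : Ω} {x : G}

namespace Tri

theorem mat {F : Type} [Field F] [CharP F 5] (hk : ((2 : ℤ) : F) ≠ 0) :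
    uu (-1) * uu (-1) * ll 2 * uu 1 = ll (-2) * ll (-2) * dd _ hk ∧
      uu 1 * ll (-2) * uu 1 = ll 2 * (dd _ hk * dd _ hk) ∧
      uu 1 * uu 1 * (ll (-2) * ll (-2)) * uu 1 = ll 2 * (dd _ hk * dd _ hk * dd _ hk) := by
  have c5 : (5 : F) = 0 := by exact_mod_cast CharP.cast_eq_zero F 5
  have i : (2 : F)⁻¹ = 3 := inv_eq_of_mul_eq_one_right (by linear_combination c5)
  refine ⟨?_, ?_, ?_⟩ <;> apply ext2 <;> simp [mul_ap, uu_val, ll_val, dd_val, i] <;>
    first | linear_combination c5 | linear_combination -c5 | linear_combination 2 * c5 | linear_combination -2 * c5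
          | linear_combination -3 * c5 | linear_combination -4 * c5 | linear_combination -6 * c5 | ring

omit [Finite Ω] in
theorem rel (h : Hz 5 S D) (n : a ≠ b) (hx : x ∈ S a) : ∃ y ∈ E S b, y ≠ 1 ∧
    x⁻¹ * x⁻¹ * y * x = y⁻¹ * y⁻¹ * D a b 2 ∧ x * y⁻¹ * x = y * (D a b 2 * D a b 2) ∧
      x * x * (y⁻¹ * y⁻¹) * x = y * (D a b 2 * D a b 2 * D a b 2) := by
  obtain ⟨y, hy⟩ := h.ex b
  obtain ⟨F, _, _, _, φ, C, e, -, -⟩ := h.toSys.chart n hx hy
  have h2 := (cast_ne (K := F) (p := 5) (by norm_num) le_rfl).1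
  have hk : ((2 : ℤ) : F) ≠ 0 := by exact_mod_cast h2
  obtain ⟨m1, m2, m3⟩ := mat hk
  refine ⟨φ (ll 2), C.lE 2, fun q => h2 (Bas.ll_eq (C.ker _ q)), ?_⟩
  rw [h.Dch hk n C, ← e]
  simp only [← map_inv, ← map_mul, ← uu_neg, ← ll_neg]
  exact ⟨congrArg φ m1, congrArg φ m2, congrArg φ m3⟩

/-- the elements of order 5 of `K` lie in the root groups of the line -/
theorem root (h : Hz 5 S D) {F : Type} [Field F] [Fintype F] [CharP F 5] {φ : Matrix.SpecialLinearGroup (Fin 2) F →* G}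
    (n : b ≠ c) (f : Full S b c φ) {v : G} (hv : v ∈ φ.range) (v5 : v ^ 5 = 1) : ∃ d ∈ Ln S b c, v ∈ E S d := by
  obtain ⟨u, rfl⟩ := hv
  have e : (u ^ 6) ^ 5 = 1 := by
    rw [← pow_mul, mul_comm, pow_mul]
    rcases f.ker (u ^ 5) (by rw [map_pow, v5]) with k | k <;> rw [k]
    · exact one_pow _
    · exact Even.neg_one_pow (by decide)
  obtain ⟨g, t, k⟩ := conj_uu (trace_two (by norm_num) e)
  refine ⟨φ g • b, ?_, ?_⟩
  · rw [h.full_Ln n f]
    exact f.toChart.inv_pt h.toSys n g (Or.inl rfl)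
  · have := congrArg φ k
    rw [map_pow, pow_succ, v5, one_mul, map_mul, map_mul, map_inv] at this
    exact this ▸ h.toSys.E_conj _ (f.uE t)

theorem line (h : Hz 5 S D) {t : G} (sc : Sc S b t (-1)) (hc : d ∈ Ln S b c) (n : b ≠ c) (tc : t • c = c) (td : t • d = d) :
    d = b ∨ d = c := by
  rcases hc with rfl | ⟨e, he, rfl⟩
  · exact Or.inl rfl
  · have k := sc e he
    rw [zpow_neg_one, mul_inv_eq_iff_eq_mul] at k
    rw [← mul_smul, k, mul_smul, tc] at td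
    have q := h.sr_eq n (inv_mem he) he td
    have e5 := h.toSys.E_pow he
    rw [show 5 = 2 * 2 + 1 from rfl, pow_succ, pow_mul, sq e, show e * e = 1 by nth_rw 1 [← q]; exact inv_mul_cancel e,
      one_pow, one_mul] at e5
    exact Or.inr (by rw [e5, one_smul])

theorem sc (h : Hz 5 S D) (n : a ≠ b) : Sc S a (D a b 2) (-1) :=
  h.Sc_mod (h.Dsc n (by decide)) (by decide)

end Tri

open Tri

theorem Hz.tri (h : Hz 5 S D) (ab : a ≠ b) (ac : a ≠ c) (bc : b ≠ c) (l : LP 5 S b c) (e : D a b 2 = D a c 2) : False := by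
  obtain ⟨x, hx⟩ := h.ex a
  obtain ⟨y, hy, y1, r1, r2, r3⟩ := rel h ab hx
  obtain ⟨z, hz, z1, s1, s2, s3⟩ := rel h ac hx
  have tb := h.Db 2 ab
  have tc := h.Db 2 ac
  have ta := h.Da 2 ab
  have sb := h.sc_pm (Or.inr rfl) (sc h ab) tb
  rw [← e] at s1 s2 s3 tc
  generalize D a b 2 = t at *
  obtain ⟨F, i1, i2, i3, φ, f⟩ := id l
  obtain ⟨s, rfl⟩ := f.uS y hy
  obtain ⟨r, rfl⟩ := f.lS z hz
  have hs : s ≠ 0 := fun q => y1 (by rw [q, uu_zero, map_one])
  have hr : r ≠ 0 := fun q => z1 (by rw [q, ll_zero, map_one])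
  have key : ∀ {τ y' z' : G}, τ • b = b → τ • c = c → y' ∈ E S b → z' ∈ E S c → (y' * τ)⁻¹ * (z' * τ) ∈ φ.range :=
    fun {τ y' z'} k k' m m' => by
      have q := h.toSys.E_conj τ⁻¹ (inv_mem m)
      have q' := h.toSys.E_conj τ⁻¹ m'
      rw [inv_smul_eq_iff.2 k.symm] at q
      rw [inv_smul_eq_iff.2 k'.symm] at q'
      rw [h.full_range bc f, show (y' * τ)⁻¹ * (z' * τ) = τ⁻¹ * y'⁻¹ * τ⁻¹⁻¹ * (τ⁻¹ * z' * τ⁻¹⁻¹) by group]
      exact mul_mem (mem_sup_left q) (mem_sup_right q')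
  let H := φ.range.comap ((MulAut.conj x⁻¹).toMonoidHom.comp φ)
  have mH : ∀ {u}, u ∈ H ↔ x⁻¹ * φ u * x⁻¹⁻¹ ∈ φ.range := Iff.rfl
  obtain ⟨u, hu, v, hv, u5, v5, uv⟩ := two hs hr H
    (by
      have := key tb tc (mul_mem (inv_mem hy) (inv_mem hy)) (mul_mem (inv_mem hz) (inv_mem hz))
      rw [← r1, ← s1] at this
      rw [mH, gg, one_mul, one_mul, uu_neg, map_mul, map_inv]
      convert this using 1
      group)
    (by
      have := key (τ := t * t * t) (by simp only [mul_smul, tb]) (by simp only [mul_smul, tc]) hy hz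
      rw [← r3, ← s3] at this
      rw [mH, gg, show -(-2 * s) = s + s by ring, show -2 * r = -r + -r by ring, uu_add, ll_add, ll_neg, map_mul, map_mul,
        map_mul, map_inv]
      convert this using 1
      simp only [mul_assoc, mul_inv_rev, inv_inv, inv_mul_cancel_left])
    (by
      have := key (τ := t * t) (by simp only [mul_smul, tb]) (by simp only [mul_smul, tc]) hy hz
      rw [← r2, ← s2] at this
      rw [mH, gg, neg_one_mul, neg_neg, neg_one_mul, ll_neg, map_mul, map_inv]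
      convert this using 1
      group)
  have pt : ∀ w ∈ H, w ^ 5 = 1 → φ w ≠ 1 → ∃ d ∈ Ln S b c, φ w ∈ E S d ∧ x⁻¹ • d ∈ Ln S b c := fun w hw w5 w1 => by
    have p5 : φ w ^ 5 = 1 := by rw [← map_pow, w5, map_one]
    obtain ⟨d, hd, m⟩ := root h bc f ⟨w, rfl⟩ p5
    obtain ⟨d', hd', m'⟩ := root h bc f (mH.1 hw) (by rw [conj_pow, p5, mul_one, mul_inv_cancel])
    refine ⟨d, hd, m, ?_⟩
    by_contra q
    exact w1 (by simpa [mul_assoc] using congrArg (fun g => x * g * x⁻¹) (h.sr (fun k : x⁻¹ • d = d' => q (k ▸ hd')) _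
      (h.toSys.E_conj x⁻¹ m) (h.toSys.E_fix m')))
  have nc : ¬ Commute (φ u) (φ v) := fun q => uv (comm_lift (by norm_num) le_rfl f.ker u5 q)
  obtain ⟨d, hd, m, k⟩ := pt u hu u5 fun q => nc (q ▸ Commute.one_left _)
  obtain ⟨d', hd', m', k'⟩ := pt v hv v5 fun q => nc (q ▸ Commute.one_right _)
  have dd' : d ≠ d' := fun q => nc (h.toSys.E_comm m (q ▸ m'))
  have iv : ∀ w ∈ Ln S b c, x⁻¹ • w ∈ Ln S b c := fun w hw => by
    rw [← (h.LP_line bc l k k' fun q => dd' (MulAction.injective _ q)).2.1]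
    exact h.Ln_smul _ _ _ ((h.LP_line bc l hd hd' dd').2.1.symm ▸ hw)
  have x5 : x⁻¹ ^ 5 = 1 := by rw [inv_pow, h.pow hx, inv_one]
  have fm := ClA.fix_mod (s := 5) (by norm_num) (R := zpowers x⁻¹) (fun g => ⟨1, by
    obtain ⟨_, j, rfl⟩ := g
    exact Subtype.ext (show (x⁻¹ ^ j) ^ 5 ^ 1 = 1 by
      rw [pow_one, ← zpow_natCast, ← zpow_mul, mul_comm, zpow_mul, zpow_natCast, x5, one_zpow])⟩) (Ln S b c) fun g hg w hw => by
      obtain ⟨j, rfl⟩ := (mem_powers_iff_mem_zpowers.2 hg)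
      induction j with
      | zero => simpa using hw
      | succ j ih => simpa only [pow_succ', mul_smul] using iv _ (ih (npow_mem_zpowers _ j))
  obtain ⟨-, -, j, j1, cE⟩ := h.E_card b b
  rw [h.Ln_card bc, cE] at fm
  obtain ⟨w, hw, q⟩ : {w ∈ Ln S b c | ∀ g ∈ zpowers x⁻¹, g • w = w}.Nonempty := Set.nonempty_of_ncard_ne_zero fun q => by
    obtain ⟨j, rfl⟩ := Nat.exists_eq_add_of_le' j1
    rw [q, pow_succ] at fm
    unfold Nat.ModEq at fm
    omega
  obtain rfl := h.toSys.F0 hx (q x (by simp))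
  exact (line h sb hw bc tc ta).elim ab ac

/-- if all pairs are line pairs, the involution `D a b 2` fixes only `a` and `b` -/
theorem Hz.tri5 (h : Hz 5 S D) (lp : ∀ a b : Ω, a ≠ b → LP 5 S a b) (n : a ≠ b) (z1 : D a b (-1) = 1) (ca : c ≠ a) (cb : c ≠ b)
    (tc : D a b 2 • c = c) : False := by
  have cm := h.D_comm ca.symm 2 (h.Da 2 n) tc
  have ta := h.Da 2 ca.symm
  have ne : a ≠ D a c 2 • b := fun q => n (MulAction.injective (D a c 2) (ta.trans q))
  have fb : D a c 2 • b = b := by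
    by_contra q
    refine h.tri ne n q (lp _ _ q) ?_
    have := h.Deqv (D a c 2) 2 n
    rwa [ta, ← cm.eq, mul_inv_cancel_right] at this
  have w : (D a b 2)⁻¹ * D a c 2 ∈ W S a b := mem_W.2 ⟨h.Sc_div (sc h n) (sc h ca.symm), by
    rw [mul_smul, fb, inv_smul_eq_iff, h.Db 2 n]⟩
  have fx := h.fixW n z1 w fun q => h.tri n ca.symm cb.symm (lp _ _ cb.symm) (inv_mul_eq_one.1 q)
  have hc : c ∈ Ln S a b := fx ▸ (show ((D a b 2)⁻¹ * D a c 2) • c = c by
    rw [mul_smul, h.Db 2 ca.symm, inv_smul_eq_iff, tc])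
  exact (line h (sc h n) hc n (h.Db 2 n) tc).elim ca cb

end CL.Cq
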